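import Mathlib
import Cfsg.Prelude.Def_GeometricClasses

/-!
A map squaring to a scalar permutes the summands of some decomposition into subspaces of any
dimension dividing the dimension of the space.
-/

set_option autoImplicit false

namespace Cfsg.Agent.GeomClasses.InvolutionBlocks

variable {F V : Type*} [Field F] [AddCommGroup V] [Module F V] [FiniteDimensional F V]

/-- `b` consists of pairs `e, x e` and eigenvectors -/
def IsPairBasis (x : V →ₗ[F] V) (z : F) {k l : ℕ} (b : Module.Basis ((Fin k × Fin 2) ⊕ Fin l) F V) :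
    Prop :=
  (∀ p : Fin k, x (b (Sum.inl (p, 0))) = b (Sum.inl (p, 1)) ∧
      x (b (Sum.inl (p, 1))) = z • b (Sum.inl (p, 0))) ∧
    ∀ i : Fin l, ∃ μ : F, x (b (Sum.inr i)) = μ • b (Sum.inr i)

theorem pairBasis_of_bijective (x : V →ₗ[F] V) (z : F) (hz : ∀ v, x (x v) = z • v)
    (U S : Submodule F V) {l : ℕ} (bS : Module.Basis (Fin l) F S)
    (hS : ∀ i, ∃ μ : F, x (bS i : V) = μ • (bS i : V))
    (hbij : Function.Bijective fun w : (U × U) × S => (w.1.1 : V) + x w.1.2 + w.2) :
    ∃ (k : ℕ) (b : Module.Basis ((Fin k × Fin 2) ⊕ Fin l) F V), IsPairBasis x z b := by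
  classical
  let Φ : ((U × U) × S) →ₗ[F] V :=
    (U.subtype ∘ₗ LinearMap.fst F U U + x ∘ₗ U.subtype ∘ₗ LinearMap.snd F U U) ∘ₗ
        LinearMap.fst F (U × U) S + S.subtype ∘ₗ LinearMap.snd F (U × U) S
  have hΦ : Function.Bijective Φ := hbij
  let bU := Module.finBasis F U
  let σ : Fin (Module.finrank F U) ⊕ Fin (Module.finrank F U) ≃ Fin (Module.finrank F U) × Fin 2 :=
    { toFun := Sum.elim (fun p => (p, 0)) (fun p => (p, 1))
      invFun := fun w => if w.2 = 0 then Sum.inl w.1 else Sum.inr w.1
      left_inv := by rintro (p | p) <;> simp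
      right_inv := by rintro ⟨p, e⟩; fin_cases e <;> simp }
  refine ⟨Module.finrank F U, (((bU.prod bU).prod bS).map (LinearEquiv.ofBijective Φ hΦ)).reindex
    (σ.sumCongr (Equiv.refl _)), fun p => ?_, fun i => ?_⟩
  · constructor
    · simp [Φ, σ]
    · simp [Φ, σ, hz]
  · obtain ⟨μ, hμ⟩ := hS i
    exact ⟨μ, by simp [Φ, σ, hμ]⟩

theorem exists_pairBasis (x : V →ₗ[F] V) (z : F) (hz0 : z ≠ 0) (hz : ∀ v, x (x v) = z • v) :
    ∃ (k l : ℕ) (b : Module.Basis ((Fin k × Fin 2) ⊕ Fin l) F V), IsPairBasis x z b := by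
  classical
  have hxinj : Function.Injective x := by
    intro u v h
    have := congrArg x h
    rw [hz, hz] at this
    exact (smul_right_injective V hz0) this
  by_cases hsq : ∃ c : F, c * c = z
  · obtain ⟨c, hc⟩ := hsq
    let N : V →ₗ[F] V := x - c • LinearMap.id
    have hN : ∀ v, N v = x v - c • v := fun v => rfl
    by_cases h2 : (2 : F) = 0
    · have hNN : ∀ v, N (N v) = 0 := by
        intro v
        simp only [hN, map_sub, map_smul, hz, smul_sub, smul_smul, hc]
        have e : (z + z) • v = 0 := by rw [← two_mul, h2, zero_mul, zero_smul]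
        have e2 : (c + c) • x v = 0 := by rw [← two_mul, h2, zero_mul, zero_smul]
        linear_combination (norm := module) e - e2
      obtain ⟨C, hC⟩ := Submodule.exists_isCompl (LinearMap.ker N)
      obtain ⟨T, hT⟩ := Submodule.exists_isCompl (LinearMap.range N)
      let S : Submodule F V := T ⊓ LinearMap.ker N
      obtain ⟨k, b, hb⟩ := pairBasis_of_bijective x z hz C S (Module.finBasis F S) (fun i => ⟨c, by
          have h := (Module.finBasis F S i).2.2
          exact sub_eq_zero.1 ((hN _).symm.trans (LinearMap.mem_ker.1 h))⟩) (by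
        have hkC : ∀ v ∈ C, N v = 0 → v = 0 := fun v hv h =>
          Submodule.disjoint_def.1 hC.disjoint v h hv
        constructor
        · rintro ⟨⟨u, v⟩, s⟩ ⟨⟨u', v'⟩, s'⟩ h
          simp only at h
          have hs : N ((s - s' : S) : V) = 0 := (s - s').2.2
          have hsT : ((s - s' : S) : V) ∈ T := (s - s').2.1
          have h0 : ((u - u' : C) : V) + c • ((v - v' : C) : V) + N ((v - v' : C) : V) +
              ((s - s' : S) : V) = 0 := by
            simp only [hN, Submodule.coe_sub, map_sub]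
            linear_combination (norm := module) h
          have h1 : (u - u' : C) + c • (v - v' : C) = 0 := by
            apply Subtype.ext
            refine hkC _ ((u - u') + c • (v - v')).2 ?_
            have := congrArg N h0
            rw [map_add, map_add, map_add, map_smul, hNN, hs, map_zero, add_zero, add_zero] at this
            show N (((u - u' : C) : V) + c • ((v - v' : C) : V)) = 0
            rw [map_add, map_smul]; exact this
          have h1' : ((u - u' : C) : V) + c • ((v - v' : C) : V) = 0 := congrArg Subtype.val h1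
          rw [h1', zero_add] at h0
          have h2' : ((s - s' : S) : V) = 0 :=
            Submodule.disjoint_def.1 hT.disjoint _ ⟨-((v - v' : C) : V), by
              rw [map_neg]; linear_combination (norm := module) -h0⟩ hsT
          rw [h2', add_zero] at h0
          have h3 : (v - v' : C) = 0 := Subtype.ext (hkC _ (v - v').2 h0)
          have h4 : (u - u' : C) = 0 := by simpa [h3] using h1
          rw [sub_eq_zero] at h3 h4
          obtain rfl : s = s' := sub_eq_zero.1 (Subtype.ext h2')
          rw [h3, h4]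
        · intro w
          obtain ⟨k₁, e, hk₁, he, hke⟩ := Submodule.mem_sup'.1 (hC.sup_eq_top ▸ Submodule.mem_top :
            w ∈ LinearMap.ker N ⊔ C) |>.elim fun a h => h.elim fun b h =>
              (⟨(a : V), (b : V), a.2, b.2, h⟩ : ∃ k₁ e : V, N k₁ = 0 ∧ e ∈ C ∧ k₁ + e = w)
          obtain ⟨r, s, ⟨y, rfl⟩, hsT, hrs⟩ : ∃ r s : V, r ∈ LinearMap.range N ∧ s ∈ T ∧ r + s = k₁ := by
            have hm : k₁ ∈ LinearMap.range N ⊔ T := hT.sup_eq_top ▸ Submodule.mem_top
            obtain ⟨r, hr, s, hs, h⟩ := Submodule.mem_sup.1 hm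
            exact ⟨r, s, hr, hs, h⟩
          obtain ⟨k₂, v, hk₂, hv, hkv⟩ : ∃ k₂ v : V, N k₂ = 0 ∧ v ∈ C ∧ k₂ + v = y := by
            have hm : y ∈ LinearMap.ker N ⊔ C := hC.sup_eq_top ▸ Submodule.mem_top
            obtain ⟨r, hr, s, hs, h⟩ := Submodule.mem_sup.1 hm
            exact ⟨r, s, hr, hs, h⟩
          have hsk : N s = 0 := by
            have := congrArg N hrs
            rwa [map_add, hNN, zero_add, hk₁] at this
          refine ⟨⟨⟨⟨e - c • v, sub_mem he (C.smul_mem c hv)⟩, ⟨v, hv⟩⟩, ⟨s, hsT, hsk⟩⟩, ?_⟩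
          show e - c • v + x v + s = w
          rw [← hke, ← hrs, ← hkv, map_add, hk₂, zero_add, hN]
          module)
      exact ⟨k, _, b, hb⟩
    · obtain ⟨l, bS, hS⟩ : ∃ (l : ℕ) (bS : Module.Basis (Fin l) F (⊤ : Submodule F V)),
          ∀ i, ∃ μ : F, x (bS i : V) = μ • (bS i : V) := by
        let P := LinearMap.ker N
        let Q := LinearMap.ker (x + c • LinearMap.id)
        have hP : ∀ v ∈ P, x v = c • v := fun v hv => sub_eq_zero.1 hv
        have hQ : ∀ v ∈ Q, x v = (-c) • v := fun v hv => by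
          rw [neg_smul]; exact eq_neg_of_add_eq_zero_left hv
        have hc0 : c ≠ 0 := fun h => hz0 (by rw [← hc, h, zero_mul])
        have hPQ : IsCompl P Q := by
          refine ⟨Submodule.disjoint_def.2 fun v hv hv' => ?_,
            codisjoint_iff.2 (eq_top_iff.2 fun v _ => ?_)⟩
          · have h := hQ v hv'
            rw [hP v hv, ← sub_eq_zero, ← sub_smul] at h
            refine (smul_eq_zero.1 h).resolve_left ?_
            rw [sub_neg_eq_add, ← two_mul]; exact mul_ne_zero h2 hc0
          · refine Submodule.mem_sup.2 ⟨(2 * c)⁻¹ • (c • v + x v), ?_, (2 * c)⁻¹ • (c • v - x v), ?_, ?_⟩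
            · simp only [P, LinearMap.mem_ker, hN, map_smul, map_add, hz, ← hc]
              module
            · simp only [Q, LinearMap.mem_ker, LinearMap.add_apply, LinearMap.smul_apply,
                LinearMap.id_apply, map_smul, map_sub, hz, ← hc]
              module
            · rw [← smul_add, show c • v + x v + (c • v - x v) = (2 * c) • v by module,
                smul_smul, inv_mul_cancel₀ (mul_ne_zero h2 hc0), one_smul]
        let e := (Submodule.prodEquivOfIsCompl P Q hPQ).trans Submodule.topEquiv.symm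
        refine ⟨_, (((Module.finBasis F P).prod (Module.finBasis F Q)).map e).reindex finSumFinEquiv,
          fun i => ?_⟩
        obtain ⟨i, rfl⟩ := finSumFinEquiv.surjective i
        rcases i with i | i
        · exact ⟨c, by simpa [e] using hP _ (Module.finBasis F P i).2⟩
        · exact ⟨-c, by simpa [e] using hQ _ (Module.finBasis F Q i).2⟩
      obtain ⟨k, b, hb⟩ := pairBasis_of_bijective x z hz ⊥ ⊤ bS hS (by
        constructor
        · rintro ⟨⟨u, v⟩, s⟩ ⟨⟨u', v'⟩, s'⟩ h
          obtain rfl := Subsingleton.elim u u'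
          obtain rfl := Subsingleton.elim v v'
          simp only [add_right_inj] at h
          rw [Subtype.ext h]
        · exact fun w => ⟨⟨0, ⟨w, trivial⟩⟩, by simp⟩)
      exact ⟨k, l, b, hb⟩
  · obtain ⟨U, hU, hmax⟩ : ∃ U : Submodule F V, Disjoint U (U.map x) ∧
        ∀ U' : Submodule F V, Disjoint U' (U'.map x) → U ≤ U' → U' ≤ U := by
      obtain ⟨U, hU, hmax⟩ := wellFounded_gt.has_min {U : Submodule F V | Disjoint U (U.map x)}
        ⟨⊥, disjoint_bot_left⟩
      exact ⟨U, hU, fun U' h1 h2 => (eq_of_le_of_not_lt h2 (hmax U' h1)).ge⟩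
    have hWinv : ∀ w ∈ U ⊔ U.map x, x w ∈ U ⊔ U.map x := by
      intro w hw
      obtain ⟨u, hu, _, ⟨v, hv, rfl⟩, rfl⟩ := Submodule.mem_sup.1 hw
      rw [map_add, hz]
      exact add_mem (Submodule.mem_sup_right ⟨u, hu, rfl⟩)
        (Submodule.mem_sup_left (U.smul_mem z hv))
    have htop : U ⊔ U.map x = ⊤ := by
      refine eq_top_iff.2 fun e _ => by_contra fun he => ?_
      have hnd : ¬ Disjoint (U ⊔ Submodule.span F {e}) ((U ⊔ Submodule.span F {e}).map x) :=
        fun h => he (Submodule.mem_sup_left (hmax _ h le_sup_left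
          (Submodule.mem_sup_right (Submodule.mem_span_singleton_self e))))
      rw [Submodule.disjoint_def] at hnd
      push Not at hnd
      obtain ⟨w, hw, ⟨w', hw', rfl⟩, hw0⟩ := hnd
      obtain ⟨u', hu', _, hb, rfl⟩ := Submodule.mem_sup.1 hw'
      obtain ⟨b, rfl⟩ := Submodule.mem_span_singleton.1 hb
      obtain ⟨u, hu, _, ha, hsum⟩ := Submodule.mem_sup.1 hw
      obtain ⟨a, rfl⟩ := Submodule.mem_span_singleton.1 ha
      rw [map_add, map_smul] at hsum hw0
      have hmem : a • e - b • x e ∈ U ⊔ U.map x := by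
        rw [show a • e - b • x e = x u' - u by linear_combination (norm := module) hsum]
        exact sub_mem (Submodule.mem_sup_right ⟨u', hu', rfl⟩) (Submodule.mem_sup_left hu)
      by_cases hb0 : b = 0
      · subst hb0
        by_cases ha0 : a = 0
        · subst ha0
          simp only [zero_smul, add_zero] at hsum hw0
          exact hw0 (Submodule.disjoint_def.1 hU _ (hsum ▸ hu) ⟨u', hu', rfl⟩)
        · simp only [zero_smul, sub_zero] at hmem
          exact he ((Submodule.smul_mem_iff _ ha0).1 hmem)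
      · have h1 : x e - (a / b) • e ∈ U ⊔ U.map x := by
          have := Submodule.smul_mem _ (-b⁻¹) hmem
          convert this using 1
          match_scalars <;> field_simp
        have h2 := hWinv _ h1
        rw [map_sub, map_smul, hz] at h2
        have h3 : (z - a / b * (a / b)) • e ∈ U ⊔ U.map x := by
          convert add_mem h2 (Submodule.smul_mem _ (a / b) h1) using 1
          module
        refine he ((Submodule.smul_mem_iff _ ?_).1 h3)
        exact fun h => hsq ⟨a / b, (sub_eq_zero.1 h).symm⟩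
    obtain ⟨k, b, hb⟩ := pairBasis_of_bijective x z hz U ⊥ (Module.Basis.empty _ (ι := Fin 0))
      (fun i => i.elim0) (by
        constructor
        · rintro ⟨⟨u, v⟩, s⟩ ⟨⟨u', v'⟩, s'⟩ h
          obtain rfl := Subsingleton.elim s s'
          simp only [add_left_inj] at h
          have h1 : x ((v - v' : U) : V) = ((u' - u : U) : V) := by
            simp only [Submodule.coe_sub, map_sub]
            linear_combination (norm := module) h
          have h2 : ((u' - u : U) : V) = 0 :=
            Submodule.disjoint_def.1 hU _ (u' - u).2 ⟨_, (v - v').2, h1⟩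
          have h3 : ((v - v' : U) : V) = 0 := hxinj (by rw [h1, h2, map_zero])
          obtain rfl : u' = u := sub_eq_zero.1 (Subtype.ext h2)
          obtain rfl : v = v' := sub_eq_zero.1 (Subtype.ext h3)
          rfl
        · intro w
          obtain ⟨u, hu, _, ⟨v, hv, rfl⟩, h⟩ := Submodule.mem_sup.1
            (htop ▸ Submodule.mem_top : w ∈ U ⊔ U.map x)
          exact ⟨⟨⟨⟨u, hu⟩, ⟨v, hv⟩⟩, 0⟩, by simpa using h⟩)
    exact ⟨k, 0, b, hb⟩

/-- Placing `k` pairs and `l` singles into `t` blocks of size `a`. -/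
theorem exists_layout (k l t a : ℕ) (h : 2 * k + l = t * a) :
    ∃ (φ : ((Fin k × Fin 2) ⊕ Fin l) ≃ Fin t × Fin a) (τ : Equiv.Perm (Fin t)),
      (∀ p, τ (φ (Sum.inl (p, 0))).1 = (φ (Sum.inl (p, 1))).1 ∧
        τ (φ (Sum.inl (p, 1))).1 = (φ (Sum.inl (p, 0))).1) ∧
      ∀ i, τ (φ (Sum.inr i)).1 = (φ (Sum.inr i)).1 := by
  classical
  obtain ⟨m, hm2, hma, hrest⟩ : ∃ m, 2 * m ≤ t ∧ m * a ≤ k ∧ k - m * a ≤ (t - 2 * m) * (a / 2) := by
    rcases le_or_gt k (t * (a / 2)) with hk | hk
    · exact ⟨0, by omega, by omega, by simpa using hk⟩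
    · obtain ⟨g, rfl⟩ : Odd a := by
        rcases Nat.even_or_odd a with ⟨g, rfl⟩ | h' <;> [skip; exact h']
        exfalso
        rw [show (g + g) / 2 = g by omega] at hk
        rw [Nat.mul_add] at h
        omega
      rw [show (2 * g + 1) / 2 = g by omega] at hk ⊢
      refine ⟨k - t * g, ?_, ?_, ?_⟩
      · rw [Nat.mul_add, mul_one, ← mul_assoc, mul_comm t 2, mul_assoc] at h
        omega
      · have h1 : 2 * (k - t * g) ≤ t := by
          rw [Nat.mul_add, mul_one, ← mul_assoc, mul_comm t 2, mul_assoc] at h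
          omega
        obtain ⟨d, hd⟩ := Nat.exists_eq_add_of_le h1
        obtain ⟨j, hj⟩ := Nat.exists_eq_add_of_le hk.le
        have hj' : k - t * g = j := by omega
        rw [hj'] at hd ⊢
        subst hd hj
        nlinarith
      · have h1 : 2 * (k - t * g) ≤ t := by
          rw [Nat.mul_add, mul_one, ← mul_assoc, mul_comm t 2, mul_assoc] at h
          omega
        obtain ⟨d, hd⟩ := Nat.exists_eq_add_of_le h1
        obtain ⟨j, hj⟩ := Nat.exists_eq_add_of_le hk.le
        have hj' : k - t * g = j := by omega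
        rw [hj'] at hd ⊢
        subst hd hj
        rw [Nat.sub_le_iff_le_add, Nat.add_sub_cancel_left]
        nlinarith
  set g := a / 2 with hg
  have hpos1 : ∀ p, p < m * a → p / a < m ∧ p % a < a := fun p hp =>
    ⟨Nat.div_lt_iff_lt_mul (Nat.pos_of_ne_zero (by rintro rfl; omega)) |>.2 hp,
      Nat.mod_lt _ (Nat.pos_of_ne_zero (by rintro rfl; omega))⟩
  have hpos2 : ∀ p, p < k - m * a → p / g < t - 2 * m ∧ p % g < g := by
    intro p hp
    have hg0 : 0 < g := Nat.pos_of_ne_zero (by intro h0; rw [h0] at hrest; omega)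
    exact ⟨(Nat.div_lt_iff_lt_mul hg0).2 (by omega), Nat.mod_lt _ hg0⟩
  let ψn : Fin k × Fin 2 → ℕ × ℕ := fun w =>
    if (w.1 : ℕ) < m * a then (2 * ((w.1 : ℕ) / a) + w.2, (w.1 : ℕ) % a)
    else (2 * m + ((w.1 : ℕ) - m * a) / g, 2 * (((w.1 : ℕ) - m * a) % g) + w.2)
  have hψn : ∀ w, (ψn w).1 < t ∧ (ψn w).2 < a := by
    rintro ⟨p, e⟩
    have := e.isLt; have := p.isLt
    simp only [ψn]
    split_ifs with hp
    · have := hpos1 _ hp; constructor <;> simp only <;> omega
    · have := hpos2 ((p : ℕ) - m * a) (by omega); constructor <;> simp only <;> omega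
  let ψ : Fin k × Fin 2 → Fin t × Fin a := fun w => (⟨_, (hψn w).1⟩, ⟨_, (hψn w).2⟩)
  have hψi : Function.Injective ψ := by
    rintro ⟨p, e⟩ ⟨p', e'⟩ h'
    have h1 : ψn (p, e) = ψn (p', e') := Prod.ext (congrArg Fin.val (congrArg Prod.fst h'))
      (congrArg Fin.val (congrArg Prod.snd h'))
    have := e.isLt; have := e'.isLt; have := p.isLt; have := p'.isLt
    simp only [ψn] at h1
    split_ifs at h1 with hp hp' hp'
    · obtain ⟨h1, h2⟩ := Prod.mk.inj h1
      have := Nat.div_add_mod (p : ℕ) a; have := Nat.div_add_mod (p' : ℕ) a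
      have he : (e : ℕ) = e' := by omega
      have hd : (p : ℕ) / a = (p' : ℕ) / a := by omega
      exact Prod.ext (show p = p' from Fin.ext (by have := Nat.div_add_mod (p : ℕ) a; rw [hd] at this; omega)) (Fin.ext he)
    · obtain ⟨h1, h2⟩ := Prod.mk.inj h1
      simp only [Prod.mk.injEq] at hp hp' ⊢
      first
        | (have := hpos1 _ hp; have := Nat.zero_le (((p' : ℕ) - m * a) / g)
           generalize ((p' : ℕ) - m * a) / g = u at *
           generalize (p : ℕ) / a = v at *
           omega)
        | (have := hpos1 _ hp'; have := Nat.zero_le (((p : ℕ) - m * a) / g)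
           generalize ((p : ℕ) - m * a) / g = u at *
           generalize (p' : ℕ) / a = v at *
           omega)
    · obtain ⟨h1, h2⟩ := Prod.mk.inj h1
      simp only [Prod.mk.injEq] at hp hp' ⊢
      first
        | (have := hpos1 _ hp; have := Nat.zero_le (((p' : ℕ) - m * a) / g)
           generalize ((p' : ℕ) - m * a) / g = u at *
           generalize (p : ℕ) / a = v at *
           omega)
        | (have := hpos1 _ hp'; have := Nat.zero_le (((p : ℕ) - m * a) / g)
           generalize ((p : ℕ) - m * a) / g = u at *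
           generalize (p' : ℕ) / a = v at *
           omega)
    · obtain ⟨h1, h2⟩ := Prod.mk.inj h1
      have he : (e : ℕ) = e' := by omega
      have a1 := Nat.div_add_mod ((p : ℕ) - m * a) g
      have a2 := Nat.div_add_mod ((p' : ℕ) - m * a) g
      rw [show ((p : ℕ) - m * a) / g = ((p' : ℕ) - m * a) / g by omega] at a1
      exact Prod.ext (show p = p' from Fin.ext (by omega)) (Fin.ext he)
  let τn : ℕ → ℕ := fun j => if j < 2 * m then (if j % 2 = 0 then j + 1 else j - 1) else j
  have hτn : ∀ j, j < t → τn j < t := fun j hj => by simp only [τn]; split_ifs <;> omega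
  have hτi : Function.Involutive (fun j : Fin t => (⟨τn j, hτn j j.isLt⟩ : Fin t)) := by
    intro j; apply Fin.ext; simp only [τn]; split_ifs <;> omega
  let τ : Equiv.Perm (Fin t) := hτi.toPerm _
  have hcard : Nat.card {y // y ∉ Set.range ψ} = l := by
    rw [Nat.card_eq_fintype_card, Fintype.card_subtype_compl, Fintype.card_prod,
      Fintype.card_fin, Fintype.card_fin,
      show Fintype.card {y // y ∈ Set.range ψ} = k * 2 by
        rw [← Nat.card_eq_fintype_card]
        exact (Nat.card_range_of_injective hψi).trans (by simp)]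
    omega
  let e : Fin l ≃ {y // y ∉ Set.range ψ} :=
    ((Finite.equivFin _).trans (finCongr hcard)).symm
  let φ : ((Fin k × Fin 2) ⊕ Fin l) ≃ Fin t × Fin a :=
    ((Equiv.ofInjective ψ hψi).sumCongr e).trans (Equiv.sumCompl _)
  refine ⟨φ, τ, fun p => ?_, fun i => ?_⟩
  · have h0 : φ (Sum.inl (p, 0)) = ψ (p, 0) := rfl
    have h1 : φ (Sum.inl (p, 1)) = ψ (p, 1) := rfl
    rw [h0, h1]
    constructor <;> apply Fin.ext <;>
      simp only [τ, ψ, ψn, τn, Function.Involutive.coe_toPerm, Fin.val_zero, Fin.val_one] <;>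
      (by_cases hp : (p : ℕ) < m * a
       · simp only [hp, if_true]
         have := hpos1 _ hp
         split_ifs <;> omega
       · simp only [hp, if_false]
         generalize ((p : ℕ) - m * a) / g = u
         split_ifs <;> omega)
  · have hi : φ (Sum.inr i) = (e i : Fin t × Fin a) := rfl
    rw [hi]
    apply Fin.ext
    show τn _ = _
    simp only [τn]
    rw [if_neg]
    intro hlt
    set j := ((e i : Fin t × Fin a).1 : ℕ) with hj
    set s := ((e i : Fin t × Fin a).2 : ℕ) with hs
    have hsa : s < a := (e i : Fin t × Fin a).2.isLt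
    have hp : j / 2 * a + s < m * a := by
      calc j / 2 * a + s < j / 2 * a + a := by omega
        _ = (j / 2 + 1) * a := by ring
        _ ≤ m * a := Nat.mul_le_mul_right a (by omega)
    refine (e i).2 ⟨(⟨j / 2 * a + s, hp.trans_le hma⟩, ⟨j % 2, Nat.mod_lt _ two_pos⟩), ?_⟩
    have e1 : (j / 2 * a + s) / a = j / 2 := by
      rw [Nat.add_comm, Nat.add_mul_div_right _ _ (by omega), Nat.div_eq_of_lt hsa, zero_add]
    have e2 : (j / 2 * a + s) % a = s := by
      rw [Nat.add_comm, Nat.add_mul_mod_self_right, Nat.mod_eq_of_lt hsa]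
    apply Prod.ext <;> apply Fin.ext <;> simp only [ψ, ψn, hp, if_true, e1, e2]
    · omega
    · exact hs

theorem exists_stable_decomposition {n : ℕ} {F : Type*} [Field F] (x : (Fin n → F) →ₗ[F] (Fin n → F))
    (z : F) (hz0 : z ≠ 0) (hz : ∀ v, x (x v) = z • v) {a t : ℕ} (hat : n = a * t) (ha : 1 ≤ a)
    (ht : 2 ≤ t) :
    ∃ D : Fin t → Submodule F (Fin n → F), Cfsg.Geo.IsMDecomposition a D ∧
      ∃ σ : Equiv.Perm (Fin t), ∀ j, (D j).map x = D (σ j) := by
  classical
  obtain ⟨k, l, b, hp, hs⟩ := exists_pairBasis x z hz0 hz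
  have hdim : 2 * k + l = t * a := by
    have := Module.finrank_eq_card_basis b
    simp only [Module.finrank_fin_fun, Fintype.card_sum, Fintype.card_prod, Fintype.card_fin] at this
    rw [mul_comm t, ← hat]; omega
  obtain ⟨φ, τ, hτp, hτs⟩ := exists_layout k l t a hdim
  let D : Fin t → Submodule F (Fin n → F) := fun j =>
    Submodule.span F (b '' {i | (φ i).1 = j})
  have hbm : ∀ i, b i ∈ D (φ i).1 := fun i => Submodule.subset_span ⟨i, rfl, rfl⟩
  have hxinj : Function.Injective x := by
    intro u v h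
    have := congrArg x h
    rw [hz, hz] at this
    exact (smul_right_injective _ hz0) this
  have hfin : ∀ j, Module.finrank F (D j) = a := by
    intro j
    have e : b '' {i | (φ i).1 = j} = Set.range (fun s : Fin a => b (φ.symm (j, s))) := by
      ext v
      constructor
      · rintro ⟨i, rfl, rfl⟩; exact ⟨(φ i).2, by simp⟩
      · rintro ⟨s, rfl⟩; exact ⟨_, by simp, rfl⟩
    show Module.finrank F (Submodule.span F (b '' {i | (φ i).1 = j})) = a
    rw [e, finrank_span_eq_card (b := fun s : Fin a => b (φ.symm (j, s)))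
      (b.linearIndependent.comp _ fun s s' h => (Prod.mk.inj (φ.symm.injective h)).2), Fintype.card_fin]
  have hle : ∀ j, (D j).map x ≤ D (τ j) := by
    intro j
    rw [Submodule.map_span_le]
    rintro _ ⟨i, rfl, rfl⟩
    rcases i with ⟨p, e⟩ | i
    · fin_cases e
      · show x (b (Sum.inl (p, 0))) ∈ D (τ (φ (Sum.inl (p, 0))).1)
        rw [(hτp p).1, (hp p).1]; exact hbm _
      · show x (b (Sum.inl (p, 1))) ∈ D (τ (φ (Sum.inl (p, 1))).1)
        rw [(hτp p).2, (hp p).2]; exact Submodule.smul_mem _ _ (hbm _)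
    · obtain ⟨μ, hμ⟩ := hs i
      rw [hτs i, hμ]; exact Submodule.smul_mem _ _ (hbm _)
  refine ⟨D, ⟨ht, ha, hfin, ?_, ?_⟩, τ, fun j => ?_⟩
  · intro j
    refine Disjoint.mono_right (iSup₂_le fun j' hj' => Submodule.span_mono
      (Set.image_mono fun i (hi : (φ i).1 = j') => ?_))
      (b.linearIndependent.disjoint_span_image (disjoint_compl_right (a := {i | (φ i).1 = j})))
    exact fun h => hj' (hi.symm.trans h)
  · refine eq_top_iff.2 ?_
    rw [← b.span_eq, Submodule.span_le]
    rintro _ ⟨i, rfl⟩
    exact le_iSup D _ (hbm i)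
  · refine Submodule.eq_of_le_of_finrank_eq (hle j) ?_
    rw [hfin, ← (Submodule.equivMapOfInjective x hxinj (D j)).finrank_eq, hfin]

end Cfsg.Agent.GeomClasses.InvolutionBlocks
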