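import Cfsg.Agent.GeomClasses.SubfieldScaled
import Cfsg.Agent.GeomClasses.InvolutionBlocks
import Mathlib.FieldTheory.Finite.Basic

/-!
Elements with scalar square inside subfield subgroups of `SL_n`.
-/

set_option autoImplicit false

namespace Cfsg.Agent.GeomClasses.SubfieldInvolution

open Matrix

variable {F : Type*} [Field F] {n : ℕ} {F₀ : Subfield F}

/-- Membership from a monomial shape of `x` and a supply of elements commuting with `x`. -/
theorem conj_into (hn : 1 ≤ n) (x : Matrix.SpecialLinearGroup (Fin n) F) {ι : Type} [Fintype ι] [DecidableEq ι]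
    (b : Module.Basis ι F (Fin n → F)) (σ : ι → ι) (ε : ι → F) (hε : ∀ j, ε j ∈ F₀) {μ : F} (hμ : μ ≠ 0)
    (hx : ∀ j, (x : Matrix (Fin n) (Fin n) F) *ᵥ b j = (μ * ε j) • b (σ j))
    (hC : ∀ s : F, s ≠ 0 → ∃ d : ι → F, (∀ j, d (σ j) = d j) ∧ ∏ j, d j = s) :
    ∃ P : Matrix.SpecialLinearGroup (Fin n) F, P⁻¹ * x * P ∈ (Cfsg.Geo.subfieldSubgroup F₀ 1).comap
      (Matrix.SpecialLinearGroup.toGL : Matrix.SpecialLinearGroup (Fin n) F →* GL (Fin n) F) := by
  classical
  haveI : Nonempty (Fin n) := ⟨⟨0, hn⟩⟩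
  let e : Fin n ≃ ι := (Fintype.equivFinOfCardEq (by
    have h := Module.finrank_eq_card_basis b
    rwa [Module.finrank_pi, Fintype.card_fin, eq_comm] at h)).symm
  let P0 : Matrix (Fin n) (Fin n) F := Matrix.of fun i j => b (e j) i
  let A : Matrix (Fin n) (Fin n) F := Matrix.of fun i j => if e i = σ (e j) then ε (e j) else 0
  have hA : ∀ i j, A i j ∈ F₀ := fun i j => by
    simp only [A, Matrix.of_apply]; split_ifs; exacts [hε _, F₀.zero_mem]
  have hd0 : P0.det ≠ 0 := by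
    have h := (Pi.basisFun F (Fin n)).invertibleToMatrix (b.reindex e.symm)
    have h' : P0 = (Pi.basisFun F (Fin n)).toMatrix (b.reindex e.symm) := by
      ext i j; simp [P0, Module.Basis.toMatrix_apply]
    rw [h']
    exact (Matrix.isUnit_det_of_invertible _).ne_zero
  obtain ⟨d, hdσ, hd⟩ := hC _ (inv_ne_zero hd0)
  let P1 : Matrix (Fin n) (Fin n) F := P0 * Matrix.diagonal (fun j => d (e j))
  obtain ⟨P, hP⟩ : ∃ P : Matrix.SpecialLinearGroup (Fin n) F, (P : Matrix (Fin n) (Fin n) F) = P1 := by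
    refine ⟨⟨P1, ?_⟩, rfl⟩
    rw [Matrix.det_mul, Matrix.det_diagonal, Equiv.prod_comp e d, hd, mul_inv_cancel₀ hd0]
  have hxP : (x : Matrix (Fin n) (Fin n) F) * P1 = P1 * (μ • A) := by
    ext i j
    have h1 : ((x : Matrix (Fin n) (Fin n) F) * P0) i j = μ * ε (e j) * b (σ (e j)) i := by
      have := congrFun (hx (e j)) i
      simpa [Matrix.mulVec, dotProduct, P0, Matrix.mul_apply] using this
    simp only [P1]
    rw [← Matrix.mul_assoc, Matrix.mul_diagonal, h1, Matrix.mul_assoc, Matrix.mul_apply,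
      Finset.sum_eq_single (e.symm (σ (e j)))]
    · simp [P0, A, Matrix.diagonal_mul, hdσ]
      ring
    · intro k _ hk
      have : e k ≠ σ (e j) := fun h => hk (by rw [← h, e.symm_apply_apply])
      simp [Matrix.diagonal_mul, A, this]
    · simp
  refine ⟨P, ?_⟩
  show _ ∈ Cfsg.Geo.subfieldSubgroup F₀ 1
  rw [SubfieldScaled.mem_subfieldSubgroup_iff, inv_one, one_mul, mul_one]
  set g := Matrix.SpecialLinearGroup.toGL (P⁻¹ * x * P)
  have hg : (g : Matrix (Fin n) (Fin n) F) = μ • A := by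
    show ((P⁻¹ * x * P : Matrix.SpecialLinearGroup (Fin n) F) : Matrix (Fin n) (Fin n) F) = _
    rw [mul_assoc, Matrix.SpecialLinearGroup.coe_mul, Matrix.SpecialLinearGroup.coe_mul, hP, hxP, ← Matrix.mul_assoc,
      ← hP, ← Matrix.SpecialLinearGroup.coe_mul, inv_mul_cancel, Matrix.SpecialLinearGroup.coe_one, one_mul]
  let s : GL (Fin n) F := Units.map (Matrix.scalar (Fin n) : F →+* Matrix (Fin n) (Fin n) F).toMonoidHom (Units.mk0 μ hμ)
  have hs : ((s⁻¹ : GL (Fin n) F) : Matrix (Fin n) (Fin n) F) = μ⁻¹ • 1 := by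
    rw [Matrix.smul_one_eq_diagonal]
    rfl
  rw [show g = s * (s⁻¹ * g) by group]
  refine mul_mem (Subgroup.mem_sup_right ⟨_, rfl⟩) (Subgroup.mem_sup_left ?_)
  refine SubfieldSp.mem_range_of_rat' fun i j => ?_
  rw [Units.val_mul, hs, hg, Matrix.smul_mul, one_mul, smul_smul, inv_mul_cancel₀ hμ, one_smul]
  exact hA i j

theorem mul_self_mem {g : Matrix.SpecialLinearGroup (Fin n) F} {z : F} (hn : 1 ≤ n)
    (hg : g ∈ (Cfsg.Geo.subfieldSubgroup F₀ 1).comap
      (Matrix.SpecialLinearGroup.toGL : Matrix.SpecialLinearGroup (Fin n) F →* GL (Fin n) F))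
    (hz : (g : Matrix (Fin n) (Fin n) F) * g = z • 1) : ∃ c : F, c ≠ 0 ∧ c * c * z ∈ F₀ := by
  rw [Subgroup.mem_comap, SubfieldScaled.mem_subfieldSubgroup_iff, inv_one, one_mul, mul_one] at hg
  obtain ⟨c, hc, h⟩ := SubfieldScaled.scaled_of_mem F₀ hg
  refine ⟨c, hc, ?_⟩
  have h0 := congrFun (congrFun hz ⟨0, hn⟩) ⟨0, hn⟩
  rw [Matrix.mul_apply, Matrix.smul_apply, Matrix.one_apply_eq, smul_eq_mul, mul_one] at h0
  rw [← h0, Finset.mul_sum]
  refine F₀.sum_mem fun k _ => ?_
  rw [mul_mul_mul_comm]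
  exact F₀.mul_mem (h _ _) (h _ _)

/-- Characteristic two. -/
theorem conj_two [Fintype F] [CharP F 2] (hn : 1 ≤ n) (x : Matrix.SpecialLinearGroup (Fin n) F) {z : F} (hz0 : z ≠ 0)
    (hz : ∀ v, (x : Matrix (Fin n) (Fin n) F) *ᵥ ((x : Matrix (Fin n) (Fin n) F) *ᵥ v) = z • v) :
    ∃ P : Matrix.SpecialLinearGroup (Fin n) F, P⁻¹ * x * P ∈ (Cfsg.Geo.subfieldSubgroup F₀ 1).comap
      (Matrix.SpecialLinearGroup.toGL : Matrix.SpecialLinearGroup (Fin n) F →* GL (Fin n) F) := by
  classical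
  obtain ⟨k, l, b, hb1, hb2⟩ := InvolutionBlocks.exists_pairBasis (x : Matrix (Fin n) (Fin n) F).mulVecLin z hz0 hz
  obtain ⟨t, ht⟩ := FiniteField.isSquare_of_char_two (ringChar.eq F 2) z
  have ht0 : t ≠ 0 := fun h => hz0 (by rw [ht, h, zero_mul])
  let w : (Fin k × Fin 2) ⊕ Fin l → Fˣ := Sum.elim (fun p => if p.2 = 1 then (Units.mk0 t ht0)⁻¹ else 1) fun _ => 1
  let b' := b.unitsSMul w
  have hb' : ∀ j, b' j = (w j : F) • b j := fun j => b.unitsSMul_apply (w := w) j
  choose μ hμ using hb2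
  have hμt : ∀ i, μ i = t := fun i => by
    have h1 := congrArg (x : Matrix (Fin n) (Fin n) F).mulVec (hμ i)
    simp only [Matrix.mulVecLin_apply] at h1 hμ
    rw [hz, Matrix.mulVec_smul, hμ, smul_smul] at h1
    have h2 := smul_left_injective F (b.ne_zero _) h1
    exact CharTwo.sq_inj.1 (by rw [pow_two, pow_two, ← ht]; exact h2.symm)
  refine conj_into hn x b' (Sum.map (fun p => (p.1, p.2 + 1)) id) (fun _ => 1) (fun _ => F₀.one_mem) ht0 ?_ ?_
  · rintro (⟨p, e⟩ | i)
    · obtain ⟨h0, h1⟩ := hb1 p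
      simp only [Matrix.mulVecLin_apply] at h0 h1
      fin_cases e
      · simp [hb', w, h0, smul_smul, ht0]
      · simp [hb', w, Matrix.mulVec_smul, h1, smul_smul, ht, ht0]
    · have := hμ i
      simp only [Matrix.mulVecLin_apply] at this
      simp [hb', w, this, hμt]
  · intro s hs
    obtain ⟨u, hu⟩ := FiniteField.isSquare_of_char_two (ringChar.eq F 2) s
    rcases Nat.eq_zero_or_pos l with rfl | hl
    · obtain rfl | hk := Nat.eq_zero_or_pos k
      · have h := Module.finrank_eq_card_basis b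
        rw [Module.finrank_pi, Fintype.card_fin] at h
        simp at h
        omega
      refine ⟨Sum.elim (fun p => if p.1 = ⟨0, hk⟩ then u else 1) (fun i => i.elim0), ?_, ?_⟩
      · rintro (⟨p, e⟩ | i)
        · rfl
        · exact i.elim0
      · rw [Fintype.prod_sum_type, Fintype.prod_prod_type]
        simp [Fin.prod_univ_two, apply_ite (fun t : F => t * t), hu]
    · refine ⟨Sum.elim (fun _ => 1) (fun i => if i = ⟨0, hl⟩ then s else 1), ?_, ?_⟩
      · rintro (⟨p, e⟩ | i) <;> rfl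
      · simp [Fintype.prod_sum_type]

/-- Odd characteristic with the square of `x` a square scalar. -/
theorem conj_square (h2 : (2 : F) ≠ 0) (hn : 1 ≤ n) (x : Matrix.SpecialLinearGroup (Fin n) F) {c : F} (hc0 : c ≠ 0)
    (hz : ∀ v, (x : Matrix (Fin n) (Fin n) F) *ᵥ ((x : Matrix (Fin n) (Fin n) F) *ᵥ v) = (c * c) • v) :
    ∃ P : Matrix.SpecialLinearGroup (Fin n) F, P⁻¹ * x * P ∈ (Cfsg.Geo.subfieldSubgroup F₀ 1).comap
      (Matrix.SpecialLinearGroup.toGL : Matrix.SpecialLinearGroup (Fin n) F →* GL (Fin n) F) := by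
  classical
  set X := (x : Matrix (Fin n) (Fin n) F).mulVecLin
  let P := LinearMap.ker (X - c • LinearMap.id)
  let Q := LinearMap.ker (X + c • LinearMap.id)
  have hP : ∀ v ∈ P, X v = c • v := fun v hv => sub_eq_zero.1 hv
  have hQ : ∀ v ∈ Q, X v = (-c) • v := fun v hv => by
    rw [neg_smul]; exact eq_neg_of_add_eq_zero_left hv
  have hPQ : IsCompl P Q := by
    refine ⟨Submodule.disjoint_def.2 fun v hv hv' => ?_,
      codisjoint_iff.2 (eq_top_iff.2 fun v _ => ?_)⟩
    · have h := hQ v hv'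
      rw [hP v hv, ← sub_eq_zero, ← sub_smul] at h
      refine (smul_eq_zero.1 h).resolve_left ?_
      rw [sub_neg_eq_add, ← two_mul]; exact mul_ne_zero h2 hc0
    · have hz' : ∀ v, X (X v) = (c * c) • v := hz
      refine Submodule.mem_sup.2 ⟨(2 * c)⁻¹ • (c • v + X v), ?_, (2 * c)⁻¹ • (c • v - X v), ?_, ?_⟩
      · simp only [P, LinearMap.mem_ker, LinearMap.sub_apply, LinearMap.smul_apply, LinearMap.id_apply,
          map_smul, map_add, hz']
        module
      · simp only [Q, LinearMap.mem_ker, LinearMap.add_apply, LinearMap.smul_apply, LinearMap.id_apply,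
          map_smul, map_sub, hz']
        module
      · rw [← smul_add, show c • v + X v + (c • v - X v) = (2 * c) • v by module,
          smul_smul, inv_mul_cancel₀ (mul_ne_zero h2 hc0), one_smul]
  let bb : Module.Basis (Fin (Module.finrank F P) ⊕ Fin (Module.finrank F Q)) F (Fin n → F) :=
    ((Module.finBasis F P).prod (Module.finBasis F Q)).map (Submodule.prodEquivOfIsCompl P Q hPQ)
  haveI : Nonempty (Fin (Module.finrank F P) ⊕ Fin (Module.finrank F Q)) := Fintype.card_pos_iff.1 (by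
    have h := Module.finrank_eq_card_basis bb
    rw [Module.finrank_pi, Fintype.card_fin] at h
    omega)
  refine conj_into hn x bb id (Sum.elim (fun _ => 1) (fun _ => -1))
    (by rintro (i | i) <;> simp) hc0 ?_ fun s _ => ⟨fun j => if j = Classical.arbitrary _ then s else 1, fun j => rfl, by simp⟩
  rintro (i | i)
  · simpa [bb, X] using hP _ (Module.finBasis F P i).2
  · simpa [bb, X] using hQ _ (Module.finBasis F Q i).2

theorem odd_factor {a k : ℕ} (ha : Odd a) (hk : Odd k) : ∃ s, Odd s ∧ a ^ k - 1 = (a - 1) * s := by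
  obtain ⟨j, rfl⟩ := hk
  obtain ⟨b, rfl⟩ := ha
  induction j with
  | zero => exact ⟨1, odd_one, by simp⟩
  | succ j ih =>
    obtain ⟨s, hs, h⟩ := ih
    refine ⟨(2 * b + 1) ^ 2 * s + (2 * b + 1) + 1, ?_, ?_⟩
    · rw [Nat.odd_add_one, Nat.not_even_iff_odd.symm]
      simp only [not_not]
      exact (Odd.mul (Odd.pow ⟨b, rfl⟩) hs).add_odd ⟨b, rfl⟩
    · have h1 : 1 ≤ (2 * b + 1) ^ (2 * j + 1) := Nat.one_le_pow _ _ (by omega)
      have h2 : (2 * b + 1) ^ (2 * j + 1) = (2 * b + 1 - 1) * s + 1 := by omega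
      rw [show 2 * (j + 1) + 1 = 2 + (2 * j + 1) by ring, pow_add, h2, Nat.add_sub_cancel]
      refine Nat.sub_eq_of_eq_add ?_
      ring

theorem card_SL [Fintype F] [DecidableEq F] (hn : 1 ≤ n) {q : ℕ} (hq : Fintype.card F = q) :
    Nat.card (Matrix.SpecialLinearGroup (Fin n) F) * (q - 1) = ∏ i ∈ Finset.range n, (q ^ n - q ^ i) := by
  let D : GL (Fin n) F →* Fˣ := Matrix.GeneralLinearGroup.det
  have hsurj : Function.Surjective D := fun u => by
    refine ⟨Matrix.GeneralLinearGroup.mkOfDetNeZero (Matrix.diagonal fun i => if i = ⟨0, hn⟩ then (u : F) else 1)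
      (by simp [Matrix.det_diagonal]), ?_⟩
    ext
    simp [D, Matrix.det_diagonal]
  have h := D.ker.card_mul_index
  rw [Subgroup.index_ker, MonoidHom.range_eq_top.2 hsurj, Subgroup.card_top, Nat.card_units, Nat.card_eq_fintype_card,
    Matrix.card_GL_field, hq, ← Finset.prod_range (fun i => q ^ n - q ^ i)] at h
  rw [← h, Nat.card_eq_fintype_card (α := F), hq]
  congr 1
  refine Eq.trans ?_ Nat.card_eq_fintype_card
  exact Nat.card_congr (β := ↥D.ker)
    { toFun := fun s => ⟨Matrix.SpecialLinearGroup.toGL s, MonoidHom.mem_ker.2 (Units.ext s.2)⟩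
      invFun := fun g => ⟨(g.1 : Matrix (Fin n) (Fin n) F), by
        have := congrArg Units.val (MonoidHom.mem_ker.1 g.2)
        simpa [D] using this⟩
      left_inv := fun s => rfl
      right_inv := fun g => Subtype.ext (Units.ext rfl) }

theorem index_odd [Fintype F] (hn : 1 ≤ n) {q k q₀ : ℕ} (hq : Fintype.card F = q) (hF₀ : Nat.card F₀ = q₀)
    (hqk : q = q₀ ^ k) (hk : Odd k) (hodd : Odd q) :
    Odd ((Cfsg.Geo.subfieldSubgroup F₀ 1).comap
      (Matrix.SpecialLinearGroup.toGL : Matrix.SpecialLinearGroup (Fin n) F →* GL (Fin n) F)).index := by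
  classical
  let ψ : Matrix.SpecialLinearGroup (Fin n) F₀ →* Matrix.SpecialLinearGroup (Fin n) F :=
    Matrix.SpecialLinearGroup.map F₀.subtype
  have hψ : Function.Injective ψ := fun a b h => by
    ext i j
    exact congrFun (congrFun (congrArg Subtype.val h) i) j
  have hle : ψ.range ≤ (Cfsg.Geo.subfieldSubgroup F₀ 1).comap
      (Matrix.SpecialLinearGroup.toGL : Matrix.SpecialLinearGroup (Fin n) F →* GL (Fin n) F) := by
    rintro _ ⟨a, rfl⟩
    show _ ∈ Cfsg.Geo.subfieldSubgroup F₀ 1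
    haveI : Nonempty (Fin n) := ⟨⟨0, hn⟩⟩
    rw [SubfieldScaled.mem_subfieldSubgroup_iff, inv_one, one_mul, mul_one]
    exact Subgroup.mem_sup_left ⟨Matrix.SpecialLinearGroup.toGL a, Units.ext rfl⟩
  refine Odd.of_dvd_nat ?_ (Subgroup.index_dvd_of_le hle)
  haveI := Fintype.ofFinite F₀
  have hF₀' : Fintype.card F₀ = q₀ := by rw [← hF₀, Nat.card_eq_fintype_card]
  have h1 := ψ.range.card_mul_index
  rw [← Nat.card_congr (MonoidHom.ofInjective hψ).toEquiv] at h1
  have h2 := card_SL hn hq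
  have h3 := card_SL hn hF₀'
  have hq0 : Odd q₀ := by
    rcases Nat.even_or_odd q₀ with h | h
    · rw [hqk] at hodd; exact absurd (h.pow_of_ne_zero hk.pos.ne') (Nat.not_even_iff_odd.2 hodd)
    · exact h
  have hkey : ∀ m : ℕ, ∃ o, Odd o ∧ q ^ m - 1 = (q₀ ^ m - 1) * o := fun m => by
    obtain ⟨o, ho, he⟩ := odd_factor (hq0.pow (n := m)) hk
    exact ⟨o, ho, by rw [hqk, ← pow_mul, mul_comm, pow_mul]; exact he⟩
  have hprod : ∃ o, Odd o ∧ ∏ i ∈ Finset.range n, (q ^ n - q ^ i) = (∏ i ∈ Finset.range n, (q₀ ^ n - q₀ ^ i)) * o := by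
    choose o ho he using hkey
    obtain ⟨m, hm⟩ := hk
    refine ⟨∏ i ∈ Finset.range n, (q₀ ^ (i * (2 * m)) * o (n - i)), ?_, ?_⟩
    · refine Finset.prod_induction _ Odd (fun a b => Odd.mul) odd_one fun i _ => ?_
      exact (hq0.pow).mul (ho _)
    · rw [← Finset.prod_mul_distrib]
      refine Finset.prod_congr rfl fun i hi => ?_
      have hi' : i ≤ n := (Finset.mem_range.1 hi).le
      have e : ∀ a : ℕ, a ^ n - a ^ i = a ^ i * (a ^ (n - i) - 1) := fun a => by
        rw [Nat.mul_sub, mul_one, ← pow_add, Nat.add_sub_cancel' hi']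
      rw [e, e, he, show q ^ i = q₀ ^ i * q₀ ^ (i * (2 * m)) by rw [hqk, hm, ← pow_mul, ← pow_add]; ring_nf]
      ring
  obtain ⟨o, ho, hpo⟩ := hprod
  obtain ⟨o1, ho1, he1⟩ := hkey 1
  rw [pow_one, pow_one] at he1
  have hpos : 0 < Nat.card (Matrix.SpecialLinearGroup (Fin n) F₀) * (q₀ - 1) := by
    refine Nat.mul_pos Nat.card_pos ?_
    have : 1 < q₀ := hF₀' ▸ Fintype.one_lt_card
    omega
  have h4 : ψ.range.index * o1 = o := by
    refine Nat.eq_of_mul_eq_mul_left hpos ?_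
    calc Nat.card (Matrix.SpecialLinearGroup (Fin n) F₀) * (q₀ - 1) * (ψ.range.index * o1)
        = Nat.card (Matrix.SpecialLinearGroup (Fin n) F₀) * ψ.range.index * ((q₀ - 1) * o1) := by ring
      _ = _ := by rw [h1, ← he1, h2, hpo, h3]
  exact Odd.of_dvd_nat ho ⟨o1, h4.symm⟩

end Cfsg.Agent.GeomClasses.SubfieldInvolution
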