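import Cfsg.Agent.GeomClasses.PartitionStabilizer

/-! # Eight points as a binary affine space: pairs stabilisers are affine -/

set_option autoImplicit false

namespace Cfsg.Agent.GeomClasses.AffineEight

open Equiv Equiv.Perm

/-- Addition of the binary space `Fin 4 × Bool`. -/
def add3 (x y z : Fin 4 × Bool) : Fin 4 × Bool := (x.1 ^^^ y.1 ^^^ z.1, x.2 ^^ y.2 ^^ z.2)

/-- The affine permutations of eight points. -/
def affine8 : Subgroup (Perm (Fin 4 × Bool)) where
  carrier := {g | ∀ x y z, g (add3 x y z) = add3 (g x) (g y) (g z)}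
  one_mem' := fun _ _ _ => rfl
  mul_mem' := by
    intro g h hg hh x y z
    rw [Perm.mul_apply, Perm.mul_apply, Perm.mul_apply, Perm.mul_apply, hh, hg]
  inv_mem' := by
    intro g hg x y z
    apply g.injective
    rw [hg]
    simp

theorem perm_four_affine : ∀ σ : Perm (Fin 4), ∀ i j k : Fin 4, σ (i ^^^ j ^^^ k) = σ i ^^^ σ j ^^^ σ k := by
  decide +kernel

theorem even_affine : ∀ a b c d : Bool, (a ^^ b ^^ c ^^ d) = false → ∀ i j k : Fin 4,
    ![a, b, c, d] (i ^^^ j ^^^ k) = (![a, b, c, d] i ^^ ![a, b, c, d] j ^^ ![a, b, c, d] k) := by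
  decide +kernel

theorem even_preserving_affine {g : Perm (Fin 4 × Bool)} (hg : g ∈ fibrePreserving (Prod.fst : Fin 4 × Bool → Fin 4))
    (hs : sign g = 1) : g ∈ affine8 := by
  have hfst : ∀ i b, (g (i, b)).1 = (g (i, false)).1 := fun i b => (hg (i, b) (i, false)).mp rfl
  let σ₀ : Fin 4 → Fin 4 := fun i => (g (i, false)).1
  have hσ : Function.Injective σ₀ := fun i j h => (hg (i, false) (j, false)).mpr h
  let σ : Perm (Fin 4) := Equiv.ofBijective σ₀ ⟨hσ, Finite.surjective_of_injective hσ⟩
  let ε : Fin 4 → Bool := fun i => (g (i, false)).2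
  have happ : ∀ i b, g (i, b) = (σ i, b ^^ ε i) := by
    intro i b
    refine Prod.ext (hfst i b) ?_
    cases b with
    | false => simp [ε]
    | true =>
      have hne : (g (i, true)).2 ≠ (g (i, false)).2 := fun h => by
        have := g.injective (Prod.ext (hfst i true) h : g (i, true) = g (i, false))
        simp at this
      revert hne
      show (g (i, true)).2 ≠ (g (i, false)).2 → (g (i, true)).2 = (true ^^ (g (i, false)).2)
      generalize (g (i, true)).2 = p
      generalize (g (i, false)).2 = q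
      revert p q; decide
  let τ : Fin 4 → Perm Bool := fun i => if ε i then swap false true else 1
  have hτ : ∀ i b, τ i b = (b ^^ ε i) := by
    intro i b
    show (if ε i then swap false true else (1 : Perm Bool)) b = _
    generalize ε i = e
    revert b e; decide
  have hdec : g = prodCongrLeft (fun _ : Bool => σ) * prodCongrRight τ := by
    refine Equiv.ext fun x => ?_
    obtain ⟨i, b⟩ := x
    rw [happ, Perm.mul_apply, prodCongrRight_apply, prodCongrLeft_apply, hτ]
  have hpar : (ε 0 ^^ ε 1 ^^ ε 2 ^^ ε 3) = false := by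
    have h1 : sign (prodCongrRight τ) = 1 := by
      rw [hdec, map_mul, sign_prodCongrLeft] at hs
      simpa [Int.units_mul_self] using hs
    rw [sign_prodCongrRight, Fin.prod_univ_four] at h1
    simp only [τ] at h1
    revert h1
    generalize ε 0 = a; generalize ε 1 = b; generalize ε 2 = c; generalize ε 3 = d
    revert a b c d; decide
  have hε : ∀ i, ε i = ![ε 0, ε 1, ε 2, ε 3] i := by intro i; fin_cases i <;> rfl
  intro x y z
  obtain ⟨i, p⟩ := x; obtain ⟨j, q⟩ := y; obtain ⟨k, r⟩ := z
  simp only [add3, happ, perm_four_affine]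
  refine Prod.ext rfl ?_
  show ((p ^^ q ^^ r) ^^ ε (i ^^^ j ^^^ k)) = ((p ^^ ε i) ^^ (q ^^ ε j) ^^ (r ^^ ε k))
  rw [hε (i ^^^ j ^^^ k), even_affine _ _ _ _ hpar, ← hε, ← hε, ← hε]
  generalize ε i = a; generalize ε j = b; generalize ε k = c
  revert p q r a b c; decide

/-- An affine even permutation moving the pairs. -/
def shear : Perm (Fin 4 × Bool) := swap (0, true) (1, true) * swap (2, true) (3, true)

theorem shear_affine : shear ∈ affine8 := by
  show ∀ x y z, shear (add3 x y z) = add3 (shear x) (shear y) (shear z)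
  decide +kernel

theorem shear_not_preserving : shear ∉ fibrePreserving (Prod.fst : Fin 4 × Bool → Fin 4) := by
  intro h
  exact absurd ((h (0, false) (0, true)).mp rfl) (by decide)

/-- A three-cycle which is not affine. -/
def cyc : Perm (Fin 4 × Bool) := swap (0, false) (0, true) * swap (0, false) (1, false)

theorem cyc_not_affine : cyc ∉ affine8 := by
  intro h
  exact absurd (h (0, false) (2, false) (0, true)) (by decide)

theorem not_isCoatom_pairs {Ω : Type*} [Fintype Ω] [DecidableEq Ω] (f : Ω → Fin 4)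
    (hf : ∀ i : Fin 4, Nat.card {x : Ω // f x = i} = 2) :
    ¬ IsCoatom ((fibrePreserving f ⊓ alternatingGroup Ω).subgroupOf (alternatingGroup Ω)) := by
  obtain ⟨E₀, hE₀⟩ := exists_coords f hf
  let E : Ω ≃ Fin 4 × Bool := E₀.trans (Equiv.prodCongr (Equiv.refl _) finTwoEquiv)
  have hE : ∀ x, (E x).1 = f x := hE₀
  let ψ : Perm Ω →* Perm (Fin 4 × Bool) := E.permCongrHom.toMonoidHom
  have hψ : ∀ g x, ψ g (E x) = E (g x) := fun g x => by simp [ψ]
  have hsign : ∀ g, sign (ψ g) = sign g := fun g => sign_permCongr E g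
  have hpres : ∀ g, g ∈ fibrePreserving f ↔ ψ g ∈ fibrePreserving (Prod.fst : Fin 4 × Bool → Fin 4) := by
    intro g
    constructor
    · intro h x y
      obtain ⟨x, rfl⟩ := E.surjective x
      obtain ⟨y, rfl⟩ := E.surjective y
      rw [hψ, hψ, hE, hE, hE, hE]; exact h x y
    · intro h x y
      have := h (E x) (E y)
      rwa [hψ, hψ, hE, hE, hE, hE] at this
  intro hc
  let A := alternatingGroup Ω
  let L : Subgroup A := (affine8.comap ψ).subgroupOf A
  have hlt : (fibrePreserving f ⊓ A).subgroupOf A < L := by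
    refine SetLike.lt_iff_le_and_exists.mpr ⟨fun g hg => ?_, ?_⟩
    · exact even_preserving_affine ((hpres _).mp hg.1) ((hsign _).trans g.2)
    · let g : Perm Ω := E.permCongrHom.symm shear
      have hg : ψ g = shear := E.permCongrHom.apply_symm_apply shear
      refine ⟨⟨g, ?_⟩, ?_, fun h => shear_not_preserving (hg ▸ (hpres g).mp h.1)⟩
      · show sign g = 1
        rw [← hsign, hg, shear, map_mul, sign_swap (by decide), sign_swap (by decide)]; rfl
      · show ψ g ∈ affine8
        rw [hg]; exact shear_affine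
  have htop : L = ⊤ := hc.2 L hlt
  let c : Perm Ω := E.permCongrHom.symm cyc
  have hcψ : ψ c = cyc := E.permCongrHom.apply_symm_apply cyc
  have hcA : c ∈ A := by
    show sign c = 1
    rw [← hsign, hcψ, cyc, map_mul, sign_swap (by decide), sign_swap (by decide)]; rfl
  exact cyc_not_affine (hcψ ▸ (htop ▸ Subgroup.mem_top (⟨c, hcA⟩ : A) : (⟨c, hcA⟩ : A) ∈ L))

end Cfsg.Agent.GeomClasses.AffineEight
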