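import Cfsg.Agent.GeomClasses.SubspaceMax

/-! # The affine group with a non second maximal subgroup -/

set_option autoImplicit false

namespace Cfsg.Agent.GeomClasses.AffineExample

open Matrix

variable (p d : ℕ) [hp : Fact p.Prime]

/-- Linear action on the translation group. -/
def act : GL (Fin d) (ZMod p) →* MulAut (Multiplicative (Fin d → ZMod p)) where
  toFun g :=
    { toFun := fun v => Multiplicative.ofAdd ((g : Matrix (Fin d) (Fin d) (ZMod p)) *ᵥ v.toAdd)
      invFun := fun v => Multiplicative.ofAdd (((g⁻¹ : GL (Fin d) (ZMod p)) : Matrix (Fin d) (Fin d) (ZMod p)) *ᵥ v.toAdd)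
      left_inv := fun v => by simp [Matrix.mulVec_mulVec]
      right_inv := fun v => by simp [Matrix.mulVec_mulVec]
      map_mul' := fun v w => by simp [Matrix.mulVec_add, ← ofAdd_add] }
  map_one' := by ext v; simp
  map_mul' g h := by ext v; simp [Matrix.mulVec_mulVec]

theorem exists_example (hd : 2 ≤ d) :
    ∃ (G : Type) (_ : Group G) (_ : Finite G) (M H K : Subgroup G), IsCoatom M ∧ M.index = p ^ d ∧ H ≤ M ∧
      IsCoatom (H.subgroupOf M) ∧ IsCoatom K ∧ H ≤ K ∧ ¬ IsCoatom (H.subgroupOf K) := by
  classical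
  haveI : Nontrivial (Fin d) := Fin.nontrivial_iff_two_le.mpr hd
  let F := ZMod p
  let e : Fin d → Fin d → F := fun i => Pi.single i 1
  let i0 : Fin d := ⟨0, by omega⟩
  let i1 : Fin d := ⟨1, by omega⟩
  have h01 : i0 ≠ i1 := by simp [i0, i1]
  let W : Submodule F (Fin d → F) := Submodule.span F {e i0}
  have he0 : e i0 ∈ W := Submodule.mem_span_singleton_self _
  have he1 : e i1 ∉ W := by
    intro h
    obtain ⟨c, hc⟩ := Submodule.mem_span_singleton.mp h
    have := congrFun hc i1
    simp [e, h01.symm] at this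
  have hW0 : W ≠ ⊥ := fun h => by
    have := (Submodule.mem_bot F).mp (h ▸ he0)
    have := congrFun this i0
    simp [e] at this
  have hW1 : W ≠ ⊤ := fun h => he1 (h ▸ Submodule.mem_top)
  let H0 : Subgroup (GL (Fin d) F) := Cfsg.Geo.subspaceStabilizer W
  -- the line stabiliser is maximal
  have hH0 : IsCoatom H0 := by
    obtain ⟨hlt, hmax⟩ := isMaximalIn_stab_specialLinear (ι := Fin d) inferInstance hW0 hW1
    refine ⟨fun h => ?_, fun L hL => ?_⟩
    · have h' : Cfsg.Geo.subspaceStabilizer W = ⊤ := h
      rw [h', top_inf_eq] at hlt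
      exact lt_irrefl _ hlt
    have hdet : ∀ c : Fˣ, ∃ s ∈ H0, Matrix.GeneralLinearGroup.det s = c := by
      intro c
      let m : Matrix (Fin d) (Fin d) F := Matrix.diagonal (Function.update 1 i0 (c : F))
      have hm : m.det = (c : F) := by
        rw [Matrix.det_diagonal, Finset.prod_update_of_mem (Finset.mem_univ _)]; simp
      refine ⟨Matrix.GeneralLinearGroup.mkOfDetNeZero m (by rw [hm]; exact c.ne_zero), ?_, ?_⟩
      · show _ ∈ Cfsg.Geo.subspaceStabilizer W
        rw [mem_subspaceStabilizer_iff]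
        intro v hv
        obtain ⟨a, rfl⟩ := Submodule.mem_span_singleton.mp hv
        refine Submodule.mem_span_singleton.mpr ⟨a * (c : F), ?_⟩
        show _ = m *ᵥ _
        ext j
        rw [Matrix.mulVec_diagonal]
        by_cases hj : j = i0
        · subst hj; simp [e, mul_comm]
        · simp [e, hj]
      · exact Units.ext hm
    obtain ⟨g, hg, hg'⟩ := SetLike.exists_of_lt hL
    obtain ⟨s, hs, hsd⟩ := hdet (Matrix.GeneralLinearGroup.det g)⁻¹
    have hSL : Cfsg.Geo.specialLinear (Fin d) F ≤ L := by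
      have hgs : g * s ∈ L ⊓ Cfsg.Geo.specialLinear (Fin d) F := by
        refine ⟨L.mul_mem hg (hL.le hs), ?_⟩
        show Matrix.GeneralLinearGroup.det (g * s) = 1
        rw [map_mul, hsd, mul_inv_cancel]
      have hlt' : Cfsg.Geo.subspaceStabilizer W ⊓ Cfsg.Geo.specialLinear (Fin d) F <
          L ⊓ Cfsg.Geo.specialLinear (Fin d) F :=
        SetLike.lt_iff_le_and_exists.mpr ⟨inf_le_inf_right _ hL.le, g * s, hgs,
          fun h => hg' ((Subgroup.mul_mem_cancel_right H0 hs).mp h.1)⟩
      have heq := hmax _ hlt'.le inf_le_right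
      rcases heq with h | h
      · exact absurd h hlt'.ne'
      · exact h ▸ inf_le_left
    rw [eq_top_iff]
    intro x _
    obtain ⟨t, ht, htd⟩ := hdet (Matrix.GeneralLinearGroup.det x)⁻¹
    have : x * t ∈ L := hSL (by
      show Matrix.GeneralLinearGroup.det (x * t) = 1
      rw [map_mul, htd, mul_inv_cancel])
    exact (Subgroup.mul_mem_cancel_right L (hL.le ht)).mp this
  let G := Multiplicative (Fin d → F) ⋊[act p d] GL (Fin d) F
  haveI : Finite G := Finite.of_equiv _ SemidirectProduct.equivProd.symm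
  let M : Subgroup G := (SemidirectProduct.inr : GL (Fin d) F →* G).range
  let K : Subgroup G := H0.comap SemidirectProduct.rightHom
  let H : Subgroup G := H0.map SemidirectProduct.inr
  have hleftM : ∀ x : G, x ∈ M ↔ x.left = 1 := by
    intro x
    constructor
    · rintro ⟨g, rfl⟩; rfl
    · intro h; exact ⟨x.right, SemidirectProduct.ext h.symm rfl⟩
  have hMtop : M ≠ ⊤ := by
    intro h
    have := (hleftM (SemidirectProduct.inl (Multiplicative.ofAdd (e i0)))).mp (h ▸ Subgroup.mem_top _)
    have := congrFun (congrArg Multiplicative.toAdd this) i0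
    simp [e] at this
  refine ⟨G, inferInstance, inferInstance, M, H, K, ⟨hMtop, fun L hL => ?_⟩, ?_, Subgroup.map_le_range _ _, ?_, ?_, ?_, ?_⟩
  · -- the linear group is maximal
    obtain ⟨x, hx, hxM⟩ := SetLike.exists_of_lt hL
    let T : AddSubgroup (Fin d → F) :=
      { carrier := {v | SemidirectProduct.inl (Multiplicative.ofAdd v) ∈ L}
        zero_mem' := by simp
        add_mem' := fun {a b} ha hb => by
          have := L.mul_mem ha hb
          simpa [← map_mul, ← ofAdd_add] using this
        neg_mem' := fun {a} ha => by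
          have := L.inv_mem ha
          simpa [← map_inv, ← ofAdd_neg] using this }
    have hT : ∀ (g : GL (Fin d) F) (v : Fin d → F), v ∈ T → (g : Matrix (Fin d) (Fin d) F) *ᵥ v ∈ T := by
      intro g v hv
      have := L.mul_mem (L.mul_mem (hL.le ⟨g, rfl⟩) hv) (hL.le ⟨g⁻¹, rfl⟩)
      rw [← SemidirectProduct.inl_aut] at this
      exact this
    let v := x.left.toAdd
    have hvT : v ∈ T := by
      show SemidirectProduct.inl x.left ∈ L
      have := L.mul_mem hx (L.inv_mem (hL.le ⟨x.right, rfl⟩))
      have e : (SemidirectProduct.inl x.left : G) = x * (SemidirectProduct.inr x.right)⁻¹ :=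
        eq_mul_inv_of_mul_eq (SemidirectProduct.inl_left_mul_inr_right x)
      rwa [e]
    have hv0 : v ≠ 0 := fun h => hxM ((hleftM x).mpr (by
      apply Multiplicative.toAdd.injective; exact h))
    have hall : ∀ u, u ∈ T := by
      intro u
      by_cases hu : v ∈ Submodule.span F {u}
      · obtain ⟨c, hc⟩ := Submodule.mem_span_singleton.mp hu
        have hc0 : c ≠ 0 := fun h => hv0 (by rw [← hc, h, zero_smul])
        have : u = c⁻¹ • v := by rw [← hc, smul_smul, inv_mul_cancel₀ hc0, one_smul]
        rw [this]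
        exact (AddSubgroup.toZModSubmodule p T).smul_mem _ hvT
      · obtain ⟨w, hw, hwv⟩ := exists_dot hu
        have hwu := hw u (Submodule.mem_span_singleton_self u)
        have := T.sub_mem (hT (tv u w hwu) v hvT) hvT
        rwa [tv_mulVec, hwv, one_smul, add_sub_cancel_left] at this
    rw [eq_top_iff]
    intro y _
    rw [← SemidirectProduct.inl_left_mul_inr_right y]
    exact L.mul_mem (hall y.left.toAdd) (hL.le ⟨y.right, rfl⟩)
  · have h := M.index_mul_card
    rw [Nat.card_congr (MonoidHom.ofInjective (SemidirectProduct.inr_injective (φ := act p d))).toEquiv.symm,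
      SemidirectProduct.card] at h
    have h2 : Nat.card (Multiplicative (Fin d → F)) = p ^ d := by
      rw [Nat.card_congr Multiplicative.toAdd, Nat.card_fun, Nat.card_fin, Nat.card_zmod]
    rw [h2] at h
    exact mul_right_cancel₀ (Nat.card_pos).ne' h
  · let ι := MonoidHom.ofInjective (SemidirectProduct.inr_injective (φ := act p d))
    have : H.subgroupOf M = (MulEquiv.mapSubgroup ι) H0 := by
      ext ⟨x, hx⟩
      show x ∈ H0.map SemidirectProduct.inr ↔ _ ∈ Subgroup.map _ _
      simp only [Subgroup.mem_map]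
      exact exists_congr fun g => and_congr_right fun _ => ⟨fun h => Subtype.ext h, fun h => congrArg Subtype.val h⟩
    rw [this, OrderIso.isCoatom_iff]
    exact hH0
  · refine ⟨fun h => hH0.1 ?_, fun L hL => ?_⟩
    · rw [eq_top_iff]
      intro g _
      exact (h ▸ Subgroup.mem_top (SemidirectProduct.inr g : G) : (SemidirectProduct.inr g : G) ∈ K)
    · obtain ⟨x, hx, hxK⟩ := SetLike.exists_of_lt hL
      have hker : ∀ n : Multiplicative (Fin d → F), SemidirectProduct.inl n ∈ L := fun n => hL.le (by
        show SemidirectProduct.rightHom (SemidirectProduct.inl n : G) ∈ H0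
        rw [SemidirectProduct.rightHom_inl]; exact H0.one_mem)
      have hlt : H0 < L.map SemidirectProduct.rightHom :=
        SetLike.lt_iff_le_and_exists.mpr ⟨fun g hg => ⟨SemidirectProduct.inr g, hL.le (by
          show SemidirectProduct.rightHom (SemidirectProduct.inr g : G) ∈ H0
          rw [SemidirectProduct.rightHom_inr]; exact hg), SemidirectProduct.rightHom_inr g⟩,
          x.right, ⟨x, hx, rfl⟩, hxK⟩
      have htop := hH0.2 _ hlt
      rw [eq_top_iff]
      intro y _
      obtain ⟨z, hz, hzy⟩ := (htop ▸ Subgroup.mem_top y.right : y.right ∈ L.map SemidirectProduct.rightHom)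
      have hy : y = SemidirectProduct.inl (y.left * z.left⁻¹) * z := by
        refine SemidirectProduct.ext ?_ ?_
        · rw [SemidirectProduct.mul_left, SemidirectProduct.left_inl, SemidirectProduct.right_inl, map_one,
            MulAut.one_apply, inv_mul_cancel_right]
        · rw [SemidirectProduct.mul_right, SemidirectProduct.right_inl, one_mul]; exact hzy.symm
      rw [hy]
      exact L.mul_mem (hker _) hz
  · rintro x ⟨g, hg, rfl⟩
    exact hg
  · intro hc
    have hWact : ∀ g ∈ H0, ∀ v ∈ W, (g : Matrix (Fin d) (Fin d) F) *ᵥ v ∈ W :=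
      fun g hg => mem_subspaceStabilizer_iff.mp hg
    let J : Subgroup G :=
      { carrier := {x | x.right ∈ H0 ∧ x.left.toAdd ∈ W}
        one_mem' := ⟨H0.one_mem, W.zero_mem⟩
        mul_mem' := fun {a b} ha hb => ⟨H0.mul_mem ha.1 hb.1, W.add_mem ha.2 (hWact _ ha.1 _ hb.2)⟩
        inv_mem' := fun {a} ha => ⟨H0.inv_mem ha.1, hWact _ (H0.inv_mem ha.1) _ (W.neg_mem ha.2)⟩ }
    have h1 : H.subgroupOf K < J.subgroupOf K := by
      refine SetLike.lt_iff_le_and_exists.mpr ⟨?_, ⟨SemidirectProduct.inl (Multiplicative.ofAdd (e i0)), (H0.one_mem : (1 : GL (Fin d) F) ∈ H0)⟩, ?_, ?_⟩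
      · rintro ⟨x, hx⟩ ⟨g, hg, rfl⟩; exact ⟨hg, W.zero_mem⟩
      · exact ⟨H0.one_mem, he0⟩
      · rintro ⟨g, hg, h⟩
        have := congrFun (congrArg (fun x : G => x.left.toAdd) h) i0
        simp [e] at this
        rw [SemidirectProduct.left_inr] at this
        exact zero_ne_one this
    have h2 : J.subgroupOf K ≠ ⊤ := by
      intro h
      have hK1 : (SemidirectProduct.inl (Multiplicative.ofAdd (e i1)) : G) ∈ K := H0.one_mem
      exact he1 (h ▸ Subgroup.mem_top (⟨_, hK1⟩ : K) : (⟨_, hK1⟩ : K) ∈ J.subgroupOf K).2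
    exact h2 (hc.2 _ h1)

end Cfsg.Agent.GeomClasses.AffineExample
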