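import Mathlib

/-! # The maximal length of a strict subnormal series -/

set_option autoImplicit false
set_option linter.unusedSectionVars false

namespace Cfsg.Agent.GeomClasses.CLen

open Subgroup
open scoped ArithmeticFunction.Omega

variable {G G' : Type*} [Group G] [Group G']

/-- A strict series from the trivial subgroup to `K`, each term normal in the next. -/
def IsSeries (K : Subgroup G) (l : ℕ) (H : ℕ → Subgroup G) : Prop :=
  H 0 = ⊥ ∧ H l = K ∧ ∀ i < l, H i < H (i + 1) ∧ ((H i).subgroupOf (H (i + 1))).Normal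

/-- The maximal length of a series. -/
noncomputable def clenS (K : Subgroup G) : ℕ := sSup {l : ℕ | ∃ H, IsSeries K l H}

theorem series_le_cardFactors [Finite G] {K : Subgroup G} {l : ℕ} {H : ℕ → Subgroup G}
    (h : IsSeries K l H) : l ≤ Ω (Nat.card K) := by
  have key : ∀ i ≤ l, i ≤ Ω (Nat.card (H i)) := by
    intro i hi
    induction i with
    | zero => simp
    | succ i ih =>
      have hlt := (h.2.2 i (by omega)).1
      obtain ⟨c, hc⟩ := Subgroup.card_dvd_of_le hlt.le
      have hne : ∀ j, Nat.card (H j) ≠ 0 := fun j => Nat.card_pos.ne'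
      have hc0 : c ≠ 0 := fun e => hne (i + 1) (by rw [hc, e, mul_zero])
      have hc1 : 1 ≤ Ω c := by
        by_contra hcon
        have h0 : Ω c = 0 := by omega
        rcases ArithmeticFunction.cardFactors_eq_zero_iff_eq_zero_or_one.mp h0 with e | e
        · exact hc0 e
        · exact hlt.ne (Subgroup.eq_of_le_of_card_ge hlt.le (by rw [hc, e, mul_one]))
      rw [hc, ArithmeticFunction.cardFactors_mul (hne i) hc0]
      have := ih (by omega)
      omega
  rw [← h.2.1]
  exact key l le_rfl

theorem bddAbove_series [Finite G] (K : Subgroup G) : BddAbove {l : ℕ | ∃ H, IsSeries K l H} :=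
  ⟨Ω (Nat.card K), fun _ ⟨_, h⟩ => series_le_cardFactors h⟩

theorem le_clenS [Finite G] {K : Subgroup G} {l : ℕ} {H : ℕ → Subgroup G} (h : IsSeries K l H) : l ≤ clenS K :=
  le_csSup (bddAbove_series K) ⟨H, h⟩

theorem nonempty_series (K : Subgroup G) : {l : ℕ | ∃ H, IsSeries K l H}.Nonempty := by
  by_cases hK : K = ⊥
  · exact ⟨0, fun _ => ⊥, rfl, hK.symm, fun i hi => absurd hi (Nat.not_lt_zero i)⟩
  · refine ⟨1, fun i => if i = 0 then ⊥ else K, by simp, by simp, fun i hi => ?_⟩
    obtain rfl : i = 0 := by omega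
    simp only [↓reduceIte, zero_add, one_ne_zero]
    exact ⟨bot_lt_iff_ne_bot.mpr hK, by rw [Subgroup.bot_subgroupOf]; infer_instance⟩

theorem exists_series [Finite G] (K : Subgroup G) : ∃ H, IsSeries K (clenS K) H :=
  Nat.sSup_mem (nonempty_series K) (bddAbove_series K)

theorem clenS_le [Finite G] {K : Subgroup G} {b : ℕ} (h : ∀ l H, IsSeries K l H → l ≤ b) : clenS K ≤ b :=
  csSup_le (nonempty_series K) fun l ⟨H, hH⟩ => h l H hH

theorem clenS_le_cardFactors [Finite G] (K : Subgroup G) : clenS K ≤ Ω (Nat.card K) :=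
  clenS_le fun _ _ h => series_le_cardFactors h

theorem clenS_bot [Finite G] : clenS (⊥ : Subgroup G) = 0 := by
  have := clenS_le_cardFactors (⊥ : Subgroup G)
  simpa using this

theorem clenS_succ [Finite G] {A B : Subgroup G} (h : A < B) (hn : (A.subgroupOf B).Normal) :
    clenS A + 1 ≤ clenS B := by
  obtain ⟨H, h0, hl, hs⟩ := exists_series A
  refine le_clenS (H := fun i => if i ≤ clenS A then H i else B) ⟨by simp [h0], by simp, fun i hi => ?_⟩
  suffices ∀ X Y : Subgroup G, X = (if i ≤ clenS A then H i else B) →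
      Y = (if i + 1 ≤ clenS A then H (i + 1) else B) → X < Y ∧ (X.subgroupOf Y).Normal from this _ _ rfl rfl
  intro X Y hX hY
  rw [if_pos (by omega)] at hX
  by_cases hi' : i + 1 ≤ clenS A
  · rw [if_pos hi'] at hY
    subst hX hY
    exact hs i (by omega)
  · obtain rfl : i = clenS A := by omega
    rw [if_neg hi'] at hY
    rw [hl] at hX
    subst hX hY
    exact ⟨h, hn⟩

theorem clenS_mono [Finite G] {A B : Subgroup G} (h : A ≤ B) (hn : (A.subgroupOf B).Normal) :
    clenS A ≤ clenS B := by
  rcases h.eq_or_lt with e | hlt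
  · rw [e]
  · exact (Nat.le_succ _).trans (clenS_succ hlt hn)

theorem normal_inf {A B : Subgroup G} (h : A ≤ B) (hn : (A.subgroupOf B).Normal) (N : Subgroup G) :
    ((A ⊓ N).subgroupOf (B ⊓ N)).Normal := by
  refine (Subgroup.normal_subgroupOf_iff (inf_le_inf_right N h)).mpr fun a b ha hb => ?_
  exact ⟨(Subgroup.normal_subgroupOf_iff h).mp hn a b ha.1 hb.1, N.mul_mem (N.mul_mem hb.2 ha.2) (N.inv_mem hb.2)⟩

theorem normal_map {A B : Subgroup G} (h : A ≤ B) (hn : (A.subgroupOf B).Normal) (f : G →* G') :
    ((A.map f).subgroupOf (B.map f)).Normal := by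
  refine (Subgroup.normal_subgroupOf_iff (Subgroup.map_mono h)).mpr ?_
  rintro _ _ ⟨a, ha, rfl⟩ ⟨b, hb, rfl⟩
  exact ⟨b * a * b⁻¹, (Subgroup.normal_subgroupOf_iff h).mp hn a b ha hb, by simp⟩

theorem normal_comap {A B : Subgroup G'} (h : A ≤ B) (hn : (A.subgroupOf B).Normal) (f : G →* G') :
    ((A.comap f).subgroupOf (B.comap f)).Normal := by
  refine (Subgroup.normal_subgroupOf_iff (Subgroup.comap_mono h)).mpr fun a b ha hb => ?_
  simp only [Subgroup.mem_comap, map_mul, map_inv] at ha hb ⊢
  exact (Subgroup.normal_subgroupOf_iff h).mp hn _ _ ha hb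

/-- Subadditivity along a homomorphism. -/
theorem clenS_le_ker_add_map [Finite G] [Finite G'] (K : Subgroup G) (f : G →* G') :
    clenS K ≤ clenS (K ⊓ f.ker) + clenS (K.map f) := by
  refine clenS_le fun l H h => ?_
  have key : ∀ i ≤ l, i ≤ clenS (H i ⊓ f.ker) + clenS ((H i).map f) := by
    intro i hi
    induction i with
    | zero => simp
    | succ i ih =>
      obtain ⟨hlt, hn⟩ := h.2.2 i (by omega)
      have h1 := clenS_mono (inf_le_inf_right f.ker hlt.le) (normal_inf hlt.le hn f.ker)
      have h2 := clenS_mono (Subgroup.map_mono (f := f) hlt.le) (normal_map hlt.le hn f)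
      have := ih (by omega)
      by_cases he : H i ⊓ f.ker = H (i + 1) ⊓ f.ker
      · by_cases he' : (H i).map f = (H (i + 1)).map f
        · exfalso
          refine hlt.ne (le_antisymm hlt.le fun x hx => ?_)
          obtain ⟨y, hy, hyx⟩ := Subgroup.mem_map.mp (he' ▸ Subgroup.mem_map_of_mem f hx : f x ∈ (H i).map f)
          have hk : y⁻¹ * x ∈ H (i + 1) ⊓ f.ker :=
            ⟨(H (i + 1)).mul_mem ((H (i + 1)).inv_mem (hlt.le hy)) hx, by simp [hyx]⟩
          rw [← he] at hk
          simpa using (H i).mul_mem hy hk.1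
        · have := clenS_succ (lt_of_le_of_ne (Subgroup.map_mono (f := f) hlt.le) he') (normal_map hlt.le hn f)
          omega
      · have := clenS_succ (lt_of_le_of_ne (inf_le_inf_right f.ker hlt.le) he) (normal_inf hlt.le hn f.ker)
        omega
  have := key l le_rfl
  rwa [h.2.1] at this

/-- Superadditivity along a surjection. -/
theorem ker_add_range_le [Finite G] [Finite G'] (f : G →* G') (hf : Function.Surjective f) :
    clenS f.ker + clenS (⊤ : Subgroup G') ≤ clenS (⊤ : Subgroup G) := by
  obtain ⟨H, h0, hl, hs⟩ := exists_series (⊤ : Subgroup G')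
  have key : ∀ i ≤ clenS (⊤ : Subgroup G'), clenS f.ker + i ≤ clenS ((H i).comap f) := by
    intro i hi
    induction i with
    | zero => rw [h0, MonoidHom.comap_bot, add_zero]
    | succ i ih =>
      obtain ⟨hlt, hn⟩ := hs i (by omega)
      have := clenS_succ ((Subgroup.comap_lt_comap_of_surjective hf).mpr hlt) (normal_comap hlt.le hn f)
      have := ih (by omega)
      omega
  have := key _ le_rfl
  rwa [hl, Subgroup.comap_top] at this

theorem clenS_map_injective [Finite G] [Finite G'] (f : G →* G') (hf : Function.Injective f) (K : Subgroup G) :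
    clenS (K.map f) = clenS K := by
  refine le_antisymm (clenS_le fun l H h => ?_) (clenS_le fun l H h => ?_)
  · have hle : ∀ i ≤ l, H i ≤ f.range := by
      have : ∀ d, ∀ i, i + d = l → H i ≤ f.range := by
        intro d
        induction d with
        | zero => intro i hi; rw [show i = l by omega, h.2.1]; exact Subgroup.map_le_range f K
        | succ d ih => intro i hi; exact (h.2.2 i (by omega)).1.le.trans (ih (i + 1) (by omega))
      exact fun i hi => this (l - i) i (by omega)
    refine le_clenS (H := fun i => (H i).comap f) ⟨?_, ?_, fun i hi => ⟨?_, ?_⟩⟩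
    · show (H 0).comap f = ⊥
      rw [h.1, MonoidHom.comap_bot, (MonoidHom.ker_eq_bot_iff f).mpr hf]
    · show (H l).comap f = K
      rw [h.2.1, Subgroup.comap_map_eq_self_of_injective hf]
    · refine lt_of_le_of_ne (Subgroup.comap_mono (h.2.2 i hi).1.le) fun e => (h.2.2 i hi).1.ne ?_
      have e' := congrArg (Subgroup.map f) e
      rwa [Subgroup.map_comap_eq_self (hle i hi.le), Subgroup.map_comap_eq_self (hle (i + 1) hi)] at e'
    · exact normal_comap (h.2.2 i hi).1.le (h.2.2 i hi).2 f
  · exact le_clenS (H := fun i => (H i).map f) ⟨by simp [h.1], by simp [h.2.1],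
      fun i hi => ⟨(Subgroup.map_lt_map_iff_of_injective hf).mpr (h.2.2 i hi).1,
        normal_map (h.2.2 i hi).1.le (h.2.2 i hi).2 f⟩⟩

theorem clenS_top_sub [Finite G] (K : Subgroup G) : clenS (⊤ : Subgroup K) = clenS K := by
  rw [← clenS_map_injective K.subtype K.subtype_injective, ← MonoidHom.range_eq_map, Subgroup.range_subtype]

theorem clenS_congr [Finite G] [Finite G'] (e : G ≃* G') : clenS (⊤ : Subgroup G) = clenS (⊤ : Subgroup G') := by
  rw [← clenS_map_injective e.toMonoidHom e.injective, Subgroup.map_top_of_surjective _ e.surjective]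

theorem top_le_ker_add_range [Finite G] [Finite G'] (f : G →* G') :
    clenS (⊤ : Subgroup G) ≤ clenS f.ker + clenS f.range := by
  have := clenS_le_ker_add_map ⊤ f
  rwa [top_inf_eq, ← MonoidHom.range_eq_map] at this

/-- A subgroup without proper nontrivial normal subgroups has length at most one. -/
theorem clenS_le_one [Finite G] {T : Subgroup G}
    (h : ∀ M : Subgroup G, M < T → (∀ t ∈ T, ∀ m ∈ M, t * m * t⁻¹ ∈ M) → M = ⊥) : clenS T ≤ 1 := by
  refine clenS_le fun l H hs => ?_
  by_contra hl
  obtain ⟨hlt, hn⟩ := hs.2.2 (l - 1) (by omega)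
  rw [show l - 1 + 1 = l by omega, hs.2.1] at hlt hn
  have hbot := h _ hlt fun t ht m hm => (Subgroup.normal_subgroupOf_iff hlt.le).mp hn m t hm ht
  have h2 := (hs.2.2 (l - 2) (by omega)).1
  rw [show l - 2 + 1 = l - 1 by omega, hbot] at h2
  exact not_lt_bot h2

end Cfsg.Agent.GeomClasses.CLen
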