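import Cfsg.Agent.GeomClasses.CompLength
import Cfsg.Agent.Core.MinimalNormal

/-! # A weight function on a non-abelian minimal normal subgroup -/

set_option autoImplicit false
set_option linter.unusedSectionVars false

namespace Cfsg.Agent.GeomClasses.CLen

open Subgroup

variable {G : Type*} [Group G]

/-- Conjugation of a subgroup by an element. -/
def cjMap (g : G) (S : Subgroup G) : Subgroup G := S.map (MulAut.conj g).toMonoidHom

theorem mem_cjMap {g : G} {S : Subgroup G} {x : G} : x ∈ cjMap g S ↔ g⁻¹ * x * g ∈ S := by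
  constructor
  · rintro ⟨y, hy, rfl⟩
    simpa [MulAut.conj_apply, mul_assoc] using hy
  · intro h
    exact ⟨_, h, by simp [MulAut.conj_apply, mul_assoc]⟩

/-- The data of a non-abelian minimal normal subgroup with one of its factors. -/
structure Soc (G : Type*) [Group G] where
  N : Subgroup G
  T : Subgroup G
  minN : Core.IsMinNormal N
  nonab : ¬ IsMulCommutative N
  le : T ≤ N
  ne : T ≠ ⊥
  norm : ∀ x ∈ N, ∀ t ∈ T, x * t * x⁻¹ ∈ T
  min : ∀ M ≤ T, (∀ x ∈ N, ∀ t ∈ M, x * t * x⁻¹ ∈ M) → M = ⊥ ∨ M = T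

theorem exists_soc [Finite G] {N : Subgroup G} (hN : Core.IsMinNormal N) (hna : ¬ IsMulCommutative N) :
    ∃ D : Soc G, D.N = N := by
  haveI : Nontrivial N := (Subgroup.nontrivial_iff_ne_bot N).mpr hN.2.1
  obtain ⟨T₀, hT₀⟩ := Core.exists_isMinNormal (G := N)
  have hle : T₀.map N.subtype ≤ N := Subgroup.map_subtype_le T₀
  refine ⟨⟨N, T₀.map N.subtype, hN, hna, hle, ?_, ?_, ?_⟩, rfl⟩
  · rw [Ne, Subgroup.map_eq_bot_iff_of_injective _ N.subtype_injective]
    exact hT₀.2.1
  · rintro x hx _ ⟨t, ht, rfl⟩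
    exact ⟨⟨x, hx⟩ * t * ⟨x, hx⟩⁻¹, hT₀.1.conj_mem t ht _, rfl⟩
  · intro M hM hinv
    have hMN : M ≤ N := hM.trans hle
    rcases hT₀.2.2 (M.subgroupOf N) ⟨fun m hm x => hinv x x.2 m hm⟩ (fun m hm => by
      obtain ⟨t, ht, e⟩ := hM hm
      rwa [← N.subtype_injective e]) with h | h
    · refine Or.inl ?_
      rwa [Subgroup.subgroupOf_eq_bot, disjoint_comm, ← le_bot_iff.symm.trans (disjoint_iff_inf_le.symm.trans Iff.rfl),
        inf_eq_right.mpr hMN] at h
    · refine Or.inr ?_
      rw [← h, Subgroup.map_subgroupOf_eq_of_le hMN]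

variable (D : Soc G)

/-- The factors. -/
abbrev Soc.Idx : Type _ := {S : Subgroup G // ∃ g, S = cjMap g D.T}

theorem Soc.conj_mem_N (g : G) {x : G} (hx : x ∈ D.N) : g * x * g⁻¹ ∈ D.N := D.minN.1.conj_mem x hx g

theorem Soc.conj_mem_N' (g : G) {x : G} (hx : x ∈ D.N) : g⁻¹ * x * g ∈ D.N := by
  simpa using D.conj_mem_N g⁻¹ hx

theorem Soc.idx_le (i : D.Idx) : i.1 ≤ D.N := by
  obtain ⟨g, hg⟩ := i.2
  rw [hg]
  intro x hx
  have := D.conj_mem_N g (D.le (mem_cjMap.mp hx))
  simpa [mul_assoc] using this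

theorem Soc.idx_norm (i : D.Idx) {x t : G} (hx : x ∈ D.N) (ht : t ∈ i.1) : x * t * x⁻¹ ∈ i.1 := by
  obtain ⟨g, hg⟩ := i.2
  rw [hg, mem_cjMap] at ht ⊢
  have := D.norm _ (D.conj_mem_N' g hx) _ ht
  simpa [mul_assoc] using this

theorem Soc.idx_min (i : D.Idx) {M : Subgroup G} (hM : M ≤ i.1) (hinv : ∀ x ∈ D.N, ∀ t ∈ M, x * t * x⁻¹ ∈ M) :
    M = ⊥ ∨ M = i.1 := by
  obtain ⟨g, hg⟩ := i.2
  have h := D.min (cjMap g⁻¹ M) (fun x hx => by
    have := hM (mem_cjMap.mp hx)
    rw [hg, mem_cjMap] at this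
    simpa [mul_assoc] using this) (fun x hx t ht => by
    rw [mem_cjMap] at ht ⊢
    have := hinv _ (D.conj_mem_N g hx) _ ht
    simpa [mul_assoc] using this)
  rcases h with h | h
  · refine Or.inl (eq_bot_iff.mpr fun x hx => ?_)
    have h1 : g⁻¹ * x * g ∈ cjMap g⁻¹ M := mem_cjMap.mpr (by simpa [mul_assoc] using hx)
    rw [h, Subgroup.mem_bot] at h1
    rw [Subgroup.mem_bot]
    have := congrArg (fun y => g * y * g⁻¹) h1
    simpa [mul_assoc] using this
  · refine Or.inr (le_antisymm hM fun x hx => ?_)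
    rw [hg, mem_cjMap, ← h, mem_cjMap] at hx
    simpa [mul_assoc] using hx

theorem Soc.idx_ne_bot (i : D.Idx) : i.1 ≠ ⊥ := by
  obtain ⟨g, hg⟩ := i.2
  rw [hg, cjMap, Ne, Subgroup.map_eq_bot_iff_of_injective _ (MulAut.conj g).injective]
  exact D.ne

theorem Soc.commute {i j : D.Idx} (hij : i ≠ j) {s t : G} (hs : s ∈ i.1) (ht : t ∈ j.1) : Commute s t := by
  have h1 : s * t * s⁻¹ * t⁻¹ ∈ i.1 ⊓ j.1 := ⟨by
    have := i.1.mul_mem hs (D.idx_norm i (D.idx_le j ht) (i.1.inv_mem hs))
    simpa [mul_assoc] using this, j.1.mul_mem (D.idx_norm j (D.idx_le i hs) ht) (j.1.inv_mem ht)⟩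
  have hinv : ∀ x ∈ D.N, ∀ u ∈ i.1 ⊓ j.1, x * u * x⁻¹ ∈ i.1 ⊓ j.1 :=
    fun x hx u hu => ⟨D.idx_norm i hx hu.1, D.idx_norm j hx hu.2⟩
  rcases D.idx_min i inf_le_left hinv with h | h
  · rw [h, Subgroup.mem_bot] at h1
    show s * t = t * s
    calc s * t = (s * t * s⁻¹ * t⁻¹) * (t * s) := by group
      _ = t * s := by rw [h1, one_mul]
  · rcases D.idx_min j (M := i.1) (h ▸ inf_le_right) (fun x hx u hu => D.idx_norm i hx hu) with h' | h'
    · exact absurd h' (D.idx_ne_bot i)
    · exact absurd (Subtype.ext h') hij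

theorem Soc.N_le : D.N ≤ ⨆ i : D.Idx, i.1 := by
  have hn : (⨆ i : D.Idx, i.1).Normal := ⟨fun x hx g => by
    induction hx using Subgroup.iSup_induction' with
    | hp i y hy =>
      obtain ⟨k, hk⟩ := i.2
      refine Subgroup.mem_iSup_of_mem (i := (⟨cjMap (g * k) D.T, _, rfl⟩ : D.Idx)) ?_
      rw [hk, mem_cjMap] at hy
      refine mem_cjMap.mpr ?_
      simpa [mul_assoc] using hy
    | h1 => simp
    | hmul y z _ _ hy hz =>
      have := mul_mem hy hz
      simpa [mul_assoc] using this⟩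
  rcases D.minN.2.2 _ hn (iSup_le fun i => D.idx_le i) with h | h
  · exact absurd (iSup_eq_bot.mp h ⟨cjMap 1 D.T, 1, rfl⟩) (D.idx_ne_bot ⟨cjMap 1 D.T, 1, rfl⟩)
  · exact h.symm.le

theorem Soc.not_comm (i : D.Idx) : ∃ s ∈ i.1, ∃ t ∈ i.1, s * t ≠ t * s := by
  by_contra hcon
  push Not at hcon
  refine D.nonab (Subgroup.le_centralizer_iff_isMulCommutative.mp ?_)
  obtain ⟨g, hg⟩ := i.2
  have hall : ∀ j : D.Idx, ∀ s ∈ j.1, ∀ t ∈ j.1, s * t = t * s := by
    intro j s hs t ht
    obtain ⟨k, hk⟩ := j.2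
    rw [hk, mem_cjMap] at hs ht
    have hm : ∀ y ∈ D.T, g * y * g⁻¹ ∈ i.1 := fun y hy => by
      rw [hg, mem_cjMap]; simpa [mul_assoc] using hy
    have := hcon _ (hm _ hs) _ (hm _ ht)
    calc s * t = (k * g⁻¹) * ((g * (k⁻¹ * s * k) * g⁻¹) * (g * (k⁻¹ * t * k) * g⁻¹)) * (g * k⁻¹) := by group
      _ = (k * g⁻¹) * ((g * (k⁻¹ * t * k) * g⁻¹) * (g * (k⁻¹ * s * k) * g⁻¹)) * (g * k⁻¹) := by rw [this]
      _ = t * s := by group
  have hle : ∀ j : D.Idx, (⨆ l : D.Idx, l.1) ≤ Subgroup.centralizer (j.1 : Set G) := fun j => iSup_le fun l y hy =>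
    Subgroup.mem_centralizer_iff.mpr fun z hz => by
      by_cases h : j = l
      · subst h; exact hall j z hz y hy
      · exact D.commute h hz hy
  refine D.N_le.trans (Subgroup.le_centralizer_iff.mp ?_)
  refine D.N_le.trans (iSup_le fun j => ?_)
  exact Subgroup.le_centralizer_iff.mp (hle j)

theorem Soc.min' (i : D.Idx) {M : Subgroup G} (hM : M ≤ i.1) (hinv : ∀ x ∈ i.1, ∀ t ∈ M, x * t * x⁻¹ ∈ M) :
    M = ⊥ ∨ M = i.1 := by
  refine D.idx_min i hM fun x hx t ht => ?_
  revert t
  have hx' := D.N_le hx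
  clear hx
  induction hx' using Subgroup.iSup_induction' with
  | hp j y hy =>
    intro t ht
    by_cases h : j = i
    · subst h; exact hinv y hy t ht
    · rwa [(D.commute h hy (hM ht)).eq, mul_inv_cancel_right]
  | h1 => intro t ht; simpa using ht
  | hmul y z _ _ hy hz =>
    intro t ht
    have := hy _ (hz t ht)
    simpa [mul_assoc] using this

theorem Soc.center_bot (i : D.Idx) {z : G} (hz : z ∈ i.1) (hc : ∀ t ∈ i.1, z * t = t * z) : z = 1 := by
  rcases D.min' i (M := i.1 ⊓ Subgroup.centralizer (i.1 : Set G)) inf_le_left (fun x hx t ht => by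
    have := Subgroup.mem_centralizer_iff.mp ht.2 x hx
    rwa [this, mul_inv_cancel_right]) with h | h
  · have hz' : z ∈ i.1 ⊓ Subgroup.centralizer (i.1 : Set G) :=
      ⟨hz, Subgroup.mem_centralizer_iff.mpr fun t ht => (hc t ht).symm⟩
    rwa [h, Subgroup.mem_bot] at hz'
  · obtain ⟨s, hs, t, ht, hne⟩ := D.not_comm i
    rw [← h] at ht
    exact absurd (Subgroup.mem_centralizer_iff.mp ht.2 s hs) hne

theorem Soc.exists_coord (i : D.Idx) (y : D.N) :
    ∃ z ∈ i.1, ∀ t ∈ i.1, (z⁻¹ * (y : G)) * t = t * (z⁻¹ * (y : G)) := by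
  have hy := D.N_le y.2
  generalize (y : G) = w at hy
  induction hy using Subgroup.iSup_induction' with
  | hp j v hv =>
    by_cases h : j = i
    · subst h; exact ⟨v, hv, fun t _ => by simp⟩
    · exact ⟨1, i.1.one_mem, fun t ht => by simpa using (D.commute h hv ht).eq⟩
  | h1 => exact ⟨1, i.1.one_mem, fun t _ => by simp⟩
  | hmul v w _ _ hv hw =>
    obtain ⟨a, ha, ca⟩ := hv
    obtain ⟨b, hb, cb⟩ := hw
    refine ⟨a * b, i.1.mul_mem ha hb, fun t ht => ?_⟩
    have e : (a * b)⁻¹ * (v * w) = (a⁻¹ * v) * (b⁻¹ * w) := by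
      calc (a * b)⁻¹ * (v * w) = b⁻¹ * (a⁻¹ * v) * w := by group
        _ = (a⁻¹ * v) * b⁻¹ * w := by rw [ca b⁻¹ (i.1.inv_mem hb)]
        _ = _ := by group
    rw [e, mul_assoc (a⁻¹ * v), cb t ht, ← mul_assoc (a⁻¹ * v), ca t ht, mul_assoc]

theorem Soc.coord_unique (i : D.Idx) {y z z' : G} (hz : z ∈ i.1) (hz' : z' ∈ i.1)
    (h : ∀ t ∈ i.1, (z⁻¹ * y) * t = t * (z⁻¹ * y)) (h' : ∀ t ∈ i.1, (z'⁻¹ * y) * t = t * (z'⁻¹ * y)) : z = z' := by
  have hm : z'⁻¹ * z ∈ i.1 := i.1.mul_mem (i.1.inv_mem hz') hz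
  have h1 := D.center_bot i hm fun t ht => by
    have c1 : Commute (z⁻¹ * y) t := h t ht
    have c2 : Commute (z'⁻¹ * y) t := h' t ht
    have := (c2.mul_left c1.inv_left).eq
    simpa [mul_assoc] using this
  exact (inv_mul_eq_one.mp h1).symm

/-- The coordinate maps. -/
noncomputable def Soc.pr (i : D.Idx) : D.N →* G :=
  MonoidHom.mk' (fun y => (D.exists_coord i y).choose) fun y w => by
    have hy := (D.exists_coord i y).choose_spec
    have hw := (D.exists_coord i w).choose_spec
    have hyw := (D.exists_coord i (y * w)).choose_spec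
    refine D.coord_unique i hyw.1 (i.1.mul_mem hy.1 hw.1) hyw.2 fun t ht => ?_
    generalize (D.exists_coord i y).choose = a at hy ⊢
    generalize (D.exists_coord i w).choose = b at hw ⊢
    have e : (a * b)⁻¹ * ((y : G) * w) = (a⁻¹ * y) * (b⁻¹ * w) := by
      calc (a * b)⁻¹ * ((y : G) * w) = b⁻¹ * (a⁻¹ * y) * w := by group
        _ = (a⁻¹ * y) * b⁻¹ * w := by rw [hy.2 b⁻¹ (i.1.inv_mem hw.1)]
        _ = _ := by group
    rw [Subgroup.coe_mul, e, mul_assoc (a⁻¹ * (y : G)), hw.2 t ht, ← mul_assoc (a⁻¹ * (y : G)), hy.2 t ht, mul_assoc]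

theorem Soc.pr_mem (i : D.Idx) (y : D.N) : D.pr i y ∈ i.1 := (D.exists_coord i y).choose_spec.1

theorem Soc.pr_eq (i : D.Idx) (y : D.N) {z : G} (hz : z ∈ i.1)
    (h : ∀ t ∈ i.1, (z⁻¹ * (y : G)) * t = t * (z⁻¹ * (y : G))) : D.pr i y = z :=
  D.coord_unique i (D.pr_mem i y) hz (D.exists_coord i y).choose_spec.2 h

theorem Soc.pr_self (i : D.Idx) (y : D.N) (hy : (y : G) ∈ i.1) : D.pr i y = y :=
  D.pr_eq i y hy fun t _ => by simp

theorem Soc.pr_other {i j : D.Idx} (h : j ≠ i) (y : D.N) (hy : (y : G) ∈ j.1) : D.pr i y = 1 :=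
  D.pr_eq i y i.1.one_mem fun t ht => by simpa using (D.commute h hy ht).eq

theorem Soc.pr_ext {y : D.N} (h : ∀ i, D.pr i y = 1) : y = 1 := by
  have hc : (y : G) ∈ Subgroup.centralizer (D.N : Set G) := by
    refine Subgroup.mem_centralizer_iff.mpr fun w hw => ?_
    have hw' := D.N_le hw
    clear hw
    induction hw' using Subgroup.iSup_induction' with
    | hp i t ht =>
      have := (D.exists_coord i y).choose_spec.2 t ht
      rw [show (D.exists_coord i y).choose = 1 from h i] at this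
      simpa using this.symm
    | h1 => simp
    | hmul u v _ _ hu hv => rw [mul_assoc, hv, ← mul_assoc, hu, mul_assoc]
  haveI := D.minN.1
  rcases D.minN.2.2 (D.N ⊓ Subgroup.centralizer (D.N : Set G)) inferInstance inf_le_left with h' | h'
  · have hy' : (y : G) ∈ D.N ⊓ Subgroup.centralizer (D.N : Set G) := ⟨y.2, hc⟩
    rw [h', Subgroup.mem_bot] at hy'
    exact Subtype.ext hy'
  · exact absurd (Subgroup.le_centralizer_iff_isMulCommutative.mp (inf_eq_left.mp h')) D.nonab

theorem Soc.exists_with_coords [Fintype D.Idx] (t : D.Idx → G) (ht : ∀ i, t i ∈ i.1) :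
    ∃ x : D.N, ∀ i, D.pr i x = t i := by
  classical
  suffices ∀ s : Finset D.Idx, ∃ x : D.N, ∀ i, D.pr i x = if i ∈ s then t i else 1 by
    obtain ⟨x, hx⟩ := this Finset.univ
    exact ⟨x, fun i => by simpa using hx i⟩
  intro s
  induction s using Finset.induction_on with
  | empty => exact ⟨1, fun i => by simp⟩
  | @insert j s hjs ih =>
    obtain ⟨x, hx⟩ := ih
    refine ⟨x * ⟨t j, D.idx_le j (ht j)⟩, fun i => ?_⟩
    rw [map_mul, hx]
    by_cases h : i = j
    · subst h
      rw [if_neg hjs, one_mul, D.pr_self i _ (ht i), if_pos (Finset.mem_insert_self i s)]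
    · rw [D.pr_other (Ne.symm h) _ (ht j), mul_one]
      simp [Finset.mem_insert, h]

/-- The action on the factors. -/
def Soc.sig (g : G) (i : D.Idx) : D.Idx := ⟨cjMap g i.1, by
  obtain ⟨k, hk⟩ := i.2
  refine ⟨g * k, ?_⟩
  rw [hk]
  ext x
  simp [mem_cjMap, mul_assoc]⟩

theorem Soc.sig_inv (g : G) (i : D.Idx) : D.sig g⁻¹ (D.sig g i) = i := by
  refine Subtype.ext ?_
  ext x
  simp [Soc.sig, mem_cjMap, mul_assoc]

theorem Soc.sig_inv' (g : G) (i : D.Idx) : D.sig g (D.sig g⁻¹ i) = i := by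
  simpa using D.sig_inv g⁻¹ i

/-- Conjugation on the minimal normal subgroup. -/
def Soc.cjN (g : G) (y : D.N) : D.N := ⟨g * y * g⁻¹, D.conj_mem_N g y.2⟩

theorem Soc.pr_conj (g : G) (i : D.Idx) (y : D.N) : D.pr (D.sig g i) (D.cjN g y) = g * D.pr i y * g⁻¹ := by
  refine D.pr_eq _ _ (mem_cjMap.mpr (by simpa [mul_assoc] using D.pr_mem i y)) fun t ht => ?_
  have := (D.exists_coord i y).choose_spec.2 _ (mem_cjMap.mp ht)
  rw [show (D.exists_coord i y).choose = D.pr i y from rfl] at this
  have h2 := congrArg (fun u => g * u * g⁻¹) this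
  simpa [Soc.cjN, mul_assoc] using h2

variable [Finite G]

theorem Soc.clenS_idx (i : D.Idx) : clenS i.1 ≤ 1 :=
  clenS_le_one fun M hM hinv => (D.min' i hM.le hinv).resolve_right hM.ne

theorem Soc.clenS_N_le [Fintype D.Idx] : clenS D.N ≤ Fintype.card D.Idx := by
  classical
  rw [← clenS_top_sub]
  have key : ∀ s : Finset D.Idx, clenS (⨅ i ∈ (sᶜ : Finset D.Idx), (D.pr i).ker) ≤ s.card := by
    intro s
    induction s using Finset.induction_on with
    | empty =>
      have : (⨅ i ∈ ((∅ : Finset D.Idx)ᶜ), (D.pr i).ker) = ⊥ := eq_bot_iff.mpr fun y hy => by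
        simp only [Subgroup.mem_iInf, MonoidHom.mem_ker] at hy
        exact Subgroup.mem_bot.mpr (D.pr_ext fun i => hy i (by simp))
      rw [this, clenS_bot, Finset.card_empty]
    | @insert j s hjs ih =>
      have h1 := clenS_le_ker_add_map (⨅ i ∈ ((insert j s)ᶜ : Finset D.Idx), (D.pr i).ker) (D.pr j)
      have h2 : (⨅ i ∈ ((insert j s)ᶜ : Finset D.Idx), (D.pr i).ker) ⊓ (D.pr j).ker =
          ⨅ i ∈ (sᶜ : Finset D.Idx), (D.pr i).ker := by
        ext y
        simp only [Subgroup.mem_inf, Subgroup.mem_iInf, Finset.mem_compl, Finset.mem_insert, not_or]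
        refine ⟨fun ⟨ha, hb⟩ i hi => ?_, fun h => ⟨fun i hi => h i hi.2, h j hjs⟩⟩
        by_cases e : i = j
        · exact e ▸ hb
        · exact ha i ⟨e, hi⟩
      have h3 : (⨅ i ∈ ((insert j s)ᶜ : Finset D.Idx), (D.pr i).ker).map (D.pr j) = j.1 := by
        refine le_antisymm (fun z hz => ?_) fun z hz => ?_
        · obtain ⟨y, -, rfl⟩ := Subgroup.mem_map.mp hz
          exact D.pr_mem j y
        · refine ⟨⟨z, D.idx_le j hz⟩, ?_, D.pr_self j _ hz⟩
          simp only [SetLike.mem_coe, Subgroup.mem_iInf, MonoidHom.mem_ker]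
          intro i hi
          exact D.pr_other (fun e => by subst e; simp at hi) _ hz
      have h4 := D.clenS_idx j
      rw [Finset.card_insert_of_notMem hjs]
      rw [h2, h3] at h1
      omega
  have := key Finset.univ
  simpa using this

theorem Soc.card_le_clenS {A : Subgroup D.N} (Z : Finset D.Idx)
    (h : ∀ i ∈ Z, ∃ x ∈ A, D.pr i x ≠ 1 ∧ ∀ j ∈ Z, j ≠ i → D.pr j x = 1) : Z.card ≤ clenS A := by
  classical
  have key : ∀ s ⊆ Z, s.card ≤ clenS (A ⊓ ⨅ i ∈ Z \ s, (D.pr i).ker) := by
    intro s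
    induction s using Finset.induction_on with
    | empty => simp
    | @insert j s hjs ih =>
      intro hsub
      have hj : j ∈ Z := hsub (Finset.mem_insert_self j s)
      have := ih fun x hx => hsub (Finset.mem_insert_of_mem hx)
      have hle : A ⊓ (⨅ i ∈ Z \ s, (D.pr i).ker) ≤ A ⊓ ⨅ i ∈ Z \ insert j s, (D.pr i).ker :=
        inf_le_inf_left A (biInf_mono fun i hi => by simp_all)
      have hlt : A ⊓ (⨅ i ∈ Z \ s, (D.pr i).ker) < A ⊓ ⨅ i ∈ Z \ insert j s, (D.pr i).ker := by
        refine lt_of_le_of_ne hle fun e => ?_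
        obtain ⟨x, hxA, hx1, hx2⟩ := h j hj
        have hx : x ∈ A ⊓ ⨅ i ∈ Z \ insert j s, (D.pr i).ker := by
          simp only [Subgroup.mem_inf, Subgroup.mem_iInf, MonoidHom.mem_ker, Finset.mem_sdiff, Finset.mem_insert, not_or]
          exact ⟨hxA, fun i hi => hx2 i hi.1 hi.2.1⟩
        rw [← e] at hx
        simp only [Subgroup.mem_inf, Subgroup.mem_iInf, MonoidHom.mem_ker, Finset.mem_sdiff] at hx
        exact hx1 (hx.2 j ⟨hj, hjs⟩)
      have hn : ((A ⊓ ⨅ i ∈ Z \ s, (D.pr i).ker).subgroupOf (A ⊓ ⨅ i ∈ Z \ insert j s, (D.pr i).ker)).Normal := by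
        refine (Subgroup.normal_subgroupOf_iff hle).mpr fun a b ha hb => ?_
        simp only [Subgroup.mem_inf, Subgroup.mem_iInf, MonoidHom.mem_ker] at ha hb ⊢
        refine ⟨A.mul_mem (A.mul_mem hb.1 ha.1) (A.inv_mem hb.1), fun i hi => ?_⟩
        rw [map_mul, map_mul, ha.2 i hi, map_inv, mul_one, mul_inv_cancel]
      have := clenS_succ hlt hn
      rw [Finset.card_insert_of_notMem hjs]
      omega
  have := key Z le_rfl
  simpa using this

theorem five_distinct {S : Subgroup G} {s t : G} (hs : s ∈ S) (ht : t ∈ S) (h : s * t ≠ t * s) :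
    ∃ f : Fin 5 → G, f 0 = 1 ∧ (∀ a, f a ∈ S) ∧ Function.Injective f := by
  have s1 : s ≠ 1 := fun e => h (by rw [e]; simp)
  have t1 : t ≠ 1 := fun e => h (by rw [e]; simp)
  have st : s ≠ t := fun e => h (by rw [e])
  have a1 : s * t ≠ 1 := fun e => h (by rw [e, eq_inv_of_mul_eq_one_right e]; simp)
  have a2 : t * s ≠ 1 := fun e => h (by rw [e, eq_inv_of_mul_eq_one_right e]; simp)
  have b1 : s * t ≠ s := fun e => t1 (mul_eq_left.mp e)
  have b2 : s * t ≠ t := fun e => s1 (mul_eq_right.mp e)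
  have b3 : t * s ≠ s := fun e => t1 (mul_eq_right.mp e)
  have b4 : t * s ≠ t := fun e => s1 (mul_eq_left.mp e)
  refine ⟨![1, s, t, s * t, t * s], rfl, fun a => ?_, fun a b hab => ?_⟩
  · fin_cases a
    exacts [S.one_mem, hs, ht, S.mul_mem hs ht, S.mul_mem ht hs]
  · revert hab
    fin_cases a <;> fin_cases b <;>
      simp [s1, t1, st, a1, a2, b1, b2, b3, b4, h, Ne.symm s1, Ne.symm t1, Ne.symm st, Ne.symm a1, Ne.symm a2,
        Ne.symm b1, Ne.symm b2, Ne.symm b3, Ne.symm b4, Ne.symm h]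

/-- The weight: number of nontrivial coordinates. -/
noncomputable def Soc.wt (y : D.N) : ℕ := Nat.card {i : D.Idx // D.pr i y ≠ 1}

theorem Soc.wt_conj (g : G) (y : D.N) : D.wt (D.cjN g y) = D.wt y := by
  symm
  refine Nat.card_congr ((⟨D.sig g, D.sig g⁻¹, D.sig_inv g, D.sig_inv' g⟩ : D.Idx ≃ D.Idx).subtypeEquiv fun i => ?_)
  show D.pr i y ≠ 1 ↔ D.pr (D.sig g i) (D.cjN g y) ≠ 1
  rw [D.pr_conj, ne_eq, ne_eq, conj_eq_one_iff]

/-- The weight statement. -/
theorem Soc.exists_values (H : Subgroup G) (hH : IsCoatom H) (hsup : D.N ⊔ H = ⊤) :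
    ∃ V : ℕ, 3 * clenS D.N ≤ 4 * V + 3 * clenS (H.subgroupOf D.N) ∧
      ∀ v ≤ V, ∃ x : D.N, D.wt x = v ∧ ∀ n ∈ H.subgroupOf D.N, v ≤ D.wt (x * n) := by
  classical
  haveI : Fintype D.Idx := Fintype.ofFinite _
  have hN := D.clenS_N_le
  haveI := D.minN.1
  set A := H.subgroupOf D.N with hA
  have htrans : ∀ i j : D.Idx, ∃ h ∈ H, D.sig h i = j := by
    intro i j
    obtain ⟨g₁, h₁⟩ := i.2
    obtain ⟨g₂, h₂⟩ := j.2
    obtain ⟨n, hn, h, hh, e⟩ := Subgroup.mem_sup_of_normal_left.mp
      (show g₂ * g₁⁻¹ ∈ D.N ⊔ H by rw [hsup]; exact Subgroup.mem_top _)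
    refine ⟨h, hh, Subtype.ext ?_⟩
    have hnj : cjMap n⁻¹ j.1 = j.1 := by
      ext x
      rw [mem_cjMap, inv_inv]
      refine ⟨fun hx => ?_, fun hx => D.idx_norm j hn hx⟩
      have := D.idx_norm j (D.N.inv_mem hn) hx
      simpa [mul_assoc] using this
    rw [show h = n⁻¹ * (g₂ * g₁⁻¹) by rw [← e]; group, ← hnj, h₂]
    ext x
    simp [Soc.sig, h₁, mem_cjMap, mul_assoc]
  by_cases hC : ∀ i : D.Idx, A.map (D.pr i) = i.1
  · -- full projections
    set K : D.Idx → Subgroup D.N := fun i => A ⊓ (D.pr i).ker with hK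
    have hKn : ∀ i (a : D.N), a ∈ A → ∀ b ∈ K i, a * b * a⁻¹ ∈ K i := fun i a ha b hb =>
      ⟨A.mul_mem (A.mul_mem ha hb.1) (A.inv_mem ha), by
        show D.pr i _ = 1
        rw [map_mul, map_mul, show D.pr i b = 1 from hb.2, map_inv, mul_one, mul_inv_cancel]⟩
    have himg : ∀ i (B : Subgroup D.N), B ≤ A → (∀ a ∈ A, ∀ b ∈ B, a * b * a⁻¹ ∈ B) →
        B.map (D.pr i) = ⊥ ∨ B.map (D.pr i) = i.1 := fun i B hB hBn => by
      refine D.min' i ?_ ?_
      · rintro z ⟨b, -, rfl⟩; exact D.pr_mem i b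
      · rintro x hx _ ⟨b, hb, rfl⟩
        rw [← hC i] at hx
        obtain ⟨a, ha, rfl⟩ := hx
        exact ⟨a * b * a⁻¹, hBn a ha b hb, by simp⟩
    have hfull : ∀ i j, K i ≠ K j → (K j).map (D.pr i) = i.1 := by
      intro i j hne
      refine (himg i (K j) inf_le_left (hKn j)).resolve_left fun h0 => hne ?_
      have hji : K j ≤ K i := fun b hb => ⟨hb.1, by
        show D.pr i b = 1
        exact Subgroup.mem_bot.mp (h0 ▸ Subgroup.mem_map_of_mem _ hb)⟩
      rcases himg j (K i) inf_le_left (hKn i) with h1 | h1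
      · exact le_antisymm (fun b hb => ⟨hb.1, Subgroup.mem_bot.mp (h1 ▸ Subgroup.mem_map_of_mem _ hb)⟩) hji
      · exfalso
        refine D.idx_ne_bot i (eq_bot_iff.mpr fun z hz => ?_)
        rw [← hC i] at hz
        obtain ⟨a, ha, rfl⟩ := hz
        obtain ⟨b, hb, hab⟩ := Subgroup.mem_map.mp (h1.symm ▸ D.pr_mem j a : D.pr j a ∈ (K i).map (D.pr j))
        have hm : b⁻¹ * a ∈ K j := ⟨A.mul_mem (A.inv_mem hb.1) ha, by
          show D.pr j _ = 1
          rw [map_mul, map_inv, hab, inv_mul_cancel]⟩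
        have := (K i).mul_mem hb (hji hm)
        rw [mul_inv_cancel_left] at this
        exact Subgroup.mem_bot.mpr this.2
    have hinter : ∀ i (S : Finset D.Idx), (∀ j ∈ S, K i ≠ K j) →
        ((A ⊓ ⨅ j ∈ S, (D.pr j).ker)).map (D.pr i) = i.1 := by
      intro i S
      induction S using Finset.induction_on with
      | empty => intro _; simpa using hC i
      | @insert j S hjS ih =>
        intro hS
        have h1 := ih fun l hl => hS l (Finset.mem_insert_of_mem hl)
        have h2 := hfull i j (hS j (Finset.mem_insert_self j S))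
        have hnB : ∀ a ∈ A, ∀ b ∈ (A ⊓ ⨅ l ∈ insert j S, (D.pr l).ker), a * b * a⁻¹ ∈
            (A ⊓ ⨅ l ∈ insert j S, (D.pr l).ker) := fun a ha b hb => by
          simp only [Subgroup.mem_inf, Subgroup.mem_iInf, MonoidHom.mem_ker] at hb ⊢
          exact ⟨A.mul_mem (A.mul_mem ha hb.1) (A.inv_mem ha), fun l hl => by
            rw [map_mul, map_mul, hb.2 l hl, map_inv, mul_one, mul_inv_cancel]⟩
        refine (himg i _ inf_le_left hnB).resolve_left fun h0 => ?_
        obtain ⟨s, hs, t, ht, hne⟩ := D.not_comm i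
        rw [← h1] at hs
        obtain ⟨b, hb, rfl⟩ := hs
        rw [← h2] at ht
        obtain ⟨c, hc, rfl⟩ := ht
        have hm : b * c * b⁻¹ * c⁻¹ ∈ A ⊓ ⨅ l ∈ insert j S, (D.pr l).ker := by
          simp only [SetLike.mem_coe, Subgroup.mem_inf, Subgroup.mem_iInf, MonoidHom.mem_ker, Finset.mem_insert] at hb ⊢
          refine ⟨A.mul_mem (A.mul_mem (A.mul_mem hb.1 hc.1) (A.inv_mem hb.1)) (A.inv_mem hc.1), fun l hl => ?_⟩
          rw [map_mul, map_mul, map_mul, map_inv, map_inv]
          rcases hl with rfl | hl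
          · rw [show D.pr l c = 1 from hc.2]; simp
          · rw [hb.2 l hl]; simp
        have := Subgroup.mem_bot.mp (h0 ▸ Subgroup.mem_map_of_mem (D.pr i) hm)
        rw [map_mul, map_mul, map_mul, map_inv, map_inv, ← commutatorElement_def, commutatorElement_eq_one_iff_mul_comm]
          at this
        exact hne this
    -- one representative for each kernel
    haveI : Nonempty D.Idx := ⟨⟨cjMap 1 D.T, 1, rfl⟩⟩
    set ρ : D.Idx → D.Idx := fun i => Function.invFun K (K i) with hρ
    have hρK : ∀ i, K (ρ i) = K i := fun i => Function.invFun_eq ⟨i, rfl⟩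
    have hρc : ∀ i j, K i = K j → ρ i = ρ j := fun i j e => by simp only [hρ, e]
    set Z := Finset.univ.image ρ with hZ
    have hl : Z.card ≤ clenS A := by
      refine D.card_le_clenS Z fun i hi => ?_
      obtain ⟨i₀, -, rfl⟩ := Finset.mem_image.mp hi
      have h := hinter (ρ i₀) (Z.erase (ρ i₀)) fun j hj e => by
        obtain ⟨hne, hjZ⟩ := Finset.mem_erase.mp hj
        obtain ⟨j₀, -, rfl⟩ := Finset.mem_image.mp hjZ
        rw [hρK, hρK] at e
        exact hne (hρc _ _ e.symm)
      obtain ⟨s, hs, t, -, hne⟩ := D.not_comm (ρ i₀)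
      rw [← h] at hs
      obtain ⟨x, hx, rfl⟩ := hs
      simp only [SetLike.mem_coe, Subgroup.mem_inf, Subgroup.mem_iInf, MonoidHom.mem_ker, Finset.mem_erase] at hx
      exact ⟨x, hx.1, fun e => hne (by rw [e]; simp), fun j hj hji => hx.2 j ⟨hji, hj⟩⟩
    -- five elements for each kernel
    have hfive : ∀ i, ∃ f : Fin 5 → D.N, f 0 = 1 ∧ (∀ a, f a ∈ A) ∧ Function.Injective fun a => D.pr i (f a) := by
      intro i
      obtain ⟨s, hs, t, ht, hne⟩ := D.not_comm i
      obtain ⟨f, f0, fm, finj⟩ := five_distinct hs ht hne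
      have hex : ∀ a, ∃ x ∈ A, D.pr i x = f a := fun a => by
        have := fm a; rw [← hC i] at this; exact Subgroup.mem_map.mp this
      choose g hg1 hg2 using hex
      refine ⟨fun a => if a = 0 then 1 else g a, if_pos rfl, fun a => ?_, fun a b hab => finj ?_⟩
      · dsimp only; split_ifs
        exacts [A.one_mem, hg1 a]
      · have he : ∀ a, D.pr i (if a = 0 then 1 else g a) = f a := fun a => by
          split_ifs with h
          · rw [map_one, h, f0]
          · exact hg2 a
        simpa [he] using hab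
    choose five five0 fiveA fiveI using hfive
    set Y : D.Idx → Fin 5 → D.N := fun i => five (ρ i) with hY
    have hYne : ∀ i a, a ≠ 0 → D.pr i (Y i a) ≠ 1 := by
      intro i a ha h
      have hm : Y i a ∈ K (ρ i) := by
        rw [hρK]; exact ⟨fiveA _ a, h⟩
      refine ha (fiveI (ρ i) ?_)
      show D.pr (ρ i) (five (ρ i) a) = D.pr (ρ i) (five (ρ i) 0)
      rw [five0, map_one]
      exact hm.2
    -- balanced colourings
    let Bal : (D.Idx → Fin 5) → Prop := fun c => ∀ r a, (Finset.univ.filter fun i => ρ i = r ∧ c i = a).card ≤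
      (Finset.univ.filter fun i => ρ i = r ∧ c i = 0).card
    have hval : ∀ c, Bal c → ∃ x : D.N, D.wt x = (Finset.univ.filter fun i => c i ≠ 0).card ∧
        ∀ n ∈ A, (Finset.univ.filter fun i => c i ≠ 0).card ≤ D.wt (x * n) := by
      intro c hc
      obtain ⟨x, hx⟩ := D.exists_with_coords (fun i => D.pr i (Y i (c i))) fun i => D.pr_mem i _
      have hwt : ∀ y : D.N, D.wt y = (Finset.univ.filter fun i => D.pr i y ≠ 1).card := fun y => by
        rw [Soc.wt, Nat.card_eq_fintype_card, Fintype.card_subtype]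
      refine ⟨x, ?_, fun n hn => ?_⟩
      · rw [hwt]
        refine congrArg Finset.card (Finset.filter_congr fun i _ => ?_)
        rw [hx]
        refine ⟨fun h e => h (by rw [e]; simp [hY, five0]), hYne i (c i)⟩
      · rw [hwt]
        have hz : (Finset.univ.filter fun i => D.pr i (x * n) = 1).card ≤ (Finset.univ.filter fun i => c i = 0).card := by
          rw [Finset.card_eq_sum_card_fiberwise (f := ρ) (t := Finset.univ) fun _ _ => Finset.mem_univ _,
            Finset.card_eq_sum_card_fiberwise (f := ρ) (t := Finset.univ) fun _ _ => Finset.mem_univ _]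
          refine Finset.sum_le_sum fun r _ => ?_
          rw [Finset.filter_filter, Finset.filter_filter]
          rcases (Finset.univ.filter fun i => D.pr i (x * n) = 1 ∧ ρ i = r).eq_empty_or_nonempty with h | ⟨i₀, hi₀⟩
          · rw [h, Finset.card_empty]; exact Nat.zero_le _
          simp only [Finset.mem_filter, Finset.mem_univ, true_and] at hi₀
          refine le_trans (Finset.card_le_card fun i hi => ?_) (le_trans (hc r (c i₀)) (le_of_eq ?_))
          · simp only [Finset.mem_filter, Finset.mem_univ, true_and] at hi ⊢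
            refine ⟨hi.2, fiveI r ?_⟩
            have hK1 : ∀ l, D.pr l (x * n) = 1 → ρ l = r → D.pr r (five r (c l) * n) = 1 := by
              intro l h1 h2
              subst h2
              have hm : Y l (c l) * n ∈ K l := ⟨A.mul_mem (fiveA _ _) hn, by
                show D.pr l _ = 1
                rw [map_mul, ← hx, ← map_mul]; exact h1⟩
              rw [← hρK l] at hm
              exact hm.2
            have e1 := hK1 i hi.1 hi.2
            have e2 := hK1 i₀ hi₀.1 hi₀.2
            rw [map_mul] at e1 e2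
            exact mul_right_cancel (e1.trans e2.symm)
          · exact congrArg Finset.card (Finset.filter_congr fun i _ => by tauto)
        have h1 := Finset.card_filter_add_card_filter_not (s := (Finset.univ : Finset D.Idx)) fun i => D.pr i (x * n) = 1
        have h2 := Finset.card_filter_add_card_filter_not (s := (Finset.univ : Finset D.Idx)) fun i => c i = 0
        simp only [ne_eq] at h1 h2 ⊢
        omega
    -- the colouring by position inside the fibre
    let pos : D.Idx → D.Idx → ℕ := fun r i =>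
      if h : ρ i = r then (Fintype.equivFin {j // ρ j = r} ⟨i, h⟩ : ℕ) else 0
    let c₀ : D.Idx → Fin 5 := fun i => ⟨pos (ρ i) i % 5, Nat.mod_lt _ (by norm_num)⟩
    have hpos : ∀ r, ∀ i j, ρ i = r → ρ j = r → pos r i = pos r j → i = j := by
      intro r i j hi hj e
      simp only [pos, dif_pos hi, dif_pos hj] at e
      exact congrArg Subtype.val ((Fintype.equivFin _).injective (Fin.ext e))
    have hbal : Bal c₀ := by
      intro r a
      have hex : ∀ i, ρ i = r ∧ c₀ i = a → ∃ j, (ρ j = r ∧ c₀ j = 0) ∧ pos r j + (a : ℕ) = pos r i := by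
        rintro i ⟨hi, hc⟩
        have hca : pos r i % 5 = (a : ℕ) := by rw [← hi]; exact congrArg Fin.val hc
        have hle : (a : ℕ) ≤ pos r i := hca ▸ Nat.mod_le _ _
        have hlt : pos r i - (a : ℕ) < Fintype.card {j // ρ j = r} := by
          have : pos r i < Fintype.card {j // ρ j = r} := by
            simp only [pos, dif_pos hi]; exact Fin.is_lt _
          omega
        set j := (Fintype.equivFin {j // ρ j = r}).symm ⟨_, hlt⟩ with hj
        have hp : pos r j.1 = pos r i - (a : ℕ) := by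
          have e : ((Fintype.equivFin {j // ρ j = r}) ⟨j.1, j.2⟩ : ℕ) = pos r i - (a : ℕ) := by simp [hj]
          exact (dif_pos j.2).trans e
        refine ⟨j.1, ⟨j.2, Fin.ext ?_⟩, by omega⟩
        show pos (ρ j.1) j.1 % 5 = 0
        rw [j.2, hp]
        omega
      choose f hf1 hf2 using hex
      refine Finset.card_le_card_of_injOn (fun i => if h : ρ i = r ∧ c₀ i = a then f i h else i) (fun i hi => ?_)
        fun i hi j hj e => ?_
      · simp only [Finset.coe_filter, Finset.mem_univ, true_and, Set.mem_setOf_eq] at hi ⊢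
        simp only [dif_pos hi]
        exact hf1 i hi
      · simp only [Finset.coe_filter, Finset.mem_univ, true_and, Set.mem_setOf_eq] at hi hj
        simp only [dif_pos hi, dif_pos hj] at e
        refine hpos r i j hi.1 hj.1 ?_
        have e1 := hf2 i hi
        have e2 := hf2 j hj
        rw [e] at e1
        omega
    refine ⟨(Finset.univ.filter fun i => c₀ i ≠ 0).card, ?_, fun v hv => ?_⟩
    · have hzero : 5 * (Finset.univ.filter fun i => c₀ i = 0).card ≤ Fintype.card D.Idx + 4 * Z.card := by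
        rw [← Finset.card_univ, Finset.card_eq_sum_card_fiberwise (f := ρ) (t := Z)
          (fun i _ => Finset.mem_image_of_mem _ (Finset.mem_univ i)),
          Finset.card_eq_sum_card_fiberwise (s := (Finset.univ : Finset D.Idx)) (f := ρ) (t := Z)
          (fun i _ => Finset.mem_image_of_mem _ (Finset.mem_univ i)), Finset.mul_sum, mul_comm 4 Z.card,
          ← smul_eq_mul Z.card 4, ← Finset.sum_const, ← Finset.sum_add_distrib]
        refine Finset.sum_le_sum fun r _ => ?_
        rw [Finset.filter_filter]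
        set j := (Finset.univ.filter fun i => ρ i = r).card
        have hj : j = Fintype.card {i // ρ i = r} := (Fintype.card_subtype _).symm
        have hle : (Finset.univ.filter fun i => c₀ i = 0 ∧ ρ i = r).card ≤
            (Finset.range ((j + 4) / 5)).card := by
          refine Finset.card_le_card_of_injOn (fun i => pos r i / 5) (fun i hi => ?_) fun i hi l hl e => ?_
          · simp only [Finset.coe_filter, Finset.mem_univ, true_and, Set.mem_setOf_eq] at hi
            have h5 : pos r i % 5 = 0 := by rw [← hi.2]; exact congrArg Fin.val hi.1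
            have hlt : pos r i < j := by rw [hj]; simp only [pos, dif_pos hi.2]; exact Fin.is_lt _
            simp only [Finset.coe_range, Set.mem_Iio]
            omega
          · simp only [Finset.coe_filter, Finset.mem_univ, true_and, Set.mem_setOf_eq] at hi hl
            have h5 : pos r i % 5 = 0 := by rw [← hi.2]; exact congrArg Fin.val hi.1
            have h5' : pos r l % 5 = 0 := by rw [← hl.2]; exact congrArg Fin.val hl.1
            exact hpos r i l hi.2 hl.2 (by simp only at e; omega)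
        rw [Finset.card_range] at hle
        omega
      have h2 := Finset.card_filter_add_card_filter_not (s := (Finset.univ : Finset D.Idx)) fun i => c₀ i = 0
      rw [Finset.card_univ] at h2
      simp only [ne_eq] at h2 ⊢
      omega
    · obtain ⟨S, hS, hSc⟩ := Finset.exists_subset_card_eq hv
      have hb : Bal fun i => if i ∈ S then c₀ i else 0 := by
        intro r a
        rcases eq_or_ne a 0 with rfl | ha
        · exact le_rfl
        refine le_trans ?_ (le_trans (hbal r a) ?_) <;> refine Finset.card_le_card fun i hi => ?_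
        · simp only [Finset.mem_filter, Finset.mem_univ, true_and] at hi ⊢
          refine ⟨hi.1, ?_⟩
          have := hi.2
          split_ifs at this with h
          · exact this
          · exact absurd this.symm ha
        · simp only [Finset.mem_filter, Finset.mem_univ, true_and] at hi ⊢
          exact ⟨hi.1, by split_ifs <;> simp [hi.2]⟩
      have heq : (Finset.univ.filter fun i => (if i ∈ S then c₀ i else 0) ≠ 0) = S := by
        ext i
        simp only [Finset.mem_filter, Finset.mem_univ, true_and]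
        refine ⟨fun h => ?_, fun h => ?_⟩
        · by_contra hc
          simp [hc] at h
        · simpa [h] using hS h
      have := hval _ hb
      rw [heq, hSc] at this
      exact this
  · -- proper projections
    have hRconj : ∀ g ∈ H, ∀ i z, z ∈ A.map (D.pr i) → g * z * g⁻¹ ∈ A.map (D.pr (D.sig g i)) := by
      rintro g hg i _ ⟨a, ha, rfl⟩
      refine ⟨D.cjN g a, H.mul_mem (H.mul_mem hg ha) (H.inv_mem hg), ?_⟩
      rw [D.pr_conj]
    let P : Subgroup G := (⨅ i, (A.map (D.pr i)).comap (D.pr i)).map D.N.subtype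
    have hP : ∀ y : D.N, (y : G) ∈ P ↔ ∀ i, D.pr i y ∈ A.map (D.pr i) := fun y => by
      constructor
      · rintro ⟨z, hz, e⟩
        rw [← D.N.subtype_injective e]
        simpa [Subgroup.mem_iInf] using hz
      · exact fun h => ⟨y, by simpa [Subgroup.mem_iInf] using h, rfl⟩
    have hPN : P ≤ D.N := Subgroup.map_subtype_le _
    have hHP : H ≤ Subgroup.normalizer (P : Set G) := by
      have hh : ∀ g ∈ H, ∀ y ∈ P, g * y * g⁻¹ ∈ P := fun g hg y hy => by
        have h := (hP ⟨y, hPN hy⟩).mp hy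
        refine (hP (D.cjN g ⟨y, hPN hy⟩)).mpr fun i => ?_
        have := hRconj g hg _ _ (h (D.sig g⁻¹ i))
        rwa [D.sig_inv', ← D.pr_conj, D.sig_inv'] at this
      exact fun g hg => Subgroup.mem_normalizer_iff.mpr fun y => ⟨hh g hg y, fun hy => by
        have := hh g⁻¹ (H.inv_mem hg) _ hy
        simpa [mul_assoc] using this⟩
    have hPA : ∀ y : D.N, (y : G) ∈ P → y ∈ A := by
      rcases hH.le_iff.mp (le_sup_right : H ≤ P ⊔ H) with h | h
      · exfalso
        refine hC fun i => le_antisymm ?_ fun z hz => ?_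
        · rintro z ⟨a, -, rfl⟩; exact D.pr_mem i a
        have hzP : z ∈ P := by
          have hz' : z ∈ P ⊔ H := h ▸ Subgroup.mem_top z
          rw [← SetLike.mem_coe, Subgroup.coe_mul_of_right_le_normalizer_left _ _ hHP] at hz'
          obtain ⟨p, hp, g, hg, rfl⟩ := Set.mem_mul.mp hz'
          have hgN : g ∈ D.N := by
            have := D.N.mul_mem (D.N.inv_mem (hPN hp)) (D.idx_le i hz)
            simpa using this
          exact P.mul_mem hp ((hP ⟨g, hgN⟩).mpr fun j => Subgroup.mem_map_of_mem _ hg)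
        have := (hP ⟨z, D.idx_le i hz⟩).mp hzP i
        rwa [D.pr_self i ⟨z, D.idx_le i hz⟩ hz] at this
      · intro y hy
        have : (y : G) ∈ P ⊔ H := le_sup_left (a := P) hy
        rw [h] at this
        exact this
    by_cases hR : ∀ i : D.Idx, A.map (D.pr i) = ⊥
    · have hA1 : ∀ n ∈ A, n = 1 := fun n hn => D.pr_ext fun i => by
        have := hR i ▸ Subgroup.mem_map_of_mem (D.pr i) hn
        exact Subgroup.mem_bot.mp this
      refine ⟨Fintype.card D.Idx, by omega, fun v hv => ?_⟩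
      obtain ⟨S, -, hS⟩ := Finset.exists_subset_card_eq (s := (Finset.univ : Finset D.Idx)) (by simpa using hv)
      have hex : ∀ i : D.Idx, ∃ z ∈ i.1, z ≠ 1 := fun i =>
        (Subgroup.bot_or_exists_ne_one i.1).resolve_left (D.idx_ne_bot i)
      choose z hz hz1 using hex
      obtain ⟨x, hx⟩ := D.exists_with_coords (fun i => if i ∈ S then z i else 1)
        fun i => by split_ifs; exacts [hz i, i.1.one_mem]
      have hw : D.wt x = v := by
        rw [Soc.wt, Nat.card_eq_fintype_card, Fintype.card_subtype, ← hS]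
        refine congrArg Finset.card ?_
        ext i
        simp only [Finset.mem_filter, Finset.mem_univ, true_and, hx]
        split_ifs with h <;> simp [h, hz1]
      exact ⟨x, hw, fun n hn => by rw [hA1 n hn, mul_one, hw]⟩
    · refine ⟨0, ?_, fun v hv => ⟨1, ?_, fun n _ => by omega⟩⟩
      · push Not at hR
        obtain ⟨i₀, hi₀⟩ := hR
        have hk : (Finset.univ : Finset D.Idx).card ≤ clenS A := by
          refine D.card_le_clenS _ fun i _ => ?_
          obtain ⟨g, hg, hgi⟩ := htrans i₀ i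
          obtain ⟨r, hr, hr1⟩ := (Subgroup.bot_or_exists_ne_one _).resolve_left hi₀
          have hgr := hRconj g hg _ _ hr
          rw [hgi] at hgr
          have hgr' : g * r * g⁻¹ ∈ i.1 := by
            obtain ⟨a, -, e⟩ := hgr; rw [← e]; exact D.pr_mem i a
          refine ⟨⟨_, D.idx_le i hgr'⟩, hPA _ ((hP _).mpr fun j => ?_), ?_, fun j _ hji => D.pr_other hji.symm _ hgr'⟩
          · by_cases hji : j = i
            · subst hji; rw [D.pr_self j _ hgr']; exact hgr
            · rw [D.pr_other (Ne.symm hji) _ hgr']; exact Subgroup.one_mem _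
          · rw [D.pr_self i _ hgr']
            simpa [conj_eq_one_iff] using hr1
        rw [Finset.card_univ] at hk
        omega
      · obtain rfl : v = 0 := by omega
        simp [Soc.wt]

end Cfsg.Agent.GeomClasses.CLen
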