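import Cfsg.Agent.GeomClasses.CompLengthOrbits
import Cfsg.Agent.GeomClasses.CompLengthSocle

/-! # The composition length of a permutation group -/

set_option autoImplicit false
set_option linter.unusedSectionVars false

namespace Cfsg.Agent.GeomClasses.CLen

open MulAction
open scoped ArithmeticFunction.Omega

/-- All points but one, acted on by the stabiliser. -/
def offPt {G Ω₀ : Type*} [Group G] [MulAction G Ω₀] (a : Ω₀) : SubMulAction (stabilizer G a) Ω₀ where
  carrier := {x | x ≠ a}
  smul_mem' h x hx e := hx (by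
    have h1 := congrArg (fun y => (h : G)⁻¹ • y) (show (h : G) • x = a from e)
    simp only [inv_smul_smul] at h1
    rw [h1, inv_smul_eq_iff]
    exact h.2.symm)

theorem clenS_subgroupOf_comm {G : Type*} [Group G] [Finite G] (A B : Subgroup G) :
    clenS (A.subgroupOf B) = clenS (B.subgroupOf A) := by
  rw [← clenS_map_injective B.subtype B.subtype_injective, ← clenS_map_injective A.subtype A.subtype_injective,
    Subgroup.subgroupOf_map_subtype, Subgroup.subgroupOf_map_subtype, inf_comm]

/-- The primitive case. -/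
theorem bound_primitive {G Ω₀ : Type} [Group G] [Finite G] [Finite Ω₀] [MulAction G Ω₀] [FaithfulSMul G Ω₀]
    [IsPretransitive G Ω₀] (ih : ∀ k < Nat.card Ω₀, Bound.{0, 0} k) (hn : 2 ≤ Nat.card Ω₀) (a : Ω₀)
    (hmax : IsCoatom (stabilizer G a)) : 3 * clenS (⊤ : Subgroup G) + 4 ≤ 4 * Nat.card Ω₀ := by
  classical
  set H := stabilizer G a with hH
  have hcard : Nat.card (offPt (G := G) a) + 1 = Nat.card Ω₀ := by
    haveI : Unique {x : Ω₀ // x = a} := ⟨⟨⟨a, rfl⟩⟩, fun x => Subtype.ext x.2⟩
    have h := Nat.card_congr (Equiv.sumCompl fun x : Ω₀ => x = a)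
    rw [Nat.card_sum, Nat.card_unique] at h
    show Nat.card {x : Ω₀ // x ≠ a} + 1 = _
    rw [← h, add_comm]
  haveI : FaithfulSMul H (offPt (G := G) a) := ⟨fun {k l} h => Subtype.ext (eq_of_smul_eq_smul fun x : Ω₀ => by
    by_cases hx : x = a
    · subst hx; exact k.2.trans l.2.symm
    · exact congrArg Subtype.val (h ⟨x, hx⟩))⟩
  have hbH := ih _ (by omega) H (offPt (G := G) a) rfl
  haveI : Nonempty (offPt (G := G) a) := (Nat.card_pos_iff.mp (by omega)).1
  haveI : Nontrivial G := by
    by_contra hcon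
    rw [not_nontrivial_iff_subsingleton] at hcon
    exact hmax.1 (Subsingleton.elim _ _)
  obtain ⟨N, hN⟩ := Core.exists_isMinNormal (G := G)
  haveI := hN.1
  have hNH : ¬ N ≤ H := fun hle => hN.2.1 (eq_bot_iff.mpr fun x hx => by
    refine Subgroup.mem_bot.mpr (eq_of_smul_eq_smul (α := Ω₀) fun p => ?_)
    obtain ⟨g, rfl⟩ := exists_smul_eq G a p
    have h1 := hle (hN.1.conj_mem x hx g⁻¹)
    rw [inv_inv, hH, mem_stabilizer_iff, mul_smul, mul_smul, inv_smul_eq_iff] at h1
    rw [h1, one_smul])
  have hsup : N ⊔ H = ⊤ := (hmax.le_iff.mp le_sup_right).resolve_right fun e => hNH (e ▸ le_sup_left)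
  have htrans : ∀ p : Ω₀, ∃ x : N, (x : G) • a = p := fun p => by
    obtain ⟨g, rfl⟩ := exists_smul_eq G a p
    obtain ⟨x, hx, h, hh, rfl⟩ := Subgroup.mem_sup_of_normal_left.mp (show g ∈ N ⊔ H by rw [hsup]; exact Subgroup.mem_top g)
    exact ⟨⟨x, hx⟩, by rw [mul_smul, mem_stabilizer_iff.mp hh]⟩
  have hquot : clenS (⊤ : Subgroup G) + clenS (H.subgroupOf N) ≤ clenS N + clenS (⊤ : Subgroup H) := by
    set ψ : H →* G ⧸ N := (QuotientGroup.mk' N).comp H.subtype with hψ
    have hs : Function.Surjective ψ := fun y => by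
      obtain ⟨g, rfl⟩ := QuotientGroup.mk_surjective y
      obtain ⟨x, hx, h, hh, rfl⟩ := Subgroup.mem_sup_of_normal_left.mp (show g ∈ N ⊔ H by rw [hsup]; exact Subgroup.mem_top g)
      refine ⟨⟨h, hh⟩, ?_⟩
      show (QuotientGroup.mk h : G ⧸ N) = _
      rw [QuotientGroup.mk_mul, (QuotientGroup.eq_one_iff x).mpr hx, one_mul]
    have hk : ψ.ker = N.subgroupOf H := by
      rw [hψ, ← MonoidHom.comap_ker, QuotientGroup.ker_mk']; rfl
    have h1 := ker_add_range_le ψ hs
    rw [hk, clenS_subgroupOf_comm] at h1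
    have h2 := top_le_ker_add_range (QuotientGroup.mk' N)
    rw [QuotientGroup.ker_mk', MonoidHom.range_eq_top.mpr (QuotientGroup.mk'_surjective N)] at h2
    omega
  have ho : 0 < orbCount H (offPt (G := G) a) := orbCount_pos
  by_cases hab : IsMulCommutative N
  · -- a regular elementary abelian group
    haveI : Group.IsSolvable N := Group.isSolvable_of_comm fun x y => hab.is_comm.comm x y
    obtain ⟨-, p, hp, hexp, hpN⟩ := hN.elementaryAbelian inferInstance
    haveI := Fact.mk hp
    have hreg : ∀ x : N, (x : G) • a = a → x = 1 := fun x hx => Subtype.ext (eq_of_smul_eq_smul (α := Ω₀) fun q => by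
      obtain ⟨y, rfl⟩ := htrans q
      rw [smul_smul, show (x : G) * y = y * x from congrArg Subtype.val (hab.is_comm.comm x y), mul_smul, hx,
        Subgroup.coe_one, one_smul])
    have hbij : Function.Bijective fun x : N => (x : G) • a := ⟨fun x y h => by
      have h1 := hreg (y⁻¹ * x) (by
        simp only at h
        rw [Subgroup.coe_mul, mul_smul, h, Subgroup.coe_inv, inv_smul_smul])
      exact (inv_mul_eq_one.mp h1).symm, htrans⟩
    obtain ⟨d, hd⟩ := IsPGroup.iff_card.mp hpN
    have hnd : Nat.card Ω₀ = p ^ d := by rw [← hd, Nat.card_congr (Equiv.ofBijective _ hbij)]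
    have hNc : clenS N ≤ d := by
      have := clenS_le_cardFactors N
      rwa [hd, ArithmeticFunction.cardFactors_apply_prime_pow hp] at this
    rcases Nat.lt_or_ge d 2 with h2 | h2
    · omega
    · have hG : clenS (⊤ : Subgroup G) ≤ d + Ω (Nat.card H) := by
        have h1 := clenS_le_cardFactors (⊤ : Subgroup G)
        have h3 : Nat.card G = Nat.card Ω₀ * Nat.card H := by
          rw [hH, ← MulAction.index_stabilizer_of_transitive G a, Subgroup.index_mul_card]
        rw [Subgroup.card_top, h3, hnd, ArithmeticFunction.cardFactors_mul (pow_pos hp.pos d).ne' Nat.card_pos.ne',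
          ArithmeticFunction.cardFactors_apply_prime_pow hp] at h1
        exact h1
      let ρ : H →* MulAut N := (MulAut.conjNormal).comp H.subtype
      have hρ : Function.Injective ρ := by
        refine (injective_iff_map_eq_one ρ).mpr fun h hh => Subtype.ext (eq_of_smul_eq_smul (α := Ω₀) fun q => ?_)
        obtain ⟨x, rfl⟩ := htrans q
        have hx : (h : G) * x * (h : G)⁻¹ = x := by
          have e := congrArg Subtype.val (MulEquiv.congr_fun hh x)
          simpa [ρ, MulAut.conjNormal_apply] using e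
        rw [Subgroup.coe_one, one_smul, smul_smul, show (h : G) * x = x * h by
          calc (h : G) * x = ((h : G) * x * (h : G)⁻¹) * h := by group
            _ = x * h := by rw [hx], mul_smul, mem_stabilizer_iff.mp h.2]
      have hfr : (frattini N).index = p ^ d := by
        rw [FGS3.frattini_eq_bot_of_elementary (p := p) (fun x y => hab.is_comm.comm x y) (fun x => Subtype.ext (hexp x x.2)),
          Subgroup.index_bot, hd]
      have hdvd := (Subgroup.card_dvd_of_injective ρ hρ).trans (FGS3.card_mulAut_dvd hpN hfr)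
      rw [FGS3.frattini_eq_bot_of_elementary (p := p) (fun x y => hab.is_comm.comm x y) (fun x => Subtype.ext (hexp x x.2)),
        Subgroup.card_bot, one_pow, one_mul] at hdvd
      have := affine_numeric h2 hdvd
      have : 1 ≤ p ^ d := Nat.one_le_pow _ _ hp.pos
      omega
  · obtain ⟨D, rfl⟩ := exists_soc hN hab
    obtain ⟨V, hV, hvals⟩ := D.exists_values H hmax hsup
    -- the least weight above a point
    let F : offPt (G := G) a → ℕ := fun p => sInf {v | ∃ x : D.N, (x : G) • a = p.1 ∧ D.wt x = v}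
    have hF : ∀ (h : H) (p : offPt (G := G) a), F (h • p) = F p := by
      intro h p
      have key : ∀ (h : H) (p : offPt (G := G) a), {v | ∃ x : D.N, (x : G) • a = p.1 ∧ D.wt x = v} ⊆
          {v | ∃ x : D.N, (x : G) • a = (h • p).1 ∧ D.wt x = v} := by
        rintro h p _ ⟨x, hx, rfl⟩
        refine ⟨D.cjN h x, ?_, D.wt_conj _ x⟩
        show ((h : G) * x * (h : G)⁻¹) • a = (h : G) • p.1
        rw [mul_smul, mul_smul, inv_smul_eq_iff.mpr (mem_stabilizer_iff.mp h.2).symm, hx]
      refine congrArg sInf (Set.Subset.antisymm ?_ (key h p))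
      have := key h⁻¹ (h • p)
      rwa [inv_smul_smul] at this
    have hS : (Finset.Icc 1 V).card ≤ orbCount H (offPt (G := G) a) := by
      refine orbCount_ge F hF _ fun v hv => ?_
      rw [Finset.mem_Icc] at hv
      obtain ⟨x, hx, hxn⟩ := hvals v hv.2
      have hne : (x : G) • a ≠ a := fun e => by
        have h1 := hxn x⁻¹ (Subgroup.mem_subgroupOf.mpr (H.inv_mem e))
        simp [Soc.wt] at h1
        omega
      refine ⟨⟨(x : G) • a, hne⟩, le_antisymm (Nat.sInf_le ⟨x, rfl, hx⟩) (le_csInf ⟨v, x, rfl, hx⟩ ?_)⟩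
      rintro w ⟨y, hy, rfl⟩
      have h1 := hxn (x⁻¹ * y) (Subgroup.mem_subgroupOf.mpr (by
        rw [hH, mem_stabilizer_iff, Subgroup.coe_mul, mul_smul, hy, Subgroup.coe_inv]
        exact inv_smul_smul _ a))
      rwa [mul_inv_cancel_left] at h1
    rw [Nat.card_Icc] at hS
    omega

/-- The inductive step. -/
theorem bound_step {G Ω₀ : Type} [Group G] [Finite G] [Finite Ω₀] [MulAction G Ω₀] [FaithfulSMul G Ω₀]
    (ih : ∀ k < Nat.card Ω₀, Bound.{0, 0} k) :
    3 * clenS (⊤ : Subgroup G) + 4 * orbCount G Ω₀ ≤ 4 * Nat.card Ω₀ := by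
  classical
  rcases Nat.lt_or_ge (Nat.card Ω₀) 2 with hn | hn
  · haveI : Subsingleton Ω₀ := (Finite.card_le_one_iff_subsingleton).mp (by omega)
    have hG : (⊤ : Subgroup G) = ⊥ := eq_bot_iff.mpr fun g _ =>
      Subgroup.mem_bot.mpr (eq_of_smul_eq_smul (α := Ω₀) fun p => Subsingleton.elim _ _)
    rw [hG, clenS_bot]
    have := orbCount_le (G := G) (Ω₀ := Ω₀)
    omega
  haveI : Nonempty Ω₀ := (Nat.card_pos_iff.mp (by omega)).1
  set a := Classical.arbitrary Ω₀
  by_cases htr : ∀ b, b ∈ orbit G a
  · haveI : IsPretransitive G Ω₀ := ⟨fun x y => by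
      obtain ⟨g, hg⟩ := htr x
      obtain ⟨k, hk⟩ := htr y
      exact ⟨k * g⁻¹, by simp only at hg hk; rw [← hg, mul_smul, inv_smul_smul, hk]⟩⟩
    have ho : orbCount G Ω₀ = 1 := by
      haveI : Subsingleton (Quotient (orbitRel G Ω₀)) := ⟨fun x y => by
        obtain ⟨x, rfl⟩ := Quotient.mk_surjective x
        obtain ⟨y, rfl⟩ := Quotient.mk_surjective y
        exact Quotient.sound ((orbitRel_apply).mpr (exists_smul_eq G y x))⟩
      have := orbCount_pos (G := G) (Ω₀ := Ω₀)
      have h1 : orbCount G Ω₀ ≤ 1 := Finite.card_le_one_iff_subsingleton.mpr inferInstance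
      omega
    rw [ho, mul_one]
    by_cases hmax : IsCoatom (stabilizer G a)
    · exact bound_primitive ih hn a hmax
    · have hne : stabilizer G a ≠ ⊤ := fun e => by
        have := MulAction.index_stabilizer_of_transitive G a
        rw [e, Subgroup.index_top] at this
        omega
      obtain ⟨L, hL1, hL2⟩ : ∃ L, stabilizer G a < L ∧ L ≠ ⊤ := by
        by_contra hcon
        push Not at hcon
        exact hmax ⟨hne, hcon⟩
      have hLi : L.index < Nat.card Ω₀ := by
        rw [← MulAction.index_stabilizer_of_transitive G a]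
        exact Subgroup.index_strictAnti hL1
      have hL0 : 2 ≤ L.index := by
        have h0 := Subgroup.index_ne_zero_of_finite (H := L)
        have h1 : L.index ≠ 1 := fun e => hL2 (Subgroup.index_eq_one.mp e)
        omega
      set φ := MulAction.toPermHom G (G ⧸ L) with hφ
      have h1 := bound_range (G := G) (Ω₀ := G ⧸ L) (ih _ hLi)
      rw [← hφ] at h1
      have hA : 0 < orbCount G (G ⧸ L) := orbCount_pos
      have hidx : Nat.card (G ⧸ L) = L.index := rfl
      -- the blocks are invariant under the kernel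
      choose g hg using fun p : Ω₀ => exists_smul_eq G a p
      have hinv : ∀ (k : φ.ker) (p : Ω₀), (g (k • p) : G ⧸ L) = (g p : G ⧸ L) := by
        intro k p
        have h2 : (g (k • p) : G ⧸ L) = ((k : G) * g p : G) := by
          refine QuotientGroup.eq.mpr (hL1.le ?_)
          rw [mem_stabilizer_iff, mul_smul, mul_smul, hg, inv_smul_eq_iff, hg]
          rfl
        rw [h2]
        exact Equiv.congr_fun (MonoidHom.mem_ker.mp k.2) (g p : G ⧸ L)
      have hsurj : ∀ y : G ⧸ L, ∃ p, (g p : G ⧸ L) = y := fun y => by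
        obtain ⟨x, rfl⟩ := QuotientGroup.mk_surjective y
        refine ⟨x • a, QuotientGroup.eq.mpr (hL1.le ?_)⟩
        rw [mem_stabilizer_iff, mul_smul, inv_smul_eq_iff, hg]
      haveI : Fintype (G ⧸ L) := Fintype.ofFinite _
      have hK : L.index ≤ orbCount φ.ker Ω₀ := by
        have := orbCount_ge (G := φ.ker) (fun p : Ω₀ => (g p : G ⧸ L)) hinv Finset.univ fun y _ => hsurj y
        rwa [Finset.card_univ, ← Nat.card_eq_fintype_card, hidx] at this
      obtain ⟨b, hb⟩ : ∃ b, b ∉ orbit φ.ker a := by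
        by_contra hcon
        push Not at hcon
        haveI : Subsingleton (G ⧸ L) := ⟨fun x y => by
          obtain ⟨p, rfl⟩ := hsurj x
          obtain ⟨q, rfl⟩ := hsurj y
          obtain ⟨k, rfl⟩ := hcon p
          obtain ⟨l, rfl⟩ := hcon q
          exact (hinv k a).trans (hinv l a).symm⟩
        have := Finite.card_le_one_iff_subsingleton.mpr ‹Subsingleton (G ⧸ L)›
        omega
      have h2 := bound_intransitive (G := φ.ker) ih ih hb
      rw [clenS_top_sub] at h2
      have h3 := top_le_ker_add_range φ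
      omega
  · push Not at htr
    obtain ⟨b, hb⟩ := htr
    exact bound_intransitive ih ih hb

theorem bound (n : ℕ) : Bound.{0, 0} n := by
  induction n using Nat.strong_induction_on with
  | _ n ih =>
    intro G _ _ Ω₀ _ _ _ hn
    subst hn
    exact bound_step ih

/-- The statement for an arbitrary action. -/
theorem series_bound {G Ω₀ : Type*} [Group G] [Finite G] [MulAction G Ω₀] [FaithfulSMul G Ω₀] [Fintype Ω₀]
    (l : ℕ) (H : ℕ → Subgroup G) (hs : IsSeries (⊤ : Subgroup G) l H) :
    3 * l ≤ 4 * (Fintype.card Ω₀ - Nat.card (Quotient (MulAction.orbitRel G Ω₀))) := by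
  classical
  set e := Fintype.equivFin Ω₀
  set f : G →* Equiv.Perm (Fin (Fintype.card Ω₀)) := e.permCongrHom.toMonoidHom.comp (MulAction.toPermHom G Ω₀) with hf
  have hfinj : Function.Injective f := e.permCongrHom.injective.comp MulAction.toPerm_injective
  have hb := bound (Fintype.card Ω₀) f.range (Fin (Fintype.card Ω₀)) (Nat.card_fin _)
  rw [clenS_top_sub, MonoidHom.range_eq_map, clenS_map_injective f hfinj] at hb
  have hl := le_clenS hs
  have hrel : ∀ x y : Ω₀, (orbitRel G Ω₀) x y ↔ (orbitRel ↥(Subgroup.map f ⊤) (Fin (Fintype.card Ω₀))) (e x) (e y) := by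
    intro x y
    rw [orbitRel_apply, orbitRel_apply, mem_orbit_iff, mem_orbit_iff]
    constructor
    · rintro ⟨g, rfl⟩
      exact ⟨⟨f g, g, trivial, rfl⟩, by simp [hf, Subgroup.smul_def, Equiv.permCongrHom, Equiv.permCongr_apply]⟩
    · rintro ⟨⟨x', hx'⟩, hg⟩
      obtain ⟨g, -, rfl⟩ := Subgroup.mem_map.mp hx'
      refine ⟨g, e.injective ?_⟩
      simpa [hf, Subgroup.smul_def, Equiv.permCongrHom, Equiv.permCongr_apply] using hg
  have hq : Nat.card (Quotient (orbitRel G Ω₀)) = orbCount ↥(Subgroup.map f ⊤) (Fin (Fintype.card Ω₀)) :=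
    Nat.card_congr (Quotient.congr e hrel)
  omega

end Cfsg.Agent.GeomClasses.CLen
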