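import Cfsg.Agent.GeomClasses.CompLength
import Cfsg.Agent.FGS3.PGroupAut

/-! # Orbit counts, intransitive groups and numerical bounds -/

set_option autoImplicit false
set_option linter.unusedSectionVars false

namespace Cfsg.Agent.GeomClasses.CLen

open MulAction
open scoped ArithmeticFunction.Omega

universe u v

variable {G : Type u} [Group G] {Ω₀ : Type v} [MulAction G Ω₀]

/-- The number of orbits. -/
noncomputable def orbCount (G : Type u) [Group G] (Ω₀ : Type v) [MulAction G Ω₀] : ℕ :=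
  Nat.card (Quotient (MulAction.orbitRel G Ω₀))

theorem orbCount_ge [Finite Ω₀] {X : Type*} (f : Ω₀ → X) (hf : ∀ (g : G) p, f (g • p) = f p) (S : Finset X)
    (hS : ∀ x ∈ S, ∃ p, f p = x) : S.card ≤ orbCount G Ω₀ := by
  classical
  let f' : Quotient (MulAction.orbitRel G Ω₀) → X := Quotient.lift f fun a b h => by
    obtain ⟨g, rfl⟩ := MulAction.mem_orbit_iff.mp ((MulAction.orbitRel_apply).mp h)
    exact hf g b
  haveI : Fintype (Quotient (MulAction.orbitRel G Ω₀)) := Fintype.ofFinite _
  rw [orbCount, Nat.card_eq_fintype_card, ← Finset.card_univ]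
  refine le_trans (Finset.card_le_card fun x hx => ?_) (Finset.card_image_le (f := f'))
  obtain ⟨p, rfl⟩ := hS x hx
  exact Finset.mem_image.mpr ⟨Quotient.mk _ p, Finset.mem_univ _, rfl⟩

theorem orbCount_pos [Finite Ω₀] [Nonempty Ω₀] : 0 < orbCount G Ω₀ := by
  haveI : Nonempty (Quotient (MulAction.orbitRel G Ω₀)) := ⟨Quotient.mk _ (Classical.arbitrary Ω₀)⟩
  exact Nat.card_pos

theorem orbCount_le [Finite Ω₀] : orbCount G Ω₀ ≤ Nat.card Ω₀ :=
  Nat.card_le_card_of_surjective _ Quotient.mk_surjective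

/-- The bound asserted for every faithful action on `n` points. -/
def Bound (n : ℕ) : Prop :=
  ∀ (G : Type u) [Group G] [Finite G] (Ω₀ : Type v) [Finite Ω₀] [MulAction G Ω₀] [FaithfulSMul G Ω₀],
    Nat.card Ω₀ = n → 3 * clenS (⊤ : Subgroup G) + 4 * orbCount G Ω₀ ≤ 4 * n

/-- The range of a permutation representation obeys the bound. -/
theorem bound_range [Finite G] [Finite Ω₀] (hb : Bound.{v, v} (Nat.card Ω₀)) :
    3 * clenS (MulAction.toPermHom G Ω₀).range + 4 * orbCount G Ω₀ ≤ 4 * Nat.card Ω₀ := by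
  have h := hb ↥(MulAction.toPermHom G Ω₀).range Ω₀ rfl
  rw [clenS_top_sub] at h
  refine le_trans (Nat.add_le_add_left (Nat.mul_le_mul_left 4 (le_of_eq ?_)) _) h
  have hrel : ∀ a b : Ω₀, (MulAction.orbitRel G Ω₀) a b ↔ (MulAction.orbitRel ↥(MulAction.toPermHom G Ω₀).range Ω₀) a b := by
    intro a b
    rw [MulAction.orbitRel_apply, MulAction.orbitRel_apply, MulAction.mem_orbit_iff, MulAction.mem_orbit_iff]
    constructor
    · rintro ⟨g, hg⟩
      exact ⟨⟨_, g, rfl⟩, hg⟩
    · rintro ⟨⟨_, g, rfl⟩, hg⟩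
      exact ⟨g, hg⟩
  exact Nat.card_congr (Quotient.congr (Equiv.refl Ω₀) hrel)

/-- The complement of an orbit, as a set acted on by any subgroup. -/
def offOrbit (K : Subgroup G) (a : Ω₀) : SubMulAction K Ω₀ where
  carrier := {x | x ∉ MulAction.orbit G a}
  smul_mem' k x hx h := hx (by
    have := MulAction.mem_orbit_of_mem_orbit ((k : G)⁻¹) h
    rwa [Subgroup.smul_def, inv_smul_smul] at this)

/-- An intransitive group obeys the bound if all smaller degrees do. -/
theorem bound_intransitive [Finite G] [Finite Ω₀] [FaithfulSMul G Ω₀]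
    (ih : ∀ k < Nat.card Ω₀, Bound.{u, v} k) (ih' : ∀ k < Nat.card Ω₀, Bound.{v, v} k)
    {a b : Ω₀} (hb : b ∉ MulAction.orbit G a) :
    3 * clenS (⊤ : Subgroup G) + 4 * orbCount G Ω₀ ≤ 4 * Nat.card Ω₀ := by
  classical
  set φ := MulAction.toPermHom G (MulAction.orbit G a) with hφ
  set c := offOrbit φ.ker a with hc
  have hsplit : Nat.card (MulAction.orbit G a) + Nat.card c = Nat.card Ω₀ := by
    rw [← Nat.card_sum]
    exact Nat.card_congr (Equiv.sumCompl (fun x => x ∈ MulAction.orbit G a))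
  haveI : Nonempty (MulAction.orbit G a) := ⟨⟨a, MulAction.mem_orbit_self a⟩⟩
  haveI : Nonempty c := ⟨⟨b, hb⟩⟩
  have hs0 : 0 < Nat.card (MulAction.orbit G a) := Nat.card_pos
  have hc0 : 0 < Nat.card c := Nat.card_pos
  haveI : FaithfulSMul φ.ker c := ⟨fun {k l} h => Subtype.ext (eq_of_smul_eq_smul fun x : Ω₀ => by
    by_cases hx : x ∈ MulAction.orbit G a
    · have e1 := congrArg Subtype.val (Equiv.congr_fun (MonoidHom.mem_ker.mp k.2) ⟨x, hx⟩)
      have e2 := congrArg Subtype.val (Equiv.congr_fun (MonoidHom.mem_ker.mp l.2) ⟨x, hx⟩)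
      exact e1.trans e2.symm
    · exact congrArg Subtype.val (h ⟨x, hx⟩))⟩
  have h1 := bound_range (G := G) (Ω₀ := MulAction.orbit G a) (ih' _ (by omega))
  have h2 := ih _ (by omega) φ.ker c rfl
  rw [clenS_top_sub] at h2
  rw [← hφ] at h1
  have h3 := top_le_ker_add_range φ
  have h4 : 0 < orbCount G (MulAction.orbit G a) := orbCount_pos
  have h5 : orbCount G Ω₀ ≤ orbCount φ.ker c + 1 := by
    let f : Option (Quotient (MulAction.orbitRel φ.ker c)) → Quotient (MulAction.orbitRel G Ω₀) := fun o =>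
      o.elim (Quotient.mk _ a) (Quotient.lift (fun x : c => Quotient.mk _ (x : Ω₀)) fun x y h => by
        obtain ⟨k, rfl⟩ := MulAction.mem_orbit_iff.mp ((MulAction.orbitRel_apply).mp h)
        exact Quotient.sound ((MulAction.orbitRel_apply).mpr ⟨(k : G), rfl⟩))
    have hf : Function.Surjective f := by
      intro o
      obtain ⟨x, rfl⟩ := Quotient.mk_surjective o
      by_cases hx : x ∈ MulAction.orbit G a
      · exact ⟨none, Quotient.sound ((MulAction.orbitRel_apply).mpr (MulAction.mem_orbit_symm.mp hx))⟩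
      · exact ⟨some (Quotient.mk _ ⟨x, hx⟩), rfl⟩
    have := Nat.card_le_card_of_surjective f hf
    rwa [Finite.card_option] at this
  omega

theorem cardFactors_le_clog {m y : ℕ} (hm : m ≠ 0) (hmy : m < y) : Ω m + 1 ≤ Nat.clog 2 y := by
  have h2 : 2 ^ Ω m ≤ m := by
    conv_rhs => rw [← Nat.prod_primeFactorsList hm]
    rw [ArithmeticFunction.cardFactors_apply]
    exact List.pow_card_le_prod _ _ fun q hq => (Nat.prime_of_mem_primeFactorsList hq).two_le
  exact (Nat.lt_clog_iff_pow_lt (by norm_num)).mpr (lt_of_le_of_lt h2 hmy)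

theorem num_bound {p d : ℕ} (hp : 2 ≤ p) (hd : 2 ≤ d) :
    3 * (d * Nat.clog 2 (p ^ d)) ≤ 4 * (p ^ d - 1) := by
  set y := p ^ d with hy
  set L := Nat.clog 2 y with hL
  have hy1 : 1 < y := Nat.one_lt_pow (by omega) (by omega)
  have hdL : d ≤ L := by
    have h1 : 2 ^ d ≤ 2 ^ L := le_trans (Nat.pow_le_pow_left hp d) (Nat.le_pow_clog (by norm_num) y)
    exact (Nat.pow_le_pow_iff_right (by norm_num)).mp h1
  have hlow : 2 ^ (L - 1) < y := by
    have := Nat.pow_pred_clog_lt_self (b := 2) (by norm_num) hy1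
    simpa using this
  by_cases hbig : 6 ≤ L
  · have key : ∀ k, 6 ≤ k → 3 * (k * k) ≤ 4 * 2 ^ (k - 1) := by
      intro k hk
      induction k, hk using Nat.le_induction with
      | base => norm_num
      | succ k hk ihk =>
        have h2 : 2 ^ (k + 1 - 1) = 2 * 2 ^ (k - 1) := by
          rw [← pow_succ']; congr 1; omega
        rw [h2]
        nlinarith [hk, ihk]
    have := key L hbig
    have : d * L ≤ L * L := Nat.mul_le_mul_right L hdL
    omega
  · have hy32 : y ≤ 32 := le_trans (Nat.le_pow_clog (by norm_num) y)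
      (le_trans (Nat.pow_le_pow_right (by norm_num) (show L ≤ 5 by omega)) (by norm_num))
    have hd5 : d ≤ 5 := by omega
    have hp5 : p ≤ 5 := by
      by_contra hcon
      have : 36 ≤ y := le_trans (by norm_num) (le_trans (Nat.pow_le_pow_left (show 6 ≤ p by omega) 2)
        (Nat.pow_le_pow_right (by omega) hd))
      omega
    clear_value L y
    subst hL hy
    interval_cases p <;> interval_cases d <;> first | omega | decide

/-- The bound for a group containing a regular elementary abelian group. -/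
theorem affine_numeric {p d m : ℕ} [Fact p.Prime] (hd : 2 ≤ d)
    (hm : m ∣ ∏ i ∈ Finset.range d, (p ^ d - p ^ i)) :
    3 * (d + Ω m) ≤ 4 * (p ^ d - 1) := by
  have hp := (Fact.out : p.Prime).two_le
  have hpos : ∀ i ∈ Finset.range d, p ^ d - p ^ i ≠ 0 := fun i hi => by
    have := Nat.pow_lt_pow_right (show 1 < p by omega) (Finset.mem_range.mp hi)
    omega
  have hlt : ∀ i ∈ Finset.range d, Ω (p ^ d - p ^ i) + 1 ≤ Nat.clog 2 (p ^ d) := fun i hi =>
    cardFactors_le_clog (hpos i hi) (by
      have := Nat.pow_pos (n := i) (show 0 < p by omega)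
      have := Nat.pow_pos (n := d) (show 0 < p by omega)
      omega)
  have hP : (∏ i ∈ Finset.range d, (p ^ d - p ^ i)) ≠ 0 := Finset.prod_ne_zero_iff.mpr hpos
  obtain ⟨r, hr⟩ := hm
  have hsum : Ω (∏ i ∈ Finset.range d, (p ^ d - p ^ i)) + d ≤ d * Nat.clog 2 (p ^ d) := by
    rw [← Finset.prod_map_val, ArithmeticFunction.cardFactors_multiset_prod (by rw [Finset.prod_map_val]; exact hP), Multiset.map_map]
    have h := Finset.sum_le_sum hlt
    simp only [Finset.sum_add_distrib, Finset.sum_const, Finset.card_range, smul_eq_mul, mul_one] at h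
    exact h
  have hle : Ω m ≤ Ω (∏ i ∈ Finset.range d, (p ^ d - p ^ i)) := by
    have hm0 : m ≠ 0 := fun e => hP (by rw [hr, e, zero_mul])
    have hr0 : r ≠ 0 := fun e => hP (by rw [hr, e, mul_zero])
    rw [hr, ArithmeticFunction.cardFactors_mul hm0 hr0]
    omega
  have := num_bound hp hd
  omega

end Cfsg.Agent.GeomClasses.CLen
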