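import Mathlib

set_option autoImplicit false

namespace Cfsg.Agent.GeomClasses

variable {G : Type*} [Group G]

/-- Complements from a complemented interval below a unique maximal overgroup. -/
theorem exists_complement_of_interval [Finite G] {T X M : Subgroup G} (hTX : T ≤ X)
    (hint : ∀ Y : Subgroup G, T ≤ Y → Y ≤ X →
      ∃ C : Subgroup G, T ≤ C ∧ C ≤ X ∧ Y ⊔ C = X ∧ Y ⊓ C = T)
    (huniq : ∀ M' : Subgroup G, IsCoatom M' → X ≤ M' → M' = M)
    {H : Subgroup G} (hH : ¬ H ≤ M) (hHT : H ⊓ T = ⊥) :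
    ∃ C : Subgroup G, H ⊔ C = ⊤ ∧ H ⊓ C = ⊥ := by
  obtain ⟨C, hTC, hCX, hsup, hinf⟩ := hint (T ⊔ (H ⊓ X)) le_sup_left (sup_le hTX inf_le_right)
  refine ⟨C, ?_, ?_⟩
  · rcases (eq_top_or_exists_le_coatom (H ⊔ C)) with h | ⟨M', hM', hle⟩
    · exact h
    · exfalso
      have hXM' : X ≤ M' := by
        rw [← hsup]
        refine sup_le (sup_le ?_ (inf_le_left.trans (le_sup_left.trans hle))) (le_sup_right.trans hle)
        exact hTC.trans (le_sup_right.trans hle)
      obtain rfl := huniq M' hM' hXM'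
      exact hH (le_sup_left.trans hle)
  · rw [eq_bot_iff, ← hHT]
    refine le_inf inf_le_left ?_
    rw [← hinf]
    exact le_inf (le_trans (le_inf inf_le_left (inf_le_right.trans hCX)) le_sup_right) inf_le_right

/-- The same after conjugation. -/
theorem exists_complement_of_map [Finite G] (e : G ≃* G) {H : Subgroup G}
    (h : ∃ C : Subgroup G, H.map e.toMonoidHom ⊔ C = ⊤ ∧ H.map e.toMonoidHom ⊓ C = ⊥) :
    ∃ C : Subgroup G, H ⊔ C = ⊤ ∧ H ⊓ C = ⊥ := by
  obtain ⟨C, h1, h2⟩ := h
  refine ⟨C.map e.symm.toMonoidHom, ?_, ?_⟩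
  · apply Subgroup.map_injective (f := e.toMonoidHom) e.injective
    rw [Subgroup.map_sup, Subgroup.map_map, Subgroup.map_top_of_surjective _ e.surjective]
    have : e.toMonoidHom.comp e.symm.toMonoidHom = MonoidHom.id G := by ext; simp
    rw [this, Subgroup.map_id]; exact h1
  · apply Subgroup.map_injective (f := e.toMonoidHom) e.injective
    rw [Subgroup.map_inf _ _ _ e.injective, Subgroup.map_map, Subgroup.map_bot]
    have : e.toMonoidHom.comp e.symm.toMonoidHom = MonoidHom.id G := by ext; simp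
    rw [this, Subgroup.map_id]; exact h2

end Cfsg.Agent.GeomClasses
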