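import Mathlib

/-! # Derangements in transitive groups: at least `2|G|/n` unless Frobenius

Rank at least three is the Cameron–Cohen identity. In a doubly transitive group the fixed sets of the
two-point stabilizers are the lines of a linear space, and the fixed set of an element is a subspace of
it; this bounds the number of fixed points well enough.
-/

set_option autoImplicit false
set_option linter.unusedSectionVars false

namespace Cfsg.Agent.GeomClasses.Derang

open MulAction Finset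

variable {G Ω : Type*} [Group G] [Fintype G] [MulAction G Ω] [Fintype Ω] [DecidableEq Ω] [DecidableEq G]

/-- The fixed points of an element. -/
def fx (g : G) : Finset Ω := univ.filter fun z => g • z = z

/-- The stabilizer of two points. -/
def Pf (x y : Ω) : Finset G := univ.filter fun g => g • x = x ∧ g • y = y

/-- The common fixed points of the stabilizer of two points. -/
def Fl (G : Type*) [Group G] [Fintype G] [MulAction G Ω] [DecidableEq G] (x y : Ω) : Finset Ω :=
  univ.filter fun z => ∀ g ∈ Pf (G := G) x y, g • z = z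

theorem mem_fx {g : G} {z : Ω} : z ∈ fx g ↔ g • z = z := by simp [fx]

theorem mem_Pf {x y : Ω} {g : G} : g ∈ Pf (G := G) x y ↔ g • x = x ∧ g • y = y := by simp [Pf]

theorem mem_Fl {x y z : Ω} : z ∈ Fl G x y ↔ ∀ g ∈ Pf (G := G) x y, g • z = z := by simp [Fl]

theorem one_mem_Pf (x y : Ω) : (1 : G) ∈ Pf x y := mem_Pf.mpr ⟨one_smul G x, one_smul G y⟩

open scoped Classical in
/-- Orbit–stabilizer, for finsets. -/
theorem orbit_mul (H : Subgroup G) (z : Ω) :
    ((univ.filter fun g => g ∈ H).image fun g : G => g • z).card * (univ.filter fun g : G => g ∈ H ∧ g • z = z).card =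
      (univ.filter fun g => g ∈ H).card := by
  rw [card_eq_sum_card_fiberwise (s := univ.filter fun g => g ∈ H)
    (t := (univ.filter fun g => g ∈ H).image fun g : G => g • z) (f := fun g : G => g • z)
    fun g hg => mem_image_of_mem _ hg]
  rw [sum_congr rfl fun w hw => ?_, sum_const, smul_eq_mul]
  obtain ⟨u, hu, rfl⟩ := mem_image.mp hw
  simp only [mem_filter, mem_univ, true_and] at hu
  refine (card_bij (fun g _ => u * g) ?_ (fun a _ b _ e => mul_left_cancel e) ?_).symm
  · intro g hg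
    simp only [mem_filter, mem_univ, true_and] at hg ⊢
    exact ⟨H.mul_mem hu hg.1, by rw [mul_smul, hg.2]⟩
  · intro g hg
    simp only [mem_filter, mem_univ, true_and] at hg
    refine ⟨u⁻¹ * g, ?_, mul_inv_cancel_left u g⟩
    simp only [mem_filter, mem_univ, true_and]
    exact ⟨H.mul_mem (H.inv_mem hu) hg.1, by rw [mul_smul, hg.2, inv_smul_smul]⟩

theorem Pf_card_smul (g : G) (x y : Ω) : (Pf (G := G) (g • x) (g • y)).card = (Pf (G := G) x y).card := by
  refine card_bij (fun h _ => g⁻¹ * h * g) ?_ (fun a _ b _ e => mul_left_cancel (mul_right_cancel e)) ?_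
  · intro h hh
    obtain ⟨h1, h2⟩ := mem_Pf.mp hh
    exact mem_Pf.mpr ⟨by rw [mul_smul, mul_smul, h1, inv_smul_smul], by rw [mul_smul, mul_smul, h2, inv_smul_smul]⟩
  · intro h hh
    obtain ⟨h1, h2⟩ := mem_Pf.mp hh
    exact ⟨g * h * g⁻¹, mem_Pf.mpr ⟨by rw [mul_smul, mul_smul, inv_smul_smul, h1],
      by rw [mul_smul, mul_smul, inv_smul_smul, h2]⟩, by group⟩

/-- Fixed pairs, counted by elements or by pairs. -/
theorem sum_pairs {M : Type*} [AddCommMonoid M] (φ : G → M) :
    ∑ x : Ω, ∑ y ∈ univ.erase x, ∑ g ∈ Pf (G := G) x y, φ g =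
      ∑ g : G, ((fx (Ω := Ω) g).card * ((fx (Ω := Ω) g).card - 1)) • φ g := by
  have h1 : ∀ x : Ω, ∀ y, ∑ g ∈ Pf (G := G) x y, φ g = ∑ g : G, if g • x = x ∧ g • y = y then φ g else 0 :=
    fun x y => by rw [Pf, sum_filter]
  simp only [h1]
  rw [sum_congr rfl fun x _ => sum_comm, sum_comm]
  refine sum_congr rfl fun g _ => ?_
  rw [mul_smul]
  rw [show (fx (Ω := Ω) g).card • ((fx (Ω := Ω) g).card - 1) • φ g =
    ∑ _x ∈ fx (Ω := Ω) g, ((fx (Ω := Ω) g).card - 1) • φ g from (sum_const _).symm]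
  rw [fx, sum_filter]
  refine sum_congr rfl fun x _ => ?_
  by_cases hx : g • x = x
  · rw [if_pos hx, ← sum_filter]
    rw [sum_const]
    congr 1
    rw [show (univ.erase x).filter (fun y => g • x = x ∧ g • y = y) = (univ.filter fun z => g • z = z).erase x by
      ext y; simp [hx, and_comm]]
    exact card_erase_of_mem (mem_filter.mpr ⟨mem_univ x, hx⟩)
  · rw [if_neg hx]
    exact sum_eq_zero fun y _ => if_neg fun h => hx h.1

theorem sum_fx (htr : IsPretransitive G Ω) (hne : Nonempty Ω) :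
    ∑ g : G, (fx (Ω := Ω) g).card = Fintype.card G := by
  classical
  simp only [fx, card_filter]
  rw [sum_comm]
  simp only [← card_filter]
  obtain ⟨a⟩ := hne
  have key : ∀ z : Ω, Fintype.card Ω * (univ.filter fun g : G => g • z = z).card = Fintype.card G := fun z => by
    have h := orbit_mul (⊤ : Subgroup G) z
    simp only [Subgroup.mem_top, true_and, filter_true] at h
    rw [show (univ : Finset G).image (fun g : G => g • z) = univ from eq_univ_of_forall fun w => by
      obtain ⟨g, hg⟩ := exists_smul_eq G z w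
      exact mem_image.mpr ⟨g, mem_univ _, hg⟩] at h
    simpa using h
  have h2 : Fintype.card Ω * ∑ z : Ω, (univ.filter fun g : G => g • z = z).card = Fintype.card Ω * Fintype.card G := by
    rw [mul_sum, sum_congr rfl fun z _ => key z, sum_const, card_univ, smul_eq_mul]
  exact Nat.eq_of_mul_eq_mul_left (Fintype.card_pos_iff.mpr ⟨a⟩) h2

/-- The identity behind the Cameron–Cohen bound. -/
theorem n_mul_derangements (htr : IsPretransitive G Ω) (hne : Nonempty Ω) :
    (Fintype.card Ω : ℝ) * ((univ.filter fun g : G => (fx (Ω := Ω) g).card = 0).card : ℝ) =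
      ∑ g : G, ((fx (Ω := Ω) g).card : ℝ) * (((fx (Ω := Ω) g).card : ℝ) - 1) +
        ∑ g ∈ univ.filter (fun g : G => (fx (Ω := Ω) g).card ≠ 0),
          (((fx (Ω := Ω) g).card : ℝ) - 1) * ((Fintype.card Ω : ℝ) - (fx (Ω := Ω) g).card) := by
  set n : ℝ := (Fintype.card Ω : ℝ)
  have h1 : ∑ g : G, ((fx (Ω := Ω) g).card : ℝ) = Fintype.card G := by exact_mod_cast sum_fx htr hne
  have h2 : ∑ g : G, (((fx (Ω := Ω) g).card : ℝ) - 1) * (((fx (Ω := Ω) g).card : ℝ) - n) =
      ∑ g : G, ((fx (Ω := Ω) g).card : ℝ) * (((fx (Ω := Ω) g).card : ℝ) - 1) := by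
    have : ∀ j : ℝ, (j - 1) * (j - n) = j * (j - 1) + (n - n * j) := fun j => by ring
    simp only [this, sum_add_distrib, sum_sub_distrib, ← mul_sum, h1, sum_const, card_univ, nsmul_eq_mul]
    ring
  rw [← sum_filter_add_sum_filter_not univ (fun g : G => (fx (Ω := Ω) g).card = 0)] at h2
  rw [sum_congr rfl fun g hg => by
    rw [(mem_filter.mp hg).2, Nat.cast_zero, show ((0 : ℝ) - 1) * (0 - n) = n by ring],
    sum_const, nsmul_eq_mul] at h2
  rw [← h2, mul_comm]
  rw [add_assoc, ← sum_add_distrib]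
  simp only [show ∀ j : ℝ, (j - 1) * (j - n) + (j - 1) * (n - j) = 0 from fun j => by ring, sum_const_zero, add_zero]

variable [FaithfulSMul G Ω]

omit [Fintype G] [Fintype Ω] [DecidableEq Ω] [DecidableEq G] in
theorem eq_one_of_forall {g : G} (h : ∀ z : Ω, g • z = z) : g = 1 :=
  FaithfulSMul.eq_of_smul_eq_smul fun z => by rw [h z, one_smul]

theorem fx_card_lt {g : G} (h : g ≠ 1) : (fx (Ω := Ω) g).card < Fintype.card Ω := by
  refine card_lt_univ_of_notMem (x := Classical.choose (not_forall.mp (mt eq_one_of_forall h) : ∃ z : Ω, ¬ g • z = z)) ?_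
  rw [mem_fx]
  exact Classical.choose_spec (not_forall.mp (mt eq_one_of_forall h) : ∃ z : Ω, ¬ g • z = z)

section TwoTransitive

variable (h2 : ∀ a b c d : Ω, a ≠ b → c ≠ d → ∃ g : G, g • a = c ∧ g • b = d)
include h2

theorem Pf_card (x y u v : Ω) (hxy : x ≠ y) (huv : u ≠ v) : (Pf (G := G) u v).card = (Pf (G := G) x y).card := by
  obtain ⟨g, rfl, rfl⟩ := h2 x y u v hxy huv
  exact Pf_card_smul g x y

theorem Fl_eq {x y u v : Ω} (hxy : x ≠ y) (huv : u ≠ v) (hu : u ∈ Fl G x y) (hv : v ∈ Fl G x y) :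
    Fl G u v = Fl G x y := by
  have e : Pf (G := G) x y = Pf u v :=
    eq_of_subset_of_card_le (fun g hg => mem_Pf.mpr ⟨mem_Fl.mp hu g hg, mem_Fl.mp hv g hg⟩) (Pf_card h2 x y u v hxy huv).le
  simp only [Fl, e]

theorem Fl_card (x y u v : Ω) (hxy : x ≠ y) (huv : u ≠ v) : (Fl G u v).card = (Fl G x y).card := by
  obtain ⟨g, rfl, rfl⟩ := h2 x y u v hxy huv
  refine card_bij (fun z _ => g⁻¹ • z) ?_ (fun a _ b _ e => (MulAction.injective g⁻¹) e) ?_
  · intro z hz
    refine mem_Fl.mpr fun h hh => ?_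
    obtain ⟨h1, h3⟩ := mem_Pf.mp hh
    have := mem_Fl.mp hz (g * h * g⁻¹) (mem_Pf.mpr ⟨by rw [mul_smul, mul_smul, inv_smul_smul, h1],
      by rw [mul_smul, mul_smul, inv_smul_smul, h3]⟩)
    rw [mul_smul, mul_smul] at this
    exact smul_left_cancel g (this.trans (smul_inv_smul g z).symm)
  · intro z hz
    refine ⟨g • z, mem_Fl.mpr fun h hh => ?_, inv_smul_smul g z⟩
    obtain ⟨h1, h3⟩ := mem_Pf.mp hh
    have := mem_Fl.mp hz (g⁻¹ * h * g) (mem_Pf.mpr ⟨by rw [mul_smul, mul_smul, h1, inv_smul_smul],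
      by rw [mul_smul, mul_smul, h3, inv_smul_smul]⟩)
    rw [mul_smul, mul_smul, inv_smul_eq_iff] at this
    exact this

/-- The fixed set of a nontrivial element is a proper subspace: `(f-1) j < n`. -/
theorem line_bound {x y : Ω} (hxy : x ≠ y) {g : G} (hg : g ≠ 1) :
    ((Fl G x y).card - 1) * (fx (Ω := Ω) g).card + 1 ≤ Fintype.card Ω := by
  obtain ⟨w, hw⟩ : ∃ z : Ω, ¬ g • z = z := not_forall.mp (mt eq_one_of_forall hg)
  have hself : ∀ u v : Ω, u ∈ Fl G u v ∧ v ∈ Fl G u v :=
    fun u v => ⟨mem_Fl.mpr fun h hh => (mem_Pf.mp hh).1, mem_Fl.mpr fun h hh => (mem_Pf.mp hh).2⟩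
  have hne : ∀ z ∈ fx (Ω := Ω) g, w ≠ z := fun z hz e => hw (e ▸ mem_fx.mp hz)
  have hdisj : Set.PairwiseDisjoint ↑(fx (Ω := Ω) g) fun z => (Fl G w z).erase w := by
    intro z hz z' hz' hzz'
    refine disjoint_left.mpr fun u hu hu' => ?_
    obtain ⟨huw, hu1⟩ := mem_erase.mp hu
    obtain ⟨-, hu2⟩ := mem_erase.mp hu'
    have e1 := Fl_eq h2 (hne z hz) (Ne.symm huw) (hself w z).1 hu1
    have e2 := Fl_eq h2 (hne z' hz') (Ne.symm huw) (hself w z').1 hu2
    have hz'mem : z' ∈ Fl G w z := by rw [← e1, e2]; exact (hself w z').2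
    have e3 := Fl_eq h2 (hne z hz) hzz' (hself w z).2 hz'mem
    have hwmem : w ∈ Fl G z z' := e3 ▸ (hself w z).1
    exact hw (mem_Fl.mp hwmem g (mem_Pf.mpr ⟨mem_fx.mp hz, mem_fx.mp hz'⟩))
  have h1 := card_biUnion hdisj
  have h3 : ((fx (Ω := Ω) g).biUnion fun z => (Fl G w z).erase w) ⊆ univ.erase w := fun u hu => by
    obtain ⟨z, -, hz⟩ := mem_biUnion.mp hu
    exact mem_erase.mpr ⟨(mem_erase.mp hz).1, mem_univ u⟩
  have h4 := card_le_card h3
  rw [h1, sum_congr rfl fun z hz => by rw [card_erase_of_mem (hself w z).1, Fl_card h2 x y w z hxy (hne z hz)],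
    sum_const, smul_eq_mul, card_erase_of_mem (mem_univ w), card_univ] at h4
  rw [mul_comm]
  have := Fintype.card_pos_iff.mpr ⟨w⟩
  omega

/-- If all orbits of two-point stabilizers have at most two points, fixed sets are lines. -/
theorem fx_subset_line (hsmall : ∀ u v z : Ω, u ≠ v → ((Pf (G := G) u v).image fun h => h • z).card ≤ 2)
    {x y : Ω} (hxy : x ≠ y) {g : G} (hg : g ∈ Pf x y) (hg1 : g ≠ 1) : fx (Ω := Ω) g ⊆ Fl G x y := by
  classical
  intro z hz
  by_contra hzF
  obtain ⟨d, hd⟩ : ∃ d : Ω, ¬ g • d = d := not_forall.mp (mt eq_one_of_forall hg1)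
  obtain ⟨hgx, hgy⟩ := mem_Pf.mp hg
  have hgz := mem_fx.mp hz
  set d' := g • d with hd'
  have hzx : x ≠ z := fun e => hzF (mem_Fl.mpr fun h hh => e ▸ (mem_Pf.mp hh).1)
  have hzy : y ≠ z := fun e => hzF (mem_Fl.mpr fun h hh => e ▸ (mem_Pf.mp hh).2)
  have hdx : x ≠ d := fun e => hd ((congrArg (g • ·) e.symm).trans (hgx.trans e))
  have hdy : y ≠ d := fun e => hd ((congrArg (g • ·) e.symm).trans (hgy.trans e))
  have orb : ∀ {u v : Ω}, u ≠ v → g ∈ Pf u v → ∀ h ∈ Pf (G := G) u v, h • d = d ∨ h • d = d' := by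
    intro u v huv hguv h hh
    by_contra hcon
    push Not at hcon
    have hsub : ({d, d', h • d} : Finset Ω) ⊆ (Pf (G := G) u v).image fun h => h • d := by
      intro w hw
      simp only [mem_insert, mem_singleton] at hw
      rcases hw with e | e | e <;> rw [e]
      · exact mem_image.mpr ⟨1, one_mem_Pf u v, one_smul G d⟩
      · exact mem_image.mpr ⟨g, hguv, rfl⟩
      · exact mem_image.mpr ⟨h, hh, rfl⟩
    have := (card_le_card hsub).trans (hsmall u v d huv)
    rw [card_eq_three.mpr ⟨d, d', h • d, Ne.symm hd, hcon.1.symm, hcon.2.symm, rfl⟩] at this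
    omega
  -- for each of the two base points, `d'` lies on the line joining it to `d`
  have main : ∀ u v : Ω, u ≠ v → u ≠ z → g • u = u → g • v = v → u ≠ d → z ∉ Fl G u v → d' ∈ Fl G u d := by
    intro u v huv huz hu hv hud hzF
    by_contra hnot
    set A := (Pf (G := G) u v).filter fun h => h • d = d with hA
    set B := (Pf (G := G) u z).filter fun h => h • d = d with hB
    set M := (Pf (G := G) u d).filter fun h => h • d' = d' with hM
    set K := (Pf (G := G) u d).card with hK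
    have hsubM : ∀ {w : Ω}, u ≠ w → g • w = w →
        (Pf (G := G) u w).filter (fun h => h • d = d) ⊆ M ∧ K ≤ 2 * ((Pf (G := G) u w).filter fun h => h • d = d).card := by
      intro w huw hw
      have hguw : g ∈ Pf u w := mem_Pf.mpr ⟨hu, hw⟩
      refine ⟨fun h hh => ?_, ?_⟩
      · obtain ⟨h1, h3⟩ := mem_filter.mp hh
        refine mem_filter.mpr ⟨mem_Pf.mpr ⟨(mem_Pf.mp h1).1, h3⟩, ?_⟩
        have h4 : (h * g) ∈ Pf u w := mem_Pf.mpr
          ⟨by rw [mul_smul, hu, (mem_Pf.mp h1).1], by rw [mul_smul, hw, (mem_Pf.mp h1).2]⟩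
        rcases orb huw hguw _ h4 with e | e
        · rw [mul_smul] at e
          exact absurd (MulAction.injective h (e.trans h3.symm)) hd
        · rwa [mul_smul] at e
      · have h := orbit_mul (stabilizer G u ⊓ stabilizer G w) d
        have e1 : (univ.filter fun h : G => h ∈ stabilizer G u ⊓ stabilizer G w) = Pf u w := by
          ext h; simp [Pf, Subgroup.mem_inf]
        have e2 : (univ.filter fun h : G => h ∈ stabilizer G u ⊓ stabilizer G w ∧ h • d = d) =
            (Pf (G := G) u w).filter fun h => h • d = d := by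
          ext h; simp [Pf, Subgroup.mem_inf]
        rw [e1, e2] at h
        rw [hK, Pf_card h2 u w u d huw hud, ← h]
        exact Nat.mul_le_mul_right _ (hsmall u w d huw)
    obtain ⟨hAM, hAK⟩ := hsubM huv hv
    obtain ⟨hBM, hBK⟩ := hsubM huz hgz
    have hM2 : 2 * M.card ≤ K := by
      simp only [mem_Fl, not_forall] at hnot
      obtain ⟨u₀, hu₀, hu₀'⟩ := hnot
      have h := orbit_mul (stabilizer G u ⊓ stabilizer G d) d'
      have e1 : (univ.filter fun h : G => h ∈ stabilizer G u ⊓ stabilizer G d) = Pf u d := by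
        ext h; simp [Pf, Subgroup.mem_inf]
      have e2 : (univ.filter fun h : G => h ∈ stabilizer G u ⊓ stabilizer G d ∧ h • d' = d') = M := by
        ext h; simp [hM, Pf, Subgroup.mem_inf]
      rw [e1, e2] at h
      rw [hK, ← h]
      refine Nat.mul_le_mul_right _ ?_
      exact one_lt_card.mpr ⟨u₀ • d', mem_image_of_mem _ hu₀, d', mem_image.mpr ⟨1, one_mem_Pf u d, one_smul G d'⟩, hu₀'⟩
    rw [← hA] at hAK
    rw [← hB] at hBK
    have eA : A = M := eq_of_subset_of_card_le hAM (by omega)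
    have eB : B = M := eq_of_subset_of_card_le hBM (by omega)
    set L := (Pf (G := G) u v).filter fun h => h • z = z with hL
    have hAL : A ⊆ L := fun h hh => mem_filter.mpr ⟨(mem_filter.mp hh).1,
      (mem_Pf.mp (mem_filter.mp (show h ∈ B by rw [eB, ← eA]; exact hh)).1).2⟩
    have hL2 : 2 * L.card ≤ K := by
      simp only [mem_Fl, not_forall] at hzF
      obtain ⟨u₀, hu₀, hu₀'⟩ := hzF
      have h := orbit_mul (stabilizer G u ⊓ stabilizer G v) z
      have e1 : (univ.filter fun h : G => h ∈ stabilizer G u ⊓ stabilizer G v) = Pf u v := by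
        ext h; simp [Pf, Subgroup.mem_inf]
      have e2 : (univ.filter fun h : G => h ∈ stabilizer G u ⊓ stabilizer G v ∧ h • z = z) = L := by
        ext h; simp [hL, Pf, Subgroup.mem_inf]
      rw [e1, e2] at h
      rw [hK, Pf_card h2 u v u d huv hud, ← h]
      refine Nat.mul_le_mul_right _ ?_
      exact one_lt_card.mpr ⟨u₀ • z, mem_image_of_mem _ hu₀, z, mem_image.mpr ⟨1, one_mem_Pf u v, one_smul G z⟩, hu₀'⟩
    have eL : A = L := eq_of_subset_of_card_le hAL (by omega)
    have : g ∈ A := eL ▸ mem_filter.mpr ⟨mem_Pf.mpr ⟨hu, hv⟩, hgz⟩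
    exact hd (mem_filter.mp this).2
  have hyx : z ∉ Fl G y x := by
    rw [show Fl G y x = Fl G x y by simp [Fl, Pf, and_comm]]; exact hzF
  have hx' := main x y hxy hzx hgx hgy hdx hzF
  have hy' := main y x hxy.symm hzy hgy hgx hdy hyx
  have hdd : d ≠ d' := fun e => hd e.symm
  have hd1 : d ∈ Fl G x d := mem_Fl.mpr fun h hh => (mem_Pf.mp hh).2
  have hd2 : d ∈ Fl G y d := mem_Fl.mpr fun h hh => (mem_Pf.mp hh).2
  have e1 := Fl_eq h2 hdx hdd hd1 hx'
  have e2 := Fl_eq h2 hdy hdd hd2 hy'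
  have hy3 : y ∈ Fl G x d := by
    rw [← e1, e2]; exact mem_Fl.mpr fun h hh => (mem_Pf.mp hh).1
  have e3 := Fl_eq h2 hdx hxy (mem_Fl.mpr fun h hh => (mem_Pf.mp hh).1) hy3
  exact hd (mem_Fl.mp (e3 ▸ hd1) g hg)

end TwoTransitive

/-- The arithmetic of the tangent-line estimate. -/
theorem tangent_bound (S : Finset G) (j : G → ℝ) (n k σ : ℝ) (hk : (S.card : ℝ) + 1 = k) (hk2 : 2 ≤ k) (hn : 0 < n)
    (hj : ∀ g ∈ S, 0 < j g) (hσ : σ = n + ∑ g ∈ S, j g) (h : (2 * k - 1) * σ ≤ n * k * k) :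
    k ≤ ∑ g ∈ S, (n / j g - 1) := by
  set c := (2 * k - 1) / (k - 1) with hc
  have hk1 : k - 1 ≠ 0 := by linarith
  have hpt : ∀ g ∈ S, 2 * c - 1 - c * c / n * j g ≤ n / j g - 1 := fun g hg => by
    have h0 := hj g hg
    have e : n / j g - 1 - (2 * c - 1 - c * c / n * j g) = (n - c * j g) ^ 2 / (j g * n) := by
      field_simp
      ring
    have : 0 ≤ (n - c * j g) ^ 2 / (j g * n) := by positivity
    linarith
  refine le_trans ?_ (sum_le_sum hpt)
  rw [sum_sub_distrib, sum_const, nsmul_eq_mul, ← mul_sum, show (S.card : ℝ) = k - 1 by linarith,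
    show ∑ g ∈ S, j g = σ - n by linarith]
  have e : (k - 1) * (2 * c - 1) - c * c / n * (σ - n) - k =
      (2 * k - 1) / (n * (k - 1) ^ 2) * (n * k * k - (2 * k - 1) * σ) := by
    rw [hc]
    field_simp
    ring
  have : 0 ≤ (2 * k - 1) / (n * (k - 1) ^ 2) * (n * k * k - (2 * k - 1) * σ) :=
    mul_nonneg (div_nonneg (by linarith) (by positivity)) (by linarith)
  linarith

end Cfsg.Agent.GeomClasses.Derang
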