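import Cfsg.Agent.GeomClasses.Derangements

/-! # Derangements: the doubly transitive case and the theorem -/

set_option autoImplicit false
set_option linter.unusedSectionVars false

namespace Cfsg.Agent.GeomClasses.Derang

open MulAction Finset

variable {G Ω : Type*} [Group G] [Fintype G] [MulAction G Ω] [Fintype Ω] [DecidableEq Ω] [DecidableEq G]
  [FaithfulSMul G Ω]

/-- The orbit of `z` under the stabilizer of two points. -/
def orb (G : Type*) [Group G] [Fintype G] [MulAction G Ω] [DecidableEq G] (x y z : Ω) : Finset Ω :=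
  (Pf (G := G) x y).image fun h => h • z

/-- The size of the stabilizer of three points. -/
def wt (G : Type*) [Group G] [Fintype G] [MulAction G Ω] [DecidableEq G] (x y z : Ω) : ℕ :=
  ((Pf (G := G) x y).filter fun h => h • z = z).card

theorem Pf_eq_filter (x y : Ω) [DecidablePred fun g : G => g ∈ stabilizer G x ⊓ stabilizer G y] :
    (univ.filter fun g : G => g ∈ stabilizer G x ⊓ stabilizer G y) = Pf x y := by
  ext g; simp [Pf, Subgroup.mem_inf]

theorem stab_eq_filter (x : Ω) [DecidablePred fun g : G => g ∈ stabilizer G x] :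
    (univ.filter fun g : G => g ∈ stabilizer G x) = univ.filter fun g : G => g • x = x := by
  ext g; simp

theorem stab_smul_eq_filter (x y : Ω) [DecidablePred fun g : G => g ∈ stabilizer G x ∧ g • y = y] :
    (univ.filter fun g : G => g ∈ stabilizer G x ∧ g • y = y) = Pf x y := by
  ext g; simp [Pf]

theorem orb_mul_wt (x y z : Ω) : (orb G x y z).card * wt G x y z = (Pf (G := G) x y).card := by
  classical
  have h := orbit_mul (stabilizer G x ⊓ stabilizer G y) z
  rw [Pf_eq_filter, show (univ.filter fun g : G => g ∈ stabilizer G x ⊓ stabilizer G y ∧ g • z = z) =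
    (Pf (G := G) x y).filter fun g => g • z = z by ext g; simp [Pf, Subgroup.mem_inf]] at h
  exact h

theorem mem_orb_self (x y z : Ω) : z ∈ orb G x y z := mem_image.mpr ⟨1, one_mem_Pf x y, one_smul G z⟩

theorem orb_eq_of_mem {x y z z' : Ω} (h : z' ∈ orb G x y z) : orb G x y z' = orb G x y z := by
  obtain ⟨u, hu, rfl⟩ := mem_image.mp h
  obtain ⟨hux, huy⟩ := mem_Pf.mp hu
  ext w
  simp only [orb, mem_image]
  constructor
  · rintro ⟨v, hv, rfl⟩
    exact ⟨v * u, mem_Pf.mpr ⟨by rw [mul_smul, hux, (mem_Pf.mp hv).1], by rw [mul_smul, huy, (mem_Pf.mp hv).2]⟩,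
      mul_smul v u z⟩
  · rintro ⟨v, hv, rfl⟩
    refine ⟨v * u⁻¹, mem_Pf.mpr ⟨?_, ?_⟩, by rw [mul_smul, inv_smul_smul]⟩
    · rw [mul_smul, inv_smul_eq_iff.mpr hux.symm, (mem_Pf.mp hv).1]
    · rw [mul_smul, inv_smul_eq_iff.mpr huy.symm, (mem_Pf.mp hv).2]

theorem sum_fx_Pf (x y : Ω) :
    ∑ g ∈ Pf (G := G) x y, (fx (Ω := Ω) g).card = ∑ z : Ω, wt G x y z := by
  simp only [fx, wt, card_filter]
  exact sum_comm

theorem wt_sum_le (x y : Ω) (A : Finset Ω) (hA : Disjoint A (Fl G x y)) :
    ∑ z : Ω, (2 * (wt G x y z : ℤ) - (Pf (G := G) x y).card) ≤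
      (Fl G x y).card * ((Pf (G := G) x y).card : ℤ) + ∑ z ∈ A, (2 * (wt G x y z : ℤ) - (Pf (G := G) x y).card) := by
  rw [← sum_sdiff (subset_univ (A ∪ Fl G x y)), sum_union hA]
  have h1 : ∑ z ∈ univ \ (A ∪ Fl G x y), (2 * (wt G x y z : ℤ) - (Pf (G := G) x y).card) ≤ 0 := by
    refine sum_nonpos fun z hz => ?_
    simp only [mem_sdiff, mem_univ, true_and, mem_union, not_or, mem_Fl, not_forall] at hz
    obtain ⟨-, u, hu, hu'⟩ := hz
    have h2 : 2 ≤ (orb G x y z).card := one_lt_card.mpr ⟨u • z, mem_image_of_mem _ hu, z, mem_orb_self x y z, hu'⟩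
    have h3 := Nat.mul_le_mul_right (wt G x y z) h2
    rw [orb_mul_wt] at h3
    omega
  have h4 : ∑ z ∈ Fl G x y, (2 * (wt G x y z : ℤ) - (Pf (G := G) x y).card) =
      (Fl G x y).card * ((Pf (G := G) x y).card : ℤ) := by
    rw [sum_congr rfl fun z hz => by
      rw [show wt G x y z = (Pf (G := G) x y).card by
        rw [wt, filter_true_of_mem fun g hg => mem_Fl.mp hz g hg]], sum_const, nsmul_eq_mul]
    ring
  omega

theorem wt_sum_orb (x y z : Ω) :
    ∑ w ∈ orb G x y z, (2 * (wt G x y w : ℤ) - (Pf (G := G) x y).card) =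
      (2 - (orb G x y z).card) * ((Pf (G := G) x y).card : ℤ) := by
  have e : ∀ w ∈ orb G x y z, wt G x y w = wt G x y z := fun w hw => by
    have h := orb_mul_wt (G := G) x y w
    rw [orb_eq_of_mem hw, ← orb_mul_wt (G := G) x y z] at h
    exact Nat.eq_of_mul_eq_mul_left (card_pos.mpr ⟨z, mem_orb_self x y z⟩) h
  rw [sum_congr rfl fun w hw => by rw [e w hw], sum_const, nsmul_eq_mul]
  have h : ((orb G x y z).card : ℤ) * (wt G x y z : ℤ) = (Pf (G := G) x y).card := by exact_mod_cast orb_mul_wt x y z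
  linear_combination 2 * h

theorem orb_disjoint_Fl (x y z : Ω) (h : 2 ≤ (orb G x y z).card) : Disjoint (orb G x y z) (Fl G x y) := by
  refine disjoint_left.mpr fun w hw hwF => ?_
  have e : orb G x y w ⊆ {w} := fun v hv => by
    obtain ⟨u, hu, rfl⟩ := mem_image.mp hv
    exact mem_singleton.mpr (mem_Fl.mp hwF u hu)
  have := card_le_card e
  rw [orb_eq_of_mem hw, card_singleton] at this
  omega

/-- Either the orbits carry enough excess, or one has three points, or all have at most two. -/
theorem orbit_trichotomy (x y : Ω) :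
    2 * ((∑ g ∈ Pf (G := G) x y, (fx (Ω := Ω) g).card : ℕ) : ℤ) + 2 * (Pf (G := G) x y).card ≤
        (Fintype.card Ω + (Fl G x y).card : ℕ) * ((Pf (G := G) x y).card : ℤ) ∨
      (∃ z, (orb G x y z).card = 3 ∧ ∀ w, w ∉ orb G x y z → (orb G x y w).card ≤ 2) ∨
      ∀ z, (orb G x y z).card ≤ 2 := by
  have fin : ∀ A : Finset Ω, Disjoint A (Fl G x y) →
      ∑ z ∈ A, (2 * (wt G x y z : ℤ) - (Pf (G := G) x y).card) ≤ -2 * (Pf (G := G) x y).card →
      2 * ((∑ g ∈ Pf (G := G) x y, (fx (Ω := Ω) g).card : ℕ) : ℤ) + 2 * (Pf (G := G) x y).card ≤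
        (Fintype.card Ω + (Fl G x y).card : ℕ) * ((Pf (G := G) x y).card : ℤ) := by
    intro A hA hAle
    have h := wt_sum_le x y A hA
    rw [sum_sub_distrib, ← mul_sum, sum_const, card_univ, nsmul_eq_mul] at h
    rw [sum_fx_Pf]
    push_cast
    linarith
  by_cases hall : ∀ z, (orb G x y z).card ≤ 2
  · exact Or.inr (Or.inr hall)
  push Not at hall
  obtain ⟨z, hz⟩ := hall
  have hk : (0 : ℤ) ≤ (Pf (G := G) x y).card := Int.natCast_nonneg _
  by_cases h4 : 4 ≤ (orb G x y z).card
  · refine Or.inl (fin _ (orb_disjoint_Fl x y z (by omega)) ?_)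
    rw [wt_sum_orb]
    have : (4 : ℤ) ≤ (orb G x y z).card := by exact_mod_cast h4
    nlinarith
  by_cases hothers : ∀ w, w ∉ orb G x y z → (orb G x y w).card ≤ 2
  · exact Or.inr (Or.inl ⟨z, by omega, hothers⟩)
  push Not at hothers
  obtain ⟨w, hw, hw'⟩ := hothers
  have hdisj : Disjoint (orb G x y z) (orb G x y w) := disjoint_left.mpr fun v h1 h2 =>
    hw (by rw [← orb_eq_of_mem h1, orb_eq_of_mem h2]; exact mem_orb_self x y w)
  refine Or.inl (fin (orb G x y z ∪ orb G x y w)
    (disjoint_union_left.mpr ⟨orb_disjoint_Fl x y z (by omega), orb_disjoint_Fl x y w (by omega)⟩) ?_)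
  rw [sum_union hdisj, wt_sum_orb, wt_sum_orb]
  have a : (3 : ℤ) ≤ (orb G x y z).card := by exact_mod_cast hz
  have b : (3 : ℤ) ≤ (orb G x y w).card := by exact_mod_cast hw'
  nlinarith

variable (h2 : ∀ a b c d : Ω, a ≠ b → c ≠ d → ∃ g : G, g • a = c ∧ g • b = d)
include h2

theorem not_three_orbit (hn : 7 ≤ Fintype.card Ω) (x y z : Ω) (hz : (orb G x y z).card = 3)
    (hothers : ∀ w, w ∉ orb G x y z → (orb G x y w).card ≤ 2) : False := by
  classical
  haveI : Fact (Nat.Prime 3) := ⟨Nat.prime_three⟩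
  set H := stabilizer G x ⊓ stabilizer G y
  have hcard : Nat.card H = (Pf (G := G) x y).card := by
    rw [Nat.card_eq_fintype_card, Fintype.card_subtype, Pf_eq_filter]
  obtain ⟨⟨u, hu⟩, huo⟩ := exists_prime_orderOf_dvd_card' 3 (G := H) (by
    rw [hcard, ← orb_mul_wt x y z, hz]; exact dvd_mul_right 3 _)
  rw [← Subgroup.orderOf_coe] at huo
  have huP : u ∈ Pf x y := mem_Pf.mpr ⟨mem_stabilizer_iff.mp (Subgroup.mem_inf.mp hu).1, mem_stabilizer_iff.mp (Subgroup.mem_inf.mp hu).2⟩
  have hu3 : u ^ 3 = 1 := by rw [← huo]; exact pow_orderOf_eq_one u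
  have hfix : ∀ w, w ∉ orb G x y z → u • w = w := by
    intro w hw
    by_contra hne
    have hu2P : u * u ∈ Pf x y := mem_Pf.mpr
      ⟨by rw [mul_smul, (mem_Pf.mp huP).1, (mem_Pf.mp huP).1], by rw [mul_smul, (mem_Pf.mp huP).2, (mem_Pf.mp huP).2]⟩
    have hw3 : (u * u) • w ≠ w := fun e => hne (by
      conv_lhs => rw [← e]
      rw [← mul_smul, ← mul_assoc, ← pow_three', hu3, one_smul])
    have hw4 : (u * u) • w ≠ u • w := fun e => hne (MulAction.injective u (by rwa [mul_smul] at e))
    have hsub : ({w, u • w, (u * u) • w} : Finset Ω) ⊆ orb G x y w := fun v hv => by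
      simp only [mem_insert, mem_singleton] at hv
      rcases hv with e | e | e <;> rw [e]
      · exact mem_orb_self x y w
      · exact mem_image_of_mem _ huP
      · exact mem_image_of_mem _ hu2P
    have := (card_le_card hsub).trans (hothers w hw)
    rw [card_eq_three.mpr ⟨w, u • w, (u * u) • w, Ne.symm hne, hw3.symm, hw4.symm, rfl⟩] at this
    omega
  let f : G →* Equiv.Perm Ω := toPermHom G Ω
  have hinj : Function.Injective f := toPerm_injective (β := Ω)
  have hsupp : (f u).support ⊆ orb G x y z := fun w hw => by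
    by_contra hn'
    exact Equiv.Perm.mem_support.mp hw (hfix w hn')
  have ho : orderOf (f u) = 3 := by rw [orderOf_injective f hinj, huo]
  have h3c : (f u).IsThreeCycle := by
    refine card_support_eq_three_iff.mp (le_antisymm ((card_le_card hsupp).trans hz.le) ?_)
    have h0 : (f u).support.card ≠ 0 := by
      rw [ne_eq, card_eq_zero, Equiv.Perm.support_eq_empty_iff]
      intro e; rw [e, orderOf_one] at ho; omega
    have h1 := Equiv.Perm.card_support_ne_one (f u)
    have h22 : (f u).support.card ≠ 2 := fun e => by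
      rw [(Equiv.Perm.card_support_eq_two.mp e).orderOf] at ho; omega
    omega
  haveI : IsPreprimitive G Ω := isPreprimitive_of_is_two_pretransitive
    ((is_two_pretransitive_iff).mpr fun {a b c d} h h' => h2 a b c d h h')
  have hR : IsPreprimitive f.range Ω := by
    let φ : Ω →ₑ[fun g : G => (⟨f g, g, rfl⟩ : f.range)] Ω := ⟨id, fun _ _ => rfl⟩
    exact IsPreprimitive.of_surjective (f := φ) Function.surjective_id
  have halt := Equiv.Perm.alternatingGroup_le_of_isPreprimitive_of_isThreeCycle_mem hR h3c ⟨u, rfl⟩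
  have hxyF : x ∈ Fl G x y ∧ y ∈ Fl G x y :=
    ⟨mem_Fl.mpr fun h hh => (mem_Pf.mp hh).1, mem_Fl.mpr fun h hh => (mem_Pf.mp hh).2⟩
  have hd := orb_disjoint_Fl (G := G) x y z (by omega)
  have hzx : z ≠ x := fun e => disjoint_left.mp hd (mem_orb_self x y z) (e.symm ▸ hxyF.1)
  have hzy : z ≠ y := fun e => disjoint_left.mp hd (mem_orb_self x y z) (e.symm ▸ hxyF.2)
  have hall : ((univ.erase x).erase y) ⊆ orb G x y z := by
    intro v hv
    obtain ⟨hvy, hvx⟩ : v ≠ y ∧ v ≠ x := by simpa using hv
    by_cases hvz : v = z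
    · rw [hvz]; exact mem_orb_self x y z
    obtain ⟨w, hw⟩ : ∃ w, w ∉ ({x, y, z, v} : Finset Ω) := by
      by_contra hcon
      push Not at hcon
      have := card_le_card (s := (univ : Finset Ω)) fun w _ => hcon w
      have h4 : ({x, y, z, v} : Finset Ω).card ≤ 4 := Finset.card_le_four
      rw [card_univ] at this
      omega
    simp only [mem_insert, mem_singleton, not_or] at hw
    obtain ⟨hwx, hwy, hwz, hwv⟩ := hw
    obtain ⟨g, hg⟩ := halt (show Equiv.swap z w * Equiv.swap z v ∈ alternatingGroup Ω by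
      rw [Equiv.Perm.mem_alternatingGroup, map_mul, Equiv.Perm.sign_swap (Ne.symm hwz), Equiv.Perm.sign_swap (Ne.symm hvz)]
      norm_num)
    have hgv : ∀ p, g • p = Equiv.swap z w (Equiv.swap z v p) := fun p => Equiv.Perm.congr_fun hg p
    refine mem_image.mpr ⟨g, mem_Pf.mpr ⟨?_, ?_⟩, ?_⟩
    · rw [hgv, Equiv.swap_apply_of_ne_of_ne hzx.symm hvx.symm, Equiv.swap_apply_of_ne_of_ne hzx.symm (Ne.symm hwx)]
    · rw [hgv, Equiv.swap_apply_of_ne_of_ne hzy.symm hvy.symm, Equiv.swap_apply_of_ne_of_ne hzy.symm (Ne.symm hwy)]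
    · show g • z = v
      rw [hgv, Equiv.swap_apply_left, Equiv.swap_apply_of_ne_of_ne hvz (Ne.symm hwv)]
  have h5 := card_le_card hall
  rw [hz] at h5
  have h6 : Fintype.card Ω ≤ ((univ.erase x).erase y).card + 2 := by
    have a1 := card_le_card_sdiff_add_card (s := (univ : Finset Ω)) (t := {x, y})
    have a2 : ({x, y} : Finset Ω).card ≤ 2 := card_le_two
    have a3 : (univ : Finset Ω) \ {x, y} = (univ.erase x).erase y := by ext w; simp; tauto
    rw [a3, card_univ] at a1
    omega
  omega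

omit h2 in
theorem card_eq_mul (htr : IsPretransitive G Ω) (x : Ω) :
    Fintype.card G = Fintype.card Ω * (univ.filter fun g : G => g • x = x).card := by
  classical
  have h := orbit_mul (⊤ : Subgroup G) x
  simp only [Subgroup.mem_top, true_and, filter_true] at h
  rw [show (univ : Finset G).image (fun g : G => g • x) = univ from eq_univ_of_forall fun w => by
    obtain ⟨g, hg⟩ := exists_smul_eq G x w
    exact mem_image.mpr ⟨g, mem_univ _, hg⟩] at h
  simpa using h.symm

theorem stab_eq_mul (x y : Ω) (hxy : x ≠ y) :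
    (univ.filter fun g : G => g • x = x).card = (Fintype.card Ω - 1) * (Pf (G := G) x y).card := by
  classical
  have h := orbit_mul (stabilizer G x) y
  rw [stab_eq_filter, stab_smul_eq_filter, show (univ.filter fun g : G => g • x = x).image (fun g : G => g • y) = univ.erase x from ?_,
    card_erase_of_mem (mem_univ x), card_univ] at h
  · exact h.symm
  · ext w
    simp only [mem_image, mem_filter, mem_univ, true_and, mem_erase, and_true]
    constructor
    · rintro ⟨g, hg, rfl⟩ e
      exact hxy (MulAction.injective g (hg.trans e.symm))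
    · intro hw
      obtain ⟨g, h1, h3⟩ := h2 x y x w hxy (Ne.symm hw)
      exact ⟨g, h1, h3⟩

theorem not_seven (htr : IsPretransitive G Ω) (hn : Fintype.card Ω = 7) (x y : Ω) (hxy : x ≠ y)
    (hk : (Pf (G := G) x y).card = 2) : False := by
  classical
  haveI : Fact (Nat.Prime 7) := ⟨by norm_num⟩
  have hst : (univ.filter fun g : G => g • x = x).card = 12 := by rw [stab_eq_mul h2 x y hxy, hn, hk]
  have hG : Nat.card G = 84 := by rw [Nat.card_eq_fintype_card, card_eq_mul htr x, hst, hn]
  obtain ⟨P⟩ := (inferInstance : Nonempty (Sylow 7 G))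
  have hP : Nat.card P = 7 := by
    rw [P.card_eq_multiplicity, hG, show (84 : ℕ).factorization 7 = 1 from ?_, pow_one]
    rw [Nat.factorization_def _ (by norm_num), show (84 : ℕ) = 7 * 12 from rfl,
      padicValNat.mul (by norm_num) (by norm_num), padicValNat.self (by norm_num),
      padicValNat.eq_zero_of_not_dvd (by norm_num)]
  have hidx : P.index = 12 := by
    have := (P : Subgroup G).card_mul_index
    rw [hP, hG] at this
    omega
  have hone : Nat.card (Sylow 7 G) = 1 := by
    have hd := P.card_dvd_index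
    rw [hidx] at hd
    have hmod := card_sylow_modEq_one 7 G
    unfold Nat.ModEq at hmod
    generalize Nat.card (Sylow 7 G) = m at hd hmod
    have : m ≤ 12 := Nat.le_of_dvd (by norm_num) hd
    interval_cases m <;> first | rfl | omega
  haveI : Subsingleton (Sylow 7 G) := (Nat.card_eq_one_iff_unique.mp hone).1
  have hPn : (P : Subgroup G).Normal := Sylow.normal_of_subsingleton P
  haveI : IsCyclic P := isCyclic_of_prime_card hP
  let ψ : stabilizer G x →* MulAut (P : Subgroup G) := (MulAut.conjNormal (H := (P : Subgroup G))).comp (stabilizer G x).subtype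
  have hinj : Function.Injective ψ := by
    rw [injective_iff_map_eq_one]
    rintro ⟨h, hh⟩ hψ
    refine Subtype.ext (eq_one_of_forall (Ω := Ω) fun z => ?_)
    have hcomm : ∀ u : (P : Subgroup G), h * u = u * h := fun u => by
      have h' := congrArg (fun f : MulAut (P : Subgroup G) => ((f u : (P : Subgroup G)) : G)) hψ
      simp only [ψ, MonoidHom.comp_apply, Subgroup.coe_subtype, MulAut.conjNormal_apply, MulAut.one_apply] at h'
      exact mul_inv_eq_iff_eq_mul.mp h'
    have horb : ∀ w : Ω, ∃ u : (P : Subgroup G), (u : G) • x = w := by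
      intro w
      by_contra hw
      have hdvd : Nat.card (orbit (P : Subgroup G) x) ∣ Nat.card P :=
        ⟨Nat.card (stabilizer (P : Subgroup G) x), by
          rw [← Nat.card_prod]; exact Nat.card_congr (orbitProdStabilizerEquivGroup (P : Subgroup G) x).symm⟩
      rw [hP] at hdvd
      rcases (Nat.dvd_prime (by norm_num)).mp hdvd with h1 | h1
      · have hfx : ∀ u : (P : Subgroup G), (u : G) • x = x := fun u => by
          have := @Subsingleton.elim _ (Nat.card_eq_one_iff_unique.mp h1).1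
            (⟨u • x, mem_orbit x u⟩ : orbit (P : Subgroup G) x) ⟨x, mem_orbit_self x⟩
          exact congrArg Subtype.val this
        have : Nontrivial (P : Subgroup G) := Finite.one_lt_card_iff_nontrivial.mp (by rw [hP]; norm_num)
        obtain ⟨u, hu⟩ := exists_ne (1 : (P : Subgroup G))
        refine hu (Subtype.ext (eq_one_of_forall (Ω := Ω) fun v => ?_))
        obtain ⟨g, rfl⟩ := exists_smul_eq G x v
        have := hfx ⟨g⁻¹ * u * g, by simpa using hPn.conj_mem u u.2 g⁻¹⟩
        rwa [mul_smul, mul_smul, inv_smul_eq_iff] at this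
      · have : orbit (P : Subgroup G) x = Set.univ := Set.eq_of_subset_of_ncard_le (Set.subset_univ _) (by
          rw [Set.ncard_univ, Nat.card_eq_fintype_card, hn, ← Nat.card_coe_set_eq, h1])
        obtain ⟨u, hu⟩ := (this ▸ Set.mem_univ w : w ∈ orbit (P : Subgroup G) x)
        exact hw ⟨u, hu⟩
    obtain ⟨u, rfl⟩ := horb z
    rw [← mul_smul, hcomm, mul_smul, mem_stabilizer_iff.mp hh]
  have hle := Nat.card_le_card_of_injective ψ hinj
  have e : Nat.card (stabilizer G x) = 12 := by
    rw [Nat.card_eq_fintype_card, Fintype.card_subtype, ← hst]; congr 1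
  rw [e, IsCyclic.card_mulAut, hP, Nat.totient_prime (by norm_num)] at hle
  omega

/-- The estimate at one pair. -/
theorem pair_bound (htr : IsPretransitive G Ω) (hn : 7 ≤ Fintype.card Ω) (x y : Ω) (hxy : x ≠ y)
    (hk : 2 ≤ (Pf (G := G) x y).card) :
    ((Pf (G := G) x y).card : ℝ) ≤
      ∑ g ∈ Pf (G := G) x y, ((Fintype.card Ω : ℝ) / (fx (Ω := Ω) g).card - 1) := by
  classical
  have hn0 : (0 : ℝ) < Fintype.card Ω := by exact_mod_cast (show 0 < Fintype.card Ω by omega)
  set n := Fintype.card Ω with hndef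
  set k := (Pf (G := G) x y).card with hkdef
  set f := (Fl G x y).card with hfdef
  set S := (Pf (G := G) x y).erase 1 with hS
  have h1j : (fx (Ω := Ω) (1 : G)).card = n := by simp [fx, hndef]
  rw [← add_sum_erase _ _ (one_mem_Pf (G := G) x y), h1j, div_self hn0.ne', sub_self, zero_add, ← hS]
  have hScard : S.card + 1 = k := by rw [hS, card_erase_of_mem (one_mem_Pf x y), ← hkdef]; omega
  have hSR : (S.card : ℝ) = (k : ℝ) - 1 := by rw [← hScard]; push_cast; ring
  have hk2 : (2 : ℝ) ≤ k := by exact_mod_cast hk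
  have hfle : ∀ g ∈ Pf (G := G) x y, f ≤ (fx (Ω := Ω) g).card := fun g hg =>
    card_le_card fun z hz => mem_fx.mpr (mem_Fl.mp hz g hg)
  have hf2 : 2 ≤ f := one_lt_card.mpr ⟨x, mem_Fl.mpr fun h hh => (mem_Pf.mp hh).1, y,
    mem_Fl.mpr fun h hh => (mem_Pf.mp hh).2, hxy⟩
  have hjpos : ∀ g ∈ S, (0 : ℝ) < (fx (Ω := Ω) g).card := fun g hg => by
    have := hfle g (mem_of_mem_erase hg)
    exact_mod_cast (show 0 < (fx (Ω := Ω) g).card by omega)
  have hline : ∀ g ∈ S, (f - 1) * (fx (Ω := Ω) g).card + 1 ≤ n := fun g hg => line_bound h2 hxy (mem_erase.mp hg).1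
  -- bound every term by a constant
  have byconst : ∀ c : ℝ, (∀ g ∈ S, c ≤ (n : ℝ) / (fx (Ω := Ω) g).card - 1) → (k : ℝ) ≤ (k - 1) * c →
      (k : ℝ) ≤ ∑ g ∈ S, ((n : ℝ) / (fx (Ω := Ω) g).card - 1) := fun c hc hkc => by
    refine hkc.trans ?_
    rw [← hSR, ← nsmul_eq_mul]
    exact card_nsmul_le_sum S _ c hc
  by_cases hf4 : 4 ≤ f
  · refine byconst 2 (fun g hg => ?_) (by linarith)
    rw [le_sub_iff_add_le, le_div_iff₀ (hjpos g hg)]
    have h := hline g hg
    have h3 : 3 * (fx (Ω := Ω) g).card ≤ (f - 1) * (fx (Ω := Ω) g).card := Nat.mul_le_mul_right _ (by omega)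
    norm_num
    exact_mod_cast (show 3 * (fx (Ω := Ω) g).card ≤ n by omega)
  push Not at hf4
  rcases orbit_trichotomy (G := G) x y with hσ | ⟨z, hz, hothers⟩ | hsmall
  · -- enough excess
    rw [← hkdef, ← hndef, ← hfdef] at hσ
    set σ := ∑ g ∈ Pf (G := G) x y, (fx (Ω := Ω) g).card with hσdef
    have hσR : (σ : ℝ) = n + ∑ g ∈ S, ((fx (Ω := Ω) g).card : ℝ) := by
      rw [hσdef, ← add_sum_erase _ _ (one_mem_Pf (G := G) x y), h1j, hS]
      push_cast; rfl
    have hσR2 : 2 * (σ : ℝ) + 2 * k ≤ (n + f) * k := by exact_mod_cast hσ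
    have hk1 : (S.card : ℝ) + 1 = k := by linarith
    rcases (show f = 2 ∨ f = 3 by omega) with e | e
    · refine tangent_bound S _ n k σ hk1 hk2 hn0 hjpos hσR ?_
      rw [e] at hσR2; push_cast at hσR2
      have hσ0 : (0 : ℝ) ≤ σ := Nat.cast_nonneg _
      nlinarith
    · by_cases hkn : 2 * k ≤ n + 1
      · refine tangent_bound S _ n k σ hk1 hk2 hn0 hjpos hσR ?_
        rw [e] at hσR2; push_cast at hσR2
        have hkn' : 2 * (k : ℝ) ≤ n + 1 := by exact_mod_cast hkn
        have : (2 * (k : ℝ) - 1) * (2 * σ) ≤ (2 * k - 1) * ((n + 1) * k) :=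
          mul_le_mul_of_nonneg_left (by linarith) (by linarith)
        nlinarith
      · have hkn' : (n : ℝ) + 2 ≤ 2 * k := by exact_mod_cast (show n + 2 ≤ 2 * k by omega)
        have hn7 : (7 : ℝ) ≤ n := by exact_mod_cast hn
        refine byconst ((n + 1) / (n - 1)) (fun g hg => ?_) ?_
        · have h := hline g hg
          rw [e] at h
          have h' : 2 * ((fx (Ω := Ω) g).card : ℝ) + 1 ≤ n := by exact_mod_cast h
          have h0 := hjpos g hg
          rw [le_sub_iff_add_le, div_add_one (by linarith), div_le_div_iff₀ (by linarith) h0]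
          nlinarith
        · rw [mul_div_assoc', le_div_iff₀ (by linarith)]
          nlinarith
  · exact absurd (not_three_orbit h2 hn x y z hz hothers) id
  · -- all orbits have at most two points
    have hsmallall : ∀ u v w : Ω, u ≠ v → ((Pf (G := G) u v).image fun h => h • w).card ≤ 2 := by
      intro u v w huv
      obtain ⟨g, rfl, rfl⟩ := h2 x y u v hxy huv
      refine le_trans ?_ (hsmall (g⁻¹ • w))
      rw [orb]
      refine le_trans (card_le_card ?_) (card_image_le (f := fun v => g • v))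
      intro v hv
      obtain ⟨h, hh, rfl⟩ := mem_image.mp hv
      refine mem_image.mpr ⟨(g⁻¹ * h * g) • g⁻¹ • w, mem_image.mpr ⟨g⁻¹ * h * g, ?_, rfl⟩, by simp [mul_smul]⟩
      obtain ⟨h1, h3⟩ := mem_Pf.mp hh
      exact mem_Pf.mpr ⟨by rw [mul_smul, mul_smul, h1, inv_smul_smul], by rw [mul_smul, mul_smul, h3, inv_smul_smul]⟩
    have hj : ∀ g ∈ S, (fx (Ω := Ω) g).card = f := fun g hg =>
      le_antisymm (card_le_card (fx_subset_line h2 hsmallall hxy (mem_of_mem_erase hg) (mem_erase.mp hg).1))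
        (hfle g (mem_of_mem_erase hg))
    obtain ⟨g₀, hg₀⟩ : S.Nonempty := card_pos.mp (by omega)
    obtain ⟨d, hd⟩ : ∃ d : Ω, ¬ g₀ • d = d := not_forall.mp (mt eq_one_of_forall (mem_erase.mp hg₀).1)
    have hd2 : 2 ≤ (orb G x y d).card :=
      one_lt_card.mpr ⟨g₀ • d, mem_image_of_mem _ (mem_of_mem_erase hg₀), d, mem_orb_self x y d, hd⟩
    have hkeven : 2 ∣ k := ⟨wt G x y d, by
      rw [hkdef, ← orb_mul_wt x y d, le_antisymm (hsmall d) hd2]⟩
    by_cases hk4 : 4 ≤ k
    · have hk4' : (4 : ℝ) ≤ k := by exact_mod_cast hk4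
      refine byconst (4 / 3) (fun g hg => ?_) (by linarith)
      rw [hj g hg, le_sub_iff_add_le, le_div_iff₀ (by exact_mod_cast (show 0 < f by omega))]
      have : (f : ℝ) ≤ 3 := by exact_mod_cast (show f ≤ 3 by omega)
      have : (7 : ℝ) ≤ n := by exact_mod_cast hn
      linarith
    have hk' : k = 2 := by omega
    have h9 : 3 * f ≤ n := by
      by_contra hlt
      rcases (show n = 7 ∨ n = 8 by omega) with h7 | h8
      · exact not_seven h2 htr h7 x y hxy hk'
      · have hf3 : f = 3 := by omega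
        have hgg : g₀ * g₀ = 1 := by
          have hP : Pf (G := G) x y = {1, g₀} := (eq_of_subset_of_card_le (fun h hh => by
            simp only [mem_insert, mem_singleton] at hh
            rcases hh with rfl | rfl
            · exact one_mem_Pf x y
            · exact mem_of_mem_erase hg₀) (by
              rw [card_pair (Ne.symm (mem_erase.mp hg₀).1), ← hkdef, hk'])).symm
          obtain ⟨a, b⟩ := mem_Pf.mp (mem_of_mem_erase hg₀)
          have hm : g₀ * g₀ ∈ Pf x y := mem_Pf.mpr ⟨by rw [mul_smul, a, a], by rw [mul_smul, b, b]⟩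
          rw [hP, mem_insert, mem_singleton] at hm
          exact hm.resolve_right fun e => (mem_erase.mp hg₀).1 (mul_eq_left.mp e)
        have heven : ((univ \ fx (Ω := Ω) g₀).card : ZMod 2) = 0 := by
          rw [card_eq_sum_ones, Nat.cast_sum]
          refine sum_involution (fun v _ => g₀ • v) ?_ ?_ ?_ ?_
          · intro v _; decide
          · intro v hv _
            simp only [mem_sdiff, mem_fx, mem_univ, true_and] at hv
            exact hv
          · intro v hv
            simp only [mem_sdiff, mem_fx, mem_univ, true_and] at hv ⊢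
            exact fun e => hv (MulAction.injective g₀ e)
          · intro v _; rw [← mul_smul, hgg, one_smul]
        rw [card_sdiff_of_subset (subset_univ _), card_univ, ← hndef, hj g₀ hg₀, h8, hf3] at heven
        exact absurd heven (by decide)
    refine byconst 2 (fun g hg => ?_) (by rw [hk']; norm_num)
    rw [hj g hg, le_sub_iff_add_le, le_div_iff₀ (by exact_mod_cast (show 0 < f by omega))]
    norm_num
    exact_mod_cast h9

omit h2 in
theorem fixed_card (g : G) : Nat.card (fixedBy Ω g) = (fx (Ω := Ω) g).card := by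
  rw [Nat.card_eq_fintype_card, Fintype.card_subtype]
  simp [fx, mem_fixedBy]

omit h2 in
/-- The dichotomy. -/
theorem derangement_bound (htr : IsPretransitive G Ω) (hn : 7 ≤ Fintype.card Ω) :
    (∃ a : ℕ, (a = 1 ∨ a = 2) ∧
      (IsPretransitive G Ω ∧ (∃ g : G, g ≠ 1 ∧ ∃ ω : Ω, g • ω = ω) ∧ ∀ g : G, g ≠ 1 → Nat.card (fixedBy Ω g) ≤ 1) ∧
      a * Nat.card G = Fintype.card Ω * (Fintype.card Ω - 1) ∧
      Fintype.card Ω * Nat.card {g : G // ∀ ω : Ω, g • ω ≠ ω} = a * Nat.card G) ∨
    2 * Nat.card G ≤ Fintype.card Ω * Nat.card {g : G // ∀ ω : Ω, g • ω ≠ ω} := by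
  classical
  haveI hne : Nonempty Ω := Fintype.card_pos_iff.mp (by omega)
  set n := Fintype.card Ω with hndef
  set D := (univ.filter fun g : G => (fx (Ω := Ω) g).card = 0).card with hD
  have hDer : Nat.card {g : G // ∀ ω : Ω, g • ω ≠ ω} = D := by
    rw [Nat.card_eq_fintype_card, Fintype.card_subtype, hD]
    congr 1; ext g; simp [fx, filter_eq_empty_iff]
  have hGc : Nat.card G = Fintype.card G := Nat.card_eq_fintype_card
  have hid := n_mul_derangements (G := G) (Ω := Ω) htr hne
  rw [← hndef, ← hD] at hid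
  have hjj : ∀ g : G, (((fx (Ω := Ω) g).card * ((fx (Ω := Ω) g).card - 1) : ℕ) : ℝ) =
      ((fx (Ω := Ω) g).card : ℝ) * (((fx (Ω := Ω) g).card : ℝ) - 1) := fun g => by
    rcases Nat.eq_zero_or_pos (fx (Ω := Ω) g).card with h | h
    · simp [h]
    · push_cast [Nat.cast_sub (show 1 ≤ (fx (Ω := Ω) g).card from h)]; ring
  have hpairs : ((∑ x : Ω, ∑ y ∈ univ.erase x, (Pf (G := G) x y).card : ℕ) : ℝ) =
      ∑ g : G, ((fx (Ω := Ω) g).card : ℝ) * (((fx (Ω := Ω) g).card : ℝ) - 1) := by
    have h := sum_pairs (G := G) (Ω := Ω) fun _ => (1 : ℕ)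
    simp only [sum_const, smul_eq_mul, mul_one] at h
    rw [h, Nat.cast_sum]
    exact sum_congr rfl fun g _ => hjj g
  set E := ∑ g ∈ univ.filter (fun g : G => (fx (Ω := Ω) g).card ≠ 0),
      (((fx (Ω := Ω) g).card : ℝ) - 1) * ((n : ℝ) - (fx (Ω := Ω) g).card) with hE
  have hE0 : 0 ≤ E := sum_nonneg fun g hg => mul_nonneg (by
      have h := (mem_filter.mp hg).2
      have : (1 : ℝ) ≤ (fx (Ω := Ω) g).card := by exact_mod_cast (show 1 ≤ (fx (Ω := Ω) g).card by omega)
      linarith) (sub_nonneg.mpr (by exact_mod_cast card_le_univ (fx (Ω := Ω) g)))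
  by_cases h2 : ∀ a b c d : Ω, a ≠ b → c ≠ d → ∃ g : G, g • a = c ∧ g • b = d
  · obtain ⟨x, y, hxy⟩ : ∃ x y : Ω, x ≠ y := Fintype.exists_pair_of_one_lt_card (by omega)
    set k := (Pf (G := G) x y).card with hkdef
    have hGn : Fintype.card G = n * ((n - 1) * k) := by rw [card_eq_mul htr x, stab_eq_mul h2 x y hxy]
    have hsum : (∑ x' : Ω, ∑ y' ∈ univ.erase x', (Pf (G := G) x' y').card : ℕ) = Fintype.card G := by
      rw [sum_congr rfl fun x' _ => sum_congr rfl fun y' hy' => Pf_card h2 x y x' y' hxy (Ne.symm (mem_erase.mp hy').1)]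
      simp [hGn, ← hndef, ← hkdef]
    rw [← hpairs, hsum] at hid
    by_cases hk : 2 ≤ k
    · right
      suffices hEG : (Fintype.card G : ℝ) ≤ E by
        have : (2 : ℝ) * Fintype.card G ≤ n * D := by linarith
        rw [hDer, hGc]; exact_mod_cast this
      have hEeq : E = ∑ x' : Ω, ∑ y' ∈ univ.erase x', ∑ g ∈ Pf (G := G) x' y',
          ((n : ℝ) / (fx (Ω := Ω) g).card - 1) := by
        rw [sum_pairs (G := G) (Ω := Ω), hE, sum_filter]
        refine sum_congr rfl fun g _ => ?_
        rw [nsmul_eq_mul, hjj]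
        by_cases h : (fx (Ω := Ω) g).card = 0
        · simp [h]
        · rw [if_pos h]
          have : ((fx (Ω := Ω) g).card : ℝ) ≠ 0 := by exact_mod_cast h
          field_simp
      rw [hEeq, ← hsum, Nat.cast_sum]
      refine sum_le_sum fun x' _ => ?_
      rw [Nat.cast_sum]
      refine sum_le_sum fun y' hy' => ?_
      have hne' : x' ≠ y' := Ne.symm (mem_erase.mp hy').1
      exact pair_bound h2 htr hn x' y' hne' (by rw [Pf_card h2 x y x' y' hxy hne']; exact hk)
    · left
      have hk1 : k = 1 := le_antisymm (by omega) (card_pos.mpr ⟨1, one_mem_Pf x y⟩)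
      have hfix : ∀ g : G, g ≠ 1 → (fx (Ω := Ω) g).card ≤ 1 := by
        intro g hg
        by_contra hlt
        push Not at hlt
        obtain ⟨a, ha, b, hb, hab⟩ := one_lt_card.mp hlt
        have h1 : (Pf (G := G) a b).card = 1 := (Pf_card h2 x y a b hxy hab).trans hk1
        exact hg (card_le_one.mp h1.le g (mem_Pf.mpr ⟨mem_fx.mp ha, mem_fx.mp hb⟩) 1 (one_mem_Pf a b))
      have hE1 : E = 0 := sum_eq_zero fun g hg => by
        by_cases h : g = 1
        · subst h
          simp [fx, hndef]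
        · have a := hfix g h
          have b := (mem_filter.mp hg).2
          rw [show (fx (Ω := Ω) g).card = 1 by omega]
          simp
      refine ⟨1, Or.inl rfl, ⟨htr, ?_, fun g hg => (fixed_card g).le.trans (hfix g hg)⟩, ?_, ?_⟩
      · have h12 : 1 < (univ.filter fun g : G => g • x = x).card := by
          rw [stab_eq_mul h2 x y hxy, ← hndef, ← hkdef, hk1, mul_one]; omega
        obtain ⟨g, hg, hg1⟩ := exists_mem_ne h12 1
        exact ⟨g, hg1, x, (mem_filter.mp hg).2⟩
      · rw [hGc, hGn, hk1, mul_one, one_mul]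
      · rw [hDer, hGc, one_mul]
        have : (n : ℝ) * D = Fintype.card G := by linarith
        exact_mod_cast this
  · right
    suffices hP : (2 : ℝ) * Fintype.card G ≤ ((∑ x : Ω, ∑ y ∈ univ.erase x, (Pf (G := G) x y).card : ℕ) : ℝ) by
      have : (2 : ℝ) * Fintype.card G ≤ n * D := by linarith
      rw [hDer, hGc]; exact_mod_cast this
    suffices hP : ∀ x : Ω, 2 * (univ.filter fun g : G => g • x = x).card ≤ ∑ y ∈ univ.erase x, (Pf (G := G) x y).card by
      have h := sum_le_sum (s := (univ : Finset Ω)) fun x _ => hP x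
      rw [← mul_sum] at h
      rw [show ∑ x : Ω, (univ.filter fun g : G => g • x = x).card = Fintype.card G by
        rw [← sum_fx (G := G) htr hne]; simp only [fx, card_filter]; exact sum_comm] at h
      exact_mod_cast h
    intro x
    set H := univ.filter fun g : G => g • x = x with hH
    have horb : ∀ y, y ≠ x → (H.image fun g : G => g • y) ⊆ univ.erase x ∧
        ∑ v ∈ H.image (fun g : G => g • y), (Pf (G := G) x v).card = H.card := by
      intro y hy
      refine ⟨fun v hv => ?_, ?_⟩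
      · obtain ⟨g, hg, rfl⟩ := mem_image.mp hv
        exact mem_erase.mpr ⟨fun e => hy (MulAction.injective g (e.trans (mem_filter.mp hg).2.symm)), mem_univ _⟩
      · rw [sum_congr rfl fun v hv => ?_, sum_const, smul_eq_mul]
        · have h := orbit_mul (stabilizer G x) y
          rw [stab_eq_filter, stab_smul_eq_filter] at h
          exact h
        · obtain ⟨g, hg, rfl⟩ := mem_image.mp hv
          have := Pf_card_smul g x y
          rwa [(mem_filter.mp hg).2] at this
    obtain ⟨y, hy, y', hy', hsep⟩ : ∃ y, y ≠ x ∧ ∃ y', y' ≠ x ∧ y' ∉ H.image fun g : G => g • y := by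
      by_contra hcon
      push Not at hcon
      apply h2
      intro a b c d hab hcd
      obtain ⟨u, hu⟩ := exists_smul_eq G a x
      obtain ⟨v, hv⟩ := exists_smul_eq G x c
      obtain ⟨h, hh, hh'⟩ := mem_image.mp (hcon (u • b) (fun e => hab (MulAction.injective u (hu.trans e.symm)))
        (v⁻¹ • d) (fun e => hcd (by rw [inv_smul_eq_iff.mp e, hv])))
      refine ⟨v * h * u, ?_, ?_⟩
      · rw [mul_smul, mul_smul, hu, (mem_filter.mp hh).2, hv]
      · rw [mul_smul, mul_smul, hh', smul_inv_smul]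
    obtain ⟨hs1, he1⟩ := horb y hy
    obtain ⟨hs2, he2⟩ := horb y' hy'
    have hdisj : Disjoint (H.image fun g : G => g • y) (H.image fun g : G => g • y') := by
      refine disjoint_left.mpr fun v hv hv' => hsep ?_
      obtain ⟨g, hg, rfl⟩ := mem_image.mp hv
      obtain ⟨g', hg', e⟩ := mem_image.mp hv'
      refine mem_image.mpr ⟨g'⁻¹ * g, mem_filter.mpr ⟨mem_univ _, ?_⟩, by rw [mul_smul, ← e, inv_smul_smul]⟩
      rw [mul_smul, (mem_filter.mp hg).2, inv_smul_eq_iff, (mem_filter.mp hg').2]
    calc 2 * H.card = ∑ v ∈ (H.image fun g : G => g • y) ∪ (H.image fun g : G => g • y'), (Pf (G := G) x v).card := by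
          rw [sum_union hdisj, he1, he2, two_mul]
      _ ≤ _ := sum_le_sum_of_subset (union_subset hs1 hs2)

end Cfsg.Agent.GeomClasses.Derang
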