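import Mathlib
import Cfsg.Agent.GeomClasses.EightTreesData

/-!
Any two binary tree structures on eight points have a common nontrivial symmetry, hence
two Sylow 2-subgroups of `Perm (Fin 8)` always meet nontrivially.
-/

namespace Cfsg.Agent.GeomClasses.EightTrees

/-- level of the smallest block containing two points -/
def lv (a b : ℕ) : ℕ :=
  cond (Nat.beq a b) 0 (cond (Nat.beq (a / 2) (b / 2)) 1 (cond (Nat.beq (a / 4) (b / 4)) 2 3))

/-- digit `i` of an encoded map -/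
def dig (t i : ℕ) : ℕ := t / 8 ^ i % 8

/-- entry of the table -/
def row (k : ℕ) : ℕ × ℕ × ℕ × ℕ := table.getD k (0, 0, 0, 0)

/-- the checks made on one row -/
def rowOk (r : ℕ × ℕ × ℕ × ℕ) : Bool :=
  (List.range 8).all (fun i => (List.range 8).all (fun j =>
    Nat.beq (lv (dig r.1 (cond (Nat.beq i 0) 1 (cond (Nat.beq i 1) 0 i)))
        (dig r.1 (cond (Nat.beq j 0) 1 (cond (Nat.beq j 1) 0 j))))
      (lv (dig (row r.2.1).1 i) (dig (row r.2.1).1 j)) &&
    Nat.beq (lv (dig r.1 ((i + 1) % 8)) (dig r.1 ((j + 1) % 8)))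
      (lv (dig (row r.2.2.1).1 i) (dig (row r.2.2.1).1 j)) &&
    Nat.beq (lv (dig r.2.2.2 i) (dig r.2.2.2 j)) (lv i j) &&
    Nat.beq (lv (dig r.1 (dig r.2.2.2 i)) (dig r.1 (dig r.2.2.2 j)))
      (lv (dig r.1 i) (dig r.1 j)))) &&
  (List.range 8).any (fun i => !Nat.beq (dig r.2.2.2 i) i) &&
  Nat.blt r.2.1 table.length && Nat.blt r.2.2.1 table.length

theorem table_ok : table.all rowOk = true := by decide +kernel

/-- the standard tree group -/
def treeGroup : Subgroup (Equiv.Perm (Fin 8)) where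
  carrier := {g | ∀ i j : Fin 8, lv (g i) (g j) = lv i j}
  one_mem' := fun _ _ => rfl
  mul_mem' := fun {a b} ha hb i j => (ha (b i) (b j)).trans (hb i j)
  inv_mem' := fun {a} ha i j => by
    have h := ha (a⁻¹ i) (a⁻¹ j)
    simpa using h.symm

theorem lv_eq (a b : ℕ) :
    lv a b = if a = b then 0 else if a / 2 = b / 2 then 1 else if a / 4 = b / 4 then 2 else 3 := by
  have hb : ∀ u v : ℕ, Nat.beq u v = decide (u = v) := fun u v => by
    rw [Bool.eq_iff_iff, Nat.beq_eq, decide_eq_true_iff]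
  simp only [lv, hb, Bool.cond_decide]

theorem lv_eq_zero {a b : ℕ} : lv a b = 0 ↔ a = b := by
  rw [lv_eq]; constructor <;> intro h <;> split_ifs at * <;> omega

theorem lv_le_two {a b : ℕ} : lv a b ≤ 2 ↔ a / 4 = b / 4 := by
  rw [lv_eq]; constructor <;> intro h <;> split_ifs at * <;> omega

theorem lv_le_one {a b : ℕ} : lv a b ≤ 1 ↔ a / 2 = b / 2 := by
  rw [lv_eq]; constructor <;> intro h <;> split_ifs at * <;> omega

theorem treeGroup_isPGroup : IsPGroup 2 treeGroup := by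
  rintro ⟨g, hg⟩
  refine ⟨3, Subtype.ext ?_⟩
  have h4 : ∀ i : Fin 8, ((g * g) i : ℕ) / 4 = (i : ℕ) / 4 := by
    intro i
    have e : (g * g) i = g (g i) := rfl
    rw [e]
    have h := hg (g i) i
    have a : ((g (g i) : ℕ) / 4 = (g i : ℕ) / 4 ↔ (g i : ℕ) / 4 = (i : ℕ) / 4) := by
      rw [← lv_le_two, ← lv_le_two, h]
    have := (g i).isLt; have := (g (g i)).isLt; have := i.isLt
    omega
  have hg2 : g * g ∈ treeGroup := treeGroup.mul_mem hg hg
  generalize hh : g * g = h at h4 hg2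
  have h2 : ∀ i : Fin 8, ((h * h) i : ℕ) / 2 = (i : ℕ) / 2 := by
    intro i
    have e : (h * h) i = h (h i) := rfl
    rw [e]
    have a : ((h (h i) : ℕ) / 2 = (h i : ℕ) / 2 ↔ (h i : ℕ) / 2 = (i : ℕ) / 2) := by
      rw [← lv_le_one, ← lv_le_one, hg2 (h i) i]
    have := h4 i; have := h4 (h i)
    omega
  generalize hk : h * h = k at h2
  have h1 : k * k = 1 := by
    refine Equiv.ext fun i => Fin.ext ?_
    show ((k (k i) : Fin 8) : ℕ) = (i : ℕ)
    have := h2 i; have := h2 (k i)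
    have a : ((k (k i) : ℕ) = (k i : ℕ) ↔ (k i : ℕ) = (i : ℕ)) := by
      simp only [← Fin.ext_iff]; exact k.injective.eq_iff
    omega
  show (g ^ 2 ^ 3 : Equiv.Perm (Fin 8)) = 1
  rw [← h1, ← hk, ← hh]
  simp only [← mul_assoc, pow_succ, pow_zero, one_mul]
  norm_num [pow_succ, mul_assoc]

theorem exists_common (y : Equiv.Perm (Fin 8)) :
    ∃ g : Equiv.Perm (Fin 8), g ≠ 1 ∧ g ∈ treeGroup ∧ y * g * y⁻¹ ∈ treeGroup := by
  have hall : ∀ k, k < table.length → rowOk (row k) = true := by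
    intro k hk
    refine List.all_eq_true.1 table_ok _ ?_
    unfold row
    rw [List.getD_eq_getElem _ _ hk]
    exact List.getElem_mem hk
  have hspec : ∀ k, k < table.length →
      (∀ i j : Fin 8,
        lv (dig (row k).1 (Equiv.swap (0 : Fin 8) 1 i)) (dig (row k).1 (Equiv.swap (0 : Fin 8) 1 j))
          = lv (dig (row (row k).2.1).1 i) (dig (row (row k).2.1).1 j) ∧
        lv (dig (row k).1 (finRotate 8 i)) (dig (row k).1 (finRotate 8 j))
          = lv (dig (row (row k).2.2.1).1 i) (dig (row (row k).2.2.1).1 j) ∧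
        lv (dig (row k).2.2.2 i) (dig (row k).2.2.2 j) = lv i j ∧
        lv (dig (row k).1 (dig (row k).2.2.2 i)) (dig (row k).1 (dig (row k).2.2.2 j))
          = lv (dig (row k).1 i) (dig (row k).1 j)) ∧
      (∃ i : Fin 8, dig (row k).2.2.2 i ≠ i) ∧
      (row k).2.1 < table.length ∧ (row k).2.2.1 < table.length := by
    intro k hk
    have h := hall k hk
    simp only [rowOk, Bool.and_eq_true, List.all_eq_true, List.any_eq_true, List.mem_range,
      Nat.beq_eq, Nat.blt_eq, Bool.not_eq_true'] at h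
    obtain ⟨⟨⟨h1, i₀, hi₀, h2⟩, h3⟩, h4⟩ := h
    refine ⟨fun i j => ?_, ⟨⟨i₀, hi₀⟩, ?_⟩, h3, h4⟩
    · have s : ∀ i : Fin 8, ((Equiv.swap (0 : Fin 8) 1 i : Fin 8) : ℕ)
          = cond (Nat.beq (i : ℕ) 0) 1 (cond (Nat.beq (i : ℕ) 1) 0 (i : ℕ)) := by decide
      have r : ∀ i : Fin 8, ((finRotate 8 i : Fin 8) : ℕ) = ((i : ℕ) + 1) % 8 := by decide
      obtain ⟨⟨⟨a, b⟩, c⟩, d⟩ := h1 i i.isLt j j.isLt
      simp only [s, r]
      exact ⟨a, b, c, d⟩
    · intro he
      rw [show Nat.beq _ _ = true from Nat.beq_eq.symm ▸ he] at h2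
      cases h2
  let M : Submonoid (Equiv.Perm (Fin 8)) :=
  { carrier := {s | ∀ k, k < table.length → ∃ k', k' < table.length ∧ ∀ i j : Fin 8,
      lv (dig (row k).1 (s i)) (dig (row k).1 (s j)) = lv (dig (row k').1 i) (dig (row k').1 j)}
    one_mem' := fun k hk => ⟨k, hk, fun _ _ => rfl⟩
    mul_mem' := fun {a b} ha hb k hk => by
      obtain ⟨k', hk', e⟩ := ha k hk
      obtain ⟨k'', hk'', e'⟩ := hb k' hk'
      exact ⟨k'', hk'', fun i j => (e (b i) (b j)).trans (e' i j)⟩ }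
  have hM : y ∈ M := by
    have hc : (finRotate 8).IsCycle := isCycle_finRotate
    have htop : Subgroup.closure ({finRotate 8, Equiv.swap (0 : Fin 8) (finRotate 8 0)} :
        Set (Equiv.Perm (Fin 8))) = ⊤ :=
      Equiv.Perm.closure_cycle_adjacent_swap hc support_finRotate 0
    have hy : y ∈ (⊤ : Subgroup _).toSubmonoid := Subgroup.mem_top y
    rw [← htop, Subgroup.closure_toSubmonoid_of_finite] at hy
    refine Submonoid.closure_le.2 ?_ hy
    rintro s (rfl | rfl)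
    · exact fun k hk => ⟨_, (hspec k hk).2.2.2, fun i j => ((hspec k hk).1 i j).2.1⟩
    · have e : finRotate 8 (0 : Fin 8) = 1 := by decide
      rw [e]
      exact fun k hk => ⟨_, (hspec k hk).2.2.1, fun i j => ((hspec k hk).1 i j).1⟩
  obtain ⟨k, hk, hky⟩ := hM 0 (by decide +kernel)
  have hid : ∀ i : Fin 8, dig (row 0).1 i = i := by decide +kernel
  obtain ⟨hw, ⟨i₀, hi₀⟩, -, -⟩ := hspec k hk
  let w : Fin 8 → Fin 8 := fun i => ⟨dig (row k).2.2.2 i, Nat.mod_lt _ (by norm_num)⟩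
  have hwi : Function.Injective w := by
    intro i j hij
    have h := (hw i j).2.2.1
    rw [show dig (row k).2.2.2 i = dig (row k).2.2.2 j from congrArg Fin.val hij,
      lv_eq_zero.2 rfl, eq_comm, lv_eq_zero] at h
    exact Fin.ext h
  let g : Equiv.Perm (Fin 8) := Equiv.ofBijective w (Finite.injective_iff_bijective.1 hwi)
  have hg : ∀ i, (g i : ℕ) = dig (row k).2.2.2 i := fun _ => rfl
  refine ⟨g, fun h => hi₀ ?_, fun i j => by rw [hg, hg]; exact (hw i j).2.2.1, fun i j => ?_⟩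
  · rw [← hg, h]; rfl
  · obtain ⟨i, rfl⟩ := y.surjective i
    obtain ⟨j, rfl⟩ := y.surjective j
    simp only [Equiv.Perm.mul_apply, Equiv.Perm.coe_inv, Equiv.symm_apply_apply]
    have e1 := hky (g i) (g j)
    have e2 := hky i j
    rw [hid, hid] at e1 e2
    rw [e1, e2, hg, hg]
    exact (hw i j).2.2.2

theorem sylow_inf_conj_ne_bot (H : Sylow 2 (Equiv.Perm (Fin 8))) (x : Equiv.Perm (Fin 8)) :
    (H : Subgroup (Equiv.Perm (Fin 8))) ⊓
      (H : Subgroup (Equiv.Perm (Fin 8))).map (MulAut.conj x).toMonoidHom ≠ ⊥ := by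
  obtain ⟨P, hP⟩ := treeGroup_isPGroup.exists_le_sylow
  haveI : Fact (Nat.Prime 2) := ⟨Nat.prime_two⟩
  obtain ⟨s, hs⟩ := MulAction.exists_smul_eq (Equiv.Perm (Fin 8)) P H
  obtain ⟨g, hg1, hg, hgy⟩ := exists_common (s⁻¹ * x * s)
  subst hs
  intro hbot
  have hmem : x * (s * g * s⁻¹) * x⁻¹ ∈ ((s • P : Sylow 2 _) : Subgroup (Equiv.Perm (Fin 8))) ⊓
      ((s • P : Sylow 2 _) : Subgroup (Equiv.Perm (Fin 8))).map (MulAut.conj x).toMonoidHom := by
    have hsm : ∀ a ∈ P, s * a * s⁻¹ ∈ ((s • P : Sylow 2 _) : Subgroup (Equiv.Perm (Fin 8))) := by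
      intro a ha
      rw [Sylow.coe_subgroup_smul]
      exact ⟨a, ha, rfl⟩
    refine ⟨?_, ⟨s * g * s⁻¹, hsm g (hP hg), rfl⟩⟩
    have h := hsm _ (hP hgy)
    rwa [show s * ((s⁻¹ * x * s) * g * (s⁻¹ * x * s)⁻¹) * s⁻¹ = x * (s * g * s⁻¹) * x⁻¹ from by
      group] at h
  rw [hbot, Subgroup.mem_bot] at hmem
  apply hg1
  calc g = (x * s)⁻¹ * (x * (s * g * s⁻¹) * x⁻¹) * (x * s) := by group
    _ = 1 := by rw [hmem]; group

end Cfsg.Agent.GeomClasses.EightTrees
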