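import Mathlib

/-! # Maximal subgroups of a point stabiliser when the image of the action is a giant, odd degree -/

set_option autoImplicit false

namespace Cfsg.Agent.GeomClasses

open Equiv Equiv.Perm MulAction

variable {G : Type*} [Group G] {n : ℕ} (φ : G →* Perm (Fin n)) (z : Fin n)

/-- Orbit of `z` under the image of a subgroup. -/
def homOrbit (L : Subgroup G) : Set (Fin n) := {y | ∃ g ∈ L, φ g z = y}

theorem homOrbit_self (L : Subgroup G) : z ∈ homOrbit φ z L := ⟨1, L.one_mem, by simp⟩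

theorem homOrbit_mono {L K : Subgroup G} (h : L ≤ K) : homOrbit φ z L ⊆ homOrbit φ z K :=
  fun _ ⟨g, hg, he⟩ => ⟨g, h hg, he⟩

theorem homOrbit_invariant {L : Subgroup G} {g : G} (hg : g ∈ L) {y : Fin n} (hy : y ∈ homOrbit φ z L) :
    φ g y ∈ homOrbit φ z L := by
  obtain ⟨a, ha, rfl⟩ := hy
  exact ⟨g * a, L.mul_mem hg ha, by rw [map_mul, Perm.mul_apply]⟩

theorem ncard_homOrbit [Finite G] {M H L : Subgroup G} (hM : ∀ g, g ∈ M ↔ φ g z = z) (hHL : H ≤ L)
    (hLM : L ⊓ M = H) : (homOrbit φ z L).ncard * Nat.card H = Nat.card L := by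
  letI : MulAction L (Fin n) := MulAction.compHom (Fin n) (φ.comp L.subtype)
  have hs : stabilizer L z = H.subgroupOf L := by
    ext g
    rw [MulAction.mem_stabilizer_iff, Subgroup.mem_subgroupOf]
    show φ (g : G) z = z ↔ _
    rw [← hM, ← hLM, Subgroup.mem_inf]
    exact ⟨fun h => ⟨g.2, h⟩, fun h => h.2⟩
  have ho : orbit L z = homOrbit φ z L := by
    ext y
    exact ⟨fun ⟨g, hg⟩ => ⟨g, g.2, hg⟩, fun ⟨g, hg, he⟩ => ⟨⟨g, hg⟩, he⟩⟩
  rw [← ho, ← Nat.card_coe_set_eq, Nat.card_congr (orbitEquivQuotientStabilizer L z), hs,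
    ← Nat.card_congr (Subgroup.subgroupOfEquivOfLe hHL).toEquiv]
  exact Subgroup.index_mul_card (H.subgroupOf L)

theorem isCoatom_of_giant [Finite G] (hodd : Odd n) (halt : alternatingGroup (Fin n) ≤ φ.range)
    {M H K : Subgroup G} (hM : ∀ g, g ∈ M ↔ φ g z = z) (hMc : IsCoatom M) (hHM : H ≤ M)
    (hmax : IsCoatom (H.subgroupOf M)) (hK : IsCoatom K) (hHK : H ≤ K) :
    IsCoatom (H.subgroupOf K) := by
  classical
  have hHltM : H < M := lt_of_le_of_ne hHM fun h => hmax.1 (by rw [h]; exact Subgroup.subgroupOf_self M)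
  have hcov : ∀ X : Subgroup G, H ≤ X → X ≤ M → X = H ∨ X = M := by
    intro X h1 h2
    rcases hmax.le_iff.mp (show H.subgroupOf M ≤ X.subgroupOf M from fun g hg => h1 hg) with h | h
    · exact Or.inr (le_antisymm h2 (Subgroup.subgroupOf_eq_top.mp h))
    · left
      refine le_antisymm (fun g hg => ?_) h1
      have : (⟨g, h2 hg⟩ : M) ∈ X.subgroupOf M := hg
      rw [h] at this; exact this
  rcases eq_or_ne K M with rfl | hKM
  · exact hmax
  have hnMK : ¬ M ≤ K := fun h => (hMc.le_iff.mp h).elim hK.1 hKM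
  have hinf : ∀ L : Subgroup G, H ≤ L → L ≤ K → L ⊓ M = H := by
    intro L h1 h2
    rcases hcov (L ⊓ M) (le_inf h1 hHM) inf_le_right with h | h
    · exact h
    · exact absurd ((inf_eq_right.mp h).trans h2) hnMK
  refine ⟨fun h => ?_, fun X hX => ?_⟩
  · have hKH : K ≤ H := Subgroup.subgroupOf_eq_top.mp h
    exact hMc.1 (hK.2 M (lt_of_le_of_lt hKH hHltM))
  set L := X.map K.subtype with hLdef
  have hHL : H < L := by
    have := (Subgroup.map_lt_map_iff_of_injective K.subtype_injective).mpr hX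
    rwa [Subgroup.map_subgroupOf_eq_of_le hHK] at this
  have hLK : L ≤ K := Subgroup.map_subtype_le X
  suffices hLeq : L = K by
    apply Subgroup.map_injective K.subtype_injective
    rw [← hLdef, hLeq, ← MonoidHom.range_eq_map, Subgroup.range_subtype]
  by_contra hne
  have hLlt : L < K := lt_of_le_of_ne hLK hne
  set D := homOrbit φ z L with hD
  set E := homOrbit φ z K with hE
  have hHpos : 0 < Nat.card H := Nat.card_pos
  have hl := ncard_homOrbit φ z hM hHL.le (hinf L hHL.le hLK)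
  have hk := ncard_homOrbit φ z hM hHK (hinf K hHK le_rfl)
  rw [← hD] at hl
  rw [← hE] at hk
  have hdvd : D.ncard ∣ E.ncard := by
    apply Nat.dvd_of_mul_dvd_mul_right hHpos
    rw [hl, hk]; exact Subgroup.card_dvd_of_le hLK
  have hlk : D.ncard < E.ncard := by
    have h := Set.ncard_le_ncard (homOrbit_mono φ z hLK) (Set.toFinite _)
    refine lt_of_le_of_ne h fun heq => hne (Subgroup.eq_of_le_of_card_ge hLK ?_)
    rw [← hl, ← hk]
    exact le_of_eq (by rw [show E.ncard = D.ncard from heq.symm])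
  have hl2 : 2 ≤ D.ncard := by
    by_contra h
    have hlt : Nat.card H < Nat.card L := by
      refine lt_of_le_of_ne (Subgroup.card_le_of_le hHL.le) fun he => hHL.ne (Subgroup.eq_of_le_of_card_ge hHL.le he.symm.le)
    rw [← hl] at hlt
    have := Nat.mul_le_mul_right (Nat.card H) (show D.ncard ≤ 1 by omega)
    omega
  have hk2 : 2 * D.ncard ≤ E.ncard := by
    obtain ⟨c, hc⟩ := hdvd
    rcases c with _ | _ | c
    · omega
    · omega
    · rw [hc, mul_comm]; exact Nat.mul_le_mul_left _ (by omega)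
  have hEn : E.ncard ≤ n := by
    have := Set.ncard_le_ncard (Set.subset_univ E) (Set.toFinite _)
    rwa [Set.ncard_univ, Nat.card_fin] at this
  -- elements realising three-cycles fixing z
  have hlift : ∀ a b c : Fin n, a ≠ b → a ≠ c → b ≠ c → a ≠ z → b ≠ z → c ≠ z →
      ∃ g ∈ M, φ g a = b ∧ φ g b = c ∧ φ g c = a ∧ ∀ y, y ≠ a → y ≠ b → y ≠ c → φ g y = y := by
    intro a b c hab hac hbc ha hb hc
    have hmem : swap a b * swap b c ∈ alternatingGroup (Fin n) := by
      rw [Equiv.Perm.mem_alternatingGroup, map_mul, sign_swap hab, sign_swap hbc]; decide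
    obtain ⟨g, hg⟩ := halt hmem
    have hy : ∀ y, y ≠ a → y ≠ b → y ≠ c → φ g y = y := fun y h1 h2 h3 => by
      rw [hg, Perm.mul_apply, swap_apply_of_ne_of_ne h2 h3, swap_apply_of_ne_of_ne h1 h2]
    refine ⟨g, (hM g).mpr (hy z (Ne.symm ha) (Ne.symm hb) (Ne.symm hc)), ?_, ?_, ?_, hy⟩
    · rw [hg, Perm.mul_apply, swap_apply_of_ne_of_ne hab hac, swap_apply_left]
    · rw [hg, Perm.mul_apply, swap_apply_left, swap_apply_of_ne_of_ne (Ne.symm hac) (Ne.symm hbc)]
    · rw [hg, Perm.mul_apply, swap_apply_right, swap_apply_right]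
  have hzD : z ∈ D := homOrbit_self φ z L
  -- the rest
  obtain ⟨m, hm⟩ := hodd
  have hDc : n = D.ncard + Dᶜ.ncard := by rw [Set.ncard_add_ncard_compl, Nat.card_fin]
  have hBcard : 3 ≤ Dᶜ.ncard := by omega
  obtain ⟨a, haD, haz⟩ : ∃ a ∈ D, a ≠ z := by
    obtain ⟨a, ha, b, hb, hab⟩ := (Set.one_lt_ncard (Set.toFinite _)).mp (show 1 < D.ncard by omega)
    rcases eq_or_ne a z with rfl | h
    · exact ⟨b, hb, hab.symm⟩
    · exact ⟨a, ha, h⟩
  -- H is the whole stabiliser of D in M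
  have hHeq : ∀ g ∈ M, (∀ y, y ∈ D → φ g y ∈ D) → g ∈ H := by
    let T : Subgroup G :=
      { carrier := {g | g ∈ M ∧ φ g '' D = D}
        mul_mem' := fun {x y} hx hy => ⟨M.mul_mem hx.1 hy.1, by
          rw [map_mul, Perm.coe_mul, Set.image_comp, hy.2, hx.2]⟩
        one_mem' := ⟨M.one_mem, by rw [map_one, Perm.coe_one, Set.image_id]⟩
        inv_mem' := fun {x} hx => ⟨M.inv_mem hx.1, by
          conv_lhs => rw [← hx.2]
          rw [Set.image_image]; simp⟩ }
    have heq : ∀ g : G, (∀ y, y ∈ D → φ g y ∈ D) → φ g '' D = D := fun g hg =>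
      Set.eq_of_subset_of_ncard_le (Set.image_subset_iff.mpr hg)
        (le_of_eq (Set.ncard_image_of_injective D (φ g).injective).symm)
    have hHT : H ≤ T := fun g hg => ⟨hHM hg, heq g fun y hy => homOrbit_invariant φ z (hHL.le hg) hy⟩
    rcases hcov T hHT (fun g hg => hg.1) with h | h
    · intro g hg hgD
      rw [← h]; exact ⟨hg, heq g hgD⟩
    · exfalso
      obtain ⟨b, hb, c, hc, hbc⟩ := (Set.one_lt_ncard (Set.toFinite _)).mp (show 1 < Dᶜ.ncard by omega)
      obtain ⟨g, hg, hgab, -, -, -⟩ := hlift a b c (fun h => hb (h ▸ haD)) (fun h => hc (h ▸ haD)) hbc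
        haz (fun h => hb (h ▸ hzD)) (fun h => hc (h ▸ hzD))
      have : g ∈ T := h.symm ▸ hg
      exact hb (this.2 ▸ ⟨a, haD, hgab⟩)
  -- three-cycles outside D lie in H
  have hcyc : ∀ a b c : Fin n, a ∉ D → b ∉ D → c ∉ D → a ≠ b → a ≠ c → b ≠ c →
      ∃ g ∈ H, φ g a = b ∧ φ g b = c := by
    intro a b c ha hb hc hab hac hbc
    obtain ⟨g, hg, h1, h2, -, h4⟩ := hlift a b c hab hac hbc (fun h => ha (h ▸ hzD)) (fun h => hb (h ▸ hzD)) (fun h => hc (h ▸ hzD))
    refine ⟨g, hHeq g hg fun y hy => ?_, h1, h2⟩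
    rw [h4 y (fun h => ha (h ▸ hy)) (fun h => hb (h ▸ hy)) (fun h => hc (h ▸ hy))]; exact hy
  -- K is transitive
  have hEuniv : ∀ y, y ∈ E := by
    obtain ⟨b, hbE, hbD⟩ : ∃ b ∈ E, b ∉ D := by
      by_contra h; push_neg at h
      have := Set.ncard_le_ncard (show E ⊆ D from h) (Set.toFinite _)
      omega
    intro y
    by_cases hy : y ∈ D
    · exact homOrbit_mono φ z hLK hy
    rcases eq_or_ne b y with rfl | hby
    · exact hbE
    obtain ⟨c, hcD, hcne⟩ : ∃ c ∈ Dᶜ, c ∉ ({b, y} : Set (Fin n)) := by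
      by_contra h; push_neg at h
      have := (Set.ncard_le_ncard (show Dᶜ ⊆ {b, y} from h) (Set.toFinite _)).trans (Set.ncard_insert_le _ _)
      rw [Set.ncard_singleton] at this
      omega
    simp only [Set.mem_insert_iff, Set.mem_singleton_iff, not_or] at hcne
    obtain ⟨g, hg, h1, -⟩ := hcyc b y c hbD hy hcD hby (Ne.symm hcne.1) (Ne.symm hcne.2)
    exact h1 ▸ homOrbit_invariant φ z (hHK hg) hbE
  have hEn' : E.ncard = n := by
    rw [Set.eq_univ_iff_forall.mpr hEuniv, Set.ncard_univ, Nat.card_fin]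
  -- D is a block for K
  have hblock : ∀ k ∈ K, (∃ y ∈ D, φ k y ∈ D) → ∀ y ∈ D, φ k y ∈ D := by
    rintro k hk ⟨_, ⟨u, hu, rfl⟩, v, hv, hv'⟩ y hy
    have h1 : v⁻¹ * k * u ∈ K ⊓ M := ⟨K.mul_mem (K.mul_mem (K.inv_mem (hLK hv)) hk) (hLK hu), (hM _).mpr (by
      rw [map_mul, map_mul, map_inv, Perm.mul_apply, Perm.mul_apply, ← hv', Perm.inv_def, Equiv.symm_apply_apply])⟩
    rw [hinf K hHK le_rfl] at h1
    have hkL : k ∈ L := by
      have := L.mul_mem (L.mul_mem hv (hHL.le h1)) (L.inv_mem hu)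
      simpa [mul_assoc] using this
    exact homOrbit_invariant φ z hkL hy
  -- a translate inside the complement
  obtain ⟨b, hb⟩ : ∃ b, b ∉ D := by
    by_contra h; push_neg at h
    rw [Set.eq_univ_iff_forall.mpr h, Set.ncard_univ, Nat.card_fin] at hk2; omega
  obtain ⟨k, hkK, hkb⟩ := hEuniv b
  have hout : ∀ y ∈ D, φ k y ∉ D := fun y hy h => hb (hkb ▸ hblock k hkK ⟨y, hy, h⟩ z hzD)
  have h3l : 3 * D.ncard ≤ n := by
    obtain ⟨c, hc⟩ := hdvd
    rw [hEn'] at hc
    rcases c with _ | _ | _ | c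
    · omega
    · omega
    · omega
    · exact le_trans (le_of_eq (mul_comm _ _)) (le_trans (Nat.mul_le_mul_left _ (by omega)) hc.ge)
  obtain ⟨e, heD, heD'⟩ : ∃ e ∈ Dᶜ, e ∉ φ k '' D := by
    by_contra h; push_neg at h
    have := (Set.ncard_le_ncard (show Dᶜ ⊆ φ k '' D from h) (Set.toFinite _)).trans (Set.ncard_image_le (Set.toFinite _))
    omega
  -- b = φ k z, d = φ k a, e: cycle d → b → e
  have hd : φ k a ∉ D := hout a haD
  have hne1 : φ k a ≠ φ k z := fun h => haz ((φ k).injective h)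
  obtain ⟨g, hg, h1, h2⟩ := hcyc (φ k a) (φ k z) e hd (hout z hzD) heD hne1
    (fun h => heD' ⟨a, haD, h⟩) (fun h => heD' ⟨z, hzD, h⟩)
  -- k⁻¹ g k maps a to z, and z outside D
  have hmem : k⁻¹ * g * k ∈ K := K.mul_mem (K.mul_mem (K.inv_mem hkK) (hHK hg)) hkK
  have h3 : φ (k⁻¹ * g * k) a = z := by
    rw [map_mul, map_mul, map_inv, Perm.mul_apply, Perm.mul_apply, h1, Perm.inv_def, Equiv.symm_apply_apply]
  have h4 : φ (k⁻¹ * g * k) z = (φ k)⁻¹ e := by
    rw [map_mul, map_mul, map_inv, Perm.mul_apply, Perm.mul_apply, h2]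
  have h5 := hblock _ hmem ⟨a, haD, by rw [h3]; exact hzD⟩ z hzD
  rw [h4] at h5
  exact heD' ⟨_, h5, by simp⟩

end Cfsg.Agent.GeomClasses
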