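import Mathlib

/-! # Irredundant bases: all of one size iff invariant under reordering -/

set_option autoImplicit false

namespace Cfsg.Agent.GeomClasses

variable {G Ω : Type*} [Group G] [MulAction G Ω]

/-- `g` fixes every point of `S`. -/
def FixesList (g : G) (S : List Ω) : Prop := ∀ s ∈ S, g • s = s

/-- Every point of `l` is moved by an element fixing `S` and the earlier points of `l`. -/
def IrrSeq (G : Type*) [Group G] [MulAction G Ω] (S : List Ω) : List Ω → Prop
  | [] => True
  | x :: l => (∃ g : G, FixesList g S ∧ g • x ≠ x) ∧ IrrSeq G (S ++ [x]) l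

def IsIrrBase (G : Type*) [Group G] [MulAction G Ω] (l : List Ω) : Prop :=
  IrrSeq G [] l ∧ ∀ g : G, FixesList g l → g = 1

theorem irrSeq_append (S a b : List Ω) : IrrSeq G S (a ++ b) ↔ IrrSeq G S a ∧ IrrSeq G (S ++ a) b := by
  induction a generalizing S with
  | nil => simp [IrrSeq]
  | cons x a ih => simp [IrrSeq, ih, and_assoc]

theorem irrSeq_congr {S T l : List Ω} (h : ∀ g : G, FixesList g S ↔ FixesList g T) :
    IrrSeq G S l ↔ IrrSeq G T l := by
  induction l generalizing S T with
  | nil => simp [IrrSeq]
  | cons x l ih =>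
    simp only [IrrSeq, h]
    refine and_congr_right fun _ => ih fun g => ?_
    simp only [FixesList, List.forall_mem_append] at h ⊢
    rw [h]

theorem exists_filter (S l : List Ω) :
    ∃ l' : List Ω, l'.Sublist l ∧ IrrSeq G S l' ∧ ∀ g : G, FixesList g (S ++ l') → FixesList g (S ++ l) := by
  induction l generalizing S with
  | nil => exact ⟨[], List.Sublist.refl _, trivial, fun g h => h⟩
  | cons x l ih =>
    by_cases hx : ∃ g : G, FixesList g S ∧ g • x ≠ x
    · obtain ⟨l', h1, h2, h3⟩ := ih (S ++ [x])
      refine ⟨x :: l', h1.cons_cons x, ⟨hx, h2⟩, fun g hg => ?_⟩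
      have := h3 g (by simpa using hg)
      simpa using this
    · push_neg at hx
      obtain ⟨l', h1, h2, h3⟩ := ih S
      refine ⟨l', h1.cons x, h2, fun g hg => ?_⟩
      have := h3 g hg
      simp only [FixesList, List.forall_mem_append, List.forall_mem_cons] at this hg ⊢
      exact ⟨this.1, hx g this.1, this.2⟩

theorem irr_nodup {S l : List Ω} (h : IrrSeq G S l) : l.Nodup ∧ ∀ x ∈ l, x ∉ S := by
  induction l generalizing S with
  | nil => simp
  | cons x l ih =>
    obtain ⟨⟨g, hg, hgx⟩, h2⟩ := h
    obtain ⟨h3, h4⟩ := ih h2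
    refine ⟨List.nodup_cons.mpr ⟨fun hx => h4 x hx (by simp), h3⟩, fun y hy hyS => ?_⟩
    rcases List.mem_cons.mp hy with rfl | hy
    · exact hgx (hg y hyS)
    · exact h4 y hy (List.mem_append_left _ hyS)

theorem split_at_fix (x : Ω) : ∀ (S R : List Ω), (∃ g : G, FixesList g S ∧ g • x ≠ x) →
    (∀ g : G, FixesList g (S ++ R) → g • x = x) →
    ∃ R₁ y R₂, R = R₁ ++ y :: R₂ ∧ (∃ g : G, FixesList g (S ++ R₁) ∧ g • x ≠ x) ∧
      ∀ g : G, FixesList g (S ++ R₁ ++ [y]) → g • x = x := by
  intro S R
  induction R generalizing S with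
  | nil =>
    rintro ⟨g, hg, hgx⟩ h
    exact absurd (h g (by simpa using hg)) hgx
  | cons y R ih =>
    intro h1 h2
    by_cases h : ∀ g : G, FixesList g (S ++ [y]) → g • x = x
    · exact ⟨[], y, R, rfl, by simpa using h1, by simpa using h⟩
    · push_neg at h
      obtain ⟨R₁, z, R₂, hR, h3, h4⟩ := ih (S ++ [y]) h (fun g hg => h2 g (by simpa using hg))
      exact ⟨y :: R₁, z, R₂, by rw [hR]; rfl, by simpa using h3, by simpa using h4⟩

theorem same_length_of_perm_invariant
    (hperm : ∀ l l' : List Ω, IsIrrBase G l → l.Perm l' → IsIrrBase G l')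
    {l m : List Ω} (hl : IsIrrBase G l) (hm : IsIrrBase G m) : m.length ≤ l.length := by
  have key : ∀ a b : List Ω, m = a ++ b → ∃ R, IsIrrBase G (a ++ R) ∧ (a ++ R).length = l.length := by
    intro a
    induction a using List.reverseRecOn with
    | nil => exact fun b _ => ⟨l, hl, rfl⟩
    | append_singleton a x ih =>
      intro b hab
      obtain ⟨R, hR, hlen⟩ := ih (x :: b) (by rw [hab]; simp)
      have hmx : ∃ g : G, FixesList g a ∧ g • x ≠ x := by
        have := hm.1
        rw [hab, List.append_assoc, irrSeq_append] at this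
        simpa [IrrSeq] using this.2.1
      have hfx : ∀ g : G, FixesList g (a ++ R) → g • x = x := fun g hg => by rw [hR.2 g hg, one_smul]
      obtain ⟨R₁, y, R₂, rfl, hA, hB⟩ := split_at_fix x a R hmx hfx
      have hseq := hR.1
      rw [← List.append_assoc, irrSeq_append] at hseq
      obtain ⟨hpre, hy, hpost⟩ := hseq
      simp only [List.nil_append] at hy hpost
      have hyfix : ∀ g : G, FixesList g (a ++ R₁ ++ [x]) → g • y = y := by
        by_contra hc
        push_neg at hc
        obtain ⟨g, hg1, hg2⟩ := hc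
        obtain ⟨T, -, hT2, hT3⟩ := exists_filter (G := G) (a ++ R₁ ++ [x, y]) R₂
        have hbase : IsIrrBase G (a ++ R₁ ++ [x, y] ++ T) := by
          refine ⟨?_, fun g' hg' => ?_⟩
          · rw [irrSeq_append, irrSeq_append]
            refine ⟨⟨hpre, ?_⟩, by simpa using hT2⟩
            simp only [IrrSeq, List.nil_append, and_true]
            exact ⟨hA, ⟨g, hg1, hg2⟩⟩
          · refine hR.2 g' fun s hs => ?_
            have := hT3 g' hg'
            refine this s ?_
            simp only [List.mem_append, List.mem_cons] at hs ⊢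
            tauto
        have hswap := hperm _ (a ++ R₁ ++ [y, x] ++ T) hbase
          (((List.Perm.swap y x []).append_left _).append_right _)
        have h5 := hswap.1
        rw [irrSeq_append, irrSeq_append] at h5
        simp only [IrrSeq, List.nil_append, and_true] at h5
        obtain ⟨-, g', hg', hg'x⟩ := h5.1.2
        exact hg'x (hB g' hg')
      have heq : ∀ g : G, FixesList g (a ++ R₁ ++ [x]) ↔ FixesList g (a ++ R₁ ++ [y]) := by
        intro g
        constructor
        · intro h
          have := hyfix g h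
          simp only [FixesList, List.forall_mem_append, List.forall_mem_singleton] at h ⊢
          exact ⟨h.1, this⟩
        · intro h
          have := hB g h
          simp only [FixesList, List.forall_mem_append, List.forall_mem_singleton] at h ⊢
          exact ⟨h.1, this⟩
      have hnew : IsIrrBase G (a ++ R₁ ++ x :: R₂) := by
        refine ⟨?_, fun g hg => hR.2 g ?_⟩
        · rw [irrSeq_append]
          exact ⟨hpre, by simpa using hA, by
            simp only [List.nil_append]; exact (irrSeq_congr heq).mpr hpost⟩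
        · simp only [FixesList, List.forall_mem_append, List.forall_mem_cons] at hg ⊢
          refine ⟨hg.1.1, hg.1.2, hyfix g ?_, hg.2.2⟩
          simp only [FixesList, List.forall_mem_append, List.forall_mem_singleton]
          exact ⟨hg.1, hg.2.1⟩
      refine ⟨R₁ ++ R₂, hperm _ _ hnew ?_, ?_⟩
      · simp only [List.append_assoc, List.singleton_append]
        exact List.perm_middle.append_left a
      · simp only [List.length_append, List.length_cons, List.length_nil] at hlen ⊢; omega
  by_contra hlt
  obtain ⟨R, hR, hlen⟩ := key (m.take l.length) (m.drop l.length) (List.take_append_drop _ _).symm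
  have hR0 : R = [] := by
    rw [List.length_append, List.length_take] at hlen
    exact List.length_eq_zero_iff.mp (by omega)
  subst hR0
  rw [List.append_nil] at hR
  have hseq := hm.1
  rw [← List.take_append_drop l.length m, irrSeq_append] at hseq
  cases hd : m.drop l.length with
  | nil =>
    have := congrArg List.length hd
    simp at this; omega
  | cons x b =>
    rw [hd] at hseq
    obtain ⟨g, hg, hgx⟩ := hseq.2.1
    exact hgx (by rw [hR.2 g (by simpa using hg), one_smul])

theorem perm_invariant_of_same_length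
    (hsame : ∀ l m : List Ω, IsIrrBase G l → IsIrrBase G m → l.length = m.length)
    {l l' : List Ω} (hl : IsIrrBase G l) (hp : l.Perm l') : IsIrrBase G l' := by
  obtain ⟨T, hT1, hT2, hT3⟩ := exists_filter (G := G) [] l'
  have hfix : ∀ g : G, FixesList g l' → g = 1 := fun g hg => hl.2 g fun s hs => hg s (hp.mem_iff.mp hs)
  have hT : IsIrrBase G T := ⟨hT2, fun g hg => hfix g (by simpa using hT3 g (by simpa using hg))⟩
  have := hT1.eq_of_length ((hsame T l hT hl).trans hp.length_eq)
  exact ⟨this ▸ hT2, hfix⟩

theorem irrSeq_ofFn {t : ℕ} (S : List Ω) (f : Fin t → Ω) :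
    IrrSeq G S (List.ofFn f) ↔
      ∀ i : Fin t, ∃ g : G, (FixesList g S ∧ ∀ j : Fin t, j < i → g • f j = f j) ∧ g • f i ≠ f i := by
  induction t generalizing S with
  | zero => simp [IrrSeq]
  | succ t ih =>
    rw [List.ofFn_succ, IrrSeq, ih]
    constructor
    · rintro ⟨⟨g, h1, h2⟩, h3⟩ i
      cases i using Fin.cases with
      | zero => exact ⟨g, ⟨h1, fun j hj => absurd hj (Fin.not_lt_zero j)⟩, h2⟩
      | succ i =>
        obtain ⟨g, ⟨h4, h5⟩, h6⟩ := h3 i
        simp only [FixesList, List.forall_mem_append, List.forall_mem_singleton] at h4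
        refine ⟨g, ⟨h4.1, fun j hj => ?_⟩, h6⟩
        cases j using Fin.cases with
        | zero => exact h4.2
        | succ j => exact h5 j (Fin.succ_lt_succ_iff.mp hj)
    · intro h
      refine ⟨?_, fun i => ?_⟩
      · obtain ⟨g, ⟨h1, -⟩, h2⟩ := h 0
        exact ⟨g, h1, h2⟩
      · obtain ⟨g, ⟨h1, h2⟩, h3⟩ := h i.succ
        refine ⟨g, ⟨?_, fun j hj => h2 _ (Fin.succ_lt_succ_iff.mpr hj)⟩, h3⟩
        simp only [FixesList, List.forall_mem_append, List.forall_mem_singleton]
        exact ⟨h1, h2 0 (Fin.succ_pos i)⟩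

theorem isIrrBase_ofFn {t : ℕ} (f : Fin t → Ω) :
    IsIrrBase G (List.ofFn f) ↔ ((∀ g : G, (∀ i : Fin t, g • f i = f i) → g = 1) ∧
      ∀ i : Fin t, ∃ g : G, (∀ j : Fin t, j < i → g • f j = f j) ∧ g • f i ≠ f i) := by
  rw [IsIrrBase, irrSeq_ofFn, and_comm]
  simp [FixesList, List.forall_mem_ofFn_iff]

theorem exists_perm_of_perm_ofFn {t : ℕ} {f : Fin t → Ω} {l' : List Ω} (hnd : (List.ofFn f).Nodup)
    (hp : (List.ofFn f).Perm l') : ∃ σ : Equiv.Perm (Fin t), List.ofFn (f ∘ σ) = l' := by
  have hlen : l'.length = t := by rw [← hp.length_eq, List.length_ofFn]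
  subst hlen
  have hmem : ∀ i : Fin l'.length, ∃ j, f j = l'.get i := fun i =>
    List.mem_ofFn.mp (hp.mem_iff.mpr (List.get_mem l' i))
  choose σ hσ using hmem
  have hinj : Function.Injective σ := by
    intro a b hab
    exact List.nodup_iff_injective_get.mp (hp.nodup_iff.mp hnd) (by rw [← hσ, ← hσ, hab])
  refine ⟨Equiv.ofBijective σ (Finite.injective_iff_bijective.mp hinj), ?_⟩
  rw [show (f ∘ ⇑(Equiv.ofBijective σ (Finite.injective_iff_bijective.mp hinj))) = l'.get from funext hσ]
  exact List.ofFn_get l'

end Cfsg.Agent.GeomClasses
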