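import Mathlib

/-! # Minimal degree of a primitive group not containing the alternating group -/

set_option autoImplicit false
set_option linter.unusedSectionVars false

namespace Cfsg.Agent.GeomClasses.MinDeg

open Equiv
open scoped Pointwise

variable {Ω : Type*} [Fintype Ω] [DecidableEq Ω] (R : Subgroup (Perm Ω))

/-- `(a, b)` and `(c, d)` lie in the same orbital. -/
def SameOrb (a b c d : Ω) : Prop := ∃ h ∈ R, h a = c ∧ h b = d

variable {R}

theorem SameOrb.refl (a b : Ω) : SameOrb R a b a b := ⟨1, R.one_mem, rfl, rfl⟩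

theorem SameOrb.symm {a b c d : Ω} (h : SameOrb R a b c d) : SameOrb R c d a b := by
  obtain ⟨u, hu, rfl, rfl⟩ := h
  exact ⟨u⁻¹, R.inv_mem hu, u.symm_apply_apply a, u.symm_apply_apply b⟩

theorem SameOrb.trans {a b c d e f : Ω} (h : SameOrb R a b c d) (h' : SameOrb R c d e f) :
    SameOrb R a b e f := by
  obtain ⟨u, hu, rfl, rfl⟩ := h
  obtain ⟨v, hv, rfl, rfl⟩ := h'
  exact ⟨v * u, R.mul_mem hv hu, rfl, rfl⟩

theorem SameOrb.of_mem {u : Perm Ω} (hu : u ∈ R) (a b : Ω) : SameOrb R a b (u a) (u b) := ⟨u, hu, rfl, rfl⟩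

variable (R)

open Classical in
/-- The points distinguishing `x` from `y`. -/
noncomputable def dist (x y : Ω) : Finset Ω := Finset.univ.filter fun z => ¬ SameOrb R x z y z

variable {R}

theorem dist_comm (x y : Ω) : dist R x y = dist R y x := by
  classical
  ext z
  simp only [dist, Finset.mem_filter, Finset.mem_univ, true_and]
  exact not_congr ⟨SameOrb.symm, SameOrb.symm⟩

theorem dist_triangle (x y w : Ω) : (dist R x w).card ≤ (dist R x y).card + (dist R y w).card := by
  classical
  refine (Finset.card_le_card fun z hz => ?_).trans (Finset.card_union_le _ _)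
  simp only [dist, Finset.mem_filter, Finset.mem_univ, true_and, Finset.mem_union] at hz ⊢
  by_contra h
  push Not at h
  exact hz (h.1.trans h.2)

theorem card_dist_map {u : Perm Ω} (hu : u ∈ R) (x y : Ω) : (dist R (u x) (u y)).card = (dist R x y).card := by
  classical
  have e : dist R (u x) (u y) = (dist R x y).map u.toEmbedding := by
    ext z
    rw [Finset.mem_map_equiv]
    simp only [dist, Finset.mem_filter, Finset.mem_univ, true_and]
    have k : ∀ a, SameOrb R a (u.symm z) (u a) z := fun a => ⟨u, hu, rfl, u.apply_symm_apply z⟩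
    exact not_congr ⟨fun h => ((k x).trans h).trans (k y).symm, fun h => ((k x).symm.trans h).trans (k y)⟩
  rw [e, Finset.card_map]

theorem dist_subset_support {u : Perm Ω} (hu : u ∈ R) (x : Ω) : dist R x (u x) ⊆ u.support := by
  classical
  intro z hz
  simp only [dist, Finset.mem_filter, Finset.mem_univ, true_and] at hz
  exact Perm.mem_support.mpr fun h => hz ⟨u, hu, rfl, h⟩

/-- In a primitive group a nonempty set closed under a nonempty invariant relation is everything. -/
theorem closed_eq_univ (hprim : MulAction.IsPreprimitive R Ω) (E : Ω → Ω → Prop)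
    (hE : ∀ u ∈ R, ∀ a b, E a b → E (u a) (u b)) {x y : Ω} (hxy : E x y) (hne : x ≠ y)
    {S : Set Ω} {a : Ω} (ha : a ∈ S) (hS : ∀ p ∈ S, ∀ q, E p q → q ∈ S) : S = Set.univ := by
  classical
  haveI := hprim
  let B : Ω → Set Ω := fun p => {q | Relation.ReflTransGen E p q}
  have hsub : ∀ p q, q ∈ B p → B q ⊆ B p := fun p q h r hr => Relation.ReflTransGen.trans h hr
  have hmove : ∀ u ∈ R, ∀ p q, q ∈ B p → u q ∈ B (u p) := fun u hu p q h =>
    by induction h with
      | refl => exact Relation.ReflTransGen.refl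
      | tail _ hbc ih => exact ih.tail (hE u hu _ _ hbc)
  have himg : ∀ u : R, ∀ p, (u : Perm Ω) '' B p = B ((u : Perm Ω) p) := by
    intro u p
    refine Set.Subset.antisymm ?_ fun q hq => ⟨(u : Perm Ω)⁻¹ q, ?_, (u : Perm Ω).apply_symm_apply q⟩
    · rintro _ ⟨q, hq, rfl⟩; exact hmove _ u.2 p q hq
    · have := hmove _ (R.inv_mem u.2) _ _ hq
      simpa using this
  have hcard : ∀ p q, (B p).ncard = (B q).ncard := fun p q => by
    obtain ⟨u, hu⟩ := MulAction.exists_smul_eq R p q
    rw [← hu, ← Set.ncard_image_of_injective (B p) (u : Perm Ω).injective, himg]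
    rfl
  have heq : ∀ p q, q ∈ B p → B q = B p := fun p q h =>
    Set.eq_of_subset_of_ncard_le (hsub p q h) (hcard p q).le (Set.toFinite _)
  have hblock : MulAction.IsBlock R (B x) := by
    rw [MulAction.isBlock_iff_smul_eq_or_disjoint]
    intro u
    by_cases h : Disjoint (u • B x) (B x)
    · exact Or.inr h
    obtain ⟨w, hw1, hw2⟩ := Set.not_disjoint_iff.mp h
    have e : u • B x = B ((u : Perm Ω) x) := himg u x
    rw [e] at hw1 ⊢
    exact Or.inl ((heq _ _ hw1).symm.trans (heq _ _ hw2))
  have hBx : B x = Set.univ := by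
    refine (MulAction.IsPreprimitive.isTrivialBlock_of_isBlock hblock).resolve_left fun h => hne ?_
    exact h Relation.ReflTransGen.refl (Relation.ReflTransGen.single hxy)
  have hBa : B a = Set.univ := by rw [heq x a (hBx ▸ Set.mem_univ a), hBx]
  refine Set.eq_univ_of_univ_subset (hBa ▸ fun q hq => ?_)
  induction hq with
  | refl => exact ha
  | tail _ hbc ih => exact hS _ ih _ hbc

/-- Every point is distinguished from `a` by one of its out-neighbours. -/
theorem card_le_nbrs_mul (hprim : MulAction.IsPreprimitive R Ω) (E : Ω → Ω → Prop) [DecidableRel E]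
    (hE : ∀ u ∈ R, ∀ a b, E a b → E (u a) (u b)) {x y : Ω} (hxy : E x y) (hne : x ≠ y) (a : Ω) {c : ℕ}
    (hc : ∀ b, E a b → (dist R a b).card ≤ c) :
    Fintype.card Ω - 1 ≤ (Finset.univ.filter (E a)).card * c := by
  classical
  have hsub : Finset.univ.erase a ⊆ (Finset.univ.filter (E a)).biUnion (dist R a) := by
    intro z hz
    by_contra hcon
    simp only [Finset.mem_biUnion, Finset.mem_filter, Finset.mem_univ, true_and, dist, not_exists, not_and,
      not_not] at hcon
    have huniv := closed_eq_univ hprim E hE hxy hne (S := {w | SameOrb R a z w z}) (a := a) (SameOrb.refl a z) ?_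
    · have : z ∈ {w | SameOrb R a z w z} := huniv ▸ Set.mem_univ z
      obtain ⟨u, -, h1, h2⟩ := this
      exact (Finset.mem_erase.mp hz).1 (u.injective (h2.trans h1.symm))
    · rintro p ⟨u, hu, rfl, hz'⟩ q hq
      have := hcon (u⁻¹ q) (by simpa using hE _ (R.inv_mem hu) _ _ hq)
      exact this.trans ⟨u, hu, u.apply_symm_apply q, hz'⟩
  have h1 := Finset.card_le_card hsub
  rw [Finset.card_erase_of_mem (Finset.mem_univ a), Finset.card_univ] at h1
  refine h1.trans ((Finset.card_biUnion_le).trans ?_)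
  calc ∑ b ∈ Finset.univ.filter (E a), (dist R a b).card ≤ ∑ _b ∈ Finset.univ.filter (E a), c :=
        Finset.sum_le_sum fun b hb => hc b (Finset.mem_filter.mp hb).2
    _ = _ := by rw [Finset.sum_const, smul_eq_mul]

/-- Uniprimitive groups: some pair is distinguished by about `√n` points. -/
theorem exists_dist_large (hprim : MulAction.IsPreprimitive R Ω) {a₀ b₀ c₀ : Ω} (hab : b₀ ≠ a₀) (hac : c₀ ≠ a₀)
    (horb : ¬ SameOrb R a₀ b₀ a₀ c₀) :
    ∃ p q, Fintype.card Ω - 1 ≤ (dist R p q).card * (dist R p q).card := by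
  classical
  haveI : Nonempty Ω := ⟨a₀⟩
  obtain ⟨⟨p, q⟩, -, hM⟩ := Finset.exists_max_image (Finset.univ : Finset (Ω × Ω))
    (fun w => (dist R w.1 w.2).card) Finset.univ_nonempty
  refine ⟨p, q, ?_⟩
  set M := (dist R p q).card
  have hle : ∀ u v, (dist R u v).card ≤ M := fun u v => hM (u, v) (Finset.mem_univ _)
  let K : Ω → Ω → Finset Ω := fun x z => Finset.univ.filter fun y => SameOrb R x z y z
  obtain ⟨⟨x0, z0⟩, hxz, hKmax⟩ := Finset.exists_max_image (Finset.univ.filter fun w : Ω × Ω => w.1 ≠ w.2)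
    (fun w => (K w.1 w.2).card) ⟨(b₀, a₀), Finset.mem_filter.mpr ⟨Finset.mem_univ _, hab⟩⟩
  have hxz' : x0 ≠ z0 := (Finset.mem_filter.mp hxz).2
  let E : Ω → Ω → Prop := fun a b => b ≠ a ∧ ¬ SameOrb R x0 z0 b a
  have hE : ∀ u ∈ R, ∀ a b, E a b → E (u a) (u b) := fun u hu a b h =>
    ⟨fun e => h.1 (u.injective e), fun e => h.2 (e.trans (SameOrb.of_mem hu b a).symm)⟩
  obtain ⟨b, hb⟩ : ∃ b, E z0 b := by
    by_contra hcon
    push Not at hcon
    simp only [E, not_and, not_not] at hcon
    haveI := hprim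
    obtain ⟨u, hu⟩ := MulAction.exists_smul_eq R z0 a₀
    have h1 : ∀ w, w ≠ a₀ → SameOrb R x0 z0 w a₀ := fun w hw => by
      have h2 := hcon ((u : Perm Ω)⁻¹ w) fun e => hw (by rw [← hu, ← e]; exact ((u : Perm Ω).apply_symm_apply w).symm)
      exact h2.trans ⟨u, u.2, (u : Perm Ω).apply_symm_apply w, hu⟩
    obtain ⟨v, hv, hv1, hv2⟩ := (h1 b₀ hab).symm.trans (h1 c₀ hac)
    exact horb ⟨v, hv, hv2, hv1⟩
  have hnb := card_le_nbrs_mul hprim E hE hb hb.1.symm z0 (c := M) fun v _ => hle z0 v
  set k := (K x0 z0).card with hk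
  have hpart : (Finset.univ.filter (E z0)).card + k + 1 = Fintype.card Ω := by
    have e : Finset.univ.filter (E z0) = (Finset.univ.erase z0) \ K x0 z0 := by
      ext w; simp [E, K]
    have hsub : K x0 z0 ⊆ Finset.univ.erase z0 := fun w hw => by
      obtain ⟨u, -, h1, h2⟩ := (Finset.mem_filter.mp hw).2
      exact Finset.mem_erase.mpr ⟨fun e => hxz' (u.injective (h1.trans (e.trans h2.symm))), Finset.mem_univ _⟩
    rw [e, Finset.card_sdiff_of_subset hsub, Finset.card_erase_of_mem (Finset.mem_univ _), Finset.card_univ]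
    have h3 := Finset.card_le_card hsub
    rw [Finset.card_erase_of_mem (Finset.mem_univ _), Finset.card_univ] at h3
    have := Fintype.card_pos (α := Ω)
    omega
  have hk1 : 1 ≤ k := Finset.card_pos.mpr ⟨x0, Finset.mem_filter.mpr ⟨Finset.mem_univ _, SameOrb.refl _ _⟩⟩
  -- the mean
  have hmean : Fintype.card Ω * (Fintype.card Ω - k) ≤ Fintype.card Ω * M := by
    calc Fintype.card Ω * (Fintype.card Ω - k) = ∑ _z : Ω, (Fintype.card Ω - k) := by simp
      _ ≤ ∑ z : Ω, (Finset.univ.filter fun y => ¬ SameOrb R x0 z y z).card := by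
        refine Finset.sum_le_sum fun z _ => ?_
        have h := Finset.card_filter_add_card_filter_not (s := (Finset.univ : Finset Ω)) (fun y => SameOrb R x0 z y z)
        rw [Finset.card_univ] at h
        have h2 : (Finset.univ.filter fun y => SameOrb R x0 z y z).card ≤ k := by
          by_cases hz : x0 = z
          · subst hz
            refine le_trans (Finset.card_le_one.mpr fun u hu v hv => ?_) hk1
            obtain ⟨f, -, h1, h2⟩ := (Finset.mem_filter.mp hu).2
            obtain ⟨f', -, h3, h4⟩ := (Finset.mem_filter.mp hv).2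
            rw [← h1, h2, ← h3, h4]
          · exact hKmax (x0, z) (Finset.mem_filter.mpr ⟨Finset.mem_univ _, hz⟩)
        omega
      _ = ∑ y : Ω, (dist R x0 y).card := by
        simp only [dist, Finset.card_filter]
        exact Finset.sum_comm
      _ ≤ ∑ _y : Ω, M := Finset.sum_le_sum fun y _ => hle x0 y
      _ = _ := by simp
  have h5 := Nat.le_of_mul_le_mul_left hmean Fintype.card_pos
  exact hnb.trans (Nat.mul_le_mul_right M (by omega))

/-- Uniprimitive groups: any two distinct points are distinguished by about `√n / 2` points. -/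
theorem dist_bound (hprim : MulAction.IsPreprimitive R Ω) {a₀ b₀ c₀ : Ω} (hab : b₀ ≠ a₀) (hac : c₀ ≠ a₀)
    (horb : ¬ SameOrb R a₀ b₀ a₀ c₀) {x y : Ω} (hxy : x ≠ y) :
    Fintype.card Ω - 1 ≤ 4 * ((dist R x y).card * (dist R x y).card) := by
  classical
  haveI := hprim
  obtain ⟨p, q, hpq⟩ := exists_dist_large hprim hab hac horb
  set m := (dist R x y).card with hm
  let A : Ω → Ω → Prop := fun a b => SameOrb R x y a b ∨ SameOrb R x y b a
  have hAm : ∀ a b, A a b → (dist R a b).card = m := by
    rintro a b (⟨u, hu, rfl, rfl⟩ | ⟨u, hu, rfl, rfl⟩)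
    · exact card_dist_map hu x y
    · rw [dist_comm]; exact card_dist_map hu x y
  have hA : ∀ u ∈ R, ∀ a b, A a b → A (u a) (u b) := fun u hu a b h =>
    h.imp (fun e => e.trans (SameOrb.of_mem hu a b)) (fun e => e.trans (SameOrb.of_mem hu b a))
  have hAs : ∀ a b, A a b → A b a := fun a b h => h.symm
  have hxyA : A x y := Or.inl (SameOrb.refl x y)
  have hnb : ∀ a, Fintype.card Ω - 1 ≤ (Finset.univ.filter (A a)).card * m := fun a =>
    card_le_nbrs_mul hprim A hA hxyA hxy a fun b hb => (hAm a b hb).le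
  let W : Ω → Set Ω := fun a => {b | b = a ∨ A a b ∨ ∃ c, A a c ∧ A c b}
  by_cases hall : q ∈ W p
  · have h2 : (dist R p q).card ≤ 2 * m := by
      rcases hall with rfl | h | ⟨c, h1, h2⟩
      · simp [dist, SameOrb.refl]
      · rw [hAm _ _ h]; omega
      · have := dist_triangle (R := R) p c q
        rw [hAm _ _ h1, hAm _ _ h2] at this
        omega
    calc _ ≤ (dist R p q).card * (dist R p q).card := hpq
      _ ≤ (2 * m) * (2 * m) := Nat.mul_le_mul h2 h2
      _ = _ := by ring
  · obtain ⟨c, hc, b, hcb, hb⟩ : ∃ c ∈ W p, ∃ b, A c b ∧ b ∉ W p := by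
      by_contra hcon
      push Not at hcon
      exact hall (closed_eq_univ hprim A hA hxyA hxy (S := W p) (a := p) (Or.inl rfl) hcon ▸ Set.mem_univ q)
    rcases hc with rfl | h1 | ⟨c', h1, h2⟩
    · exact absurd (Or.inr (Or.inl hcb)) hb
    · exact absurd (Or.inr (Or.inr ⟨c, h1, hcb⟩)) hb
    · have hD : Finset.univ.filter (A p) ∪ Finset.univ.filter (A b) ⊆ dist R p b := by
        intro z hz
        simp only [Finset.mem_union, Finset.mem_filter, Finset.mem_univ, true_and, dist] at hz ⊢
        rintro ⟨u, hu, e1, e2⟩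
        rcases hz with hz | hz
        · have h3 := hA u hu p z hz
          rw [e1, e2] at h3
          exact hb (Or.inr (Or.inr ⟨z, hz, hAs _ _ h3⟩))
        · have h3 := hA _ (R.inv_mem hu) b z hz
          rw [show u⁻¹ b = p by rw [← e1]; exact u.symm_apply_apply p,
            show u⁻¹ z = z by nth_rw 1 [← e2]; exact u.symm_apply_apply z] at h3
          exact hb (Or.inr (Or.inr ⟨z, h3, hAs _ _ hz⟩))
      have hdisj : Disjoint (Finset.univ.filter (A p)) (Finset.univ.filter (A b)) :=
        Finset.disjoint_left.mpr fun z h3 h4 => hb (Or.inr (Or.inr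
          ⟨z, (Finset.mem_filter.mp h3).2, hAs _ _ (Finset.mem_filter.mp h4).2⟩))
      have h3 := Finset.card_le_card hD
      rw [Finset.card_union_of_disjoint hdisj] at h3
      have h4 := dist_triangle (R := R) p c b
      have h5 := dist_triangle (R := R) p c' c
      rw [hAm _ _ hcb] at h4
      rw [hAm _ _ h1, hAm _ _ h2] at h5
      rcases le_total (Finset.univ.filter (A p)).card (Finset.univ.filter (A b)).card with h | h
      · have h6 : (Finset.univ.filter (A p)).card ≤ 2 * m := by omega
        calc _ ≤ _ := hnb p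
          _ ≤ 2 * m * m := Nat.mul_le_mul_right m h6
          _ ≤ _ := by rw [mul_assoc]; omega
      · have h6 : (Finset.univ.filter (A b)).card ≤ 2 * m := by omega
        calc _ ≤ _ := hnb b
          _ ≤ 2 * m * m := Nat.mul_le_mul_right m h6
          _ ≤ _ := by rw [mul_assoc]; omega

/-- Two permutations whose supports meet in one point have a three-cycle as commutator. -/
theorem isThreeCycle_comm {g b : Perm Ω} {p : Ω} (hg : g p ≠ p) (hb : b p ≠ p)
    (hcap : ∀ z, g z ≠ z → b z ≠ z → z = p) : (g * b * g⁻¹ * b⁻¹).IsThreeCycle := by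
  classical
  have gf : ∀ z, z ≠ p → b z ≠ z → g z = z := fun z hz h => by_contra fun h' => hz (hcap z h' h)
  have bf : ∀ z, z ≠ p → g z ≠ z → b z = z := fun z hz h => by_contra fun h' => hz (hcap z h h')
  have hsub : (g * b * g⁻¹ * b⁻¹).support ⊆ {p, g p, b p} := by
    intro z hz
    by_contra hzn
    simp only [Finset.mem_insert, Finset.mem_singleton, not_or] at hzn
    obtain ⟨hzp, hzg, hzb⟩ := hzn
    refine Perm.mem_support.mp hz ?_
    simp only [Perm.mul_apply]
    by_cases h1 : g z = z
    · set w := b⁻¹ z with hw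
      have hbw : b w = z := b.apply_symm_apply z
      have hgw : g w = w := by
        by_cases h2 : b w = w
        · rw [show w = z by rw [← hbw, h2]]; exact h1
        · exact gf w (fun e => hzb (by rw [← hbw, e])) h2
      rw [show g⁻¹ w = w by conv_lhs => rw [← hgw]; exact g.symm_apply_apply w, hbw, h1]
    · rw [show b⁻¹ z = z by conv_lhs => rw [← bf z hzp h1]; exact b.symm_apply_apply z]
      set w := g⁻¹ z with hw
      have hgw : g w = z := g.apply_symm_apply z
      have hgw' : g w ≠ w := fun e => h1 (by rw [hgw] at e; rw [e]; rw [← e] at hgw ⊢; exact hgw)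
      rw [bf w (fun e => hzg (by rw [← hgw, e])) hgw', hgw]
  have hne : g * b * g⁻¹ * b⁻¹ ≠ 1 := by
    intro e
    have h := congrArg (fun f : Perm Ω => f (g p)) e
    simp only [Perm.mul_apply, Perm.one_apply] at h
    have h1 : b (g p) = g p := bf _ hg fun e => hg (g.injective e)
    rw [show b⁻¹ (g p) = g p by conv_lhs => rw [← h1]; exact b.symm_apply_apply _,
      show g⁻¹ (g p) = p from g.symm_apply_apply p, gf (b p) hb fun e => hb (b.injective e)] at h
    exact hb (hcap (b p) (fun e => hg (by rw [h] at e; exact g.injective e)) fun e => hb (b.injective e))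
  refine card_support_eq_three_iff.mp (le_antisymm ((Finset.card_le_card hsub).trans Finset.card_le_three) ?_)
  have h0 : (g * b * g⁻¹ * b⁻¹).support.card ≠ 0 := by
    rw [ne_eq, Finset.card_eq_zero, Perm.support_eq_empty_iff]; exact hne
  have h1 := Perm.card_support_ne_one (g * b * g⁻¹ * b⁻¹)
  have h2 : (g * b * g⁻¹ * b⁻¹).support.card ≠ 2 := fun e => by
    have := (Perm.card_support_eq_two.mp e).sign_eq
    simp [Perm.sign_inv] at this
    rcases Int.units_eq_one_or (Perm.sign g) with h | h <;> rcases Int.units_eq_one_or (Perm.sign b) with h' | h' <;>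
      simp [h, h'] at this
  omega

/-- The bound for doubly transitive groups. -/
theorem doubly_bound (hprim : MulAction.IsPreprimitive R Ω) (hA : ¬ alternatingGroup Ω ≤ R)
    (h2t : ∀ a b c : Ω, b ≠ a → c ≠ a → SameOrb R a b a c) {g : Perm Ω} (hg : g ∈ R) (hg1 : g ≠ 1) :
    Fintype.card Ω - 1 ≤ g.support.card * g.support.card := by
  classical
  obtain ⟨a, ha⟩ := Finset.nonempty_iff_ne_empty.mpr (mt Perm.support_eq_empty_iff.mp hg1)
  set S := g.support.erase a with hS
  set H : Finset (Perm Ω) := Finset.univ.filter fun h => h ∈ R ∧ h a = a with hH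
  let F : Ω → Ω → Finset (Perm Ω) := fun s t => H.filter fun h => h s = t
  have hF : ∀ s, s ≠ a → ∀ t, t ≠ a → (F s t).card = (F s s).card := by
    intro s hs t ht
    obtain ⟨v, hv, hva, hvs⟩ := h2t a s t hs ht
    refine (Finset.card_bij (fun h _ => v * h) ?_ ?_ ?_).symm
    · intro h hh
      simp only [F, H, Finset.mem_filter, Finset.mem_univ, true_and] at hh ⊢
      exact ⟨⟨R.mul_mem hv hh.1.1, by rw [Perm.mul_apply, hh.1.2, hva]⟩, by rw [Perm.mul_apply, hh.2, hvs]⟩
    · exact fun h _ h' _ e => mul_left_cancel e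
    · intro h hh
      simp only [F, H, Finset.mem_filter, Finset.mem_univ, true_and] at hh
      refine ⟨v⁻¹ * h, ?_, mul_inv_cancel_left v h⟩
      simp only [F, H, Finset.mem_filter, Finset.mem_univ, true_and]
      exact ⟨⟨R.mul_mem (R.inv_mem hv) hh.1.1, by rw [Perm.mul_apply, hh.1.2, Perm.inv_eq_iff_eq, hva]⟩,
        by rw [Perm.mul_apply, hh.2, Perm.inv_eq_iff_eq, hvs]⟩
  have hsum : ∀ s, s ≠ a → (Fintype.card Ω - 1) * (F s s).card = H.card := by
    intro s hs
    have e := Finset.card_eq_sum_card_fiberwise (s := H) (t := Finset.univ.erase a) (f := fun h => h s) fun h hh =>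
      Finset.mem_erase.mpr ⟨fun e => hs (h.injective (e.trans (Finset.mem_filter.mp hh).2.2.symm)), Finset.mem_univ _⟩
    rw [e, Finset.sum_congr rfl fun t ht => hF s hs t (Finset.mem_erase.mp ht).1, Finset.sum_const,
      Finset.card_erase_of_mem (Finset.mem_univ a), Finset.card_univ, smul_eq_mul]
  suffices hS2 : Fintype.card Ω - 1 ≤ S.card * S.card from
    hS2.trans (Nat.mul_le_mul (Finset.card_le_card (Finset.erase_subset _ _)) (Finset.card_le_card (Finset.erase_subset _ _)))
  by_contra hlt
  push Not at hlt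
  obtain ⟨h, hh, hmiss⟩ : ∃ h ∈ H, ∀ s ∈ S, h s ∉ S := by
    by_contra hcon
    push Not at hcon
    have h1 : H ⊆ S.biUnion fun s => S.biUnion fun t => F s t := fun h hh => by
      obtain ⟨s, hs, hs'⟩ := hcon h hh
      simp only [Finset.mem_biUnion, F, Finset.mem_filter]
      exact ⟨s, hs, h s, hs', hh, rfl⟩
    have h2 : H.card * (Fintype.card Ω - 1) ≤ S.card * S.card * H.card :=
      calc H.card * (Fintype.card Ω - 1) ≤ (∑ s ∈ S, ∑ t ∈ S, (F s t).card) * (Fintype.card Ω - 1) :=
            Nat.mul_le_mul_right _ ((Finset.card_le_card h1).trans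
              (Finset.card_biUnion_le.trans (Finset.sum_le_sum fun s _ => Finset.card_biUnion_le)))
        _ = S.card * S.card * H.card := by
          simp only [Finset.sum_mul]
          rw [Finset.sum_congr rfl fun s hs => Finset.sum_congr rfl fun t ht => by
            rw [hF s (Finset.mem_erase.mp hs).1 t (Finset.mem_erase.mp ht).1, mul_comm,
              hsum s (Finset.mem_erase.mp hs).1]]
          simp [mul_assoc]
    have hHpos : 0 < H.card :=
      Finset.card_pos.mpr ⟨1, Finset.mem_filter.mpr ⟨Finset.mem_univ _, R.one_mem, rfl⟩⟩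
    have h3 : H.card * (Fintype.card Ω - 1) ≤ H.card * (S.card * S.card) := by rw [mul_comm _ (S.card * S.card)]; exact h2
    exact absurd (Nat.le_of_mul_le_mul_left h3 hHpos) (by omega)
  obtain ⟨-, hhR, hha⟩ := Finset.mem_filter.mp hh
  have hga : g a ≠ a := Perm.mem_support.mp ha
  have hha' : h⁻¹ a = a := Perm.inv_eq_iff_eq.mpr hha.symm
  refine hA (Perm.alternatingGroup_le_of_isPreprimitive_of_isThreeCycle_mem hprim
    (isThreeCycle_comm (g := g) (b := h * g * h⁻¹) (p := a) hga ?_ ?_) ?_)
  · simp only [Perm.mul_apply, hha']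
    exact fun e => hga (h.injective (e.trans hha.symm))
  · intro z hz1 hz2
    by_contra hza
    simp only [Perm.mul_apply] at hz2
    have hw : g (h⁻¹ z) ≠ h⁻¹ z := fun e => hz2 (by rw [e]; exact h.apply_symm_apply z)
    have hw' : h⁻¹ z ≠ a := fun e => hza (by rw [← h.apply_symm_apply z]; exact (congrArg h e).trans hha)
    refine hmiss (h⁻¹ z) (Finset.mem_erase.mpr ⟨hw', Perm.mem_support.mpr hw⟩) ?_
    rw [show h (h⁻¹ z) = z from h.apply_symm_apply z]
    exact Finset.mem_erase.mpr ⟨hza, Perm.mem_support.mpr hz1⟩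
  · have hc : h * g * h⁻¹ ∈ R := R.mul_mem (R.mul_mem hhR hg) (R.inv_mem hhR)
    exact R.mul_mem (R.mul_mem (R.mul_mem hg hc) (R.inv_mem hg)) (R.inv_mem hc)

/-- A nontrivial element of a primitive group not containing the alternating group moves `≳ √n/2` points. -/
theorem card_le_sq_support (hprim : MulAction.IsPreprimitive R Ω) (hA : ¬ alternatingGroup Ω ≤ R)
    {g : Perm Ω} (hg : g ∈ R) (hg1 : g ≠ 1) :
    Fintype.card Ω ≤ (2 * g.support.card + 1) * (2 * g.support.card + 1) := by
  classical
  have key : Fintype.card Ω - 1 ≤ 4 * (g.support.card * g.support.card) := by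
    by_cases h2t : ∀ a b c : Ω, b ≠ a → c ≠ a → SameOrb R a b a c
    · exact (doubly_bound hprim hA h2t hg hg1).trans (Nat.le_mul_of_pos_left _ (by norm_num))
    push Not at h2t
    obtain ⟨a, b, c, hb, hc, horb⟩ := h2t
    obtain ⟨x, hx⟩ := Finset.nonempty_iff_ne_empty.mpr (mt Perm.support_eq_empty_iff.mp hg1)
    have h1 := dist_bound hprim hb hc horb (x := x) (y := g x) (Perm.mem_support.mp hx).symm
    have h2 := Finset.card_le_card (dist_subset_support hg x)
    exact h1.trans (Nat.mul_le_mul_left 4 (Nat.mul_le_mul h2 h2))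
  have e : (2 * g.support.card + 1) * (2 * g.support.card + 1) =
      4 * (g.support.card * g.support.card) + 4 * g.support.card + 1 := by ring
  omega

end Cfsg.Agent.GeomClasses.MinDeg
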