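import Cfsg.Agent.GeomClasses.SiegelHalves

/-! # Subspace stabilisers are maximal in the derived orthogonal group -/

set_option autoImplicit false

namespace Cfsg.Agent.GeomClasses

open Module Cfsg.Agent.Forms

variable {F V : Type*} [Field F] [AddCommGroup V] [Module F V] [FiniteDimensional F V]
  {Q : QuadraticForm F V}

set_option quotPrecheck false in
local notation "BQ" => QuadraticMap.polar ⇑Q

local notation "sp" => Submodule.span F

/-- The Eichler transformation of a singular vector and an orthogonal vector lies in the subgroup. -/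
def EIn (Q : QuadraticForm F V) (M : Subgroup (orthGroup Q)) (x w : V) : Prop :=
  ∃ (hx : Q x = 0) (hw : QuadraticMap.polar Q x w = 0), eichler Q x w hx hw ∈ M

/-- All Eichler transformations with the given centre lie in the subgroup. -/
def Full (Q : QuadraticForm F V) (M : Subgroup (orthGroup Q)) (x : V) : Prop :=
  Q x = 0 ∧ ∀ w, QuadraticMap.polar Q x w = 0 → EIn Q M x w

variable {M : Subgroup (orthGroup Q)}

omit [FiniteDimensional F V] in
theorem eIn_add {x w w' : V} (h : EIn Q M x w) (h' : EIn Q M x w') : EIn Q M x (w + w') := by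
  obtain ⟨hx, hw, hm⟩ := h
  obtain ⟨hx', hw', hm'⟩ := h'
  refine ⟨hx, by rw [QuadraticMap.polar_add_right, hw, hw', add_zero], ?_⟩
  convert mul_mem hm hm' using 1
  refine orth_ext fun y => ?_
  rw [orth_mul_apply, eichler_apply, eichler_apply, eichler_apply, eichlerMap_comp hx hw hw']

omit [FiniteDimensional F V] in
theorem eIn_neg {x w : V} (h : EIn Q M x w) : EIn Q M x (-w) := by
  obtain ⟨hx, hw, hm⟩ := h
  have hneg : BQ x (-w) = 0 := by rw [QuadraticMap.polar_neg_right, hw, neg_zero]
  refine ⟨hx, hneg, ?_⟩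
  convert inv_mem hm using 1
  exact (inv_eq_of_mul_eq_one_right (orth_ext fun y => by
    rw [orth_mul_apply, eichler_apply, eichler_apply, eichlerMap_comp hx hw hneg, add_neg_cancel,
      eichlerMap_zero]; rfl)).symm

omit [FiniteDimensional F V] in
theorem eIn_zero {x : V} (hx : Q x = 0) : EIn Q M x 0 := by
  refine ⟨hx, by simp [QuadraticMap.polar, hx], ?_⟩
  convert one_mem M
  exact orth_ext fun y => by rw [eichler_apply, eichlerMap_zero]; rfl

omit [FiniteDimensional F V] in
theorem eIn_conj {x w : V} {g : orthGroup Q} (hg : g ∈ M) (h : EIn Q M x w) :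
    EIn Q M ((g : V ≃ₗ[F] V) x) ((g : V ≃ₗ[F] V) w) := by
  obtain ⟨hx, hw, hm⟩ := h
  refine ⟨by rw [g.2.2]; exact hx, by rw [orth_polar]; exact hw, ?_⟩
  rw [← conj_eichler g hx hw]
  exact mul_mem (mul_mem hg hm) (inv_mem hg)

omit [FiniteDimensional F V] in
theorem eIn_swap {x w : V} (h : EIn Q M x w) (hQw : Q w = 0) : EIn Q M w (-x) := by
  obtain ⟨hx, hw, hm⟩ := h
  refine ⟨hQw, by rw [QuadraticMap.polar_neg_right, QuadraticMap.polar_comm, hw, neg_zero], ?_⟩
  convert hm using 1
  refine orth_ext fun y => ?_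
  simp only [eichler_apply, eichlerMap_apply, hQw, QuadraticMap.map_neg, hx, zero_mul, add_zero,
    QuadraticMap.polar_neg_left]
  module

omit [FiniteDimensional F V] in
theorem eIn_smul {x w : V} (c : F) (hx : Q x = 0) (hw : BQ x w = 0) :
    EIn Q M (c • x) w ↔ EIn Q M x (c • w) := by
  have h1 : Q (c • x) = 0 := by rw [QuadraticMap.map_smul, hx, smul_zero]
  have h2 : BQ (c • x) w = 0 := by rw [QuadraticMap.polar_smul_left, hw, smul_zero]
  have h3 : BQ x (c • w) = 0 := by rw [QuadraticMap.polar_smul_right, hw, smul_zero]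
  have he : eichler Q (c • x) w h1 h2 = eichler Q x (c • w) hx h3 := by
    refine orth_ext fun y => ?_
    simp only [eichler_apply, eichlerMap_apply, QuadraticMap.polar_smul_left, QuadraticMap.map_smul, smul_eq_mul]
    module
  exact ⟨fun ⟨_, _, hm⟩ => ⟨hx, h3, he ▸ hm⟩, fun ⟨_, _, hm⟩ => ⟨h1, h2, he.symm ▸ hm⟩⟩

omit [FiniteDimensional F V] in
theorem full_conj {x : V} {g : orthGroup Q} (hg : g ∈ M) (h : Full Q M x) : Full Q M ((g : V ≃ₗ[F] V) x) := by
  refine ⟨by rw [g.2.2]; exact h.1, fun w hw => ?_⟩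
  rw [← (g : V ≃ₗ[F] V).apply_symm_apply w] at hw ⊢
  rw [orth_polar] at hw
  exact eIn_conj hg (h.2 _ hw)

omit [FiniteDimensional F V] in
theorem full_smul {x : V} (h : Full Q M x) (c : F) : Full Q M (c • x) := by
  refine ⟨by rw [QuadraticMap.map_smul, h.1, smul_zero], fun w hw => ?_⟩
  rcases eq_or_ne c 0 with rfl | hc
  · rw [zero_smul] at hw ⊢
    refine ⟨map_zero Q, hw, ?_⟩
    convert one_mem M
    exact orth_ext fun y => by simp [eichler_apply, eichlerMap_apply, QuadraticMap.polar]
  · rw [QuadraticMap.polar_smul_left, smul_eq_mul, mul_eq_zero, or_iff_right hc] at hw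
    exact (eIn_smul c h.1 hw).mpr (h.2 _ (by rw [QuadraticMap.polar_smul_right, hw, smul_zero]))

omit [FiniteDimensional F V] in
/-- An Eichler transformation moving one vector to another. -/
theorem exists_move {z a b : V} (hz : Q z = 0) (hab : Q a = Q b) (he : BQ z a = BQ z b) (hne : BQ z a ≠ 0) :
    BQ z ((BQ z a)⁻¹ • (b - a)) = 0 ∧ eichlerMap Q z ((BQ z a)⁻¹ • (b - a)) a = b := by
  set w := (BQ z a)⁻¹ • (b - a) with hwdef
  have hzw : BQ z w = 0 := by
    rw [hwdef, QuadraticMap.polar_smul_right, QuadraticMap.polar_sub_right, he, sub_self, smul_zero]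
  refine ⟨hzw, ?_⟩
  set β := -(BQ w a + Q w * BQ z a) with hβ
  have e : eichlerMap Q z w a = b + β • z := by
    rw [eichlerMap_apply, sub_eq_add_neg, ← neg_smul]
    simp only [hwdef, smul_smul, mul_inv_cancel₀ hne, one_smul, add_sub_cancel, hβ]
  have hQe := eichlerMap_preserves hz hzw a
  rw [e, QuadraticMap.map_add Q, QuadraticMap.map_smul, hz, smul_zero, add_zero,
    QuadraticMap.polar_smul_right, QuadraticMap.polar_comm Q b z, ← he, hab, add_eq_left,
    smul_eq_mul, mul_eq_zero, or_iff_left hne] at hQe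
  rw [e, hQe, zero_smul, add_zero]

omit [FiniteDimensional F V] in
theorem full_move {z a b : V} (hz : Full Q M z) (ha : Full Q M a) (hb : Q b = 0)
    (hne : BQ z a ≠ 0) (hzb : BQ z b ≠ 0) : Full Q M b := by
  set c := BQ z b * (BQ z a)⁻¹ with hc
  have he : BQ z (c • a) = BQ z b := by
    rw [QuadraticMap.polar_smul_right, smul_eq_mul, hc, mul_assoc, inv_mul_cancel₀ hne, mul_one]
  have hne' : BQ z (c • a) ≠ 0 := he ▸ hzb
  obtain ⟨hzw, hmap⟩ := exists_move hz.1 (a := c • a) (b := b) (by rw [(full_smul ha c).1, hb]) he hne'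
  obtain ⟨_, _, hm⟩ := hz.2 _ hzw
  have := full_conj hm (full_smul ha c)
  rwa [eichler_apply, hmap] at this

section Finite

variable [Finite F] (hQ : (QuadraticMap.polarBilin Q).Nondegenerate)
include hQ

theorem eichler_mem_comm (hn : 7 ≤ finrank F V) {x w : V} (hx : Q x = 0) (hw : BQ x w = 0) :
    eichler Q x w hx hw ∈ commutator (orthGroup Q) := by
  refine (?_ : siegelGroup Q ≤ _) (eichler_mem_siegelGroup hQ (by omega) hx hw)
  rw [Subgroup.closure_le]
  rintro _ ⟨u, v, hu, huv, hv, rfl⟩
  exact eichler_mem_commutator' hQ hn hu huv hv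

/-- A singular vector of a subspace perpendicular to a small one, pairing with a given vector. -/
theorem exists_sing_pair {U S : Submodule F V}
    (hUc : ∀ d : V, ∃ d0 ∈ U, ∀ x ∈ U, BQ x d = BQ x d0)
    (hS : S ≤ U) (hdim : 2 * finrank F S + 3 ≤ finrank F U) {v : V} (hv : v ∈ U) (hvS : v ∉ S) :
    ∃ a ∈ U, Q a = 0 ∧ (∀ s ∈ S, BQ s a = 0) ∧ BQ a v ≠ 0 := by
  have hI := isForm_quadratic Q hQ
  set K := perp (QuadraticMap.polarBilin Q) S ⊓ U with hK
  have pairK : ∀ u ∈ U, u ∉ S → ∃ d ∈ K, BQ u d = 1 := by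
    intro u hu huS
    obtain ⟨d, hd, hud⟩ := hI.exists_perp_pairing huS (1 : F)
    simp only [QuadraticMap.polarBilin_apply_apply] at hd hud
    obtain ⟨d0, hd0, he⟩ := hUc d
    exact ⟨d0, ⟨fun x hx => by rw [QuadraticMap.polarBilin_apply_apply, ← he x (hS hx)]; exact hd x hx, hd0⟩,
      by rw [← he u hu]; exact hud⟩
  obtain ⟨Z, hZ⟩ := Submodule.exists_isCompl S
  have hd3 : 3 ≤ finrank F ↥(K ⊓ Z) := by
    have h1 := Submodule.finrank_sup_add_finrank_inf_eq K Z
    have h2 := Submodule.finrank_sup_add_finrank_inf_eq (perp (QuadraticMap.polarBilin Q) S) U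
    have h3 := hI.finrank_perp S
    have h4 := Submodule.finrank_add_eq_of_isCompl hZ
    have h5 := Submodule.finrank_le (perp (QuadraticMap.polarBilin Q) S ⊔ U)
    have h6 := Submodule.finrank_le (K ⊔ Z)
    rw [← hK] at h2
    omega
  obtain ⟨s, ⟨hsK, hsZ⟩, hs0, hQs⟩ := exists_singular_mem (Q := Q) hd3
  have hsS : s ∉ S := fun h => hs0 (Submodule.disjoint_def.mp hZ.disjoint s h hsZ)
  obtain ⟨y, hy, hsy⟩ := pairK s hsK.2 hsS
  have hspan := le_span_singular hsK hQs hy (by rw [hsy]; exact one_ne_zero)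
  by_contra hno
  push Not at hno
  obtain ⟨d, hd, hvd⟩ := pairK v hv hvS
  have hall : ∀ x ∈ K, BQ x v = 0 := by
    intro x hx
    have hx' := hspan hx
    clear hx
    induction hx' using Submodule.span_induction with
    | mem z hz => exact hno z hz.1.2 hz.2 (fun t ht => hz.1.1 t ht)
    | zero => simp [QuadraticMap.polar]
    | add a b _ _ ha hb => rw [QuadraticMap.polar_add_left, ha, hb, add_zero]
    | smul c a _ ha => rw [QuadraticMap.polar_smul_left, ha, smul_zero]
  exact one_ne_zero (α := F) (by rw [← hvd, QuadraticMap.polar_comm]; exact hall d hd)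

theorem exists_full_pair_top (hn : 7 ≤ finrank F V) {x y : V} (hx : Full Q M x) (hy : Full Q M y)
    (hxy : BQ x y ≠ 0) : commutator (orthGroup Q) ≤ M := by
  have hpair : ∀ {S : Submodule F V} {v : V}, finrank F S ≤ 2 → v ∉ S →
      ∃ a, Q a = 0 ∧ (∀ s ∈ S, BQ s a = 0) ∧ BQ a v ≠ 0 := by
    intro S v hS hv
    obtain ⟨a, -, h⟩ := exists_sing_pair hQ (U := ⊤) (S := S) (fun d => ⟨d, trivial, fun _ _ => rfl⟩) le_top
      (by rw [finrank_top]; omega) (v := v) trivial hv
    exact ⟨a, h⟩
  have hall : ∀ b, Q b = 0 → Full Q M b := by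
    intro b hb
    rcases eq_or_ne b 0 with rfl | hb0
    · simpa using full_smul hx 0
    by_cases h1 : BQ x b = 0
    · by_cases h2 : BQ y b = 0
      · obtain ⟨c, hc, -, hcx⟩ := hpair (S := ⊥) (v := x) (by simp) (by
          simp only [Submodule.mem_bot]; rintro rfl; simp [QuadraticMap.polar] at hxy)
        -- a third vector pairing with `x` and `b`
        obtain ⟨d, hd, -, hdb⟩ := hpair (S := ⊥) (v := b) (by simp) (by simpa using hb0)
        obtain ⟨e, he, hex, heb⟩ : ∃ e, Q e = 0 ∧ BQ e x ≠ 0 ∧ BQ e b ≠ 0 := by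
          by_contra hno
          push Not at hno
          have hcb := hno c hc hcx
          have hdx : BQ d x = 0 := by_contra fun h => hdb (hno d hd h)
          by_cases hcd : BQ c d = 0
          · refine hdb ?_
            have hQ' : Q (c + d) = 0 := by rw [QuadraticMap.map_add Q, hc, hd, hcd, add_zero, add_zero]
            have := hno (c + d) hQ' (by rwa [QuadraticMap.polar_add_left, hdx, add_zero])
            rwa [QuadraticMap.polar_add_left, hcb, zero_add] at this
          · have hxb : BQ b x = 0 := by rw [QuadraticMap.polar_comm]; exact h1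
            -- move `c` along the transvection of `d` and `b`
            set t := -(BQ c d)⁻¹
            have hQ' : Q (c + d + t • (BQ c d • b)) = 0 → False := fun hq => by
              have h3 := hno _ hq (by
                simpa [QuadraticMap.polar_add_left, QuadraticMap.polar_smul_left, hdx, hxb] using hcx)
              simp [QuadraticMap.polar_add_left, QuadraticMap.polar_smul_left, hcb,
                polar_self_two_mul, hb] at h3
              exact hdb h3
            have hμ : ∃ μ : F, Q (c + d + μ • b) = 0 := by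
              refine ⟨-(BQ c d) / BQ d b, ?_⟩
              rw [QuadraticMap.map_add Q, QuadraticMap.map_add Q, QuadraticMap.map_smul, hc, hd, hb,
                QuadraticMap.polar_smul_right, QuadraticMap.polar_add_left, hcb]
              simp only [smul_eq_mul, mul_zero, zero_add, add_zero]
              rw [div_mul_cancel₀ _ hdb]; ring
            obtain ⟨μ, hμ⟩ := hμ
            have h3 := hno _ hμ (by
              simpa [QuadraticMap.polar_add_left, QuadraticMap.polar_smul_left, hdx, hxb] using hcx)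
            simp [QuadraticMap.polar_add_left, QuadraticMap.polar_smul_left, hcb,
              polar_self_two_mul, hb] at h3
            exact hdb h3
        have hf := full_move hx hy he hxy (by rw [QuadraticMap.polar_comm]; exact hex)
        exact full_move hf hx hb hex heb
      · exact full_move hy hx hb (by rw [QuadraticMap.polar_comm]; exact hxy) h2
    · exact full_move hx hy hb hxy h1
  refine (commutator_le_siegelGroup hQ (by omega)).trans ((Subgroup.closure_le _).mpr ?_)
  rintro _ ⟨u, v, hu, huv, -, rfl⟩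
  obtain ⟨_, _, hm⟩ := (hall u hu).2 v huv
  exact hm

/-- **A totally singular subspace stabiliser is maximal.** -/
theorem singular_stab_maximal (hn : 7 ≤ finrank F V) {W : Submodule F V} (hW : ∀ x ∈ W, Q x = 0)
    (hbig : ∀ u, Q u = 0 → u ∉ W → (∀ x ∈ W, BQ x u = 0) →
      ∃ v, (∀ x ∈ W, BQ x v = 0) ∧ BQ u v = 0 ∧ Q v ≠ 0)
    (hHM : ∀ g ∈ commutator (orthGroup Q), (∀ x ∈ W, (g : V ≃ₗ[F] V) x ∈ W) → g ∈ M)
    {g : orthGroup Q} (hg : g ∈ M) {x : V} (hx : x ∈ W) (hgx : (g : V ≃ₗ[F] V) x ∉ W) :
    commutator (orthGroup Q) ≤ M := by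
  have stab : ∀ u v (hu : Q u = 0) (huv : BQ u v = 0), (∀ y ∈ W, BQ u y = 0 → BQ v y • u ∈ W ∧ BQ u y = 0) →
      (∀ y ∈ W, BQ u y = 0) → eichler Q u v hu huv ∈ M := by
    intro u v hu huv h1 h2
    refine hHM _ (eichler_mem_comm hQ hn hu huv) fun y hy => ?_
    rw [eichler_apply, eichlerMap_apply, h2 y hy, mul_zero, add_zero, zero_smul, add_zero]
    exact sub_mem hy (h1 y hy (h2 y hy)).1
  have hfull : ∀ y ∈ W, Full Q M y := fun y hy => ⟨hW y hy, fun w hw =>
    ⟨hW y hy, hw, stab y w _ hw (fun z hz h => ⟨W.smul_mem _ hy, h⟩) fun z hz => polar_ts hW hy hz⟩⟩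
  by_cases hort : ∀ y ∈ W, BQ y ((g : V ≃ₗ[F] V) x) = 0
  · set t := (g : V ≃ₗ[F] V) x with ht
    have hI := isForm_quadratic Q hQ
    have hQt : Q t = 0 := by rw [ht, g.2.2]; exact hW x hx
    obtain ⟨u0, hu0, htu⟩ := hI.exists_perp_pairing (y := t) hgx (1 : F)
    simp only [QuadraticMap.polarBilin_apply_apply] at hu0 htu
    set u := u0 - Q u0 • t with hudef
    have hQu : Q u = 0 := by
      rw [hudef, sub_eq_add_neg, ← neg_smul, QuadraticMap.map_add Q, QuadraticMap.map_smul, hQt,
        QuadraticMap.polar_smul_right, QuadraticMap.polar_comm Q u0 t, htu, smul_eq_mul]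
      simp
    have hWu : ∀ y ∈ W, BQ y u = 0 := fun y hy => by
      rw [hudef, QuadraticMap.polar_sub_right, QuadraticMap.polar_smul_right, hu0 y hy, hort y hy]; simp
    have htu' : BQ u t = 1 := by
      rw [hudef, QuadraticMap.polar_sub_left, QuadraticMap.polar_smul_left, QuadraticMap.polar_comm Q u0 t, htu,
        polar_self_two_mul, hQt]
      simp
    have huW : u ∉ W := fun h => one_ne_zero (α := F) (by rw [← htu']; exact hort u h)
    obtain ⟨v, hWv, huv, hQv⟩ := hbig u hQu huW hWu
    have hm := stab u v hQu huv (fun y hy _ => ⟨by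
      rw [QuadraticMap.polar_comm, hWv y hy, zero_smul]; exact zero_mem _, by
      rw [QuadraticMap.polar_comm, hWu y hy]⟩) fun y hy => by rw [QuadraticMap.polar_comm, hWu y hy]
    have hfy := full_conj hm (full_conj hg (hfull x hx))
    refine exists_full_pair_top hQ hn (full_conj hg (hfull x hx)) hfy ?_
    rw [← ht, eichler_apply, eichlerMap_apply, htu', one_smul, mul_one, QuadraticMap.polar_sub_right,
      QuadraticMap.polar_add_right, polar_self_two_mul, hQt, QuadraticMap.polar_smul_right,
      QuadraticMap.polar_comm Q t u, htu', QuadraticMap.polar_comm Q t v]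
    simp [hQv]
  · push Not at hort
    obtain ⟨y, hy, hne⟩ := hort
    exact exists_full_pair_top hQ hn (hfull y hy) (full_conj hg (hfull x hx)) hne

/-- **The fixer of a non-singular vector is maximal in characteristic two.** -/
theorem fixer_maximal (hn : 9 ≤ finrank F V) {v : V}
    (hHM : ∀ g ∈ commutator (orthGroup Q), (g : V ≃ₗ[F] V) v = v → g ∈ M)
    {g : orthGroup Q} (hg : g ∈ M) (hgv : (g : V ≃ₗ[F] V) v ∉ sp {v}) (hv : v ∉ sp {(g : V ≃ₗ[F] V) v}) :
    commutator (orthGroup Q) ≤ M := by
  set v' := (g : V ≃ₗ[F] V) v with hv'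
  have hI := isForm_quadratic Q hQ
  have e0 : ∀ x w (hx : Q x = 0) (hw : BQ x w = 0), BQ x v = 0 → BQ w v = 0 → EIn Q M x w := by
    intro x w hx hw h1 h2
    refine ⟨hx, hw, hHM _ (eichler_mem_comm hQ (by omega) hx hw) ?_⟩
    rw [eichler_apply, eichlerMap_apply, h1, h2]; simp
  have e1 : ∀ x w (hx : Q x = 0) (hw : BQ x w = 0), BQ x v' = 0 → BQ w v' = 0 → EIn Q M x w := by
    intro x w hx hw h1 h2
    obtain ⟨x', rfl⟩ := (g : V ≃ₗ[F] V).surjective x
    obtain ⟨w', rfl⟩ := (g : V ≃ₗ[F] V).surjective w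
    rw [hv', orth_polar] at h1 h2
    rw [orth_polar] at hw
    rw [g.2.2] at hx
    exact eIn_conj hg (e0 _ _ hx hw h1 h2)
  have hfull : ∀ x, Q x = 0 → BQ x v = 0 → BQ x v' = 0 → x ∉ sp {v, v'} → Full Q M x := by
    intro x hx hxv hxv' hxS
    obtain ⟨w0, hw0, hvw0⟩ := hI.exists_perp_pairing (H := sp {x, v'}) (y := v) (fun hm => by
        obtain ⟨c, z, hz, he⟩ := Submodule.mem_span_insert.mp hm
        rcases eq_or_ne c 0 with rfl | hc0
        · exact hv (by rw [he, zero_smul, zero_add]; exact hz)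
        · refine hxS ?_
          rw [show x = c⁻¹ • (v - z) by rw [he, add_sub_cancel_right, smul_smul, inv_mul_cancel₀ hc0, one_smul]]
          exact Submodule.smul_mem _ _ (sub_mem (Submodule.subset_span (by simp)) (Submodule.span_mono (by simp) hz))) (1 : F)
    simp only [QuadraticMap.polarBilin_apply_apply] at hw0 hvw0
    have hxw0 := hw0 x (Submodule.subset_span (by simp))
    have hv'w0 := hw0 v' (Submodule.subset_span (by simp))
    refine ⟨hx, fun w hw => ?_⟩
    set c := BQ v w
    have h1 : EIn Q M x (w - c • w0) := e0 x _ hx (by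
      rw [QuadraticMap.polar_sub_right, QuadraticMap.polar_smul_right, hw, hxw0]; simp) hxv (by
      rw [QuadraticMap.polar_comm, QuadraticMap.polar_sub_right, QuadraticMap.polar_smul_right, hvw0]; simp [c])
    have h2 : EIn Q M x (c • w0) := e1 x _ hx (by
      rw [QuadraticMap.polar_smul_right, hxw0, smul_zero]) hxv' (by
      rw [QuadraticMap.polar_comm, QuadraticMap.polar_smul_right, hv'w0, smul_zero])
    simpa using eIn_add h1 h2
  set S := sp {v, v'}
  have hS : finrank F S ≤ 2 := finrank_pair_le (F := F) v v'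
  have hUc : ∀ d : V, ∃ d0 ∈ (⊤ : Submodule F V), ∀ x ∈ (⊤ : Submodule F V), BQ x d = BQ x d0 :=
    fun d => ⟨d, trivial, fun _ _ => rfl⟩
  obtain ⟨x, hx, hxS⟩ : ∃ x, (Q x = 0 ∧ ∀ s ∈ S, BQ s x = 0) ∧ x ∉ S := by
    obtain ⟨Z, hZ⟩ := Submodule.exists_isCompl S
    have hd : 3 ≤ finrank F ↥(perp (QuadraticMap.polarBilin Q) S ⊓ Z) := by
      have h1 := Submodule.finrank_sup_add_finrank_inf_eq (perp (QuadraticMap.polarBilin Q) S) Z
      have h3 := hI.finrank_perp S
      have h4 := Submodule.finrank_add_eq_of_isCompl hZ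
      have h5 := Submodule.finrank_le (perp (QuadraticMap.polarBilin Q) S ⊔ Z)
      omega
    obtain ⟨x, hx, hx0, hQx⟩ := exists_singular_mem (Q := Q) hd
    exact ⟨x, ⟨hQx, hx.1⟩, fun h => hx0 (Submodule.disjoint_def.mp hZ.disjoint x h hx.2)⟩
  obtain ⟨y, -, hQy, hyS, hyx⟩ := exists_sing_pair hQ (U := ⊤) (S := S) hUc le_top
    (by rw [finrank_top]; omega) (v := x) trivial hxS
  have hv1 : v ∈ S := Submodule.subset_span (by simp)
  have hv2 : v' ∈ S := Submodule.subset_span (by simp)
  have hyn : y ∉ S := fun h => hyx (hx.2 y h)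
  exact exists_full_pair_top hQ (by omega)
    (hfull y hQy (by rw [QuadraticMap.polar_comm]; exact hyS v hv1) (by rw [QuadraticMap.polar_comm]; exact hyS v' hv2) hyn)
    (hfull x hx.1 (by rw [QuadraticMap.polar_comm]; exact hx.2 v hv1) (by rw [QuadraticMap.polar_comm]; exact hx.2 v' hv2) hxS) hyx

end Finite

end Cfsg.Agent.GeomClasses

namespace Cfsg.Agent.GeomClasses

open Module Cfsg.Agent.Forms

variable {F V : Type*} [Field F] [AddCommGroup V] [Module F V] [FiniteDimensional F V]

/-- The complement condition fails only next to a maximal totally singular subspace. -/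
theorem exists_nonsingular_or_half {Q : QuadraticForm F V} (hQ : (QuadraticMap.polarBilin Q).Nondegenerate)
    {W : Submodule F V} (hW : ∀ x ∈ W, Q x = 0) {u : V} (hu : Q u = 0) (huW : u ∉ W)
    (hWu : ∀ x ∈ W, QuadraticMap.polar Q x u = 0) :
    (∃ v, (∀ x ∈ W, QuadraticMap.polar Q x v = 0) ∧ QuadraticMap.polar Q u v = 0 ∧ Q v ≠ 0) ∨
      (2 * (finrank F W + 1) = finrank F V ∧
        ∃ T : Submodule F V, (∀ x ∈ T, Q x = 0) ∧ 2 * finrank F T = finrank F V) := by
  refine or_iff_not_imp_left.mpr fun hno => ?_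
  push Not at hno
  have hI := isForm_quadratic Q hQ
  set K := perp (QuadraticMap.polarBilin Q) (W ⊔ Submodule.span F {u}) with hK
  have hKts : ∀ v ∈ K, Q v = 0 := fun v hv => hno v (fun x hx => hv x (Submodule.mem_sup_left hx))
    (hv u (Submodule.mem_sup_right (Submodule.mem_span_singleton_self u)))
  set T := W ⊔ Submodule.span F {u}
  have hT : ∀ x ∈ T, Q x = 0 := by
    intro x hx
    obtain ⟨y, hy, z, hz, rfl⟩ := Submodule.mem_sup.mp hx
    obtain ⟨c, rfl⟩ := Submodule.mem_span_singleton.mp hz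
    rw [QuadraticMap.map_add Q, QuadraticMap.map_smul, hW y hy, hu, QuadraticMap.polar_smul_right, hWu y hy]
    simp
  have h1 := hI.finrank_perp T
  have h2 : finrank F T = finrank F W + 1 := by
    have := Submodule.finrank_sup_add_finrank_inf_eq W (Submodule.span F {u})
    have h0 : W ⊓ Submodule.span F {u} = ⊥ := by
      rw [Submodule.eq_bot_iff]
      rintro x ⟨hx, hx'⟩
      obtain ⟨c, rfl⟩ := Submodule.mem_span_singleton.mp hx'
      by_contra hc
      have hc0 : c ≠ 0 := fun h0 => hc (by rw [h0, zero_smul])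
      have h := Submodule.smul_mem W c⁻¹ hx
      rw [smul_smul, inv_mul_cancel₀ hc0, one_smul] at h
      exact huW h
    rw [h0, finrank_bot, finrank_span_singleton (fun h : u = 0 => huW (by rw [h]; exact zero_mem W))] at this
    change finrank F ↥(W ⊔ Submodule.span F {u}) = _
    omega
  have h3 := Submodule.finrank_mono (show K ≤ perp (QuadraticMap.polarBilin Q) K from
    fun y hy x hx => polar_ts hKts hx hy)
  have h4 := hI.finrank_perp K
  have h5 := Submodule.finrank_mono (show T ≤ perp (QuadraticMap.polarBilin Q) T from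
    fun y hy x hx => polar_ts hT hx hy)
  have h1' : finrank F K + finrank F T = finrank F V := h1
  have h3' : finrank F K ≤ finrank F (perp (QuadraticMap.polarBilin Q) K) := h3
  exact ⟨by omega, T, hT, by omega⟩

end Cfsg.Agent.GeomClasses
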