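import Cfsg.Agent.GeomClasses.OrthStab
import Cfsg.Agent.GeomClasses.SubfieldInSL

/-! # Orthogonal groups: overgroups of the elements defined over a subfield -/

set_option autoImplicit false
set_option linter.unusedSectionVars false

namespace Cfsg.Agent.GeomClasses.OrthSub

open Module Cfsg.Agent.Forms Cfsg.Agent.GeomClasses Cfsg.Agent.GeomClasses.SubfieldSL

variable {ι : Type} [Fintype ι] [DecidableEq ι] {F : Type*} [Field F] {Q : QuadraticForm F (ι → F)}
  {F₀ : Subfield F}

set_option quotPrecheck false in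
local notation "BQ" => QuadraticMap.polar ⇑Q

local notation "Vec" => (ι → F)

theorem polar_smul_right' (c : F) (x y : Vec) : BQ x (c • y) = c * BQ x y := by
  rw [QuadraticMap.polar_smul_right, smul_eq_mul]

theorem polar_self_of_singular {x : Vec} (hx : Q x = 0) : BQ x x = 0 := by
  rw [polar_self_two_mul, hx, mul_zero]

theorem rat_zero : Rat' F₀ (0 : Vec) := fun _ => F₀.zero_mem

theorem rat_add {x y : Vec} (hx : Rat' F₀ x) (hy : Rat' F₀ y) : Rat' F₀ (x + y) := fun i => F₀.add_mem (hx i) (hy i)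

theorem rat_sub {x y : Vec} (hx : Rat' F₀ x) (hy : Rat' F₀ y) : Rat' F₀ (x - y) := fun i => F₀.sub_mem (hx i) (hy i)

theorem rat_smul {x : Vec} {c : F} (hc : c ∈ F₀) (hx : Rat' F₀ x) : Rat' F₀ (c • x) := fun i => F₀.mul_mem hc (hx i)

/-- The inclusion of the rational vectors. -/
def emb (F₀ : Subfield F) : (ι → F₀) →ₛₗ[(F₀.subtype : F₀ →+* F)] (ι → F) where
  toFun x i := (x i : F)
  map_add' _ _ := rfl
  map_smul' _ _ := rfl

theorem emb_rat (x : ι → F₀) : Rat' F₀ (emb F₀ x) := fun i => (x i).2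

theorem emb_smul (c : F₀) (x : ι → F₀) : emb F₀ (c • x) = (c : F) • emb F₀ x := rfl

theorem emb_injective : Function.Injective (emb (ι := ι) F₀) := fun _ _ h =>
  funext fun i => Subtype.ext (congrFun h i)

theorem exists_emb {x : Vec} (hx : Rat' F₀ x) : ∃ x' : ι → F₀, emb F₀ x' = x := ⟨fun i => ⟨x i, hx i⟩, rfl⟩

theorem expand (v : Vec) : v = ∑ i, v i • (Pi.single i 1 : Vec) := pi_eq_sum_univ' v

theorem rat_unit (i : ι) : Rat' F₀ (Pi.single i 1 : Vec) := fun j => by
  rcases eq_or_ne j i with rfl | h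
  · rw [Pi.single_eq_same]; exact F₀.one_mem
  · rw [Pi.single_eq_of_ne h]; exact F₀.zero_mem

/-- Rational values on rational vectors. -/
def RatForm (Q : QuadraticForm F (ι → F)) (F₀ : Subfield F) : Prop := ∀ v, Rat' F₀ v → Q v ∈ F₀

theorem RatForm.polar_mem (h : RatForm Q F₀) {x y : Vec} (hx : Rat' F₀ x) (hy : Rat' F₀ y) : BQ x y ∈ F₀ :=
  F₀.sub_mem (F₀.sub_mem (h _ (rat_add hx hy)) (h _ hx)) (h _ hy)

/-- The form on the rational vectors. -/
noncomputable def ratQ (h : RatForm Q F₀) : QuadraticForm F₀ (ι → F₀) :=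
  QuadraticMap.ofPolar (fun x => ⟨Q (emb F₀ x), h _ (emb_rat x)⟩)
    (fun a x => Subtype.ext (by
      show Q (emb F₀ (a • x)) = (a : F) * a * Q (emb F₀ x)
      rw [emb_smul, QuadraticMap.map_smul, smul_eq_mul]))
    (fun x x' y => Subtype.ext (by
      show Q (emb F₀ (x + x' + y)) - Q (emb F₀ (x + x')) - Q (emb F₀ y) =
        (Q (emb F₀ (x + y)) - Q (emb F₀ x) - Q (emb F₀ y)) + (Q (emb F₀ (x' + y)) - Q (emb F₀ x') - Q (emb F₀ y))
      simp only [map_add]
      exact QuadraticMap.polar_add_left Q _ _ _))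
    (fun a x y => Subtype.ext (by
      show Q (emb F₀ (a • x + y)) - Q (emb F₀ (a • x)) - Q (emb F₀ y) =
        (a : F) * (Q (emb F₀ (x + y)) - Q (emb F₀ x) - Q (emb F₀ y))
      simp only [map_add, emb_smul]
      exact QuadraticMap.polar_smul_left Q _ _ _))

theorem coe_ratQ (h : RatForm Q F₀) (x : ι → F₀) : ((ratQ h x : F₀) : F) = Q (emb F₀ x) := rfl

theorem coe_ratQ_polar (h : RatForm Q F₀) (x y : ι → F₀) :
    ((QuadraticMap.polar (⇑(ratQ h)) x y : F₀) : F) = BQ (emb F₀ x) (emb F₀ y) := by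
  simp only [QuadraticMap.polar, AddSubgroupClass.coe_sub, coe_ratQ, map_add]

section Nondeg

variable (hQ : (QuadraticMap.polarBilin Q).Nondegenerate)
include hQ

theorem eq_zero_of_unit {v : Vec} (h : ∀ i, BQ v (Pi.single i 1) = 0) : v = 0 := by
  refine hQ.1 v fun w => ?_
  have hL : (QuadraticMap.polarBilin Q v) = 0 := (Pi.basisFun F ι).ext fun i => by
    rw [Pi.basisFun_apply, QuadraticMap.polarBilin_apply_apply, LinearMap.zero_apply]; exact h i
  rw [hL, LinearMap.zero_apply]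

theorem ratQ_nondegenerate (h : RatForm Q F₀) : (QuadraticMap.polarBilin (ratQ h)).Nondegenerate := by
  have hl : ∀ x, (∀ y, QuadraticMap.polarBilin (ratQ h) x y = 0) → x = 0 := by
    intro x hx
    refine emb_injective ((eq_zero_of_unit hQ fun i => ?_).trans (map_zero _).symm)
    obtain ⟨e, he⟩ := exists_emb (F₀ := F₀) (rat_unit i)
    have h1 := congrArg (Subtype.val : F₀ → F) (hx e)
    rw [QuadraticMap.polarBilin_apply_apply, coe_ratQ_polar, he] at h1
    exact h1
  exact ⟨hl, fun y hy => hl y fun x => by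
    rw [QuadraticMap.polarBilin_apply_apply, QuadraticMap.polar_comm, ← QuadraticMap.polarBilin_apply_apply]
    exact hy x⟩

/-- A rational vector pairing with one vector and orthogonal to finitely many. -/
theorem exists_dual (h : RatForm Q F₀) (s : List Vec) (hs : ∀ x ∈ s, Rat' F₀ x) {v : Vec} (hv : Rat' F₀ v)
    (hnot : v ∉ Submodule.span F {x | x ∈ s}) : ∃ d, Rat' F₀ d ∧ BQ v d = 1 ∧ ∀ x ∈ s, BQ x d = 0 := by
  obtain ⟨v', rfl⟩ := exists_emb hv
  set S : Submodule F₀ (ι → F₀) := Submodule.span F₀ {x | emb F₀ x ∈ s} with hS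
  have hnot' : v' ∉ S := fun hm => hnot (by
    clear hv hnot
    induction hm using Submodule.span_induction with
    | mem z hz => exact Submodule.subset_span hz
    | zero => rw [map_zero]; exact Submodule.zero_mem _
    | add a b _ _ ha hb => rw [map_add]; exact Submodule.add_mem _ ha hb
    | smul c a _ ha => rw [emb_smul]; exact Submodule.smul_mem _ _ ha)
  obtain ⟨d, hd, hd'⟩ := (isForm_quadratic _ (ratQ_nondegenerate hQ h)).exists_perp_pairing hnot' (1 : F₀)
  simp only [QuadraticMap.polarBilin_apply_apply] at hd hd'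
  refine ⟨emb F₀ d, emb_rat d, ?_, fun x hx => ?_⟩
  · rw [← coe_ratQ_polar h, hd']; rfl
  · obtain ⟨x', rfl⟩ := exists_emb (hs x hx)
    rw [← coe_ratQ_polar h, hd x' (Submodule.subset_span hx)]; rfl

/-- A singular rational vector pairing with a singular one, orthogonal to finitely many vectors orthogonal to it. -/
theorem exists_sing_dual (h : RatForm Q F₀) (s : List Vec) (hs : ∀ x ∈ s, Rat' F₀ x) {v : Vec} (hv : Rat' F₀ v)
    (hQv : Q v = 0) (hperp : ∀ x ∈ s, BQ x v = 0) (hnot : v ∉ Submodule.span F {x | x ∈ s}) :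
    ∃ d, Rat' F₀ d ∧ Q d = 0 ∧ BQ v d = 1 ∧ ∀ x ∈ s, BQ x d = 0 := by
  obtain ⟨d, hd, h1, h2⟩ := exists_dual hQ h s hs hv hnot
  refine ⟨d + (-Q d) • v, rat_add hd (rat_smul (F₀.neg_mem (h d hd)) hv), ?_, ?_, fun x hx => ?_⟩
  · rw [QuadraticMap.map_add Q, QuadraticMap.map_smul, hQv, smul_zero, polar_smul_right', QuadraticMap.polar_comm (⇑Q) d v,
      h1, mul_one, add_zero, add_neg_cancel]
  · rw [QuadraticMap.polar_add_right, polar_smul_right', h1, polar_self_of_singular hQv, mul_zero, add_zero]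
  · rw [QuadraticMap.polar_add_right, polar_smul_right', h2 x hx, hperp x hx, mul_zero, add_zero]

theorem exists_pair [Finite F] (h : RatForm Q F₀) (s : List Vec) (hs : ∀ x ∈ s, Rat' F₀ x)
    (hlen : 2 * s.length + 3 ≤ Fintype.card ι) :
    ∃ d d', Rat' F₀ d ∧ Rat' F₀ d' ∧ Q d = 0 ∧ Q d' = 0 ∧ BQ d d' = 1 ∧
      ∀ x ∈ s, BQ x d = 0 ∧ BQ x d' = 0 := by
  classical
  haveI : Finite F₀ := Subtype.finite
  set t : Finset (ι → F₀) := (s.toFinset).image (fun x i => if hx : x i ∈ F₀ then (⟨x i, hx⟩ : F₀) else 0) with ht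
  set S : Submodule F₀ (ι → F₀) := Submodule.span F₀ (t : Set (ι → F₀)) with hS
  have hmem : ∀ x ∈ s, ∃ x' ∈ S, emb F₀ x' = x := fun x hx => by
    refine ⟨fun i => if hxi : x i ∈ F₀ then (⟨x i, hxi⟩ : F₀) else 0,
      Submodule.subset_span (Finset.mem_image_of_mem _ (List.mem_toFinset.mpr hx)), funext fun i => ?_⟩
    show ((if hxi : x i ∈ F₀ then (⟨x i, hxi⟩ : F₀) else 0 : F₀) : F) = x i
    rw [dif_pos (hs x hx i)]
  have hdS : finrank F₀ S ≤ s.length :=
    ((finrank_span_finset_le_card t).trans Finset.card_image_le).trans (List.toFinset_card_le s)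
  have hQ₀ := ratQ_nondegenerate hQ h
  have hI := isForm_quadratic _ hQ₀
  obtain ⟨v, hvS, hv⟩ : ∃ v ∈ perp (QuadraticMap.polarBilin (ratQ h)) S, v ∉ S := by
    refine SetLike.not_le_iff_exists.mp fun hle => ?_
    have h1 := Submodule.finrank_mono hle
    have h2 := hI.finrank_perp S
    rw [Module.finrank_pi] at h2
    omega
  obtain ⟨a, -, ha, haS, hav⟩ := exists_sing_pair hQ₀ (U := ⊤) (S := S) (fun d => ⟨d, trivial, fun _ _ => rfl⟩)
    le_top (by rw [finrank_top, Module.finrank_pi]; omega) (v := v) trivial hv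
  set a' := (QuadraticMap.polar (⇑(ratQ h)) a v)⁻¹ • a with ha'
  have hQd : Q (emb F₀ a') = 0 := by
    rw [← coe_ratQ h, ha', QuadraticMap.map_smul, ha, smul_zero]; rfl
  have hpair : BQ (emb F₀ a') (emb F₀ v) = 1 := by
    rw [← coe_ratQ_polar h, ha', QuadraticMap.polar_smul_left, smul_eq_mul, inv_mul_cancel₀ hav]; rfl
  refine ⟨emb F₀ a', emb F₀ v + (-Q (emb F₀ v)) • emb F₀ a', emb_rat _,
    rat_add (emb_rat v) (rat_smul (F₀.neg_mem (h _ (emb_rat v))) (emb_rat _)), hQd, ?_, ?_, fun x hx => ?_⟩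
  · rw [QuadraticMap.map_add Q, QuadraticMap.map_smul, hQd, smul_zero, polar_smul_right',
      QuadraticMap.polar_comm (⇑Q) (emb F₀ v), hpair, mul_one, add_zero, add_neg_cancel]
  · rw [QuadraticMap.polar_add_right, polar_smul_right', hpair, polar_self_of_singular hQd, mul_zero, add_zero]
  · obtain ⟨x', hx', rfl⟩ := hmem x hx
    have e1 : BQ (emb F₀ x') (emb F₀ a') = 0 := by
      rw [← coe_ratQ_polar h, ha', QuadraticMap.polar_smul_right, haS x' hx', smul_zero]; rfl
    have e2 : BQ (emb F₀ x') (emb F₀ v) = 0 := by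
      rw [← coe_ratQ_polar h, ← QuadraticMap.polarBilin_apply_apply, mem_perp.mp hvS x' hx']; rfl
    exact ⟨e1, by rw [QuadraticMap.polar_add_right, polar_smul_right', e1, e2, mul_zero, add_zero]⟩

/-- A functional vanishing on the rational singular vectors orthogonal to a few vectors vanishes on all rational
vectors orthogonal to them. -/
theorem kills [Finite F] (h : RatForm Q F₀) (s : List Vec) (hs : ∀ x ∈ s, Rat' F₀ x)
    (hlen : 2 * s.length + 7 ≤ Fintype.card ι) (f : Vec →ₗ[F] F)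
    (hf : ∀ c, Rat' F₀ c → Q c = 0 → (∀ x ∈ s, BQ x c = 0) → f c = 0) {y : Vec} (hy : Rat' F₀ y)
    (hys : ∀ x ∈ s, BQ x y = 0) : f y = 0 := by
  obtain ⟨d, d', hd, hd', hQd, hQd', hdd, hperp⟩ := exists_pair hQ h s hs (by omega)
  have hd0 := hf d hd hQd fun x hx => (hperp x hx).1
  have hd0' := hf d' hd' hQd' fun x hx => (hperp x hx).2
  have main : ∀ z, Rat' F₀ z → BQ d z = 0 → BQ d' z = 0 → (∀ x ∈ s, BQ x z = 0) → f z = 0 := by
    intro z hz h1 h2 hzs
    have := hf (z + d' + (-Q z) • d) (rat_add (rat_add hz hd') (rat_smul (F₀.neg_mem (h z hz)) hd)) (by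
      rw [QuadraticMap.map_add Q, QuadraticMap.map_add Q z d', QuadraticMap.map_smul, hQd, hQd', smul_zero,
        polar_smul_right', QuadraticMap.polar_comm (⇑Q) (z + d') d, QuadraticMap.polar_add_right, h1, hdd,
        QuadraticMap.polar_comm (⇑Q) z d', h2]
      ring) (fun x hx => by
      rw [QuadraticMap.polar_add_right, QuadraticMap.polar_add_right, polar_smul_right', hzs x hx, (hperp x hx).1,
        (hperp x hx).2, mul_zero, add_zero, add_zero])
    rwa [map_add, map_add, map_smul, hd0, hd0', smul_zero, add_zero, add_zero] at this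
  have hz := main (y - BQ d' y • d - BQ d y • d')
    (rat_sub (rat_sub hy (rat_smul (h.polar_mem hd' hy) hd)) (rat_smul (h.polar_mem hd hy) hd'))
    (by
      rw [QuadraticMap.polar_sub_right, QuadraticMap.polar_sub_right, polar_smul_right', polar_smul_right',
        polar_self_of_singular hQd, hdd]
      ring)
    (by
      rw [QuadraticMap.polar_sub_right, QuadraticMap.polar_sub_right, polar_smul_right', polar_smul_right',
        polar_self_of_singular hQd', QuadraticMap.polar_comm (⇑Q) d' d, hdd]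
      ring)
    (fun x hx => by
      rw [QuadraticMap.polar_sub_right, QuadraticMap.polar_sub_right, polar_smul_right', polar_smul_right', hys x hx,
        (hperp x hx).1, (hperp x hx).2, mul_zero, mul_zero, sub_zero, sub_zero])
  rwa [map_sub, map_sub, map_smul, map_smul, hd0, hd0', smul_zero, smul_zero, sub_zero, sub_zero] at hz

end Nondeg

/-- Setting: a group containing the rational Eichler transformations. -/
structure Setting (Q : QuadraticForm F (ι → F)) (F₀ : Subfield F) (r : ℕ) [Fintype F]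
    (M : Subgroup (orthGroup Q)) : Prop where
  nondeg : (QuadraticMap.polarBilin Q).Nondegenerate
  dim : 13 ≤ Fintype.card ι
  rat : RatForm Q F₀
  prime : r.Prime
  card : Fintype.card F = Nat.card F₀ ^ r
  root : ∀ x w, Rat' F₀ x → Rat' F₀ w → Q x = 0 → QuadraticMap.polar Q x w = 0 → EIn Q M x w

variable [Fintype F] {r : ℕ} {M : Subgroup (orthGroup Q)}

/-- The action on two pairs of coordinates of the elements fixing their common kernel. -/
def planeGroup (M : Subgroup (orthGroup Q)) (a b c v₁ v₂ w₀ : ι → F) (h0 : QuadraticMap.polar Q w₀ a = 0)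
    (h1 : QuadraticMap.polar Q w₀ b = 0) (h2 : QuadraticMap.polar Q w₀ c = 0)
    (h3 : QuadraticMap.polar Q w₀ v₁ = 0) (h4 : QuadraticMap.polar Q w₀ v₂ = 0) :
    Subgroup (Dickson.SL2 F) where
  carrier := {s | ∃ g ∈ M, (∀ x, BQ x a = 0 → BQ x b = 0 → BQ x c = 0 → BQ x v₁ = 0 → BQ x v₂ = 0 →
      (g : (ι → F) ≃ₗ[F] (ι → F)) x = x) ∧
    ∀ x, BQ x w₀ = 0 →
      BQ ((g : (ι → F) ≃ₗ[F] (ι → F)) x) a = s 0 0 * BQ x a + s 0 1 * BQ x v₂ ∧
      BQ ((g : (ι → F) ≃ₗ[F] (ι → F)) x) v₂ = s 1 0 * BQ x a + s 1 1 * BQ x v₂ ∧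
      BQ ((g : (ι → F) ≃ₗ[F] (ι → F)) x) b = s 0 0 * BQ x b + s 0 1 * BQ x v₁ ∧
      BQ ((g : (ι → F) ≃ₗ[F] (ι → F)) x) v₁ = s 1 0 * BQ x b + s 1 1 * BQ x v₁}
  one_mem' := ⟨1, M.one_mem, fun x _ _ _ _ _ => rfl, fun x _ => by simp⟩
  mul_mem' := by
    rintro s t ⟨g, hg, hgf, hgs⟩ ⟨g', hg', hgf', hgs'⟩
    refine ⟨g * g', M.mul_mem hg hg', fun x a1 a2 a3 a4 a5 => ?_, fun x hx => ?_⟩
    · rw [orth_mul_apply, hgf' x a1 a2 a3 a4 a5, hgf x a1 a2 a3 a4 a5]
    · have hfix := hgf' w₀ h0 h1 h2 h3 h4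
      have hx' : BQ ((g' : (ι → F) ≃ₗ[F] (ι → F)) x) w₀ = 0 := by
        conv_lhs => rw [← hfix]
        rw [orth_polar, hx]
      obtain ⟨e1, e2, e3, e4⟩ := hgs _ hx'
      obtain ⟨f1, f2, f3, f4⟩ := hgs' x hx
      refine ⟨?_, ?_, ?_, ?_⟩ <;> rw [orth_mul_apply] <;> simp only [e1, e2, e3, e4, f1, f2, f3, f4, Dickson.mul_apply2] <;>
        ring
  inv_mem' := by
    rintro s ⟨g, hg, hgf, hgs⟩
    have hap : ∀ x, (g : (ι → F) ≃ₗ[F] (ι → F)) (((g⁻¹ : orthGroup Q) : (ι → F) ≃ₗ[F] (ι → F)) x) = x := fun x => by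
      rw [← orth_mul_apply, mul_inv_cancel]; rfl
    refine ⟨g⁻¹, M.inv_mem hg, fun x a1 a2 a3 a4 a5 => ?_, fun x hx => ?_⟩
    · conv_lhs => rw [← hgf x a1 a2 a3 a4 a5]
      rw [← orth_mul_apply, inv_mul_cancel]; rfl
    · have hfix := hgf w₀ h0 h1 h2 h3 h4
      have h := hgs (((g⁻¹ : orthGroup Q) : (ι → F) ≃ₗ[F] (ι → F)) x) (by
        conv_rhs => rw [← hx]
        conv_rhs => rw [← hap x, ← hfix, orth_polar])
      rw [hap] at h
      obtain ⟨e1, e2, e3, e4⟩ := h
      have hdet := Dickson.det_eq s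
      simp only [Dickson.inv00, Dickson.inv01, Dickson.inv10, Dickson.inv11]
      refine ⟨?_, ?_, ?_, ?_⟩
      · linear_combination -(s 1 1) * e1 + (s 0 1) * e2 -
          (BQ (((g⁻¹ : orthGroup Q) : (ι → F) ≃ₗ[F] (ι → F)) x) a) * hdet
      · linear_combination (s 1 0) * e1 - (s 0 0) * e2 -
          (BQ (((g⁻¹ : orthGroup Q) : (ι → F) ≃ₗ[F] (ι → F)) x) v₂) * hdet
      · linear_combination -(s 1 1) * e3 + (s 0 1) * e4 -
          (BQ (((g⁻¹ : orthGroup Q) : (ι → F) ≃ₗ[F] (ι → F)) x) b) * hdet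
      · linear_combination (s 1 0) * e3 - (s 0 0) * e4 -
          (BQ (((g⁻¹ : orthGroup Q) : (ι → F) ≃ₗ[F] (ι → F)) x) v₁) * hdet

/-- Bilinearity of Eichler transformations in a totally singular plane. -/
theorem eIn_comb {u₁ u₂ : Vec} (hu₂ : Q u₂ = 0) (h : EIn Q M u₁ u₂) {α β γ δ : F} (hdet : α * δ - β * γ = 1) :
    EIn Q M (α • u₁ + β • u₂) (γ • u₁ + δ • u₂) := by
  obtain ⟨hu₁, h12, hm⟩ := h
  have h21 : BQ u₂ u₁ = 0 := by rw [QuadraticMap.polar_comm, h12]
  have hq : ∀ x y : F, Q (x • u₁ + y • u₂) = 0 := fun x y => by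
    rw [QuadraticMap.map_add Q, QuadraticMap.map_smul, QuadraticMap.map_smul, hu₁, hu₂, QuadraticMap.polar_smul_left,
      polar_smul_right', h12, smul_zero, smul_zero, mul_zero, smul_zero, add_zero, add_zero]
  have hb : BQ (α • u₁ + β • u₂) (γ • u₁ + δ • u₂) = 0 := by
    simp [QuadraticMap.polar_add_left, QuadraticMap.polar_add_right, QuadraticMap.polar_smul_left,
      polar_smul_right', polar_self_of_singular, hu₁, hu₂, h12, h21]
  refine ⟨hq _ _, hb, ?_⟩
  convert hm using 1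
  refine orth_ext fun y => ?_
  simp only [eichler_apply, eichlerMap_apply, hq, hu₂, QuadraticMap.polar_add_left, QuadraticMap.polar_smul_left,
    smul_eq_mul, zero_mul, add_zero]
  linear_combination (norm := module) hdet • (BQ u₁ y • u₂ - BQ u₂ y • u₁)

theorem exists_comb {a b c v₁ v₂ y : Vec} (hQ : (QuadraticMap.polarBilin Q).Nondegenerate)
    (h : ∀ x, BQ x a = 0 → BQ x b = 0 → BQ x c = 0 → BQ x v₁ = 0 → BQ x v₂ = 0 → BQ x y = 0) :
    ∃ α β γ δ ε : F, y = α • a + β • b + γ • c + δ • v₁ + ε • v₂ := by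
  let B := QuadraticMap.polarBilin Q
  let L : Fin 5 → (Vec →ₗ[F] F) := ![B.flip a, B.flip b, B.flip c, B.flip v₁, B.flip v₂]
  have hsp : B.flip y ∈ Submodule.span F (Set.range L) := by
    refine mem_span_of_iInf_ker_le_ker fun x hx => ?_
    rw [Submodule.mem_iInf] at hx
    exact h x (hx 0) (hx 1) (hx 2) (hx 3) (hx 4)
  obtain ⟨k, hk⟩ := (Submodule.mem_span_range_iff_exists_fun F).mp hsp
  refine ⟨k 0, k 1, k 2, k 3, k 4, sub_eq_zero.mp (hQ.2 _ fun x => ?_)⟩
  have h1 := LinearMap.congr_fun hk x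
  simp [Fin.sum_univ_five, L, B] at h1
  simp [map_sub, map_add, map_smul]
  linear_combination -h1

/-- Perpendicular vectors are combinations of projections of rational ones. -/
theorem perp_decomp {a z b x : Vec} (v : Vec) :
    v = (∑ i, v i • ((Pi.single i 1 : Vec) - BQ z (Pi.single i 1) • a - BQ a (Pi.single i 1) • z -
        BQ x (Pi.single i 1) • b - BQ b (Pi.single i 1) • x)) +
      BQ z v • a + BQ a v • z + BQ x v • b + BQ b v • x := by
  have hlin : ∀ w : Vec, BQ w v = ∑ i, v i * BQ w (Pi.single i 1) := fun w => by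
    conv_lhs => rw [expand v]
    rw [← QuadraticMap.polarBilin_apply_apply, map_sum]
    exact Finset.sum_congr rfl fun i _ => by rw [map_smul, smul_eq_mul, QuadraticMap.polarBilin_apply_apply]
  simp only [smul_sub, smul_smul, Finset.sum_sub_distrib, ← Finset.sum_smul, ← hlin]
  rw [← expand v]
  abel

theorem Setting.root' (S : Setting Q F₀ r M) {x w : Vec} (hx : Rat' F₀ x) (hw : Rat' F₀ w) (h : Q x = 0)
    (h' : BQ x w = 0) : eichler Q x w h h' ∈ M :=
  (S.root x w hx hw h h').2.2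

/-- One non-rational parameter gives everything. -/
theorem Setting.top_of_param (S : Setting Q F₀ r M) {a b z₁ z₂ : Vec} (ha : Rat' F₀ a) (hb : Rat' F₀ b)
    (hz₁ : Rat' F₀ z₁) (hz₂ : Rat' F₀ z₂) (hQa : Q a = 0) (hQb : Q b = 0) (hQz₁ : Q z₁ = 0) (hQz₂ : Q z₂ = 0)
    (hab : BQ a b = 0) (h11 : BQ a z₁ = 1) (h12 : BQ a z₂ = 0) (h21 : BQ b z₁ = 0) (h22 : BQ b z₂ = 1)
    (hzz : BQ z₁ z₂ = 0) {s : F} (hs : s ∉ F₀) (h : EIn Q M a (s • b)) : commutator (orthGroup Q) ≤ M := by
  have hba : BQ b a = 0 := by rw [QuadraticMap.polar_comm, hab]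
  have g11 : BQ z₁ a = 1 := by rw [QuadraticMap.polar_comm, h11]
  have g12 : BQ z₂ a = 0 := by rw [QuadraticMap.polar_comm, h12]
  have g21 : BQ z₁ b = 0 := by rw [QuadraticMap.polar_comm, h21]
  have g22 : BQ z₂ b = 1 := by rw [QuadraticMap.polar_comm, h22]
  have hzz' : BQ z₂ z₁ = 0 := by rw [QuadraticMap.polar_comm, hzz]
  have haa := polar_self_of_singular hQa
  have hbb := polar_self_of_singular hQb
  have hz11 := polar_self_of_singular hQz₁
  have hz22 := polar_self_of_singular hQz₂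
  set H := planeGroup M a b 0 (-z₁) z₂ 0 (by simp [QuadraticMap.polar]) (by simp [QuadraticMap.polar])
    (by simp [QuadraticMap.polar]) (by simp [QuadraticMap.polar]) (by simp [QuadraticMap.polar]) with hH
  have hlow : ∀ t : F, EIn Q M a (t • b) → Dickson.lel t ∈ H := by
    rintro t ⟨h1, h2, hm⟩
    refine ⟨_, hm, fun x e1 e2 _ _ _ => ?_, fun x _ => ?_⟩
    · rw [eichler_apply, eichlerMap_apply, QuadraticMap.polar_comm (⇑Q) a x, e1, QuadraticMap.map_smul, hQb,
        QuadraticMap.polar_smul_left, QuadraticMap.polar_comm (⇑Q) b x, e2]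
      simp
    · simp only [eichler_apply, eichlerMap_apply, QuadraticMap.map_smul, hQb, QuadraticMap.polar_sub_left,
        QuadraticMap.polar_add_left, QuadraticMap.polar_smul_left, QuadraticMap.polar_neg_right, smul_eq_mul,
        Dickson.lel00, Dickson.lel01, Dickson.lel10, Dickson.lel11, haa, hbb, hab, hba, h11, h12, h21, h22,
        QuadraticMap.polar_comm (⇑Q) a x, QuadraticMap.polar_comm (⇑Q) b x]
      refine ⟨?_, ?_, ?_, ?_⟩ <;> ring
  have hup : Dickson.uel (-1 : F) ∈ H := by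
    obtain ⟨h1, h2, hm⟩ := S.root z₁ z₂ hz₁ hz₂ hQz₁ hzz
    refine ⟨_, hm, fun x _ _ _ e4 e5 => ?_, fun x _ => ?_⟩
    · rw [QuadraticMap.polar_neg_right, neg_eq_zero] at e4
      rw [eichler_apply, eichlerMap_apply, QuadraticMap.polar_comm (⇑Q) z₁ x, e4, QuadraticMap.polar_comm (⇑Q) z₂ x, e5,
        hQz₂]
      simp
    · simp only [eichler_apply, eichlerMap_apply, hQz₂, QuadraticMap.polar_sub_left,
        QuadraticMap.polar_add_left, QuadraticMap.polar_smul_left, QuadraticMap.polar_neg_right, smul_eq_mul,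
        Dickson.uel00, Dickson.uel01, Dickson.uel10, Dickson.uel11, hz11, hz22, hzz, hzz', g11, g12, g21, g22,
        QuadraticMap.polar_comm (⇑Q) z₁ x, QuadraticMap.polar_comm (⇑Q) z₂ x]
      refine ⟨?_, ?_, ?_, ?_⟩ <;> ring
  -- all parameters occur
  have hall : ∀ t : F, EIn Q M a (t • b) := by
    intro t
    obtain ⟨g, hg, hgf, hgs⟩ := TwoByTwo.lel_full F₀ r S.prime S.card H (neg_ne_zero.mpr one_ne_zero) hup one_ne_zero
      (fun c hc => by rw [mul_one]; exact hlow c (S.root a (c • b) ha (rat_smul hc hb) hQa (by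
        rw [polar_smul_right', hab, mul_zero])))
      (hlow s h) (by rwa [div_one]) t
    have h2 : BQ a (t • b) = 0 := by rw [polar_smul_right', hab, mul_zero]
    refine ⟨hQa, h2, ?_⟩
    convert hg using 1
    refine orth_ext fun x => ?_
    rw [eichler_apply, eichlerMap_apply, QuadraticMap.map_smul, hQb, smul_zero, zero_mul, add_zero,
      QuadraticMap.polar_smul_left, smul_eq_mul]
    obtain ⟨e1, e2, e3, e4⟩ := hgs x (by simp [QuadraticMap.polar])
    simp only [Dickson.lel00, Dickson.lel01, Dickson.lel10, Dickson.lel11, one_mul, zero_mul, add_zero,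
      QuadraticMap.polar_neg_right] at e1 e2 e3 e4
    refine sub_eq_zero.mp (S.nondeg.2 _ fun y => ?_)
    set y' := y - BQ z₁ y • a - BQ a y • z₁ - BQ z₂ y • b - BQ b y • z₂ with hy'
    have hfix : (g : Vec ≃ₗ[F] Vec) y' = y' := by
      refine hgf y' ?_ ?_ (by simp [QuadraticMap.polar]) ?_ ?_ <;>
        simp only [hy', QuadraticMap.polar_sub_left, QuadraticMap.polar_smul_left, QuadraticMap.polar_neg_right,
          smul_eq_mul, haa, hbb, hz11, hz22, hab, hba, h11, h12, h21, h22, g11, g12, g21, g22, hzz, hzz',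
          QuadraticMap.polar_comm (⇑Q) a y, QuadraticMap.polar_comm (⇑Q) b y, QuadraticMap.polar_comm (⇑Q) z₁ y,
          QuadraticMap.polar_comm (⇑Q) z₂ y] <;>
        ring
    have e5 : BQ y' ((g : Vec ≃ₗ[F] Vec) x) = BQ y' x := by
      conv_lhs => rw [← hfix]
      rw [orth_polar]
    simp only [hy', QuadraticMap.polar_sub_left, QuadraticMap.polar_smul_left, smul_eq_mul] at e5
    simp only [QuadraticMap.polarBilin_apply_apply, QuadraticMap.polar_sub_right, QuadraticMap.polar_add_right,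
      polar_smul_right']
    simp only [QuadraticMap.polar_comm (⇑Q) _ a, QuadraticMap.polar_comm (⇑Q) _ b, QuadraticMap.polar_comm (⇑Q) _ z₁,
      QuadraticMap.polar_comm (⇑Q) _ z₂] at e1 e2 e3 e4 e5 ⊢
    linear_combination -e5 - BQ z₁ y * e1 + BQ a y * e4 - BQ z₂ y * e3 - BQ b y * e2
  -- the set of directions with all parameters
  have hadd : ∀ {u v : Vec}, (∀ t : F, EIn Q M a (t • u)) → (∀ t : F, EIn Q M a (t • v)) →
      ∀ t : F, EIn Q M a (t • (u + v)) := fun hu hv t => by rw [smul_add]; exact eIn_add (hu t) (hv t)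
  have hsmul : ∀ {u : Vec} (k : F), (∀ t : F, EIn Q M a (t • u)) → ∀ t : F, EIn Q M a (t • (k • u)) :=
    fun k hu t => by rw [smul_smul]; exact hu _
  have hshift : ∀ {y : Vec}, Rat' F₀ y → BQ a y = 0 → BQ b y = 0 → BQ z₂ y = 0 →
      ∀ t : F, EIn Q M a (t • (y + (-Q y) • z₂)) := by
    intro y hy h1 h2 h3
    have hm := S.root' hz₂ hy hQz₂ h3
    have ea : (eichler Q z₂ y hQz₂ h3 : Vec ≃ₗ[F] Vec) a = a := by
      rw [eichler_apply, eichlerMap_apply, g12, QuadraticMap.polar_comm (⇑Q) y a, h1]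
      simp
    have eb : (eichler Q z₂ y hQz₂ h3 : Vec ≃ₗ[F] Vec) b = b + (y + (-Q y) • z₂) := by
      rw [eichler_apply, eichlerMap_apply, g22, QuadraticMap.polar_comm (⇑Q) y b, h2]
      module
    intro t
    have h5 := eIn_conj hm (hall t)
    rw [map_smul, ea, eb] at h5
    rw [show t • (y + (-Q y) • z₂) = t • (b + (y + (-Q y) • z₂)) + (-t) • b by module]
    exact eIn_add h5 (hall _)
  have hdim := S.dim
  obtain ⟨d, d', hd, hd', hQd, hQd', hdd, hperp⟩ := exists_pair S.nondeg S.rat [a, b, z₁, z₂]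
    (by simp [ha, hb, hz₁, hz₂]) (by simp; omega)
  simp only [List.mem_cons, List.not_mem_nil, or_false, forall_eq_or_imp, forall_eq] at hperp
  obtain ⟨⟨pa, pa'⟩, ⟨pb, pb'⟩, ⟨pz₁, pz₁'⟩, ⟨pz₂, pz₂'⟩⟩ := hperp
  have hd1 : ∀ t : F, EIn Q M a (t • d) := fun t => by
    simpa [hQd] using hshift hd pa pb pz₂ t
  have hd2 : ∀ t : F, EIn Q M a (t • d') := fun t => by
    simpa [hQd'] using hshift hd' pa' pb' pz₂' t
  have hQdd : Q (d + d') = 1 := by rw [QuadraticMap.map_add Q, hQd, hQd', hdd, zero_add, zero_add]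
  have hz : ∀ t : F, EIn Q M a (t • z₂) := by
    intro t
    have h5 := hshift (rat_add hd hd') (by rw [QuadraticMap.polar_add_right, pa, pa', add_zero])
      (by rw [QuadraticMap.polar_add_right, pb, pb', add_zero])
      (by rw [QuadraticMap.polar_add_right, pz₂, pz₂', add_zero]) (-t)
    rw [hQdd] at h5
    rw [show t • z₂ = (-t) • (d + d' + (-(1 : F)) • z₂) + t • (d + d') by module]
    exact eIn_add h5 (hadd hd1 hd2 t)
  have hN : ∀ {y : Vec}, Rat' F₀ y → BQ a y = 0 → BQ b y = 0 → BQ z₂ y = 0 → ∀ t : F, EIn Q M a (t • y) := by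
    intro y hy h1 h2 h3 t
    rw [show t • y = t • (y + (-Q y) • z₂) + (t * Q y) • z₂ by module]
    exact eIn_add (hshift hy h1 h2 h3 t) (hz _)
  have haa' : ∀ t : F, EIn Q M a (t • a) := fun t => by
    refine ⟨hQa, by rw [polar_smul_right', haa, mul_zero], ?_⟩
    convert M.one_mem
    refine orth_ext fun x => ?_
    rw [eichler_apply, eichlerMap_apply, QuadraticMap.map_smul, hQa, QuadraticMap.polar_smul_left]
    simp only [smul_eq_mul, mul_zero, zero_mul, add_zero, smul_smul, mul_comm t]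
    exact add_sub_cancel_right _ _
  have hfull : Full Q M a := by
    refine ⟨hQa, fun v hv => ?_⟩
    have key : ∀ t : F, EIn Q M a (t • v) := by
      rw [perp_decomp (Q := Q) (a := a) (z := z₁) (b := b) (x := z₂) v, hv, zero_smul, add_zero]
      refine hadd (hadd (hadd ?_ (hsmul _ haa')) (hsmul _ hall)) (hsmul _ hz)
      classical
      induction (Finset.univ : Finset ι) using Finset.induction_on with
      | empty => intro t; rw [Finset.sum_empty, smul_zero]; exact eIn_zero hQa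
      | insert i s hi ih =>
        rw [Finset.sum_insert hi]
        refine hadd (hsmul _ (hN ?_ ?_ ?_ ?_)) ih
        · exact rat_sub (rat_sub (rat_sub (rat_sub (rat_unit i) (rat_smul (S.rat.polar_mem hz₁ (rat_unit i)) ha))
            (rat_smul (S.rat.polar_mem ha (rat_unit i)) hz₁)) (rat_smul (S.rat.polar_mem hz₂ (rat_unit i)) hb))
            (rat_smul (S.rat.polar_mem hb (rat_unit i)) hz₂)
        all_goals
          simp only [QuadraticMap.polar_sub_right, polar_smul_right', haa, hbb, hz22, hab, hba, h11, h12, h21, h22,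
            g12, g22, hzz']
          ring
    simpa using key 1
  have hzw : BQ z₁ (d + d') = 0 := by rw [QuadraticMap.polar_add_right, pz₁, pz₁', add_zero]
  have hm := S.root' hz₁ (rat_add hd hd') hQz₁ hzw
  refine exists_full_pair_top S.nondeg (by rw [Module.finrank_pi]; omega) hfull (full_conj hm hfull) ?_
  rw [eichler_apply, eichlerMap_apply, g11, hQdd, QuadraticMap.polar_sub_right, QuadraticMap.polar_add_right,
    polar_smul_right', polar_smul_right', haa, QuadraticMap.polar_comm (⇑Q) (d + d') a, QuadraticMap.polar_add_right,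
    pa, pa', h11]
  simp

/-- The value of the two-vector `u₁ ∧ u₂` at a pair. -/
def pairing (Q : QuadraticForm F (ι → F)) (u₁ u₂ x y : ι → F) : F :=
  QuadraticMap.polar Q x u₁ * QuadraticMap.polar Q y u₂ - QuadraticMap.polar Q x u₂ * QuadraticMap.polar Q y u₁

/-- Isolating one coordinate of a parameter in a singular three-space. -/
theorem Setting.top_of_coord (S : Setting Q F₀ r M) {a b c : Vec} (ha : Rat' F₀ a) (hb : Rat' F₀ b) (hc : Rat' F₀ c)
    (hQa : Q a = 0) (hQb : Q b = 0) (hQc : Q c = 0) (hab : BQ a b = 0) (hac : BQ a c = 0) (hbc : BQ b c = 0)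
    (hbnot : b ∉ Submodule.span F {x | x ∈ [a, c]}) (hanot : a ∉ Submodule.span F {x | x ∈ [c]})
    (hc0 : c ≠ 0)
    {x₁ x₂ x₃ y₁ y₂ y₃ : F} (hbad : x₂ * y₃ - x₃ * y₂ ∉ F₀)
    (h : EIn Q M (x₁ • a + x₂ • b + x₃ • c) (y₁ • a + y₂ • b + y₃ • c)) : commutator (orthGroup Q) ≤ M := by
  have hba : BQ b a = 0 := by rw [QuadraticMap.polar_comm, hab]
  have hca : BQ c a = 0 := by rw [QuadraticMap.polar_comm, hac]
  have hcb : BQ c b = 0 := by rw [QuadraticMap.polar_comm, hbc]
  obtain ⟨z, hz, hQz, hbz, hzp⟩ := exists_sing_dual S.nondeg S.rat [a, c] (by simp [ha, hc]) hb hQb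
    (by simp [hab, hcb]) hbnot
  simp only [List.mem_cons, List.not_mem_nil, or_false, forall_eq_or_imp, forall_eq] at hzp
  have hza : BQ z a = 0 := by rw [QuadraticMap.polar_comm, hzp.1]
  have hzb : BQ z b = 1 := by rw [QuadraticMap.polar_comm, hbz]
  have hzc : BQ z c = 0 := by rw [QuadraticMap.polar_comm, hzp.2]
  have hm := S.root' hz ha hQz hza
  have hmap : ∀ u v w : F, (eichler Q z a hQz hza : Vec ≃ₗ[F] Vec) (u • a + v • b + w • c) =
      (u + v) • a + v • b + w • c := fun u v w => by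
    simp only [map_add, map_smul, eichler_apply, eichlerMap_apply, hza, hzb, hzc, hQa, polar_self_of_singular hQa,
      hab, hac]
    module
  have h' := eIn_conj hm h
  rw [hmap, hmap] at h'
  obtain ⟨hq1, hp1, hm1⟩ := h
  obtain ⟨hq2, hp2, hm2⟩ := h'
  set p := x₂ * y₃ - x₃ * y₂
  have hres : EIn Q M a (p • c) := by
    refine ⟨hQa, by rw [polar_smul_right', hac, mul_zero], ?_⟩
    convert M.mul_mem (M.inv_mem hm1) hm2 using 1
    rw [eq_inv_mul_iff_mul_eq]
    refine orth_ext fun y => ?_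
    simp only [orth_mul_apply, eichler_apply, eichlerMap_apply, QuadraticMap.map_add (⇑Q), QuadraticMap.map_smul,
      QuadraticMap.polar_add_left, QuadraticMap.polar_add_right, QuadraticMap.polar_sub_right,
      QuadraticMap.polar_smul_left, polar_smul_right', smul_eq_mul, hQa, hQb, hQc, hab, hac, hbc, hba, hca, hcb,
      polar_self_of_singular hQa, polar_self_of_singular hQb, polar_self_of_singular hQc, p]
    module
  obtain ⟨z₂, hz₂, hQz₂, hcz₂, hz₂p⟩ := exists_sing_dual S.nondeg S.rat [a] (by simp [ha]) hc hQc (by simp [hac])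
    (fun hm => by
      obtain ⟨k, hk⟩ := Submodule.mem_span_singleton.mp (show c ∈ Submodule.span F {a} by simpa using hm)
      apply hanot
      have hk0 : k ≠ 0 := by
        rintro rfl
        exact hc0 (by rw [← hk, zero_smul])
      simp only [List.mem_singleton, Set.setOf_eq_eq_singleton]
      exact Submodule.mem_span_singleton.mpr ⟨k⁻¹, by rw [← hk, inv_smul_smul₀ hk0]⟩)
  simp only [List.mem_cons, List.not_mem_nil, or_false, forall_eq] at hz₂p
  obtain ⟨z₁, hz₁, hQz₁, haz₁, hz₁p⟩ := exists_sing_dual S.nondeg S.rat [c, z₂] (by simp [hc, hz₂]) ha hQa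
    (by simp [hca, QuadraticMap.polar_comm (⇑Q) z₂ a, hz₂p])
    (fun hm => by
      have hset : {x : Vec | x ∈ [c, z₂]} = {c, z₂} := by ext; simp
      rw [hset] at hm
      obtain ⟨u, v, huv⟩ := Submodule.mem_span_pair.mp hm
      have h1 := congrArg (fun w => BQ c w) huv
      simp only [QuadraticMap.polar_add_right, polar_smul_right', polar_self_of_singular hQc, hcz₂, hca, mul_zero,
        zero_add, mul_one] at h1
      apply hanot
      simp only [List.mem_singleton, Set.setOf_eq_eq_singleton]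
      exact Submodule.mem_span_singleton.mpr ⟨u, by rw [← huv, h1, zero_smul, add_zero]⟩)
  simp only [List.mem_cons, List.not_mem_nil, or_false, forall_eq_or_imp, forall_eq] at hz₁p
  exact S.top_of_param ha hc hz₁ hz₂ hQa hQc hQz₁ hQz₂ hac haz₁ hz₂p hz₁p.1 hcz₂
    (by rw [QuadraticMap.polar_comm]; exact hz₁p.2) hbad hres

end Cfsg.Agent.GeomClasses.OrthSub
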