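import Cfsg.Agent.GeomClasses.OrthSubfieldTriple

/-! # Subfield groups of orthogonal groups: the dichotomy -/

set_option autoImplicit false
set_option linter.unusedSectionVars false

namespace Cfsg.Agent.GeomClasses.OrthSub

open Module Cfsg.Agent.Forms Cfsg.Agent.GeomClasses Cfsg.Agent.GeomClasses.SubfieldSL

variable {ι : Type} [Fintype ι] [DecidableEq ι] {F : Type*} [Field F] [Fintype F] {Q : QuadraticForm F (ι → F)}
  {F₀ : Subfield F} {r : ℕ} {M : Subgroup (orthGroup Q)}

set_option quotPrecheck false in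
local notation "BQ" => QuadraticMap.polar ⇑Q

local notation "Vec" => (ι → F)

/-- The Frobenius map of the subfield. -/
noncomputable def frob (F₀ : Subfield F) : F →+* F :=
  letI : Fintype F₀ := Fintype.ofFinite _
  (FiniteField.frobeniusAlgHom F₀ F).toRingHom

theorem frob_apply (F₀ : Subfield F) (x : F) : frob F₀ x = x ^ Nat.card F₀ := by
  let _ : Fintype F₀ := Fintype.ofFinite _
  show (FiniteField.frobeniusAlgHom F₀ F) x = _
  rw [Nat.card_eq_fintype_card, FiniteField.coe_frobeniusAlgHom]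

theorem frob_fix {F₀ : Subfield F} {x : F} (hx : x ∈ F₀) : frob F₀ x = x := by
  let _ : Fintype F₀ := Fintype.ofFinite _
  rw [frob_apply, Nat.card_eq_fintype_card]
  exact congrArg Subtype.val (FiniteField.pow_card (⟨x, hx⟩ : F₀))

theorem mem_of_frob {F₀ : Subfield F} {x : F} (hx : frob F₀ x = x) : x ∈ F₀ := by
  classical
  by_contra hnot
  let _ : Fintype F₀ := Fintype.ofFinite _
  have h1 : 1 < Nat.card F₀ := Finite.one_lt_card
  set p : Polynomial F := Polynomial.X ^ Nat.card F₀ - Polynomial.X with hp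
  have hp0 : p ≠ 0 := FiniteField.X_pow_card_sub_X_ne_zero F h1
  set s : Finset F := insert x ((Finset.univ : Finset F₀).image Subtype.val) with hs
  have hsub : s.val ⊆ p.roots := by
    intro y hy
    rw [Polynomial.mem_roots hp0, Polynomial.IsRoot.def, hp, Polynomial.eval_sub, Polynomial.eval_pow,
      Polynomial.eval_X, sub_eq_zero, ← frob_apply F₀]
    rcases Finset.mem_insert.mp (Finset.mem_val.mp hy) with rfl | hy'
    · exact hx
    · obtain ⟨y', -, rfl⟩ := Finset.mem_image.mp hy'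
      exact frob_fix y'.2
  have h2 := Polynomial.card_le_degree_of_subset_roots hsub
  rw [hp, FiniteField.X_pow_card_sub_X_natDegree_eq F h1, Finset.card_insert_of_notMem (by simpa using hnot),
    Finset.card_image_of_injective _ Subtype.val_injective, Finset.card_univ, ← Nat.card_eq_fintype_card] at h2
  omega

/-- The conjugate of a vector. -/
noncomputable def conjV (F₀ : Subfield F) (v : ι → F) : ι → F := fun i => frob F₀ (v i)

theorem conjV_rat {v : Vec} (hv : Rat' F₀ v) : conjV F₀ v = v := funext fun i => frob_fix (hv i)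

theorem polar_conjV (h : RatForm Q F₀) {x : Vec} (hx : Rat' F₀ x) (u : Vec) :
    BQ x (conjV F₀ u) = frob F₀ (BQ x u) := by
  have hlin : ∀ w : Vec, BQ x w = ∑ i, w i * BQ x (Pi.single i 1) := fun w => by
    conv_lhs => rw [expand w]
    rw [← QuadraticMap.polarBilin_apply_apply, map_sum]
    exact Finset.sum_congr rfl fun i _ => by rw [map_smul, smul_eq_mul, QuadraticMap.polarBilin_apply_apply]
  rw [hlin, hlin u, map_sum]
  exact Finset.sum_congr rfl fun i _ => by
    rw [map_mul, frob_fix (h.polar_mem hx (rat_unit i))]; rfl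

theorem pairing_conjV (h : RatForm Q F₀) {x y : Vec} (hx : Rat' F₀ x) (hy : Rat' F₀ y) (u₁ u₂ : Vec) :
    pairing Q (conjV F₀ u₁) (conjV F₀ u₂) x y = frob F₀ (pairing Q u₁ u₂ x y) := by
  simp only [pairing, polar_conjV h hx, polar_conjV h hy, map_sub, map_mul]

theorem pairing_eq (u₁ u₂ a y : Vec) : pairing Q u₁ u₂ a y = BQ y ((BQ a u₁) • u₂ + (-(BQ a u₂)) • u₁) := by
  simp only [pairing, QuadraticMap.polar_add_right, polar_smul_right']; ring

/-- A root element whose plane is not defined over the subfield gives everything. -/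
theorem Setting.top_of_unscaled (S : Setting Q F₀ r M) {u₁ u₂ : Vec} (hu₂ : Q u₂ = 0) (hu : EIn Q M u₁ u₂)
    (hind : ∀ α β : F, α • u₁ + β • u₂ = 0 → α = 0 ∧ β = 0)
    (hnot : conjV F₀ u₁ ∉ Submodule.span F {u₁, u₂} ∨ conjV F₀ u₂ ∉ Submodule.span F {u₁, u₂}) :
    commutator (orthGroup Q) ≤ M := by
  classical
  by_contra htop
  have hdim := S.dim
  set v₁ := conjV F₀ u₁
  set v₂ := conjV F₀ u₂
  set U : Submodule F Vec := Submodule.span F {u₁, u₂} with hU
  set U' : Submodule F Vec := Submodule.span F {v₁, v₂} with hU'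
  set W : Submodule F Vec := Submodule.span F (({u₁, u₂, v₁, v₂} : Finset Vec) : Set Vec) with hW
  have hWdim : finrank F W ≤ 4 :=
    (finrank_span_finset_le_card _).trans ((Finset.card_insert_le _ _).trans (Nat.add_le_add_right
      ((Finset.card_insert_le _ _).trans (Nat.add_le_add_right ((Finset.card_insert_le _ _).trans (by simp)) 1)) 1))
  have m₁ : u₁ ∈ W := Submodule.subset_span (by simp)
  have m₂ : u₂ ∈ W := Submodule.subset_span (by simp)
  have m₃ : v₁ ∈ W := Submodule.subset_span (by simp)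
  have m₄ : v₂ ∈ W := Submodule.subset_span (by simp)
  have hloc : ∀ a : Vec, Rat' F₀ a → Q a = 0 → a ∉ W → (BQ a u₁ ≠ 0 ∨ BQ a u₂ ≠ 0) →
      ∃ p ∈ U ⊓ U', p ≠ 0 ∧ BQ a p = 0 := by
    intro a ha hQa haW hne
    have haa := polar_self_of_singular hQa
    set p : Vec := (BQ a u₁) • u₂ + (-(BQ a u₂)) • u₁ with hp
    set p' : Vec := (BQ a v₁) • v₂ + (-(BQ a v₂)) • v₁ with hp'
    have hp0 : p ≠ 0 := fun e => by
      obtain ⟨h1, h2⟩ := hind _ _ ((add_comm _ _).trans e)
      rcases hne with h | h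
      · exact h h2
      · exact h (neg_eq_zero.mp h1)
    have hap : BQ a p = 0 := by
      simp only [hp, QuadraticMap.polar_add_right, polar_smul_right']; ring
    have hφ : ∀ y, pairing Q u₁ u₂ a y = BQ y p := fun y => pairing_eq u₁ u₂ a y
    have hφ' : ∀ y, pairing Q v₁ v₂ a y = BQ y p' := fun y => pairing_eq v₁ v₂ a y
    have ha0 : a ≠ 0 := fun e => haW (e ▸ W.zero_mem)
    obtain ⟨z, hz, hQz, haz, -⟩ := exists_sing_dual S.nondeg S.rat [] (by simp) ha hQa (by simp)
      (by simpa using ha0)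
    have hza : BQ z a = 1 := by rw [QuadraticMap.polar_comm, haz]
    -- a vector is a multiple of `a` once it is orthogonal to the perpendicular space
    have hmul : ∀ w : Vec, (∀ y, Rat' F₀ y → BQ a y = 0 → BQ y w = 0) → BQ a w = 0 → w = BQ w z • a := by
      intro w hw haw
      refine sub_eq_zero.mp (eq_zero_of_unit S.nondeg fun i => ?_)
      set e : Vec := Pi.single i 1
      have h1 := hw (e - BQ a e • z) (rat_sub (rat_unit i) (rat_smul (S.rat.polar_mem ha (rat_unit i)) hz))
        (by rw [QuadraticMap.polar_sub_right, polar_smul_right', haz, mul_one, sub_self])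
      simp only [QuadraticMap.polar_sub_left, QuadraticMap.polar_smul_left, smul_eq_mul] at h1
      rw [QuadraticMap.polar_sub_left, QuadraticMap.polar_smul_left, smul_eq_mul, QuadraticMap.polar_comm (⇑Q) w z,
        QuadraticMap.polar_comm (⇑Q) w e]
      linear_combination h1
    obtain ⟨b, hb, hQb, hab, hbp⟩ : ∃ b, Rat' F₀ b ∧ Q b = 0 ∧ BQ a b = 0 ∧ BQ b p ≠ 0 := by
      by_contra hcon
      push Not at hcon
      have hk : ∀ y, Rat' F₀ y → BQ a y = 0 → BQ y p = 0 := fun y hy hay => by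
        rw [QuadraticMap.polar_comm, ← QuadraticMap.polarBilin_apply_apply]
        exact kills S.nondeg S.rat [a] (by simp [ha]) (by simp; omega) (QuadraticMap.polarBilin Q p)
          (fun c hc hQc hac => by
            rw [QuadraticMap.polarBilin_apply_apply, QuadraticMap.polar_comm]
            exact hcon c hc hQc (hac a (by simp))) hy (by simp [hay])
      have h1 := hmul p hk hap
      have hne' : BQ p z ≠ 0 := fun e => hp0 (by rw [h1, e, zero_smul])
      refine haW ?_
      rw [(eq_inv_smul_iff₀ hne').mpr h1.symm]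
      exact W.smul_mem _ (W.add_mem (W.smul_mem _ m₂) (W.smul_mem _ m₁))
    have hk : pairing Q u₁ u₂ a b ≠ 0 := by rw [hφ]; exact hbp
    set κ := frob F₀ (pairing Q u₁ u₂ a b) / pairing Q u₁ u₂ a b with hκ
    have hba : BQ b a = 0 := by rw [QuadraticMap.polar_comm, hab]
    have hbb := polar_self_of_singular hQb
    -- the difference of the two functionals
    set f : Vec →ₗ[F] F := QuadraticMap.polarBilin Q p' - κ • QuadraticMap.polarBilin Q p with hf
    have hfy : ∀ y, f y = BQ y p' - κ * BQ y p := fun y => by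
      rw [hf, LinearMap.sub_apply, LinearMap.smul_apply, QuadraticMap.polarBilin_apply_apply,
        QuadraticMap.polarBilin_apply_apply, smul_eq_mul, QuadraticMap.polar_comm (⇑Q) y p',
        QuadraticMap.polar_comm (⇑Q) y p]
    have hfb : f b = 0 := by
      rw [hfy, ← hφ, ← hφ', pairing_conjV S.rat ha hb, hκ, div_mul_cancel₀ _ hk, sub_self]
    have hker : ∀ b' : Vec, Rat' F₀ b' → Q b' = 0 → BQ a b' = 0 → BQ b' p ≠ 0 → f b' = 0 →
        ∀ y, Rat' F₀ y → BQ a y = 0 → BQ b' y = 0 → f y = 0 := by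
      intro b' hb' hQb' hab' hbp' hfb' y hy hay hby
      refine kills S.nondeg S.rat [a, b'] (by simp [ha, hb']) (by simp; omega) f (fun c hc hQc hperp => ?_) hy
        (by simp [hay, hby])
      simp only [List.mem_cons, List.not_mem_nil, or_false, forall_eq_or_imp, forall_eq] at hperp
      have hk' : pairing Q u₁ u₂ a b' ≠ 0 := by rw [hφ]; exact hbp'
      have hrat : pairing Q u₁ u₂ a c / pairing Q u₁ u₂ a b' ∈ F₀ := by
        by_contra hbad
        exact htop (S.top_of_triple ha hb' hc hQa hQb' hQc hab' hperp.1 hperp.2 hu₂ hu hk' hbad)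
      rw [hfy] at hfb'
      rw [hfy]
      have h1 := frob_fix hrat
      rw [map_div₀, ← pairing_conjV S.rat ha hc, ← pairing_conjV S.rat ha hb', hφ', hφ', hφ, hφ,
        sub_eq_zero.mp hfb'] at h1
      by_cases hz' : κ = 0
      · exfalso
        rw [hκ, div_eq_zero_iff, or_iff_left hk, map_eq_zero] at hz'
        exact hk hz'
      · field_simp at h1
        linear_combination h1
    obtain ⟨x, hx, hQx, hbx, hxp⟩ := exists_sing_dual S.nondeg S.rat [a] (by simp [ha]) hb hQb (by simp [hab])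
      (fun hm => by
        obtain ⟨t, ht⟩ := Submodule.mem_span_singleton.mp (show b ∈ Submodule.span F {a} by simpa using hm)
        exact hbp (by rw [← ht, QuadraticMap.polar_smul_left, hap, smul_zero]))
    simp only [List.mem_cons, List.not_mem_nil, or_false, forall_eq] at hxp
    obtain ⟨d, d', hd, hd', hQd, hQd', hdd, hperp⟩ := exists_pair S.nondeg S.rat [a, b, x] (by simp [ha, hb, hx])
      (by simp; omega)
    simp only [List.mem_cons, List.not_mem_nil, or_false, forall_eq_or_imp, forall_eq] at hperp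
    obtain ⟨⟨pa, pa'⟩, ⟨pb, pb'⟩, ⟨px, px'⟩⟩ := hperp
    have hfd : f d = 0 := hker b hb hQb hab hbp hfb d hd pa pb
    have hfd' : f d' = 0 := hker b hb hQb hab hbp hfb d' hd' pa' pb'
    have hfx : f x = 0 := by
      by_cases hsum : BQ (b + d) p = 0
      · have hdp : BQ d p ≠ 0 := fun e => hbp (by rwa [QuadraticMap.polar_add_left, e, add_zero] at hsum)
        exact hker d hd hQd pa hdp hfd x hx hxp (by rw [QuadraticMap.polar_comm]; exact px)
      · have h1 := hker (b + d) (rat_add hb hd) (by rw [QuadraticMap.map_add Q, hQb, hQd, pb, add_zero, add_zero])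
          (by rw [QuadraticMap.polar_add_right, hab, pa, add_zero]) hsum (by rw [map_add, hfb, hfd, add_zero])
          (x - d') (rat_sub hx hd') (by rw [QuadraticMap.polar_sub_right, hxp, pa', sub_zero])
          (by rw [QuadraticMap.polar_add_left, QuadraticMap.polar_sub_right, QuadraticMap.polar_sub_right, hbx, pb',
                QuadraticMap.polar_comm (⇑Q) d x, px, hdd]; ring)
        rwa [map_sub, hfd', sub_zero] at h1
    have hall : ∀ y, Rat' F₀ y → BQ a y = 0 → f y = 0 := by
      intro y hy hay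
      have h1 := hker b hb hQb hab hbp hfb (y - BQ b y • x) (rat_sub hy (rat_smul (S.rat.polar_mem hb hy) hx))
        (by rw [QuadraticMap.polar_sub_right, polar_smul_right', hay, hxp, mul_zero, sub_zero])
        (by rw [QuadraticMap.polar_sub_right, polar_smul_right', hbx, mul_one, sub_self])
      rwa [map_sub, map_smul, hfx, smul_zero, sub_zero] at h1
    have hap' : BQ a p' = 0 := by
      simp only [hp', QuadraticMap.polar_add_right, polar_smul_right']; ring
    have h2 : p' - κ • p = BQ (p' - κ • p) z • a := hmul _ (fun y hy hay => by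
      rw [QuadraticMap.polar_sub_right, polar_smul_right', ← hfy]; exact hall y hy hay)
      (by rw [QuadraticMap.polar_sub_right, polar_smul_right', hap, hap', mul_zero, sub_zero])
    have hmemW : p' - κ • p ∈ W := W.sub_mem (W.add_mem (W.smul_mem _ m₄) (W.smul_mem _ m₃))
      (W.smul_mem _ (W.add_mem (W.smul_mem _ m₂) (W.smul_mem _ m₁)))
    have hzero : p' - κ • p = 0 := by
      by_contra hne'
      refine haW ?_
      have hne'' : BQ (p' - κ • p) z ≠ 0 := fun e => hne' (by rw [h2, e, zero_smul])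
      rw [(eq_inv_smul_iff₀ hne'').mpr h2.symm]
      exact W.smul_mem _ hmemW
    refine ⟨p, ⟨?_, ?_⟩, hp0, hap⟩
    · exact Submodule.mem_span_pair.mpr ⟨-(BQ a u₂), BQ a u₁, by rw [hp, add_comm]⟩
    · have hκ0 : κ ≠ 0 := by
        rw [hκ]; exact div_ne_zero (by rw [map_ne_zero]; exact hk) hk
      rw [show p = κ⁻¹ • p' by rw [sub_eq_zero.mp hzero, inv_smul_smul₀ hκ0]]
      exact U'.smul_mem _ (Submodule.mem_span_pair.mpr ⟨-(BQ a v₂), BQ a v₁, by rw [hp', add_comm]⟩)
  -- the common line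
  have hdimU : finrank F U ≤ 2 := by
    have : U = Submodule.span F (({u₁, u₂} : Finset Vec) : Set Vec) := by rw [hU]; simp
    rw [this]
    exact (finrank_span_finset_le_card _).trans ((Finset.card_insert_le _ _).trans (by simp))
  have hline : ∀ p₀ ∈ U ⊓ U', p₀ ≠ 0 → ∀ p ∈ U ⊓ U', ∃ t : F, p = t • p₀ := by
    intro p₀ hp₀ hne p hp
    by_contra hcon
    push Not at hcon
    have hle : U ≤ U' := by
      have hind2 : LinearIndependent F ![p₀, p] := LinearIndependent.pair_iff.mpr fun s t hst => by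
        by_cases ht : t = 0
        · rw [ht, zero_smul, add_zero] at hst
          exact ⟨(smul_eq_zero.mp hst).resolve_right hne, ht⟩
        · exfalso
          refine hcon (-(t⁻¹ * s)) ?_
          rw [show p = t⁻¹ • (t • p) by rw [inv_smul_smul₀ ht], eq_neg_of_add_eq_zero_right hst, smul_neg, smul_smul,
            neg_smul]
      have hspan : finrank F (Submodule.span F (Set.range ![p₀, p])) = 2 := by
        rw [finrank_span_eq_card hind2]; simp
      have hsub : Submodule.span F (Set.range ![p₀, p]) ≤ U ⊓ U' := Submodule.span_le.mpr (by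
        rintro _ ⟨i, rfl⟩; fin_cases i <;> assumption)
      have h1 : Submodule.span F (Set.range ![p₀, p]) = U :=
        Submodule.eq_of_le_of_finrank_le (hsub.trans inf_le_left) (by omega)
      exact h1 ▸ hsub.trans inf_le_right
    have hdimU2 : finrank F U = 2 := by
      have hr : U = Submodule.span F (Set.range ![u₁, u₂]) := by rw [hU, Matrix.range_cons_cons_empty]
      rw [hr, finrank_span_eq_card (LinearIndependent.pair_iff.mpr fun s t h => hind s t h)]
      simp
    have hU'2 : finrank F U' ≤ 2 := by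
      have : U' = Submodule.span F (({v₁, v₂} : Finset Vec) : Set Vec) := by rw [hU']; simp
      rw [this]
      exact (finrank_span_finset_le_card _).trans ((Finset.card_insert_le _ _).trans (by simp))
    have heq : U = U' := Submodule.eq_of_le_of_finrank_le hle (by omega)
    rcases hnot with h | h
    · exact h (heq ▸ Submodule.subset_span (by simp))
    · exact h (heq ▸ Submodule.subset_span (by simp))
  have hu₁0 : u₁ ≠ 0 := fun e => one_ne_zero ((hind 1 0 (by rw [e, smul_zero, zero_smul, add_zero])).1)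
  have hex : ∀ w : Vec, w ≠ 0 → ∃ a, Rat' F₀ a ∧ Q a = 0 ∧ BQ a w ≠ 0 := by
    intro w hw
    by_contra hcon
    push Not at hcon
    refine hw (eq_zero_of_unit S.nondeg fun i => ?_)
    rw [← QuadraticMap.polarBilin_apply_apply]
    exact kills S.nondeg S.rat [] (by simp) (by simp; omega) _ (fun c hc hQc _ => by
      rw [QuadraticMap.polarBilin_apply_apply, QuadraticMap.polar_comm]; exact hcon c hc hQc) (rat_unit i) (by simp)
  -- singular vectors avoiding the span
  have hout : ∀ w : Vec, w ≠ 0 → ∃ a, Rat' F₀ a ∧ Q a = 0 ∧ a ∉ W ∧ BQ a w ≠ 0 := by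
    intro w hw
    obtain ⟨a₁, ha₁, hQa₁, hw₁⟩ := hex w hw
    by_cases h1 : a₁ ∈ W
    swap
    · exact ⟨a₁, ha₁, hQa₁, h1, hw₁⟩
    obtain ⟨a₂, ha₂, hQa₂, h12, h2⟩ : ∃ a₂, Rat' F₀ a₂ ∧ Q a₂ = 0 ∧ BQ a₁ a₂ = 0 ∧ a₂ ∉ W := by
      by_contra hcon
      push Not at hcon
      have ha0 : a₁ ≠ 0 := fun e => hw₁ (by rw [e]; simp [QuadraticMap.polar])
      obtain ⟨z, hz, -, haz, -⟩ := exists_sing_dual S.nondeg S.rat [] (by simp) ha₁ hQa₁ (by simp) (by simpa using ha0)
      have hall : ∀ i, (Pi.single i 1 : Vec) - BQ a₁ (Pi.single i 1) • z ∈ W := by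
        intro i
        by_contra hni
        obtain ⟨f, hf0, hfW⟩ := Submodule.exists_dual_map_eq_bot_of_notMem hni inferInstance
        refine hf0 (kills S.nondeg S.rat [a₁] (by simp [ha₁]) (by simp; omega) f (fun c hc hQc hac => ?_)
          (rat_sub (rat_unit i) (rat_smul (S.rat.polar_mem ha₁ (rat_unit i)) hz))
          (by simp [QuadraticMap.polar_sub_right, polar_smul_right', haz]))
        have : f c ∈ Submodule.map f W := Submodule.mem_map_of_mem (hcon c hc hQc (hac a₁ (by simp)))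
        rwa [hfW, Submodule.mem_bot] at this
      have htopW : (⊤ : Submodule F Vec) ≤ W ⊔ Submodule.span F {z} := fun v _ => by
        rw [expand v]
        refine Submodule.sum_mem _ fun i _ => Submodule.smul_mem _ _ ?_
        rw [show (Pi.single i 1 : Vec) =
          ((Pi.single i 1 : Vec) - BQ a₁ (Pi.single i 1) • z) + BQ a₁ (Pi.single i 1) • z by abel]
        exact Submodule.add_mem _ (Submodule.mem_sup_left (hall i))
          (Submodule.mem_sup_right (Submodule.smul_mem _ _ (Submodule.mem_span_singleton_self z)))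
      have h3 := Submodule.finrank_mono htopW
      rw [finrank_top, Module.finrank_pi] at h3
      have h4 := Submodule.finrank_sup_add_finrank_inf_eq W (Submodule.span F {z})
      have h5 : finrank F (Submodule.span F {z}) ≤ 1 := (finrank_span_le_card {z}).trans (by simp)
      omega
    by_cases h3 : BQ a₂ w = 0
    · refine ⟨a₁ + a₂, rat_add ha₁ ha₂, by rw [QuadraticMap.map_add Q, hQa₁, hQa₂, h12, add_zero, add_zero],
        fun h => h2 ((W.add_mem_iff_right h1).mp h), ?_⟩
      rw [QuadraticMap.polar_add_left, h3, add_zero]; exact hw₁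
    · exact ⟨a₂, ha₂, hQa₂, h2, h3⟩
  obtain ⟨a₀, ha₀, hQa₀, hW₀, hne₀⟩ := hout u₁ hu₁0
  obtain ⟨p₀, hp₀, hp₀0, -⟩ := hloc a₀ ha₀ hQa₀ hW₀ (Or.inl hne₀)
  obtain ⟨a, ha, hQa, haW, hne⟩ := hout p₀ hp₀0
  have hne' : BQ a u₁ ≠ 0 ∨ BQ a u₂ ≠ 0 := by
    by_contra hcon
    push Not at hcon
    obtain ⟨s, t, hst⟩ := Submodule.mem_span_pair.mp hp₀.1
    exact hne (by rw [← hst, QuadraticMap.polar_add_right, polar_smul_right', polar_smul_right', hcon.1, hcon.2,
      mul_zero, mul_zero, add_zero])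
  obtain ⟨p, hp, hp0, hap⟩ := hloc a ha hQa haW hne'
  obtain ⟨t, ht⟩ := hline p₀ hp₀ hp₀0 p hp
  rw [ht, polar_smul_right', mul_eq_zero] at hap
  rcases hap with h | h
  · exact hp0 (by rw [ht, h, zero_smul])
  · exact hne h

/-- An element is a scalar times one defined over the subfield. -/
def ScaledRat (F₀ : Subfield F) (g : orthGroup Q) : Prop :=
  ∃ c : F, c ≠ 0 ∧ ∀ v : ι → F, Rat' F₀ v → Rat' F₀ (c • (g : (ι → F) ≃ₗ[F] (ι → F)) v)

/-- The dichotomy: everything, or scaled rational elements only. -/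
theorem Setting.top_or_scaled (S : Setting Q F₀ r M) {g : orthGroup Q} (hg : g ∈ M) :
    commutator (orthGroup Q) ≤ M ∨ ScaledRat F₀ g := by
  classical
  refine or_iff_not_imp_left.mpr fun htop => ?_
  have hdim := S.dim
  have hplane : ∀ a b : Vec, Rat' F₀ a → Rat' F₀ b → Q a = 0 → Q b = 0 → BQ a b = 0 →
      (∀ s t : F, s • a + t • b = 0 → s = 0 ∧ t = 0) →
      conjV F₀ ((g : Vec ≃ₗ[F] Vec) a) ∈ Submodule.span F {(g : Vec ≃ₗ[F] Vec) a, (g : Vec ≃ₗ[F] Vec) b} := by
    intro a b ha hb hQa hQb hab hind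
    by_contra hnot
    refine htop (S.top_of_unscaled (u₁ := (g : Vec ≃ₗ[F] Vec) a) (u₂ := (g : Vec ≃ₗ[F] Vec) b)
      (by rw [g.2.2]; exact hQb) (eIn_conj hg (S.root a b ha hb hQa hab)) (fun s t h => hind s t ?_) (Or.inl hnot))
    apply (g : Vec ≃ₗ[F] Vec).injective
    rw [map_add, map_smul, map_smul, h, map_zero]
  have hind' : ∀ {a d d' : Vec}, a ≠ 0 → BQ a d' = 0 → BQ d d' = 1 → ∀ s t : F, s • a + t • d = 0 → s = 0 ∧ t = 0 := by
    intro a d d' ha h1 h2 s t hst
    have := congrArg (fun w => BQ w d') hst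
    simp [QuadraticMap.polar_add_left, QuadraticMap.polar_smul_left, h1, h2] at this
    subst this
    rw [zero_smul, add_zero] at hst
    exact ⟨(smul_eq_zero.mp hst).resolve_right ha, rfl⟩
  have hval : ∀ a : Vec, Rat' F₀ a → Q a = 0 → a ≠ 0 →
      ∃ c : F, conjV F₀ ((g : Vec ≃ₗ[F] Vec) a) = c • (g : Vec ≃ₗ[F] Vec) a := by
    intro a ha hQa ha0
    obtain ⟨d, d', hd, hd', hQd, hQd', hdd, hperp⟩ := exists_pair S.nondeg S.rat [a] (by simp [ha]) (by simp; omega)
    simp only [List.mem_cons, List.not_mem_nil, or_false, forall_eq] at hperp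
    obtain ⟨pa, pa'⟩ := hperp
    have hdd' : BQ d' d = 1 := by rw [QuadraticMap.polar_comm, hdd]
    obtain ⟨s, t, hst⟩ := Submodule.mem_span_pair.mp (hplane a d ha hd hQa hQd pa (hind' ha0 pa' hdd))
    obtain ⟨s', t', hst'⟩ := Submodule.mem_span_pair.mp (hplane a d' ha hd' hQa hQd' pa' (hind' ha0 pa hdd'))
    refine ⟨s, ?_⟩
    have h1 : (s - s') • a + t • d + (-t') • d' = 0 := by
      apply (g : Vec ≃ₗ[F] Vec).injective
      rw [map_add, map_add, map_smul, map_smul, map_smul, map_zero]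
      rw [← hst'] at hst
      linear_combination (norm := module) hst
    have h2 := congrArg (fun w => BQ w d') h1
    simp [QuadraticMap.polar_add_left, QuadraticMap.polar_smul_left, pa', hdd, polar_self_of_singular hQd'] at h2
    rw [← hst, h2, zero_smul, add_zero]
  have hgne : ∀ {a : Vec}, a ≠ 0 → (g : Vec ≃ₗ[F] Vec) a ≠ 0 := fun ha => by simpa using ha
  have hperp_eq : ∀ a b : Vec, Rat' F₀ a → Rat' F₀ b → Q a = 0 → Q b = 0 → BQ a b = 0 →
      (∀ s t : F, s • a + t • b = 0 → s = 0 ∧ t = 0) → ∀ c c' : F,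
      conjV F₀ ((g : Vec ≃ₗ[F] Vec) a) = c • (g : Vec ≃ₗ[F] Vec) a →
      conjV F₀ ((g : Vec ≃ₗ[F] Vec) b) = c' • (g : Vec ≃ₗ[F] Vec) b → c = c' := by
    intro a b ha hb hQa hQb hab hind c c' hc hc'
    have hab0 : a + b ≠ 0 := fun e => one_ne_zero ((hind 1 1 (by rw [one_smul, one_smul, e])).1)
    obtain ⟨e, he⟩ := hval (a + b) (rat_add ha hb) (by rw [QuadraticMap.map_add Q, hQa, hQb, hab, add_zero, add_zero]) hab0
    have hadd : conjV F₀ ((g : Vec ≃ₗ[F] Vec) a + (g : Vec ≃ₗ[F] Vec) b) =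
        conjV F₀ ((g : Vec ≃ₗ[F] Vec) a) + conjV F₀ ((g : Vec ≃ₗ[F] Vec) b) := funext fun i => map_add _ _ _
    rw [map_add, hadd, hc, hc'] at he
    have h1 : (c - e) • a + (c' - e) • b = 0 := by
      apply (g : Vec ≃ₗ[F] Vec).injective
      rw [map_add, map_smul, map_smul, map_zero]
      linear_combination (norm := module) he
    obtain ⟨e1, e2⟩ := hind _ _ h1
    rw [sub_eq_zero.mp e1, sub_eq_zero.mp e2]
  obtain ⟨d₀, d₀', hd₀, -, hQd₀, -, hdd₀, -⟩ := exists_pair S.nondeg S.rat [] (by simp) (by simp; omega)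
  have hd₀0 : d₀ ≠ 0 := fun e => by rw [e] at hdd₀; simp [QuadraticMap.polar] at hdd₀
  obtain ⟨c₀, hc₀⟩ := hval d₀ hd₀ hQd₀ hd₀0
  have hsame : ∀ a, Rat' F₀ a → Q a = 0 → conjV F₀ ((g : Vec ≃ₗ[F] Vec) a) = c₀ • (g : Vec ≃ₗ[F] Vec) a := by
    intro a ha hQa
    rcases eq_or_ne a 0 with rfl | ha0
    · funext i; simp [conjV]
    obtain ⟨c, hc⟩ := hval a ha hQa ha0
    obtain ⟨e, e', he, he', hQe, hQe', hee, hperp⟩ := exists_pair S.nondeg S.rat [a, d₀] (by simp [ha, hd₀])
      (by simp; omega)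
    simp only [List.mem_cons, List.not_mem_nil, or_false, forall_eq_or_imp, forall_eq] at hperp
    obtain ⟨⟨pa, pa'⟩, ⟨pd, pd'⟩⟩ := hperp
    have he0 : e ≠ 0 := fun h => by rw [h] at hee; simp [QuadraticMap.polar] at hee
    obtain ⟨k, hk⟩ := hval e he hQe he0
    rw [hc, hperp_eq a e ha he hQa hQe pa (hind' ha0 pa' hee) c k hc hk,
      ← hperp_eq d₀ e hd₀ he hQd₀ hQe pd (hind' hd₀0 pd' hee) c₀ k hc₀ hk]
  -- all rational vectors
  have hlin : ∀ v : Vec, Rat' F₀ v → conjV F₀ ((g : Vec ≃ₗ[F] Vec) v) = c₀ • (g : Vec ≃ₗ[F] Vec) v := by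
    intro v hv
    funext i
    let f : Vec →ₗ[F] F :=
      { toFun := fun y => (∑ j, y j * frob F₀ ((g : Vec ≃ₗ[F] Vec) (Pi.single j 1) i)) - c₀ * (g : Vec ≃ₗ[F] Vec) y i
        map_add' := fun y z => by simp [add_mul, Finset.sum_add_distrib, mul_add]; ring
        map_smul' := fun t y => by simp [Finset.mul_sum, mul_sub, mul_assoc]; ring }
    have hf : ∀ y, Rat' F₀ y → f y = frob F₀ ((g : Vec ≃ₗ[F] Vec) y i) - c₀ * (g : Vec ≃ₗ[F] Vec) y i := by
      intro y hy
      show (∑ j, y j * frob F₀ ((g : Vec ≃ₗ[F] Vec) (Pi.single j 1) i)) - c₀ * (g : Vec ≃ₗ[F] Vec) y i = _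
      congr 1
      conv_rhs => rw [expand y]
      rw [map_sum, Finset.sum_apply, map_sum]
      exact Finset.sum_congr rfl fun j _ => by
        rw [map_smul, Pi.smul_apply, smul_eq_mul, map_mul, frob_fix (hy j)]
    have h0 : f v = 0 := kills S.nondeg S.rat [] (by simp) (by simp; omega) f (fun c hc hQc _ => by
      rw [hf c hc]
      have := congrFun (hsame c hc hQc) i
      rw [conjV, Pi.smul_apply, smul_eq_mul] at this
      rw [this, sub_self]) hv (by simp)
    rw [hf v hv, sub_eq_zero] at h0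
    rw [conjV, Pi.smul_apply, smul_eq_mul, h0]
  obtain ⟨p, hp⟩ : ∃ p, (g : Vec ≃ₗ[F] Vec) d₀ p ≠ 0 := Function.ne_iff.mp (hgne hd₀0)
  refine ⟨((g : Vec ≃ₗ[F] Vec) d₀ p)⁻¹, inv_ne_zero hp, fun v hv i => mem_of_frob ?_⟩
  have h1 : frob F₀ ((g : Vec ≃ₗ[F] Vec) v i) = c₀ * (g : Vec ≃ₗ[F] Vec) v i := congrFun (hlin v hv) i
  have h2 : frob F₀ ((g : Vec ≃ₗ[F] Vec) d₀ p) = c₀ * (g : Vec ≃ₗ[F] Vec) d₀ p := congrFun (hlin d₀ hd₀) p
  have hc₀0 : c₀ ≠ 0 := fun e => hp (by rw [e, zero_mul] at h2; exact (map_eq_zero _).mp h2)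
  rw [Pi.smul_apply, smul_eq_mul, map_mul, map_inv₀, h1, h2, mul_inv, mul_mul_mul_comm, inv_mul_cancel₀ hc₀0, one_mul]

end Cfsg.Agent.GeomClasses.OrthSub
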