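import Cfsg.Agent.GeomClasses.OrthSubfield

/-! # A root element with a non-rational ratio on a rational singular three-space -/

set_option autoImplicit false
set_option linter.unusedSectionVars false

namespace Cfsg.Agent.GeomClasses.OrthSub

open Module Cfsg.Agent.Forms Cfsg.Agent.GeomClasses Cfsg.Agent.GeomClasses.SubfieldSL

variable {ι : Type} [Fintype ι] [DecidableEq ι] {F : Type*} [Field F] {Q : QuadraticForm F (ι → F)}
  {F₀ : Subfield F}

set_option quotPrecheck false in
local notation "BQ" => QuadraticMap.polar ⇑Q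

local notation "Vec" => (ι → F)

theorem diag_mem (H : Subgroup (Dickson.SL2 F)) {c : F} (hc : c ≠ 0) (hup : Dickson.uel c ∈ H)
    (hlow : ∀ t : F, Dickson.lel t ∈ H) {e : F} (he : e ≠ 0) :
    ∃ s ∈ H, s 0 0 = e⁻¹ ∧ s 0 1 = 0 ∧ s 1 0 = 0 ∧ s 1 1 = e := by
  have hwm : Dickson.uel c * Dickson.lel (-c⁻¹) * Dickson.uel c ∈ H := H.mul_mem (H.mul_mem hup (hlow _)) hup
  have hu : ∀ t : F, Dickson.uel t ∈ H := fun t => by
    have := H.mul_mem (H.mul_mem hwm (hlow (-t / (c * c)))) (H.inv_mem hwm)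
    convert this using 1
    apply Dickson.ext2 <;> simp only [Dickson.mul_apply2, Dickson.inv00, Dickson.inv01, Dickson.inv10, Dickson.inv11,
      Dickson.lel00, Dickson.lel01, Dickson.lel10, Dickson.lel11, Dickson.uel00, Dickson.uel01, Dickson.uel10,
      Dickson.uel11]
    all_goals field_simp
    all_goals ring
  refine ⟨_, H.mul_mem (H.mul_mem (H.mul_mem (hu e⁻¹) (hlow (-e))) (hu e⁻¹))
    (H.mul_mem (H.mul_mem (hu (-1)) (hlow 1)) (hu (-1))), ?_, ?_, ?_, ?_⟩
  all_goals simp [Dickson.mul_apply2, he]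

variable [Fintype F] {r : ℕ} {M : Subgroup (orthGroup Q)}

theorem Setting.exists_outside (S : Setting Q F₀ r M) : ∃ e : F, e ∉ F₀ := by
  by_contra hcon
  push Not at hcon
  have h1 : Nat.card F₀ = Nat.card F := Nat.card_congr (Equiv.subtypeUnivEquiv hcon)
  have hcard := S.card
  rw [h1, Nat.card_eq_fintype_card] at hcard
  have h2 : Fintype.card F ^ 1 < Fintype.card F ^ r := Nat.pow_lt_pow_right Fintype.one_lt_card S.prime.one_lt
  rw [pow_one, ← hcard] at h2
  exact lt_irrefl _ h2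

/-- A root element with a non-rational ratio on a rational singular three-space gives everything. -/
theorem Setting.top_of_triple (S : Setting Q F₀ r M) {a b c : Vec} (ha : Rat' F₀ a) (hb : Rat' F₀ b)
    (hc : Rat' F₀ c) (hQa : Q a = 0) (hQb : Q b = 0) (hQc : Q c = 0) (hab : BQ a b = 0) (hac : BQ a c = 0)
    (hbc : BQ b c = 0) {u₁ u₂ : Vec} (hu₂ : Q u₂ = 0) (hu : EIn Q M u₁ u₂) (hk : pairing Q u₁ u₂ a b ≠ 0)
    (hbad : pairing Q u₁ u₂ a c / pairing Q u₁ u₂ a b ∉ F₀) : commutator (orthGroup Q) ≤ M := by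
  set k := pairing Q u₁ u₂ a b with hkdef
  set lam := pairing Q u₁ u₂ a c / k with hlam
  have hac' : pairing Q u₁ u₂ a c = lam * k := (div_mul_cancel₀ _ hk).symm
  have hc0 : c ≠ 0 := fun e => hbad (by rw [hlam, e]; simp [pairing, QuadraticMap.polar])
  have hanot : a ∉ Submodule.span F {x | x ∈ [c]} := fun hm => by
    obtain ⟨t, ht⟩ := Submodule.mem_span_singleton.mp (show a ∈ Submodule.span F {c} by simpa using hm)
    refine hbad ?_
    rw [hlam, ← ht]
    simp only [pairing, QuadraticMap.polar_smul_left, smul_eq_mul]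
    rw [show t * BQ c u₁ * BQ c u₂ - t * BQ c u₂ * BQ c u₁ = 0 by ring, zero_div]
    exact F₀.zero_mem
  have hcnot : c ∉ Submodule.span F {x | x ∈ [a]} := fun hm => by
    obtain ⟨t, ht⟩ := Submodule.mem_span_singleton.mp (show c ∈ Submodule.span F {a} by simpa using hm)
    refine hbad ?_
    rw [hlam, ← ht]
    simp only [pairing, QuadraticMap.polar_smul_left, smul_eq_mul]
    rw [show BQ a u₁ * (t * BQ a u₂) - BQ a u₂ * (t * BQ a u₁) = 0 by ring, zero_div]
    exact F₀.zero_mem
  obtain ⟨zc, hzc, -, hczc, hzcp⟩ := exists_sing_dual S.nondeg S.rat [a] (by simp [ha]) hc hQc (by simp [hac]) hcnot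
  simp only [List.mem_cons, List.not_mem_nil, or_false, forall_eq] at hzcp
  have hbnot : b ∉ Submodule.span F {x | x ∈ [a, c]} := fun hm => by
    have hset : {x : Vec | x ∈ [a, c]} = {a, c} := by ext; simp
    rw [hset] at hm
    obtain ⟨u, v, huv⟩ := Submodule.mem_span_pair.mp hm
    have hv : v ∈ F₀ := by
      have := S.rat.polar_mem hb hzc
      rwa [← huv, QuadraticMap.polar_add_left, QuadraticMap.polar_smul_left, QuadraticMap.polar_smul_left, hzcp, hczc,
        smul_zero, zero_add, smul_eq_mul, mul_one] at this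
    have h1 : k = v * (lam * k) := by
      rw [← hac', hkdef, ← huv]
      simp only [pairing, QuadraticMap.polar_add_left, QuadraticMap.polar_smul_left, smul_eq_mul]
      ring
    have hlv : lam = v⁻¹ := eq_inv_of_mul_eq_one_right (mul_right_cancel₀ hk (by linear_combination -h1))
    exact hbad (hlv ▸ F₀.inv_mem hv)
  -- normalised generators of the image plane
  set p₁ : Vec := (BQ b u₂ / k) • u₁ + (-(BQ b u₁) / k) • u₂ with hp₁
  set p₂ : Vec := (-(BQ a u₂)) • u₁ + BQ a u₁ • u₂ with hp₂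
  have hk2 : BQ a u₁ * BQ b u₂ - BQ a u₂ * BQ b u₁ = k := rfl
  have hp : EIn Q M p₁ p₂ := eIn_comb hu₂ hu (by
    field_simp
    linear_combination hk2)
  have hap₁ : BQ a p₁ = 1 := by
    simp only [hp₁, QuadraticMap.polar_add_right, polar_smul_right']
    field_simp
    linear_combination hk2
  have hbp₁ : BQ b p₁ = 0 := by
    simp only [hp₁, QuadraticMap.polar_add_right, polar_smul_right']
    field_simp
    ring
  have hap₂ : BQ a p₂ = 0 := by simp only [hp₂, QuadraticMap.polar_add_right, polar_smul_right']; ring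
  have hbp₂ : BQ b p₂ = k := by
    simp only [hp₂, QuadraticMap.polar_add_right, polar_smul_right']; linear_combination hk2
  set mu := -(BQ c p₁) with hmu
  have hcp₁ : BQ c p₁ = -mu := by rw [hmu, neg_neg]
  have hcp₂ : BQ c p₂ = lam * k := by
    rw [← hac', hp₂]; simp only [pairing, QuadraticMap.polar_add_right, polar_smul_right']; ring
  obtain ⟨hQp₁, hp12, hpm⟩ := hp
  have hQp₂ : Q p₂ = 0 := by
    obtain ⟨hu1, hu12, -⟩ := hu
    rw [hp₂, QuadraticMap.map_add Q, QuadraticMap.map_smul, QuadraticMap.map_smul, hu1, hu₂, QuadraticMap.polar_smul_left,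
      polar_smul_right', hu12]
    simp
  have hba : BQ b a = 0 := by rw [QuadraticMap.polar_comm, hab]
  have hca : BQ c a = 0 := by rw [QuadraticMap.polar_comm, hac]
  have hcb : BQ c b = 0 := by rw [QuadraticMap.polar_comm, hbc]
  have haa := polar_self_of_singular hQa
  have hbb := polar_self_of_singular hQb
  have hcc := polar_self_of_singular hQc
  have h11 := polar_self_of_singular hQp₁
  have h22 := polar_self_of_singular hQp₂
  have h21 : BQ p₂ p₁ = 0 := by rw [QuadraticMap.polar_comm, hp12]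
  have gap₁ : BQ p₁ a = 1 := by rw [QuadraticMap.polar_comm, hap₁]
  have gbp₁ : BQ p₁ b = 0 := by rw [QuadraticMap.polar_comm, hbp₁]
  have gap₂ : BQ p₂ a = 0 := by rw [QuadraticMap.polar_comm, hap₂]
  have gbp₂ : BQ p₂ b = k := by rw [QuadraticMap.polar_comm, hbp₂]
  set w₀ : Vec := c + mu • a + (-lam) • b with hw₀
  have hw : ∀ x, BQ x w₀ = BQ x c + mu * BQ x a - lam * BQ x b := fun x => by
    rw [hw₀, QuadraticMap.polar_add_right, QuadraticMap.polar_add_right, polar_smul_right', polar_smul_right']; ring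
  have hw' : ∀ x, BQ w₀ x = BQ c x + mu * BQ a x - lam * BQ b x := fun x => by
    rw [QuadraticMap.polar_comm, hw, QuadraticMap.polar_comm (⇑Q) x c, QuadraticMap.polar_comm (⇑Q) x a,
      QuadraticMap.polar_comm (⇑Q) x b]
  set H := planeGroup M a b c (-p₁) (k⁻¹ • p₂) w₀ (by rw [hw', hca, haa, hba]; ring) (by rw [hw', hcb, hab, hbb]; ring)
    (by rw [hw', hcc, hac, hbc]; ring)
    (by rw [QuadraticMap.polar_neg_right, hw', hcp₁, hap₁, hbp₁]; ring)
    (by rw [polar_smul_right', hw', hcp₂, hap₂, hbp₂]; ring) with hH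
  have hup : Dickson.uel (-k) ∈ H := by
    refine ⟨_, hpm, fun x _ _ _ e4 e5 => ?_, fun x _ => ?_⟩
    · rw [QuadraticMap.polar_neg_right, neg_eq_zero] at e4
      rw [polar_smul_right', mul_eq_zero, or_iff_right (inv_ne_zero hk)] at e5
      rw [eichler_apply, eichlerMap_apply, QuadraticMap.polar_comm (⇑Q) p₁ x, e4, QuadraticMap.polar_comm (⇑Q) p₂ x, e5,
        hQp₂]
      simp
    · simp only [eichler_apply, eichlerMap_apply, hQp₂, QuadraticMap.polar_sub_left, QuadraticMap.polar_add_left,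
        QuadraticMap.polar_smul_left, QuadraticMap.polar_neg_right, polar_smul_right', smul_eq_mul, Dickson.uel00,
        Dickson.uel01, Dickson.uel10, Dickson.uel11, gap₁, gbp₁, gap₂, gbp₂, h11, h22, hp12, h21,
        QuadraticMap.polar_comm (⇑Q) p₁ x, QuadraticMap.polar_comm (⇑Q) p₂ x]
      refine ⟨?_, ?_, ?_, ?_⟩ <;> field_simp <;> ring
  have hlow : ∀ t ∈ F₀, Dickson.lel t ∈ H := by
    intro t ht
    have h2 : BQ a (t • b) = 0 := by rw [polar_smul_right', hab, mul_zero]
    refine ⟨_, S.root' ha (rat_smul ht hb) hQa h2, fun x e1 e2 _ _ _ => ?_, fun x _ => ?_⟩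
    · rw [eichler_apply, eichlerMap_apply, QuadraticMap.polar_comm (⇑Q) a x, e1, QuadraticMap.map_smul, hQb,
        QuadraticMap.polar_smul_left, QuadraticMap.polar_comm (⇑Q) b x, e2]
      simp
    · simp only [eichler_apply, eichlerMap_apply, QuadraticMap.map_smul, hQb, QuadraticMap.polar_sub_left,
        QuadraticMap.polar_add_left, QuadraticMap.polar_smul_left, QuadraticMap.polar_neg_right, polar_smul_right',
        smul_eq_mul, Dickson.lel00, Dickson.lel01, Dickson.lel10, Dickson.lel11, haa, hbb, hab, hba, hap₁, hbp₁, hap₂,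
        hbp₂, QuadraticMap.polar_comm (⇑Q) a x, QuadraticMap.polar_comm (⇑Q) b x]
      refine ⟨?_, ?_, ?_, ?_⟩ <;> field_simp <;> ring
  have hlam' : Dickson.lel lam ∈ H := by
    refine ⟨_, S.root' ha hc hQa hac, fun x e1 _ e3 _ _ => ?_, fun x hx => ?_⟩
    · rw [eichler_apply, eichlerMap_apply, QuadraticMap.polar_comm (⇑Q) a x, e1, hQc,
        QuadraticMap.polar_comm (⇑Q) c x, e3]
      simp
    · rw [hw] at hx
      simp only [eichler_apply, eichlerMap_apply, hQc, QuadraticMap.polar_sub_left,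
        QuadraticMap.polar_add_left, QuadraticMap.polar_smul_left, QuadraticMap.polar_neg_right, polar_smul_right',
        smul_eq_mul, Dickson.lel00, Dickson.lel01, Dickson.lel10, Dickson.lel11, haa, hbb, hab, hba, hca, hcb, hap₁,
        hbp₁, hap₂, hbp₂, hcp₁, hcp₂, QuadraticMap.polar_comm (⇑Q) a x, QuadraticMap.polar_comm (⇑Q) c x]
      refine ⟨?_, ?_, ?_, ?_⟩
      · ring
      · field_simp; ring
      · ring
      · linear_combination hx
  have hfull := TwoByTwo.lel_full F₀ r S.prime S.card H (neg_ne_zero.mpr hk) hup one_ne_zero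
    (fun t ht => by rw [mul_one]; exact hlow t ht) hlam' (by rwa [div_one])
  obtain ⟨e, he⟩ := S.exists_outside
  have he0 : e ≠ 0 := fun h => he (h ▸ F₀.zero_mem)
  obtain ⟨s, ⟨g, hg, hgf, hgs⟩, s00, s01, s10, s11⟩ := diag_mem H (neg_ne_zero.mpr hk) hup hfull he0
  simp only [s00, s01, s10, s11, zero_mul, add_zero, zero_add, QuadraticMap.polar_neg_right, polar_smul_right']
    at hgs
  have hcomb : ∀ y, BQ y w₀ = 0 → ∃ α β γ δ ε : F,
      (g : Vec ≃ₗ[F] Vec) y = α • a + β • b + γ • c + δ • p₁ + ε • p₂ ∨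
        ¬ (∀ x, BQ x a = 0 → BQ x b = 0 → BQ x c = 0 → BQ x p₁ = 0 → BQ x p₂ = 0 → BQ x y = 0) := by
    intro y _
    by_cases hy : ∀ x, BQ x a = 0 → BQ x b = 0 → BQ x c = 0 → BQ x p₁ = 0 → BQ x p₂ = 0 → BQ x y = 0
    · obtain ⟨α, β, γ, δ, ε, h⟩ := exists_comb (y := (g : Vec ≃ₗ[F] Vec) y) S.nondeg fun x e1 e2 e3 e4 e5 => by
        conv_lhs => rw [← hgf x e1 e2 e3 (by rw [QuadraticMap.polar_neg_right, e4, neg_zero])
          (by rw [polar_smul_right', e5, mul_zero])]
        rw [orth_polar]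
        exact hy x e1 e2 e3 e4 e5
      exact ⟨α, β, γ, δ, ε, Or.inl h⟩
    · exact ⟨0, 0, 0, 0, 0, Or.inr hy⟩
  -- the images of `a` and `b`
  obtain ⟨α, β, γ, δ, ε, hga | hga⟩ := hcomb a (by rw [hw, hac, haa, hab]; ring)
  swap
  · exact absurd (fun x h _ _ _ _ => h) hga
  obtain ⟨α', β', γ', δ', ε', hgb | hgb⟩ := hcomb b (by rw [hw, hbc, hba, hbb]; ring)
  swap
  · exact absurd (fun x _ h _ _ _ => h) hgb
  obtain ⟨ha1, ha2, ha3, ha4⟩ := hgs a (by rw [hw, hac, haa, hab]; ring)
  obtain ⟨hb1, hb2, hb3, hb4⟩ := hgs b (by rw [hw, hbc, hba, hbb]; ring)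
  simp only [hga, QuadraticMap.polar_add_left, QuadraticMap.polar_smul_left, smul_eq_mul, haa, hbb, hcc, hab, hba,
    hac, hca, hbc, hcb, hap₁, hbp₁, hap₂, hbp₂, hcp₁, hcp₂, h11, h22, hp12, h21, gap₁, gbp₁, gap₂, gbp₂] at ha1 ha2 ha3 ha4
  simp only [hgb, QuadraticMap.polar_add_left, QuadraticMap.polar_smul_left, smul_eq_mul, haa, hbb, hcc, hab, hba,
    hac, hca, hbc, hcb, hap₁, hbp₁, hap₂, hbp₂, hcp₁, hcp₂, h11, h22, hp12, h21, gap₁, gbp₁, gap₂, gbp₂] at hb1 hb2 hb3 hb4
  have hδ : δ = 0 := by linear_combination ha1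
  have hε : ε = 0 := (mul_eq_zero.mp (show ε * k = 0 by linear_combination ha3)).resolve_right hk
  have hδ' : δ' = 0 := by linear_combination hb1
  have hε' : ε' = 0 := (mul_eq_zero.mp (show ε' * k = 0 by linear_combination hb3)).resolve_right hk
  have hα : α = e + mu * γ := by linear_combination -ha4
  have hα' : α' = mu * γ' := by linear_combination -hb4
  have hβ : β = -(lam * γ) := by
    field_simp at ha2
    apply mul_left_cancel₀ hk
    linear_combination ha2
  have hβ' : β' = e - lam * γ' := by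
    field_simp at hb2
    apply mul_left_cancel₀ hk
    linear_combination hb2
  subst hδ hε hδ' hε'
  simp only [zero_smul, add_zero] at hga hgb
  have hgw : (g : Vec ≃ₗ[F] Vec) w₀ = w₀ := by
    refine hgf w₀ ?_ ?_ ?_ ?_ ?_
    · rw [hw', hca, haa, hba]; ring
    · rw [hw', hcb, hab, hbb]; ring
    · rw [hw', hcc, hac, hbc]; ring
    · rw [QuadraticMap.polar_neg_right, hw', hcp₁, hap₁, hbp₁]; ring
    · rw [polar_smul_right', hw', hcp₂, hap₂, hbp₂]; ring
  set t := 1 - e - mu * γ + lam * γ' with ht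
  have hgc : (g : Vec ≃ₗ[F] Vec) c = (mu * t) • a + (-(lam * t)) • b + (e + t) • c := by
    have h1 : c = w₀ + (-mu) • a + lam • b := by rw [hw₀]; module
    conv_lhs => rw [h1]
    rw [map_add, map_add, map_smul, map_smul, hgw, hga, hgb, hw₀, hα, hα', hβ, hβ', ht]
    module
  have e1 := eIn_conj hg (S.root a b ha hb hQa hab)
  have e2 := eIn_conj hg (S.root a c ha hc hQa hac)
  have e3 := eIn_conj hg (S.root b c hb hc hQb hbc)
  rw [hga, hgb] at e1
  rw [hga, hgc] at e2
  rw [hgb, hgc] at e3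
  by_contra htop
  have q1 : e * γ ∈ F₀ := by
    by_contra hq
    refine htop (S.top_of_coord ha hb hc hQa hQb hQc hab hac hbc hbnot hanot hc0 (fun hm => hq ?_) e1)
    convert F₀.neg_mem hm using 1
    rw [hβ, hβ']; ring
  have q2 : e * γ * lam ∈ F₀ := by
    by_contra hq
    refine htop (S.top_of_coord ha hb hc hQa hQb hQc hab hac hbc hbnot hanot hc0 (fun hm => hq ?_) e2)
    convert F₀.neg_mem hm using 1
    rw [hβ]; ring
  have q3 : e * (1 - mu * γ) ∈ F₀ := by
    by_contra hq
    refine htop (S.top_of_coord ha hb hc hQa hQb hQc hab hac hbc hbnot hanot hc0 (fun hm => hq ?_) e3)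
    convert hm using 1
    rw [hβ', ht]; ring
  by_cases hγ : γ = 0
  · apply he
    simpa [hγ] using q3
  · apply hbad
    have hne : e * γ ≠ 0 := mul_ne_zero he0 hγ
    have h5 := F₀.mul_mem (F₀.inv_mem q1) q2
    rwa [← mul_assoc (e * γ)⁻¹, inv_mul_cancel₀ hne, one_mul] at h5

end Cfsg.Agent.GeomClasses.OrthSub
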