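import Cfsg.Agent.GeomClasses.Basic
import Cfsg.Agent.Forms.OrthBridge

/-! # Tools for the orthogonal groups given by a function -/

set_option autoImplicit false

namespace Cfsg.Agent.GeomClasses

open Matrix Cfsg.Agent.Forms

variable {ι : Type} [Fintype ι] [DecidableEq ι] {F : Type*} [Field F]

/-- The bundled quadratic form. -/
noncomputable def toQuadForm {Q : (ι → F) → F} (hQ : Cfsg.Geo.IsNondegenerateQuadraticForm Q) :
    QuadraticForm F (ι → F) :=
  QuadraticMap.ofPolar Q (fun a x => by rw [hQ.smul, sq, smul_eq_mul])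
    (fun x x' y => hQ.polar_bilinear.add_left x x' y)
    (fun a x y => by rw [hQ.polar_bilinear.smul_left, smul_eq_mul])

theorem coe_toQuadForm {Q : (ι → F) → F} (hQ : Cfsg.Geo.IsNondegenerateQuadraticForm Q) :
    ⇑(toQuadForm hQ) = Q := rfl

theorem polarBilin_nondegenerate {Q : (ι → F) → F} (hQ : Cfsg.Geo.IsNondegenerateQuadraticForm Q) :
    (QuadraticMap.polarBilin (toQuadForm hQ)).Nondegenerate := by
  constructor
  · intro v hv
    by_contra h0
    obtain ⟨-, x, hx⟩ := hQ.nondegenerate v h0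
    exact hx (hv x)
  · intro v hv
    by_contra h0
    obtain ⟨⟨x, hx⟩, -⟩ := hQ.nondegenerate v h0
    exact hx (hv x)

variable (Q : QuadraticForm F (ι → F))

/-- The matrix of a reflection, in the isometry group. -/
noncomputable def reflGL (v : ι → F) : Cfsg.isometryGroup F ⇑Q := (isometryEquiv Q).symm (reflection Q v)

theorem reflGL_mulVec (v x : ι → F) :
    ((reflGL Q v : GL ι F) : Matrix ι ι F) *ᵥ x = x - ((Q v)⁻¹ * QuadraticMap.polar Q v x) • v := by
  rw [← isometryEquiv_apply, reflGL, MulEquiv.apply_symm_apply, reflection_apply]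

theorem reflGL_inv (v : ι → F) : (reflGL Q v)⁻¹ = reflGL Q v := by
  rw [reflGL, ← map_inv, reflection_inv]

/-- The commutator of two reflections, as an element of the general linear group. -/
noncomputable def reflComm (a b : ι → F) : GL ι F :=
  ((reflGL Q a * reflGL Q b * reflGL Q a * reflGL Q b : Cfsg.isometryGroup F ⇑Q) : GL ι F)

theorem reflComm_mem (a b : ι → F) : reflComm Q a b ∈ Cfsg.Geo.omegaGL ⇑Q := by
  refine ⟨reflGL Q a * reflGL Q b * reflGL Q a * reflGL Q b, ?_, rfl⟩
  have h := Subgroup.commutator_mem_commutator (Subgroup.mem_top (reflGL Q a)) (Subgroup.mem_top (reflGL Q b))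
  rwa [commutatorElement_def, reflGL_inv, reflGL_inv, ← commutator_def] at h

theorem reflComm_mulVec (a b x : ι → F) :
    (reflComm Q a b : Matrix ι ι F) *ᵥ x =
      ((reflGL Q a : GL ι F) : Matrix ι ι F) *ᵥ (((reflGL Q b : GL ι F) : Matrix ι ι F) *ᵥ
        (((reflGL Q a : GL ι F) : Matrix ι ι F) *ᵥ (((reflGL Q b : GL ι F) : Matrix ι ι F) *ᵥ x))) := by
  simp only [reflComm, Subgroup.coe_mul, Units.val_mul, Matrix.mulVec_mulVec, mul_assoc]

theorem omegaGL_preserves {g : GL ι F} (hg : g ∈ Cfsg.Geo.omegaGL ⇑Q) (x : ι → F) :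
    Q ((g : Matrix ι ι F) *ᵥ x) = Q x := by
  obtain ⟨g', -, rfl⟩ := hg
  exact mem_isometryGroup_iff.mp g'.2 x

/-- A hyperbolic pair. -/
structure IsPair (e f : ι → F) : Prop where
  qe : Q e = 0
  qf : Q f = 0
  ef : QuadraticMap.polar Q e f = 1

/-- The pair spanned by a singular vector and any vector not orthogonal to it. -/
theorem exists_pair {W : Submodule F (ι → F)} {e x : ι → F} (he : e ∈ W) (hQe : Q e = 0) (hx : x ∈ W)
    (hex : QuadraticMap.polar Q e x ≠ 0) : ∃ f ∈ W, IsPair Q e f := by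
  obtain ⟨y, hyW, hey⟩ : ∃ y ∈ W, QuadraticMap.polar Q e y = 1 :=
    ⟨(QuadraticMap.polar Q e x)⁻¹ • x, W.smul_mem _ hx, by
      rw [QuadraticMap.polar_smul_right, smul_eq_mul, inv_mul_cancel₀ hex]⟩
  refine ⟨y - Q y • e, W.sub_mem hyW (W.smul_mem _ he), hQe, ?_, ?_⟩
  · rw [sub_eq_add_neg, ← neg_smul, QuadraticMap.map_add (⇑Q), QuadraticMap.map_smul, QuadraticMap.polar_smul_right,
      QuadraticMap.polar_comm (⇑Q) y e, hey, hQe]
    simp
  · rw [QuadraticMap.polar_sub_right, QuadraticMap.polar_smul_right, hey, polar_self_two_mul, hQe]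
    simp

theorem fix_not_plane {e f d d' : ι → F} (h : IsPair Q e f) (h' : IsPair Q d d')
    (o1 : QuadraticMap.polar Q e d = 0) (o2 : QuadraticMap.polar Q e d' = 0)
    (o3 : QuadraticMap.polar Q f d = 0) (o4 : QuadraticMap.polar Q f d' = 0) :
    (reflComm Q (d' - d) (e - f + d) : Matrix ι ι F) *ᵥ (e + f) = e + f ∧
      (reflComm Q (d' - d) (e - f + d) : Matrix ι ι F) *ᵥ e = f - d := by
  have ee : QuadraticMap.polar Q e e = 0 := by rw [polar_self_two_mul, h.qe, mul_zero]
  have ff : QuadraticMap.polar Q f f = 0 := by rw [polar_self_two_mul, h.qf, mul_zero]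
  have dd : QuadraticMap.polar Q d d = 0 := by rw [polar_self_two_mul, h'.qe, mul_zero]
  have dd' : QuadraticMap.polar Q d' d' = 0 := by rw [polar_self_two_mul, h'.qf, mul_zero]
  have fe : QuadraticMap.polar Q f e = 1 := by rw [QuadraticMap.polar_comm, h.ef]
  have d'd : QuadraticMap.polar Q d' d = 1 := by rw [QuadraticMap.polar_comm, h'.ef]
  have de : QuadraticMap.polar Q d e = 0 := by rw [QuadraticMap.polar_comm, o1]
  have d'e : QuadraticMap.polar Q d' e = 0 := by rw [QuadraticMap.polar_comm, o2]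
  have df : QuadraticMap.polar Q d f = 0 := by rw [QuadraticMap.polar_comm, o3]
  have d'f : QuadraticMap.polar Q d' f = 0 := by rw [QuadraticMap.polar_comm, o4]
  have ha : Q (d' - d) = -1 := by
    rw [sub_eq_add_neg, QuadraticMap.map_add (⇑Q), QuadraticMap.map_neg, QuadraticMap.polar_neg_right, d'd, h'.qe, h'.qf]
    ring
  have hb : Q (e - f + d) = -1 := by
    rw [QuadraticMap.map_add (⇑Q), sub_eq_add_neg, QuadraticMap.map_add (⇑Q), QuadraticMap.map_neg, h.qe, h.qf, h'.qe,
      QuadraticMap.polar_neg_right, h.ef, QuadraticMap.polar_add_left, QuadraticMap.polar_neg_left, o1, o3]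
    ring
  constructor <;>
  · simp only [reflComm_mulVec, reflGL_mulVec, ha, hb, QuadraticMap.polar_add_left, QuadraticMap.polar_add_right,
      QuadraticMap.polar_sub_left, QuadraticMap.polar_sub_right, QuadraticMap.polar_smul_right, QuadraticMap.polar_neg_right,
      smul_eq_mul, ee, ff, dd, dd', fe, h.ef, h'.ef, d'd, de, d'e, df, d'f, o1, o2, o3, o4]
    module

variable [Fintype F]

/-- Two orthogonal hyperbolic pairs, the first in a given plane. -/
theorem exists_two_pairs {W : Submodule F (ι → F)} (hdim : Module.finrank F W = 2)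
    (hW : Cfsg.Geo.IsNondegenerateOn (QuadraticMap.polar ⇑Q) W) (hWp : Cfsg.Geo.IsPlusTypeOn (⇑Q) W)
    (hn : 5 ≤ Fintype.card ι) (hnd : (QuadraticMap.polarBilin Q).Nondegenerate) :
    ∃ e f d d', e ∈ W ∧ f ∈ W ∧ IsPair Q e f ∧ IsPair Q d d' ∧
      QuadraticMap.polar Q e d = 0 ∧ QuadraticMap.polar Q e d' = 0 ∧
      QuadraticMap.polar Q f d = 0 ∧ QuadraticMap.polar Q f d' = 0 := by
  classical
  obtain ⟨U, hUW, hU, hUdim⟩ := hWp
  obtain ⟨e, heU, he0⟩ := (Submodule.ne_bot_iff U).mp (fun h => by rw [h, finrank_bot] at hUdim; omega)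
  obtain ⟨⟨x, hxW, hx⟩, -⟩ := hW e (hUW heU) he0
  have hex : QuadraticMap.polar Q e x ≠ 0 := by rwa [QuadraticMap.polar_comm]
  obtain ⟨f, hfW, hp⟩ := exists_pair Q (hUW heU) (hU e heU) hxW hex
  let B := QuadraticMap.polarBilin Q
  let P : Submodule F (ι → F) := LinearMap.ker (B e) ⊓ LinearMap.ker (B f)
  have hrk : ∀ v : ι → F, Fintype.card ι ≤ Module.finrank F (LinearMap.ker (B v)) + 1 := by
    intro v
    have h1 := (B v).finrank_range_add_finrank_ker
    have h2 := Submodule.finrank_le (LinearMap.range (B v))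
    rw [Module.finrank_pi] at h1
    rw [Module.finrank_self] at h2
    omega
  have hP : 3 ≤ Module.finrank F P := by
    have h1 := Submodule.finrank_sup_add_finrank_inf_eq (LinearMap.ker (B e)) (LinearMap.ker (B f))
    have h2 := Submodule.finrank_le (LinearMap.ker (B e) ⊔ LinearMap.ker (B f))
    rw [Module.finrank_pi] at h2
    have := hrk e; have := hrk f
    show 3 ≤ Module.finrank F ↥(LinearMap.ker (B e) ⊓ LinearMap.ker (B f))
    omega
  obtain ⟨⟨d, hdP⟩, hd0, hQd⟩ := exists_singular_of_three_le (Q.comp P.subtype) hP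
  have hd0' : d ≠ 0 := fun h => hd0 (Subtype.ext h)
  obtain ⟨y, hy⟩ : ∃ y, QuadraticMap.polar Q d y ≠ 0 := by
    by_contra hc
    push_neg at hc
    exact hd0' (hnd.1 d hc)
  have hed : QuadraticMap.polar Q e d = 0 := hdP.1
  have hfd : QuadraticMap.polar Q f d = 0 := hdP.2
  let z := y - QuadraticMap.polar Q f y • e - QuadraticMap.polar Q e y • f
  have ee : QuadraticMap.polar Q e e = 0 := by rw [polar_self_two_mul, hp.qe, mul_zero]
  have ff : QuadraticMap.polar Q f f = 0 := by rw [polar_self_two_mul, hp.qf, mul_zero]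
  have fe : QuadraticMap.polar Q f e = 1 := by rw [QuadraticMap.polar_comm, hp.ef]
  have hz : z ∈ P := by
    refine ⟨?_, ?_⟩ <;>
    · show QuadraticMap.polar Q _ z = 0
      simp only [z, QuadraticMap.polar_sub_right, QuadraticMap.polar_smul_right, smul_eq_mul, ee, ff, fe, hp.ef]
      ring
  have hdz : QuadraticMap.polar Q d z ≠ 0 := by
    simp only [z, QuadraticMap.polar_sub_right, QuadraticMap.polar_smul_right, smul_eq_mul,
      QuadraticMap.polar_comm (⇑Q) d e, QuadraticMap.polar_comm (⇑Q) d f, hed, hfd, mul_zero, sub_zero]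
    exact hy
  obtain ⟨d', hd'P, hp'⟩ := exists_pair Q hdP hQd hz hdz
  exact ⟨e, f, d, d', hUW heU, hfW, hp, hp', hed, hd'P.1, hfd, hd'P.2⟩

/-- For at most three field elements the stabiliser of a hyperbolic plane fixes a non-singular line. -/
theorem exists_between_plane (hq : Fintype.card F ≤ 3) {W : Submodule F (ι → F)} (hdim : Module.finrank F W = 2)
    (hW : Cfsg.Geo.IsNondegenerateOn (QuadraticMap.polar ⇑Q) W) (hWp : Cfsg.Geo.IsPlusTypeOn (⇑Q) W)
    (hn : 5 ≤ Fintype.card ι) (hnd : (QuadraticMap.polarBilin Q).Nondegenerate) :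
    ∃ K : Subgroup (GL ι F), Cfsg.Geo.subspaceStabilizer W ⊓ Cfsg.Geo.omegaGL ⇑Q < K ∧ K < Cfsg.Geo.omegaGL ⇑Q := by
  classical
  obtain ⟨e, f, d, d', he, hf, hp, hp', o1, o2, o3, o4⟩ := exists_two_pairs Q hdim hW hWp hn hnd
  have ee : QuadraticMap.polar Q e e = 0 := by rw [polar_self_two_mul, hp.qe, mul_zero]
  have ff : QuadraticMap.polar Q f f = 0 := by rw [polar_self_two_mul, hp.qf, mul_zero]
  have fe : QuadraticMap.polar Q f e = 1 := by rw [QuadraticMap.polar_comm, hp.ef]
  have hsq : ∀ a : F, a ≠ 0 → a * a = 1 := by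
    intro a ha
    have h1 := FiniteField.pow_card_sub_one_eq_one a ha
    have h2 : 2 ≤ Fintype.card F := Fintype.one_lt_card
    interval_cases hc : Fintype.card F
    · have : a = 1 := by simpa using h1
      rw [this, mul_one]
    · simpa [sq] using h1
  have hspan : ∀ x ∈ W, ∃ a b : F, x = a • e + b • f := by
    have hli : LinearIndependent F ![e, f] := by
      rw [LinearIndependent.pair_iff]
      intro s t hst
      have h1 := congrArg (fun x => QuadraticMap.polar Q e x) hst
      have h2 := congrArg (fun x => QuadraticMap.polar Q f x) hst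
      simp only [QuadraticMap.polar_add_right, QuadraticMap.polar_smul_right, smul_eq_mul, ee, ff, fe, hp.ef,
        QuadraticMap.polar_zero_right, mul_zero, mul_one, zero_add, add_zero] at h1 h2
      exact ⟨h2, h1⟩
    have hle : Submodule.span F (Set.range ![e, f]) ≤ W := Submodule.span_le.mpr (by
      rintro _ ⟨i, rfl⟩; fin_cases i <;> assumption)
    have heq := Submodule.eq_of_le_of_finrank_eq hle (by rw [finrank_span_eq_card hli, hdim]; rfl)
    intro x hx
    rw [← heq, Matrix.range_cons_cons_empty, Submodule.mem_span_pair] at hx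
    obtain ⟨a, b, h⟩ := hx
    exact ⟨a, b, h.symm⟩
  set w := e + f
  have hle : Cfsg.Geo.subspaceStabilizer W ⊓ Cfsg.Geo.omegaGL ⇑Q ≤ Cfsg.Geo.subspaceStabilizer (Submodule.span F {w}) ⊓ Cfsg.Geo.omegaGL ⇑Q := by
    rintro g ⟨hgW, hgΩ⟩
    refine ⟨?_, hgΩ⟩
    show g ∈ Cfsg.Geo.subspaceStabilizer _
    have hgW' := mem_subspaceStabilizer_iff.mp hgW
    rw [mem_subspaceStabilizer_iff]
    obtain ⟨a, b, hge⟩ := hspan _ (hgW' e he)
    obtain ⟨c, k, hgf⟩ := hspan _ (hgW' f hf)
    have hQ : ∀ u v : F, Q (u • e + v • f) = u * v := by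
      intro u v
      rw [QuadraticMap.map_add (⇑Q), QuadraticMap.map_smul, QuadraticMap.map_smul, QuadraticMap.polar_smul_left,
        QuadraticMap.polar_smul_right, hp.qe, hp.qf, hp.ef]
      simp
    have h1 : a * b = 0 := by rw [← hQ, ← hge, omegaGL_preserves Q hgΩ, hp.qe]
    have h2 : c * k = 0 := by rw [← hQ, ← hgf, omegaGL_preserves Q hgΩ, hp.qf]
    have h3 : a * k + b * c = 1 := by
      have h := omegaGL_preserves Q hgΩ (e + f)
      rw [Matrix.mulVec_add, hge, hgf, show a • e + b • f + (c • e + k • f) = (a + c) • e + (b + k) • f by module, hQ,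
        QuadraticMap.map_add (⇑Q), hp.qe, hp.qf, hp.ef] at h
      linear_combination h - h1 - h2
    intro x hx
    obtain ⟨r, rfl⟩ := Submodule.mem_span_singleton.mp hx
    rw [Matrix.mulVec_smul]
    refine Submodule.smul_mem _ _ ?_
    show (g : Matrix ι ι F) *ᵥ w ∈ _
    rw [Matrix.mulVec_add, hge, hgf]
    rcases mul_eq_zero.mp h1 with ha | hb
    · have hbc : b * c = 1 := by simpa [ha] using h3
      have hk : k = 0 := by
        rcases mul_eq_zero.mp h2 with h | h
        · simp [h] at hbc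
        · exact h
      have hcb : c = b := by linear_combination (-c) * hsq b (fun h => by simp [h] at hbc) + b * hbc
      refine Submodule.mem_span_singleton.mpr ⟨b, ?_⟩
      rw [ha, hk, hcb]; module
    · have hak : a * k = 1 := by simpa [hb] using h3
      have hc : c = 0 := by
        rcases mul_eq_zero.mp h2 with h | h
        · exact h
        · simp [h] at hak
      have hka : k = a := by linear_combination (-k) * hsq a (fun h => by simp [h] at hak) + a * hak
      refine Submodule.mem_span_singleton.mpr ⟨a, ?_⟩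
      rw [hb, hc, hka]; module
  refine ⟨_, lt_of_le_of_ne hle fun heq => ?_, lt_of_le_of_ne inf_le_right fun heq => ?_⟩
  · obtain ⟨hfix, hmove⟩ := fix_not_plane Q hp hp' o1 o2 o3 o4
    have hh : reflComm Q (d' - d) (e - f + d) ∈ Cfsg.Geo.subspaceStabilizer (Submodule.span F {w}) ⊓ Cfsg.Geo.omegaGL ⇑Q := by
      refine ⟨?_, reflComm_mem Q _ _⟩
      show _ ∈ Cfsg.Geo.subspaceStabilizer _
      rw [mem_subspaceStabilizer_iff]
      intro x hx
      obtain ⟨r, rfl⟩ := Submodule.mem_span_singleton.mp hx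
      rw [Matrix.mulVec_smul, hfix]
      exact Submodule.smul_mem _ _ (Submodule.mem_span_singleton_self _)
    rw [← heq] at hh
    obtain ⟨a, b, hab⟩ := hspan _ (mem_subspaceStabilizer_iff.mp hh.1 e he)
    rw [hmove] at hab
    have := congrArg (fun x => QuadraticMap.polar Q d' x) hab
    simp only [QuadraticMap.polar_sub_right, QuadraticMap.polar_add_right, QuadraticMap.polar_smul_right,
      QuadraticMap.polar_comm (⇑Q) d' f, QuadraticMap.polar_comm (⇑Q) d' e, QuadraticMap.polar_comm (⇑Q) d' d,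
      o2, o4, hp'.ef, smul_eq_mul, mul_zero, add_zero, zero_sub] at this
    exact one_ne_zero (α := F) (by linear_combination -this)
  · have hh := reflComm_mem Q (f - e) (d - d' + e)
    rw [← heq] at hh
    have hde : QuadraticMap.polar Q d e = 0 := by rw [QuadraticMap.polar_comm, o1]
    have hd'e : QuadraticMap.polar Q d' e = 0 := by rw [QuadraticMap.polar_comm, o2]
    have hdf : QuadraticMap.polar Q d f = 0 := by rw [QuadraticMap.polar_comm, o3]
    have hd'f : QuadraticMap.polar Q d' f = 0 := by rw [QuadraticMap.polar_comm, o4]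
    have dd : QuadraticMap.polar Q d d = 0 := by rw [polar_self_two_mul, hp'.qe, mul_zero]
    have dd' : QuadraticMap.polar Q d' d' = 0 := by rw [polar_self_two_mul, hp'.qf, mul_zero]
    have d'd : QuadraticMap.polar Q d' d = 1 := by rw [QuadraticMap.polar_comm, hp'.ef]
    have ha : Q (f - e) = -1 := by
      rw [sub_eq_add_neg, QuadraticMap.map_add (⇑Q), QuadraticMap.map_neg, QuadraticMap.polar_neg_right, fe, hp.qe, hp.qf]
      ring
    have hb : Q (d - d' + e) = -1 := by
      rw [QuadraticMap.map_add (⇑Q), sub_eq_add_neg, QuadraticMap.map_add (⇑Q), QuadraticMap.map_neg, hp'.qe, hp'.qf, hp.qe,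
        QuadraticMap.polar_neg_right, hp'.ef, QuadraticMap.polar_add_left, QuadraticMap.polar_neg_left, hde, hd'e]
      ring
    obtain ⟨r, hr⟩ := Submodule.mem_span_singleton.mp
      (mem_subspaceStabilizer_iff.mp hh.1 w (Submodule.mem_span_singleton_self _))
    have := congrArg (fun x => QuadraticMap.polar Q d' x) hr
    simp only [w, reflComm_mulVec, reflGL_mulVec, ha, hb, QuadraticMap.polar_add_left, QuadraticMap.polar_add_right,
      QuadraticMap.polar_sub_left, QuadraticMap.polar_sub_right, QuadraticMap.polar_smul_right, smul_eq_mul,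
      ee, ff, fe, hp.ef, dd, dd', d'd, hp'.ef, hde, hd'e, hdf, hd'f, o1, o2, o3, o4] at this
    norm_num at this

end Cfsg.Agent.GeomClasses
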