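import Mathlib

/-! # Elementary `SL₂` over `ZMod (5 ^ k)`: a perfect group with a solvable maximal subgroup of large derived length -/

set_option autoImplicit false

namespace Cfsg.Agent.GeomClasses

open Matrix
open scoped commutatorElement

variable {R : Type*} [CommRing R]

def eUp (t : R) : SpecialLinearGroup (Fin 2) R := ⟨!![1, t; 0, 1], by simp [Matrix.det_fin_two_of]⟩
def eLow (t : R) : SpecialLinearGroup (Fin 2) R := ⟨!![1, 0; t, 1], by simp [Matrix.det_fin_two_of]⟩
def eDiag (u v : R) (h : u * v = 1) : SpecialLinearGroup (Fin 2) R :=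
  ⟨!![u, 0; 0, v], by simp [Matrix.det_fin_two_of, h]⟩

theorem eUp_val (t : R) : (eUp t : Matrix (Fin 2) (Fin 2) R) = !![1, t; 0, 1] := rfl
theorem eLow_val (t : R) : (eLow t : Matrix (Fin 2) (Fin 2) R) = !![1, 0; t, 1] := rfl
theorem eDiag_val (u v : R) (h : u * v = 1) : (eDiag u v h : Matrix (Fin 2) (Fin 2) R) = !![u, 0; 0, v] := rfl

theorem eUp_mul (a b : R) : eUp a * eUp b = eUp (a + b) := by
  ext i j
  fin_cases i <;> fin_cases j <;> simp [eUp_val, Matrix.mul_apply, Fin.sum_univ_two, add_comm]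

theorem eLow_mul (a b : R) : eLow a * eLow b = eLow (a + b) := by
  ext i j
  fin_cases i <;> fin_cases j <;> simp [eLow_val, Matrix.mul_apply, Fin.sum_univ_two]

theorem eUp_inv (a : R) : (eUp a)⁻¹ = eUp (-a) := by
  rw [inv_eq_iff_mul_eq_one, eUp_mul, add_neg_cancel]
  ext i j
  fin_cases i <;> fin_cases j <;> simp [eUp_val]

theorem eLow_inv (a : R) : (eLow a)⁻¹ = eLow (-a) := by
  rw [inv_eq_iff_mul_eq_one, eLow_mul, add_neg_cancel]
  ext i j
  fin_cases i <;> fin_cases j <;> simp [eLow_val]

theorem eDiag_inv (u v : R) (h : u * v = 1) : (eDiag u v h)⁻¹ = eDiag v u (by rw [mul_comm, h]) := by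
  rw [inv_eq_iff_mul_eq_one]
  ext i j
  fin_cases i <;> fin_cases j <;> simp [eDiag_val, Matrix.mul_apply, Fin.sum_univ_two, h, mul_comm v u]

theorem comm_diag_up (u v t : R) (h : u * v = 1) : ⁅eDiag u v h, eUp t⁆ = eUp ((u * u - 1) * t) := by
  rw [commutatorElement_def, eDiag_inv, eUp_inv]
  ext i j
  fin_cases i <;> fin_cases j <;>
    simp [eDiag_val, eUp_val, Matrix.mul_apply, Fin.sum_univ_two, h, mul_comm v u] <;> ring_nf

theorem comm_diag_low (u v t : R) (h : u * v = 1) : ⁅eDiag u v h, eLow t⁆ = eLow ((v * v - 1) * t) := by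
  rw [commutatorElement_def, eDiag_inv, eLow_inv]
  ext i j
  fin_cases i <;> fin_cases j <;>
    simp [eDiag_val, eLow_val, Matrix.mul_apply, Fin.sum_univ_two, h, mul_comm v u] <;> ring_nf

theorem diag_eq (a b s v : R) (hs : s = 1 + a * b) (h : s * v = 1) :
    eDiag s v h = eLow (-(b * v)) * eUp a * eLow b * eUp (-(a * v)) := by
  subst hs
  ext i j
  fin_cases i <;> fin_cases j <;> simp [eDiag_val, eLow_val, eUp_val, Matrix.mul_apply, Fin.sum_univ_two]
  · linear_combination a * h
  · linear_combination b * h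
  · linear_combination (1 - v * a * b) * h

/-- The elementary subgroup. -/
def elemGroup (R : Type*) [CommRing R] : Subgroup (SpecialLinearGroup (Fin 2) R) :=
  Subgroup.closure {g | ∃ t : R, g = eUp t ∨ g = eLow t}

theorem eUp_mem (t : R) : eUp t ∈ elemGroup R := Subgroup.subset_closure ⟨t, Or.inl rfl⟩
theorem eLow_mem (t : R) : eLow t ∈ elemGroup R := Subgroup.subset_closure ⟨t, Or.inr rfl⟩

theorem eDiag_mem (u v : R) (h : u * v = 1) : eDiag u v h ∈ elemGroup R := by
  rw [diag_eq 1 (u - 1) u v (by ring) h]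
  exact mul_mem (mul_mem (mul_mem (eLow_mem _) (eUp_mem _)) (eLow_mem _)) (eUp_mem _)

theorem elemGroup_perfect (u v w w' : R) (h : u * v = 1) (hw : (u * u - 1) * w = 1) (hw' : (v * v - 1) * w' = 1) :
    commutator ↥(elemGroup R) = ⊤ := by
  have hle : elemGroup R ≤ ⁅elemGroup R, elemGroup R⁆ := by
    refine (Subgroup.closure_le _).mpr ?_
    rintro g ⟨t, rfl | rfl⟩
    · have := Subgroup.commutator_mem_commutator (eDiag_mem u v h) (eUp_mem (w * t))
      rwa [comm_diag_up, ← mul_assoc, hw, one_mul] at this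
    · have := Subgroup.commutator_mem_commutator (eDiag_mem u v h) (eLow_mem (w' * t))
      rwa [comm_diag_low, ← mul_assoc, hw', one_mul] at this
  apply Subgroup.map_injective (elemGroup R).subtype_injective
  rw [Subgroup.map_subtype_commutator, ← MonoidHom.range_eq_map, Subgroup.range_subtype]
  exact le_antisymm (Subgroup.commutator_le.mpr fun a ha b hb => by
    rw [commutatorElement_def]; exact mul_mem (mul_mem (mul_mem ha hb) (inv_mem ha)) (inv_mem hb)) hle

/-- One step down the derived series. -/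
theorem derived_step {G : Type*} [Group G] (H : Subgroup G) (f : SpecialLinearGroup (Fin 2) R → G)
    (hmul : ∀ a b, f (a * b) = f a * f b) (c : R) (S : Subgroup G)
    (hup : ∀ t, f (eUp (c * t)) ∈ S) (hlow : ∀ t, f (eLow (c * t)) ∈ S)
    (v : R) (hv : (1 + c * c) * v = 1) (r r' : R) (hr : (2 + c * c) * r = 1) (hr' : (-2 - c * c) * (v * v) * r' = 1) :
    ∀ t, f (eUp (c * c * c * t)) ∈ ⁅S, S⁆ ∧ f (eLow (c * c * c * t)) ∈ ⁅S, S⁆ := by
  intro t
  let φ : SpecialLinearGroup (Fin 2) R →* G := MonoidHom.mk' f hmul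
  have hd : f (eDiag (1 + c * c) v hv) ∈ S := by
    rw [diag_eq c c (1 + c * c) v rfl hv, hmul, hmul, hmul]
    refine S.mul_mem (S.mul_mem (S.mul_mem ?_ ?_) ?_) ?_
    · rw [← mul_neg]; exact hlow _
    · simpa using hup 1
    · simpa using hlow 1
    · rw [← mul_neg]; exact hup _
  constructor
  · have := Subgroup.commutator_mem_commutator hd (hup (r * t))
    change ⁅φ _, φ _⁆ ∈ _ at this
    rw [← map_commutatorElement, comm_diag_up] at this
    convert this using 1
    show f _ = f _
    congr 2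
    linear_combination (-(c * c * c * t)) * hr
  · have := Subgroup.commutator_mem_commutator hd (hlow (r' * t))
    change ⁅φ _, φ _⁆ ∈ _ at this
    rw [← map_commutatorElement, comm_diag_low] at this
    convert this using 1
    show f _ = f _
    congr 2
    linear_combination (-(c * c * c * t)) * hr' - ((1 + c * c) * v + 1) * (c * (r' * t)) * hv

end Cfsg.Agent.GeomClasses
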