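import Cfsg.Agent.Forms.SympBasis
import Cfsg.Agent.Forms.SiegelParabolic

/-!
Elements of odd prime order of symplectic groups fixing no pair of complementary Lagrangian
subspaces.
-/

set_option autoImplicit false

namespace Cfsg.Agent.GeomClasses.PolarPairDerange

open Matrix Cfsg.Agent.Forms

variable {F : Type*} [Field F] [Fintype F]

theorem prod_identity (q d : ℕ) (hq : 1 ≤ q) :
    (∏ i ∈ Finset.range d, (q ^ (i + 1) * (q ^ (i + 1) + 1))) * ∏ i ∈ Finset.range d, (q ^ d - q ^ i) =
      q ^ (d ^ 2) * ∏ i ∈ Finset.range d, (q ^ (2 * (i + 1)) - 1) := by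
  have h1 : ∏ i ∈ Finset.range d, (q ^ d - q ^ i) =
      (∏ i ∈ Finset.range d, q ^ i) * ∏ i ∈ Finset.range d, (q ^ (i + 1) - 1) := by
    rw [← Finset.prod_range_reflect (fun i => q ^ (i + 1) - 1) d, ← Finset.prod_mul_distrib]
    refine Finset.prod_congr rfl fun i hi => ?_
    rw [Finset.mem_range] at hi
    rw [Nat.mul_sub, mul_one, ← pow_add, show i + (d - 1 - i + 1) = d by omega]
  have h2 : ∀ d, (∏ i ∈ Finset.range d, q ^ (i + 1)) * ∏ i ∈ Finset.range d, q ^ i = q ^ (d ^ 2) := by
    intro d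
    induction d with
    | zero => simp
    | succ d ih =>
      rw [Finset.prod_range_succ, Finset.prod_range_succ, mul_mul_mul_comm, ih, ← pow_add, ← pow_add]
      congr 1
      ring
  have h3 : ∀ i, q ^ (2 * (i + 1)) - 1 = (q ^ (i + 1) + 1) * (q ^ (i + 1) - 1) := fun i => by
    have := Nat.sq_sub_sq (q ^ (i + 1)) 1
    rw [one_pow, ← pow_mul, mul_comm (i + 1) 2] at this
    exact this
  simp only [h1, h3, Finset.prod_mul_distrib, ← h2 d]
  ring

theorem exists_half {r : ℕ} [Fact r.Prime] (hr2 : r ≠ 2) {q j : ℕ} (hj : 1 ≤ j) (h : r ∣ q ^ j + 1)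
    (hmin : ∀ l, 1 ≤ l → l < j → ¬ r ∣ q ^ l + 1) {k : ℕ} (hk : 1 ≤ k) (hk2 : k < 2 * j) :
    ¬ r ∣ q ^ k - 1 := by
  intro hd
  have hxj : (q : ZMod r) ^ j = -1 := by
    have : ((q ^ j + 1 : ℕ) : ZMod r) = 0 := (ZMod.natCast_eq_zero_iff _ _).2 h
    push_cast at this
    exact eq_neg_of_add_eq_zero_left this
  have hne : (-1 : ZMod r) ≠ 1 := by
    intro e
    have : ((2 : ℕ) : ZMod r) = 0 := by push_cast; linear_combination -e
    rw [ZMod.natCast_eq_zero_iff] at this
    exact hr2 ((Nat.prime_dvd_prime_iff_eq Fact.out Nat.prime_two).1 this)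
  have hq0 : 1 ≤ q := by
    by_contra hq
    have : q = 0 := by omega
    subst this
    rw [zero_pow (by omega), zero_add, Nat.dvd_one] at h
    exact (Fact.out : r.Prime).one_lt.ne' h
  have hxk : (q : ZMod r) ^ k = 1 := by
    have : ((q ^ k - 1 : ℕ) : ZMod r) = 0 := (ZMod.natCast_eq_zero_iff _ _).2 hd
    rw [Nat.cast_sub (Nat.one_le_pow _ _ hq0)] at this
    push_cast at this
    exact sub_eq_zero.1 this
  set o := orderOf (q : ZMod r)
  have ho1 : o ∣ 2 * j := orderOf_dvd_of_pow_eq_one (by rw [mul_comm, pow_mul, hxj, neg_one_sq])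
  have ho2 : o ∣ k := orderOf_dvd_of_pow_eq_one hxk
  have ho3 : ¬ o ∣ j := fun e => hne (hxj ▸ orderOf_dvd_iff_pow_eq_one.1 e)
  obtain ⟨l, hl⟩ : 2 ∣ o := by
    by_contra h2
    exact ho3 ((Nat.prime_two.coprime_iff_not_dvd.2 h2).symm.dvd_of_dvd_mul_left ho1)
  have hok := Nat.le_of_dvd (by omega) ho2
  have ho0 : 0 < o := Nat.pos_of_dvd_of_pos ho2 (by omega)
  have hsq : ((q : ZMod r) ^ l) * (q : ZMod r) ^ l = 1 := by
    rw [← pow_add, ← two_mul, ← hl]; exact pow_orderOf_eq_one _
  rcases mul_self_eq_one_iff.1 hsq with e | e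
  · have := Nat.le_of_dvd (by omega) (orderOf_dvd_of_pow_eq_one e)
    omega
  · refine hmin l (by omega) (by omega) ((ZMod.natCast_eq_zero_iff _ _).1 ?_)
    push_cast
    rw [e, neg_add_cancel]

variable {d : ℕ}

/-- The ordered pairs of complementary Lagrangian subspaces. -/
abbrev Pairs (d : ℕ) (F : Type*) [Field F] : Type _ :=
  {P : Submodule F (Fin d ⊕ Fin d → F) × Submodule F (Fin d ⊕ Fin d → F) //
    IsCompl P.1 P.2 ∧ (∀ u ∈ P.1, ∀ v ∈ P.1, Cfsg.sympForm d F u v = 0) ∧
      (∀ u ∈ P.2, ∀ v ∈ P.2, Cfsg.sympForm d F u v = 0)}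

theorem card_pairs {q : ℕ} (hq : Fintype.card F = q) :
    Nat.card (Pairs d F) = ∏ i ∈ Finset.range d, (q ^ (i + 1) * (q ^ (i + 1) + 1)) := by
  classical
  let X : Submodule F (Fin d ⊕ Fin d → F) := ⨅ i : Fin d, LinearMap.ker (LinearMap.proj (Sum.inr i))
  let Y : Submodule F (Fin d ⊕ Fin d → F) := ⨅ i : Fin d, LinearMap.ker (LinearMap.proj (Sum.inl i))
  have hX : ∀ v, v ∈ X ↔ ∀ i : Fin d, v (Sum.inr i) = 0 := fun v => by simp [X]
  have hY : ∀ v, v ∈ Y ↔ ∀ i : Fin d, v (Sum.inl i) = 0 := fun v => by simp [Y]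
  let G := Matrix.symplecticGroup (Fin d) F
  let L : G → (Fin d ⊕ Fin d → F) →ₗ[F] (Fin d ⊕ Fin d → F) := fun g =>
    Matrix.toLin' (g : Matrix (Fin d ⊕ Fin d) (Fin d ⊕ Fin d) F)
  have hL : ∀ g h : G, L (g * h) = (L g).comp (L h) := fun g h => by
    simp [L, Matrix.toLin'_mul]
  have hL1 : L 1 = LinearMap.id := by simp [L]
  have hbij : ∀ g : G, Function.Bijective (L g) := fun g => by
    refine Function.bijective_iff_has_inverse.2 ⟨L g⁻¹, fun v => ?_, fun v => ?_⟩
    · rw [← LinearMap.comp_apply, ← hL, inv_mul_cancel, hL1, LinearMap.id_apply]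
    · rw [← LinearMap.comp_apply, ← hL, mul_inv_cancel, hL1, LinearMap.id_apply]
  have hpres : ∀ (g : G) u v, Cfsg.sympForm d F (L g u) (L g v) = Cfsg.sympForm d F u v := fun g u v => by
    simp only [L, Matrix.toLin'_apply]; exact mem_symplectic_iff.1 g.2 u v
  have hXY : IsCompl X Y := by
    refine ⟨Submodule.disjoint_def.2 fun v hv hv' => funext ?_, codisjoint_iff.2 (eq_top_iff.2 fun v _ => ?_)⟩
    · rintro (i | i)
      · exact (hY v).1 hv' i
      · exact (hX v).1 hv i
    · rw [← Sum.elim_comp_inl_inr v, show Sum.elim (v ∘ Sum.inl) (v ∘ Sum.inr) =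
        Sum.elim (v ∘ Sum.inl) (0 : Fin d → F) + Sum.elim (0 : Fin d → F) (v ∘ Sum.inr) by
          funext i; cases i <;> simp]
      exact Submodule.add_mem_sup ((hX _).2 fun i => rfl) ((hY _).2 fun i => rfl)
  let act : G → Pairs d F := fun g => ⟨(X.map (L g), Y.map (L g)), by
    refine ⟨⟨disjoint_iff.2 ?_, codisjoint_iff.2 ?_⟩, ?_, ?_⟩
    · rw [← Submodule.map_inf _ (hbij g).1, hXY.inf_eq_bot, Submodule.map_bot]
    · rw [← Submodule.map_sup, hXY.sup_eq_top, Submodule.map_top, LinearMap.range_eq_top.2 (hbij g).2]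
    · rintro _ ⟨u, hu, rfl⟩ _ ⟨v, hv, rfl⟩
      rw [hpres, sympForm_eq]
      exact Finset.sum_eq_zero fun i _ => by rw [(hX u).1 hu, (hX v).1 hv]; simp
    · rintro _ ⟨u, hu, rfl⟩ _ ⟨v, hv, rfl⟩
      rw [hpres, sympForm_eq]
      exact Finset.sum_eq_zero fun i _ => by rw [(hY u).1 hu, (hY v).1 hv]; simp⟩
  have hsurj : Function.Surjective act := by
    rintro ⟨⟨U, W⟩, hc, hU, hW⟩
    simp only at hc hU hW
    let β : W →ₗ[F] Module.Dual F U :=
      (((sympB d F).compl₁₂ W.subtype U.subtype))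
    have hβ : ∀ (w : W) (u : U), β w u = Cfsg.sympForm d F (w : Fin d ⊕ Fin d → F) u := fun w u => sympB_apply _ _
    have hβinj : Function.Injective β := by
      refine (injective_iff_map_eq_zero _).2 fun w hw => Subtype.ext ?_
      refine sympB_nondegenerate.1 _ fun y => ?_
      obtain ⟨u, hu, w', hw', rfl⟩ := Submodule.mem_sup.1 (hc.sup_eq_top ▸ Submodule.mem_top : y ∈ U ⊔ W)
      have h1 := LinearMap.congr_fun hw ⟨u, hu⟩
      rw [hβ] at h1
      rw [map_add, sympB_apply, sympB_apply, hW _ w.2 _ hw', add_zero]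
      exact h1
    have hskew : ∀ a b : Fin d ⊕ Fin d → F, Cfsg.sympForm d F a b = - Cfsg.sympForm d F b a := fun a b => by
      have h := sympB_isAlt (m := d) (F := F) (a + b)
      simp only [map_add, LinearMap.add_apply, sympB_isAlt a, sympB_isAlt b, zero_add, add_zero, sympB_apply] at h
      linear_combination h
    have hadd := Submodule.finrank_add_eq_of_isCompl hc
    rw [Module.finrank_pi, Fintype.card_sum, Fintype.card_fin] at hadd
    have h1 := LinearMap.finrank_le_finrank_of_injective hβinj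
    rw [Subspace.dual_finrank_eq] at h1
    have h2 : Module.finrank F U ≤ d := by
      have hperp : U ≤ perp (sympB d F) U := fun v hv u hu => by rw [sympB_apply]; exact hU u hu v hv
      have h4 := (isForm_symp (m := d) (F := F)).finrank_le_of_le_perp hperp
      rw [Module.finrank_pi, Fintype.card_sum, Fintype.card_fin] at h4
      omega
    have hUd : Module.finrank F U = d := by omega
    have hWd : Module.finrank F W = d := by omega
    let b := Module.finBasisOfFinrankEq F U hUd
    let e := LinearEquiv.ofInjectiveOfFinrankEq β hβinj (by rw [Subspace.dual_finrank_eq]; omega)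
    let c : Fin d → W := fun i => e.symm (b.coord i)
    have hbc : ∀ i j, Cfsg.sympForm d F (c i : Fin d ⊕ Fin d → F) (b j : Fin d ⊕ Fin d → F) =
        if i = j then 1 else 0 := by
      intro i j
      rw [← hβ, show β (c i) = b.coord i from e.apply_symm_apply _, Module.Basis.coord_apply, b.repr_self,
        Finsupp.single_apply]
      simp [eq_comm]
    let f : Fin d ⊕ Fin d → (Fin d ⊕ Fin d → F) := Sum.elim (fun i => (b i : Fin d ⊕ Fin d → F)) (fun i => (c i : Fin d ⊕ Fin d → F))
    let M : Matrix (Fin d ⊕ Fin d) (Fin d ⊕ Fin d) F := Matrix.of fun i j => f j i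
    have hM : ∀ v, M *ᵥ v = ∑ j, v j • f j := fun v => by
      funext i; simp [M, mulVec, dotProduct, mul_comm]
    have hM1 : ∀ j, M *ᵥ Pi.single j 1 = f j := fun j => by
      funext i; simp [M]
    have hMs : M ∈ Matrix.symplecticGroup (Fin d) F := by
      rw [mem_symplectic_iff]
      intro u v
      rw [hM, hM, ← sympB_apply, ← sympB_apply]
      simp only [map_sum, map_smul, LinearMap.sum_apply, LinearMap.smul_apply, smul_eq_mul]
      rw [sympB_apply, sympForm_eq]
      simp only [Fintype.sum_sum_type, f, Sum.elim_inl, Sum.elim_inr, sympB_apply,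
        hU _ (b _).2 _ (b _).2, hW _ (c _).2 _ (c _).2, hbc,
        hskew ((b _ : U) : Fin d ⊕ Fin d → F) ((c _ : W) : Fin d ⊕ Fin d → F)]
      simp [Finset.sum_sub_distrib, Finset.sum_add_distrib]
      simp only [← sub_eq_add_neg, ← Finset.sum_sub_distrib]
      exact Finset.sum_congr rfl fun i _ => by ring
    have hle : ∀ (Z : Submodule F (Fin d ⊕ Fin d → F)) (T : Submodule F (Fin d ⊕ Fin d → F)),
        (∀ v ∈ T, M *ᵥ v ∈ Z) → Module.finrank F Z = d → Module.finrank F T = d →
        T.map (L ⟨M, hMs⟩) = Z := by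
      intro Z T h hZ hT
      refine Submodule.eq_of_le_of_finrank_eq ?_ ?_
      · rintro _ ⟨v, hv, rfl⟩
        show Matrix.toLin' M v ∈ Z
        rw [Matrix.toLin'_apply]; exact h v hv
      · rw [← (Submodule.equivMapOfInjective _ (hbij ⟨M, hMs⟩).1 T).finrank_eq, hT, hZ]
    have hXd : Module.finrank F X = d ∧ Module.finrank F Y = d := by
      have h5 := Submodule.finrank_add_eq_of_isCompl hXY
      rw [Module.finrank_pi, Fintype.card_sum, Fintype.card_fin] at h5
      have hle' : ∀ Z : Submodule F (Fin d ⊕ Fin d → F),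
          (∀ u ∈ Z, ∀ v ∈ Z, Cfsg.sympForm d F u v = 0) → Module.finrank F Z ≤ d := by
        intro Z hZ
        have hperp : Z ≤ perp (sympB d F) Z := fun v hv u hu => by rw [sympB_apply]; exact hZ u hu v hv
        have h4 := (isForm_symp (m := d) (F := F)).finrank_le_of_le_perp hperp
        rw [Module.finrank_pi, Fintype.card_sum, Fintype.card_fin] at h4
        omega
      have hx := hle' X fun u hu v hv => by
        rw [sympForm_eq]; exact Finset.sum_eq_zero fun i _ => by rw [(hX u).1 hu, (hX v).1 hv]; simp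
      have hy := hle' Y fun u hu v hv => by
        rw [sympForm_eq]; exact Finset.sum_eq_zero fun i _ => by rw [(hY u).1 hu, (hY v).1 hv]; simp
      omega
    refine ⟨⟨M, hMs⟩, Subtype.ext (Prod.ext ?_ ?_)⟩
    · refine hle U X (fun v hv => ?_) hUd hXd.1
      rw [hM, Fintype.sum_sum_type]
      refine add_mem (Submodule.sum_mem _ fun i _ => U.smul_mem _ (b i).2) (Submodule.sum_mem _ fun i _ => ?_)
      rw [(hX v).1 hv i, zero_smul]; exact U.zero_mem
    · refine hle W Y (fun v hv => ?_) hWd hXd.2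
      rw [hM, Fintype.sum_sum_type]
      refine add_mem (Submodule.sum_mem _ fun i _ => ?_) (Submodule.sum_mem _ fun i _ => W.smul_mem _ (c i).2)
      rw [(hY v).1 hv i, zero_smul]; exact W.zero_mem
  set S := Cfsg.stabilizing (Cfsg.spToMat d F) {v : Fin d ⊕ Fin d → F | ∀ i : Fin d, v (Sum.inr i) = 0} ⊓
      Cfsg.stabilizing (Cfsg.spToMat d F) {v : Fin d ⊕ Fin d → F | ∀ i : Fin d, v (Sum.inl i) = 0} with hS
  have hfib : ∀ g h : G, act g = act h ↔ g⁻¹ * h ∈ S := by
    have hmem : ∀ k : G, k ∈ S ↔ X.map (L k) = X ∧ Y.map (L k) = Y := by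
      intro k
      have key : ∀ Z : Submodule F (Fin d ⊕ Fin d → F), Z.map (L k) = Z ↔ ∀ v, v ∈ Z ↔ L k v ∈ Z := by
        intro Z
        constructor
        · intro h v
          conv_rhs => rw [← h]
          exact ⟨fun hv => ⟨v, hv, rfl⟩, fun ⟨w, hw, hwv⟩ => (hbij k).1 hwv ▸ hw⟩
        · intro h
          ext y
          obtain ⟨v, rfl⟩ := (hbij k).2 y
          exact ⟨fun ⟨w, hw, hwv⟩ => (h v).1 ((hbij k).1 hwv ▸ hw), fun hv => ⟨v, (h v).2 hv, rfl⟩⟩
      rw [key, key]
      simp only [hS, Subgroup.mem_inf, hX, hY, L, Matrix.toLin'_apply]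
      rfl
    intro g h
    have hcancel : ∀ Z : Submodule F (Fin d ⊕ Fin d → F), Z.map (L (g⁻¹ * h)) = Z ↔ Z.map (L g) = Z.map (L h) := by
      intro Z
      rw [hL, Submodule.map_comp]
      constructor
      · intro e
        conv_lhs => rw [← e]
        rw [← Submodule.map_comp, ← hL, mul_inv_cancel, hL1, Submodule.map_id]
      · intro e
        rw [← e, ← Submodule.map_comp, ← hL, inv_mul_cancel, hL1, Submodule.map_id]
    rw [hmem, hcancel, hcancel]
    simp only [act, Subtype.ext_iff, Prod.ext_iff]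
  have hpow : Nat.card G = Nat.card (Pairs d F) * Nat.card S := by
    haveI : Finite (Pairs d F) := Finite.of_surjective act hsurj
    haveI := Fintype.ofFinite (Pairs d F)
    rw [← Nat.card_congr (Equiv.sigmaFiberEquiv act), Nat.card_sigma,
      Finset.sum_congr rfl (g := fun _ : Pairs d F => Nat.card S) (fun P _ => ?_), Finset.sum_const,
      Finset.card_univ, Nat.card_eq_fintype_card (α := Pairs d F), smul_eq_mul]
    obtain ⟨g, rfl⟩ := hsurj P
    exact Nat.card_congr
      { toFun := fun h => ⟨g⁻¹ * h.1, (hfib g h.1).1 h.2.symm⟩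
        invFun := fun s => ⟨g * s.1, ((hfib g (g * s.1)).2 (by simpa using s.2)).symm⟩
        left_inv := fun h => Subtype.ext (mul_inv_cancel_left _ _)
        right_inv := fun s => Subtype.ext (inv_mul_cancel_left _ _) }
  obtain ⟨lev⟩ := levi_equiv (m := d) (F := F)
  rw [Nat.card_congr lev.toEquiv, card_symplecticGroup hq, Matrix.card_GL_field, hq, ← Finset.prod_range (fun i => q ^ d - q ^ i),
    ← prod_identity q d (hq ▸ Fintype.card_pos)] at hpow
  have hne : ∏ i ∈ Finset.range d, (q ^ d - q ^ i) ≠ 0 := by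
    rw [Finset.prod_ne_zero_iff]
    intro i hi
    have := Nat.pow_lt_pow_right (show 1 < q by rw [← hq]; exact Fintype.one_lt_card) (Finset.mem_range.1 hi)
    omega
  exact (Nat.eq_of_mul_eq_mul_right (Nat.pos_of_ne_zero hne) hpow).symm

/-- An element of order dividing `r` is trivial when `r` is prime to `|GL_k|`. -/
theorem eq_id_of_pow {W : Type*} [AddCommGroup W] [Module F W] [FiniteDimensional F W] {r : ℕ} [Fact r.Prime]
    {q : ℕ} (hq : Fintype.card F = q) (hrq : ¬ r ∣ q) (hdvd : ∀ k, 1 ≤ k → k ≤ Module.finrank F W → ¬ r ∣ q ^ k - 1)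
    (f : W ≃ₗ[F] W) (hf : f ^ r = 1) : f = 1 := by
  by_contra hne
  have hord : orderOf f = r := orderOf_eq_prime hf hne
  have h := orderOf_dvd_natCard f
  let b := Module.finBasis F W
  rw [hord, Nat.card_congr (((LinearMap.GeneralLinearGroup.generalLinearEquiv F W).symm.trans
    ((Matrix.GeneralLinearGroup.toLin).trans (LinearMap.GeneralLinearGroup.congrLinearEquiv b.equivFun.symm)).symm).toEquiv),
    Matrix.card_GL_field, hq] at h
  obtain ⟨i, -, hi⟩ := (Fact.out : r.Prime).prime.exists_mem_finset_dvd h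
  have hk : (i : ℕ) < Module.finrank F W := i.2
  rw [show q ^ Module.finrank F W - q ^ (i : ℕ) = q ^ (i : ℕ) * (q ^ (Module.finrank F W - i) - 1) by
    rw [Nat.mul_sub, mul_one, ← pow_add, Nat.add_sub_cancel' hk.le]] at hi
  rcases (Fact.out : r.Prime).dvd_mul.1 hi with h' | h'
  · exact hrq ((Fact.out : r.Prime).dvd_of_dvd_pow h')
  · exact hdvd _ (by omega) (by omega) h'

/-- The derangement. -/
theorem exists_derangement {q : ℕ} (hq : Fintype.card F = q) {r : ℕ} [Fact r.Prime] (hr2 : r ≠ 2)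
    (hrq : ¬ r ∣ q) (hrF : (r : F) ≠ 0) {j : ℕ} (hj : 1 ≤ j) (hjd : j ≤ d) (hdvd : r ∣ q ^ j + 1)
    (hnd : ∀ k, 1 ≤ k → k < 2 * j → ¬ r ∣ q ^ k - 1) :
    ∃ x : ↥(Matrix.symplecticGroup (Fin d) F), x ^ r = 1 ∧
      ¬ (∃ z : F, (x : Matrix (Fin d ⊕ Fin d) (Fin d ⊕ Fin d) F) = z • 1) ∧
      ¬ ∃ U W : Submodule F (Fin d ⊕ Fin d → F), IsCompl U W ∧ (∀ u ∈ U, ∀ v ∈ U, Cfsg.sympForm d F u v = 0) ∧
        (∀ u ∈ W, ∀ v ∈ W, Cfsg.sympForm d F u v = 0) ∧
        ((U.map (Matrix.toLin' (x : Matrix (Fin d ⊕ Fin d) (Fin d ⊕ Fin d) F)) = U ∧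
            W.map (Matrix.toLin' (x : Matrix (Fin d ⊕ Fin d) (Fin d ⊕ Fin d) F)) = W) ∨
         (U.map (Matrix.toLin' (x : Matrix (Fin d ⊕ Fin d) (Fin d ⊕ Fin d) F)) = W ∧
            W.map (Matrix.toLin' (x : Matrix (Fin d ⊕ Fin d) (Fin d ⊕ Fin d) F)) = U)) := by
  classical
  obtain ⟨x₀, hx₀⟩ := exists_prime_orderOf_dvd_card' (G := Matrix.symplecticGroup (Fin j) F) r (by
    rw [card_symplecticGroup hq]
    refine Dvd.dvd.mul_left (dvd_trans ?_ (Finset.dvd_prod_of_mem _ (Finset.mem_range.2 (show j - 1 < j by omega)))) _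
    rw [show j - 1 + 1 = j by omega, two_mul, pow_add, ← mul_one 1, Nat.mul_self_sub_mul_self_eq]
    exact Dvd.dvd.mul_right hdvd _)
  let T := Matrix.toLin' (x₀ : Matrix (Fin j ⊕ Fin j) (Fin j ⊕ Fin j) F)
  have hTp : ∀ u v, Cfsg.sympForm j F (T u) (T v) = Cfsg.sympForm j F u v := fun u v => by
    simp only [T, Matrix.toLin'_apply]; exact mem_symplectic_iff.1 x₀.2 u v
  have hTr : T ^ r = 1 := by
    have h : (x₀ : Matrix (Fin j ⊕ Fin j) (Fin j ⊕ Fin j) F) ^ r = 1 := by
      rw [← SubmonoidClass.coe_pow, ← hx₀, pow_orderOf_eq_one]; rfl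
    rw [← Matrix.toLin'_pow, h, Matrix.toLin'_one]; rfl
  have hT1 : T ≠ 1 := fun h => by
    have : x₀ = 1 := Subtype.ext (Matrix.toLin'.injective (h.trans Matrix.toLin'_one.symm))
    rw [this, orderOf_one] at hx₀
    exact (Fact.out : r.Prime).one_lt.ne hx₀
  -- invariant subspaces of small dimension are fixed
  have hsmall : ∀ U : Submodule F (Fin j ⊕ Fin j → F), (∀ u ∈ U, T u ∈ U) → Module.finrank F U < 2 * j →
      ∀ u ∈ U, T u = u := by
    intro U hU hdim u hu
    have hTinj : Function.Injective T := fun a c h => by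
      have := congrArg (T ^ (r - 1)) h
      rwa [← Module.End.mul_apply, ← Module.End.mul_apply, ← pow_succ,
        Nat.sub_add_cancel (Fact.out : r.Prime).one_lt.le, hTr] at this
    let f : U ≃ₗ[F] U := LinearEquiv.ofInjectiveEndo (T.restrict hU) (fun a c h =>
      Subtype.ext (hTinj (congrArg Subtype.val h)))
    have hfp : ∀ (k : ℕ) (a : U), ((f ^ k) a : Fin j ⊕ Fin j → F) = (T ^ k) (a : Fin j ⊕ Fin j → F) := by
      intro k
      induction k with
      | zero => intro a; rfl
      | succ k ih =>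
        intro a
        rw [pow_succ, pow_succ, LinearEquiv.mul_apply, Module.End.mul_apply, ih]
        rfl
    have hf := eq_id_of_pow hq hrq (fun k hk hk' => hnd k hk (by omega)) f
      (LinearEquiv.ext fun a => Subtype.ext (by rw [hfp, hTr]; rfl))
    exact congrArg Subtype.val (LinearEquiv.congr_fun hf ⟨u, hu⟩)
  have hnofix : ∀ v, T v = v → v = 0 := by
    intro v hv
    by_contra hv0
    let n := T - 1
    have hn : ∀ u, n u = T u - u := fun u => rfl
    have hker : 1 ≤ Module.finrank F (LinearMap.ker n) :=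
      Submodule.one_le_finrank_iff.2 ((Submodule.ne_bot_iff _).2 ⟨v, by simp [hn, hv], hv0⟩)
    have h2 := LinearMap.finrank_range_add_finrank_ker n
    rw [Module.finrank_pi, Fintype.card_sum, Fintype.card_fin] at h2
    have hfix := hsmall (LinearMap.range n) (by
      rintro _ ⟨u, rfl⟩; exact ⟨T u, by rw [hn, hn, map_sub]⟩) (by omega)
    have hpow : ∀ (k : ℕ) u, (T ^ k) u = u + k • n u := by
      intro k
      induction k with
      | zero => intro u; simp
      | succ k ih =>
        intro u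
        rw [pow_succ', Module.End.mul_apply, ih, map_add, map_nsmul, hfix (n u) ⟨u, rfl⟩, succ_nsmul, hn u]
        abel
    refine hT1 (LinearMap.ext fun u => ?_)
    have h := hpow r u
    rw [hTr, Module.End.one_apply, left_eq_add, ← Nat.cast_smul_eq_nsmul F] at h
    exact sub_eq_zero.1 ((smul_eq_zero.1 h).resolve_left hrF)
  -- embedding into dimension `d`
  let σ : Fin j ⊕ Fin j → Fin d ⊕ Fin d := Sum.map (Fin.castLE hjd) (Fin.castLE hjd)
  have hσ : Function.Injective σ := Sum.map_injective.2 ⟨Fin.castLE_injective _, Fin.castLE_injective _⟩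
  let R : (Fin d ⊕ Fin d → F) →ₗ[F] (Fin j ⊕ Fin j → F) := LinearMap.funLeft F F σ
  let E : (Fin j ⊕ Fin j → F) →ₗ[F] (Fin d ⊕ Fin d → F) := Function.ExtendByZero.linearMap F σ
  have hRE : ∀ a, R (E a) = a := fun a => funext fun i => hσ.extend_apply _ _ _
  have hEω : ∀ a v, Cfsg.sympForm d F (E a) v = Cfsg.sympForm j F a (R v) := by
    intro a v
    have hEl : ∀ i : Fin j, E a (Sum.inl (Fin.castLE hjd i)) = a (Sum.inl i) := fun i => congrFun (hRE a) (Sum.inl i)
    have hEr : ∀ i : Fin j, E a (Sum.inr (Fin.castLE hjd i)) = a (Sum.inr i) := fun i => congrFun (hRE a) (Sum.inr i)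
    have hE0 : ∀ k : Fin d, k ∉ Set.range (Fin.castLE hjd) → E a (Sum.inl k) = 0 ∧ E a (Sum.inr k) = 0 := by
      intro k hk
      constructor <;> refine Function.extend_apply' _ _ _ ?_
      · rintro ⟨(i | i), hi⟩
        · exact hk ⟨i, Sum.inl_injective hi⟩
        · simp [σ] at hi
      · rintro ⟨(i | i), hi⟩
        · simp [σ] at hi
        · exact hk ⟨i, Sum.inr_injective hi⟩
    rw [sympForm_eq, sympForm_eq]
    refine (Fintype.sum_of_injective (Fin.castLE hjd) (Fin.castLE_injective _) _ _ ?_ ?_).symm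
    · intro k hk
      obtain ⟨h1, h2⟩ := hE0 k hk
      rw [h1, h2]; ring
    · intro i
      rw [hEl, hEr]; rfl
  have hskew : ∀ (m : ℕ) (a b : Fin m ⊕ Fin m → F), Cfsg.sympForm m F a b = - Cfsg.sympForm m F b a := fun m a b => by
    have h := sympB_isAlt (m := m) (F := F) (a + b)
    simp only [map_add, LinearMap.add_apply, sympB_isAlt a, sympB_isAlt b, zero_add, add_zero, sympB_apply] at h
    linear_combination h
  let X : (Fin d ⊕ Fin d → F) →ₗ[F] (Fin d ⊕ Fin d → F) := LinearMap.id + E.comp ((T - 1).comp R)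
  have hX : ∀ v, X v = v + E (T (R v) - R v) := fun v => rfl
  have hXp : ∀ u v, Cfsg.sympForm d F (X u) (X v) = Cfsg.sympForm d F u v := by
    intro u v
    have h1 : Cfsg.sympForm d F u (E (T (R v) - R v)) = Cfsg.sympForm j F (R u) (T (R v) - R v) := by
      rw [hskew, hEω, ← hskew]
    simp only [hX, ← sympB_apply, map_add, LinearMap.add_apply]
    simp only [sympB_apply, h1, hEω, hRE]
    have h2 := hTp (R u) (R v)
    simp only [← sympB_apply, map_sub, LinearMap.sub_apply] at h2 ⊢
    linear_combination h2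
  have hXpow : ∀ (k : ℕ) v, (X ^ k) v = v + E ((T ^ k) (R v) - R v) := by
    intro k
    induction k with
    | zero => intro v; simp
    | succ k ih =>
      intro v
      rw [pow_succ', Module.End.mul_apply, ih, hX, map_add, hRE, pow_succ', Module.End.mul_apply,
        add_assoc, ← map_add]
      congr 2
      rw [add_sub_cancel]
      abel
  have hmem : LinearMap.toMatrix' X ∈ Matrix.symplecticGroup (Fin d) F := by
    rw [mem_symplectic_iff]
    intro u v
    rw [← Matrix.toLin'_apply, ← Matrix.toLin'_apply, Matrix.toLin'_toMatrix']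
    exact hXp u v
  let x : ↥(Matrix.symplecticGroup (Fin d) F) := ⟨_, hmem⟩
  have hxX : Matrix.toLin' (x : Matrix (Fin d ⊕ Fin d) (Fin d ⊕ Fin d) F) = X := Matrix.toLin'_toMatrix' X
  have hXr : X ^ r = 1 := LinearMap.ext fun v => by
    rw [hXpow, hTr, Module.End.one_apply, sub_self, map_zero, add_zero]; rfl
  -- the fixed totally isotropic subspaces are fixed pointwise
  have hkey : ∀ U : Submodule F (Fin d ⊕ Fin d → F), (∀ u ∈ U, ∀ v ∈ U, Cfsg.sympForm d F u v = 0) →
      U.map X = U → ∀ u ∈ U, X u = u := by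
    intro U hU hUX u hu
    have hXu : ∀ w ∈ U, X w ∈ U := fun w hw => hUX ▸ ⟨w, hw, rfl⟩
    have hinv : ∀ a ∈ U.comap E, T a ∈ U.comap E := by
      intro a ha
      have := hXu _ ha
      rw [hX, hRE, map_sub, add_sub_cancel] at this
      exact this
    have hiso : ∀ a ∈ U.comap E, ∀ c ∈ U.comap E, Cfsg.sympForm j F a c = 0 := fun a ha c hc => by
      rw [← hRE c, ← hEω]; exact hU _ ha _ hc
    have hdim : Module.finrank F (U.comap E) ≤ j := by
      have hperp : U.comap E ≤ perp (sympB j F) (U.comap E) := fun v hv w hw => by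
        rw [sympB_apply]; exact hiso w hw v hv
      have h4 := (isForm_symp (m := j) (F := F)).finrank_le_of_le_perp hperp
      rw [Module.finrank_pi, Fintype.card_sum, Fintype.card_fin] at h4
      omega
    have hmem' : T (R u) - R u ∈ U.comap E := by
      have h := sub_mem (hXu u hu) hu
      rwa [hX, add_sub_cancel_left] at h
    rw [hX, hnofix _ (hsmall _ hinv (by omega) _ hmem'), map_zero, add_zero]
  have hX1 : X ≠ 1 := fun h => hT1 (LinearMap.ext fun a => by
    have := congrArg R (LinearMap.congr_fun h (E a))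
    rwa [hX, Module.End.one_apply, map_add, hRE, hRE, add_sub_cancel] at this)
  refine ⟨x, Subtype.ext ?_, ?_, ?_⟩
  · rw [SubmonoidClass.coe_pow]
    refine Matrix.toLin'.injective ?_
    rw [Matrix.toLin'_pow, hxX, hXr]
    exact Matrix.toLin'_one.symm
  · rintro ⟨z, hz⟩
    have hXz : ∀ v, X v = z • v := fun v => by rw [← hxX, hz]; simp [Matrix.smul_mulVec]
    obtain ⟨a₀, ha₀⟩ : ∃ a₀ : Fin j ⊕ Fin j → F, T a₀ ≠ a₀ := by
      by_contra hc; push_neg at hc; exact hT1 (LinearMap.ext hc)
    let a : Fin j ⊕ Fin j → F := Pi.single (Sum.inl ⟨0, by omega⟩) 1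
    let b : Fin j ⊕ Fin j → F := Pi.single (Sum.inr ⟨0, by omega⟩) 1
    have hT : ∀ a, T a = z • a := fun a => by
      have := congrArg R (hXz (E a))
      rwa [hX, map_add, map_smul, hRE, hRE, add_sub_cancel] at this
    have hab : Cfsg.sympForm j F b a = 1 := by simp [a, b, sympForm_eq, Pi.single_apply]
    have hzz : z * z = 1 := by
      have h := hTp b a
      simp only [hT, ← sympB_apply, map_smul, LinearMap.smul_apply] at h
      simp only [sympB_apply, hab] at h
      simpa using h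
    rcases mul_self_eq_one_iff.1 hzz with rfl | rfl
    · exact ha₀ (by rw [hT, one_smul])
    · have hpow : ∀ k : ℕ, (T ^ k) a₀ = (-1 : F) ^ k • a₀ := by
        intro k
        induction k with
        | zero => simp
        | succ k ih => rw [pow_succ', Module.End.mul_apply, ih, map_smul, hT, smul_smul, pow_succ]
      have h := hpow r
      rw [hTr, Module.End.one_apply, ((Fact.out : r.Prime).odd_of_ne_two hr2).neg_one_pow] at h
      exact ha₀ (by rw [hT, ← h])
  · rintro ⟨U, W, hc, hU, hW, hm⟩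
    rw [hxX] at hm
    rcases hm with ⟨h1, h2⟩ | ⟨h1, h2⟩
    · refine hX1 (LinearMap.ext fun v => ?_)
      obtain ⟨u, hu, w, hw, rfl⟩ := Submodule.mem_sup.1 (hc.sup_eq_top ▸ Submodule.mem_top : v ∈ U ⊔ W)
      rw [map_add, hkey U hU h1 u hu, hkey W hW h2 w hw]
      rfl
    · have h3 : ∀ k, U.map (X ^ (2 * k)) = U := by
        intro k
        induction k with
        | zero => simp [Module.End.one_eq_id]
        | succ k ih =>
          rw [show 2 * (k + 1) = 2 + 2 * k by ring, pow_add, Module.End.mul_eq_comp, Submodule.map_comp, ih,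
            pow_two, Module.End.mul_eq_comp, Submodule.map_comp, h1, h2]
      obtain ⟨k, hk⟩ := (Fact.out : r.Prime).odd_of_ne_two hr2
      have h4 : U = W := by
        have := congrArg (fun f => U.map f) hXr
        rw [hk, pow_succ', Module.End.mul_eq_comp, Submodule.map_comp, h3, h1, Module.End.one_eq_id,
          Submodule.map_id] at this
        exact this.symm
      subst h4
      have htop := hc.sup_eq_top
      have hbot := hc.inf_eq_bot
      rw [sup_idem] at htop
      rw [inf_idem, htop] at hbot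
      haveI : Nonempty (Fin d ⊕ Fin d) := ⟨Sum.inl ⟨0, by omega⟩⟩
      exact top_ne_bot hbot

end Cfsg.Agent.GeomClasses.PolarPairDerange
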