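import Mathlib

set_option autoImplicit false

namespace Cfsg.Agent.GeomClasses

variable {F V : Type*} [Field F] [AddCommGroup V] [Module F V]

/-- A commutative algebra of endomorphisms whose elements satisfy `x ^ Q = x` has a vector with trivial annihilator. -/
theorem exists_annihilator_bot [Finite V] (A : Subalgebra F (Module.End F V))
    (hcomm : ∀ x ∈ A, ∀ y ∈ A, x * y = y * x) {Q : ℕ} (hQ : 2 ≤ Q) (hpow : ∀ x ∈ A, x ^ Q = x) :
    ∃ v : V, ∀ a ∈ A, a v = 0 → a = 0 := by
  classical
  haveI : Finite (Module.End F V) := Finite.of_injective (fun f => ⇑f) DFunLike.coe_injective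
  let ann : V → ℕ := fun v => {a : Module.End F V | a ∈ A ∧ a v = 0}.ncard
  obtain ⟨v, hv⟩ := Finite.exists_min ann
  refine ⟨v, fun x hx hxv => by_contra fun hx0 => ?_⟩
  obtain ⟨Q, rfl⟩ := Nat.exists_eq_add_of_le hQ
  set e := x ^ (1 + Q) with he
  have hxe : x * e = x := by
    have h := hpow x hx
    rwa [show 2 + Q = (1 + Q) + 1 by omega, pow_succ'] at h
  have hee : e * e = e := by
    calc e * e = x ^ Q * (x * e) := by rw [← mul_assoc, ← pow_succ, show Q + 1 = 1 + Q by omega]
      _ = x ^ Q * x := by rw [hxe]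
      _ = e := by rw [← pow_succ, show Q + 1 = 1 + Q by omega]
  have heA : e ∈ A := A.pow_mem hx _
  have hev : e v = 0 := by
    rw [he, show 1 + Q = Q + 1 by omega, pow_succ, Module.End.mul_apply, hxv, map_zero]
  have hne : e ≠ 0 := fun h => hx0 (by rw [← hxe, h, mul_zero])
  obtain ⟨w, hw⟩ : ∃ w, e w ≠ 0 := not_forall.mp fun h => hne (LinearMap.ext h)
  have hlt : ann (v + e w) < ann v := by
    refine Set.ncard_lt_ncard (Set.ssubset_iff_subset_ne.mpr ⟨fun a ha => ?_, ?_⟩) (Set.toFinite _)
    · obtain ⟨haA, ha⟩ := ha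
      refine ⟨haA, ?_⟩
      have hc : ∀ y, e (a y) = a (e y) := fun y => congrArg (fun g : Module.End F V => g y) (hcomm e heA a haA)
      have h1 := congrArg e ha
      rw [hc, map_add, hev, zero_add, ← Module.End.mul_apply e e, hee, map_zero] at h1
      rw [map_add, h1, add_zero] at ha
      exact ha
    · intro heq
      have : e ∈ {a : Module.End F V | a ∈ A ∧ a (v + e w) = 0} := heq ▸ ⟨heA, hev⟩
      have h2 := this.2
      rw [map_add, hev, zero_add, ← Module.End.mul_apply e e, hee] at h2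
      exact hw h2
  exact absurd (hv (v + e w)) (not_le.mpr hlt)

/-- The elements fixed by a `p`-power form a subalgebra inside a commutative one. -/
theorem pow_eq_self_of_adjoin [Fintype F] (S : Set (Module.End F V))
    (hcomm : ∀ x ∈ S, ∀ y ∈ S, x * y = y * x) (n : ℕ) [Nontrivial V]
    (hS : ∀ x ∈ S, x ^ (Fintype.card F ^ n) = x) :
    ∀ x ∈ Algebra.adjoin F S, x ^ (Fintype.card F ^ n) = x := by
  letI := Algebra.adjoinCommRingOfComm F hcomm
  haveI : Nontrivial (Algebra.adjoin F S) := inferInstance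
  let φ : Algebra.adjoin F S →ₐ[F] Algebra.adjoin F S := FiniteField.frobeniusAlgHom F (Algebra.adjoin F S) ^ n
  have hφ : ∀ y, φ y = y ^ (Fintype.card F ^ n) := fun y => by
    show (FiniteField.frobeniusAlgHom F (Algebra.adjoin F S) ^ n) y = _
    rw [AlgHom.coe_pow, FiniteField.coe_frobeniusAlgHom, pow_iterate]
  intro x hx
  have hid : φ = AlgHom.id F _ := by
    refine AlgHom.adjoin_ext (fun y hy => ?_)
    rw [hφ, AlgHom.id_apply]
    exact Subtype.ext (by rw [SubmonoidClass.coe_pow]; exact hS y hy)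
  have := congrArg Subtype.val (AlgHom.congr_fun hid ⟨x, hx⟩)
  rwa [hφ, SubmonoidClass.coe_pow, AlgHom.id_apply] at this

end Cfsg.Agent.GeomClasses
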