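import Cfsg.Agent.GeomClasses.TwoHalves
import Cfsg.Agent.GeomClasses.OrthTools
import Cfsg.Agent.Forms.Siegel

/-! # Stabilisers of two complementary totally singular halves -/

set_option autoImplicit false

namespace Cfsg.Agent.GeomClasses

open Module Cfsg.Agent.Forms

variable {F V : Type*} [Field F] [AddCommGroup V] [Module F V] [FiniteDimensional F V]
  {Q : QuadraticForm F V}

set_option quotPrecheck false in
local notation "BQ" => QuadraticMap.polar ⇑Q

local notation "sp" => Submodule.span F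

omit [FiniteDimensional F V] in
theorem eichler_trivial {x w : V} (hx : Q x = 0) (hw : BQ x w = 0) (hQw : Q w = 0)
    (h : x = 0 ∨ w ∈ sp {x}) : eichler Q x w hx hw = 1 := by
  refine orth_ext fun y => ?_
  rw [eichler_apply, eichlerMap_apply, orth_one_apply, hQw]
  rcases h with rfl | h
  · simp [QuadraticMap.polar]
  · obtain ⟨c, rfl⟩ := Submodule.mem_span_singleton.mp h
    rw [QuadraticMap.polar_smul_left, smul_eq_mul]
    module

/-- A Siegel transformation is a commutator in every characteristic, in dimension at least seven. -/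
theorem eichler_mem_commutator' [Finite F] (hQ : (QuadraticMap.polarBilin Q).Nondegenerate)
    (hn : 7 ≤ finrank F V) {u v : V} (hu : Q u = 0) (huv : BQ u v = 0) (hv : Q v = 0) :
    eichler Q u v hu huv ∈ commutator (orthGroup Q) := by
  by_cases hd : u = 0 ∨ v ∈ sp {u}
  · rw [eichler_trivial hu huv hv hd]; exact one_mem _
  push Not at hd
  obtain ⟨w, hQw, huw, hvw, hwS⟩ : ∃ w, Q w = 0 ∧ BQ u w = 0 ∧ BQ v w = 0 ∧ w ∉ sp {u} ⊔ sp {v} := by
    obtain ⟨Z, hZ⟩ := Submodule.exists_isCompl (sp {u} ⊔ sp {v})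
    have hS : finrank F ↥(sp {u} ⊔ sp {v}) ≤ 2 := by
      have h1 := Submodule.finrank_sup_add_finrank_inf_eq (sp {u}) (sp {v})
      have h2 : finrank F (sp {u}) ≤ 1 := (finrank_span_le_card {u}).trans (by simp)
      have h3 : finrank F (sp {v}) ≤ 1 := (finrank_span_le_card {v}).trans (by simp)
      omega
    have hdim : 3 ≤ finrank F ↥(perp (QuadraticMap.polarBilin Q) (sp {u} ⊔ sp {v}) ⊓ Z) := by
      have h1 := Submodule.finrank_sup_add_finrank_inf_eq
        (perp (QuadraticMap.polarBilin Q) (sp {u} ⊔ sp {v})) Z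
      have h3 := (isForm_quadratic Q hQ).finrank_perp (sp {u} ⊔ sp {v})
      have h4 := Submodule.finrank_add_eq_of_isCompl hZ
      have h5 := Submodule.finrank_le (perp (QuadraticMap.polarBilin Q) (sp {u} ⊔ sp {v}) ⊔ Z)
      omega
    obtain ⟨w, hw, hw0, hQw⟩ := exists_singular_mem (Q := Q) hdim
    exact ⟨w, hQw, hw.1 u (Submodule.mem_sup_left (Submodule.mem_span_singleton_self u)),
      hw.1 v (Submodule.mem_sup_right (Submodule.mem_span_singleton_self v)),
      fun h => hw0 (Submodule.disjoint_def.mp hZ.disjoint w h hw.2)⟩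
  have li : ∀ x, x ∉ sp {u} → LinearIndependent F ![u, x] := fun x hx =>
    (LinearIndependent.pair_iff' hd.1).mpr fun c hc => hx (hc ▸ Submodule.smul_mem _ c (Submodule.mem_span_singleton_self u))
  have hw1 : w ∉ sp {u} := fun h => hwS (Submodule.mem_sup_left h)
  have hw2 : w + v ∉ sp {u} := fun h => hwS (by
    simpa using sub_mem (Submodule.mem_sup_left (T := sp {v}) h)
      (Submodule.mem_sup_right (Submodule.mem_span_singleton_self v)))
  have hwv : Q (w + v) = 0 := by
    rw [QuadraticMap.map_add Q, hQw, hv, QuadraticMap.polar_comm, hvw, add_zero, add_zero]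
  have huwv : BQ u (w + v) = 0 := by rw [QuadraticMap.polar_add_right, huw, huv, add_zero]
  obtain ⟨g, hg⟩ := (isForm_quadratic Q hQ).exists_isom_of_sameGram (ι := Fin 2) (v := ![u, w])
    (w := ![u, w + v]) (li w hw1) (li _ hw2)
    ⟨fun i j => by
      fin_cases i <;> fin_cases j <;>
        simp [huw, huwv, polar_self_two_mul, hu, hwv, hQw, QuadraticMap.polar_comm Q w u, QuadraticMap.polar_comm Q (w + v) u,
          QuadraticMap.polar_comm Q v u, huv, QuadraticMap.polar_comm Q w v, hvw, hv],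
    fun i => by fin_cases i <;> simp [hwv, hQw]⟩
  have hgu : (g : V ≃ₗ[F] V) u = u := hg 0
  have hgw : (g : V ≃ₗ[F] V) w = w + v := hg 1
  have h := Subgroup.commutator_mem_commutator (Subgroup.mem_top g) (Subgroup.mem_top (eichler Q u w hu huw))
  rw [← commutator_def, commutatorElement_def, conj_eichler g hu huw] at h
  have hneg : BQ u (-w) = 0 := by rw [QuadraticMap.polar_neg_right, huw, neg_zero]
  have hinv : (eichler Q u w hu huw)⁻¹ = eichler Q u (-w) hu hneg :=
    inv_eq_of_mul_eq_one_right (orth_ext fun y => by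
      rw [orth_mul_apply, eichler_apply, eichler_apply, eichlerMap_comp hu huw hneg, add_neg_cancel,
        eichlerMap_zero]; rfl)
  rw [hinv] at h
  convert h using 1
  refine orth_ext fun y => ?_
  rw [orth_mul_apply, eichler_apply, eichler_apply, eichler_apply]
  simp only [hgu, hgw]
  rw [eichlerMap_comp hu huwv hneg]
  congr 2
  abel

/-- The transformation of a singular orthogonal pair lies in the subgroup. -/
def SgIn (Q : QuadraticForm F V) (M : Subgroup (orthGroup Q)) (x w : V) : Prop :=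
  ∃ (hx : Q x = 0) (hw : QuadraticMap.polar Q x w = 0), Q w = 0 ∧ eichler Q x w hx hw ∈ M

variable {M : Subgroup (orthGroup Q)}

theorem sgIn_zero {w : V} (hw : Q w = 0) : SgIn Q M 0 w :=
  ⟨map_zero Q, by simp [QuadraticMap.polar], hw, by rw [eichler_trivial _ _ hw (Or.inl rfl)]; exact one_mem _⟩

omit [FiniteDimensional F V] in
theorem sgIn_add {x w w' : V} (h : SgIn Q M x w) (h' : SgIn Q M x w') (hww : BQ w w' = 0) :
    SgIn Q M x (w + w') := by
  obtain ⟨hx, hw, hQw, hm⟩ := h
  obtain ⟨hx', hw', hQw', hm'⟩ := h'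
  refine ⟨hx, by rw [QuadraticMap.polar_add_right, hw, hw', add_zero], ?_, ?_⟩
  · rw [QuadraticMap.map_add Q, hQw, hQw', hww, add_zero, add_zero]
  · convert mul_mem hm hm' using 1
    refine orth_ext fun y => ?_
    rw [orth_mul_apply, eichler_apply, eichler_apply, eichler_apply, eichlerMap_comp hx hw hw']

omit [FiniteDimensional F V] in
theorem sgIn_neg {x w : V} (h : SgIn Q M x w) : SgIn Q M x (-w) := by
  obtain ⟨hx, hw, hQw, hm⟩ := h
  have hneg : BQ x (-w) = 0 := by rw [QuadraticMap.polar_neg_right, hw, neg_zero]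
  refine ⟨hx, hneg, by rw [QuadraticMap.map_neg, hQw], ?_⟩
  convert inv_mem hm using 1
  exact (inv_eq_of_mul_eq_one_right (orth_ext fun y => by
    rw [orth_mul_apply, eichler_apply, eichler_apply, eichlerMap_comp hx hw hneg, add_neg_cancel,
      eichlerMap_zero]; rfl)).symm

omit [FiniteDimensional F V] in
theorem sgIn_swap {x w : V} (h : SgIn Q M x w) : SgIn Q M w (-x) := by
  obtain ⟨hx, hw, hQw, hm⟩ := h
  refine ⟨hQw, by rw [QuadraticMap.polar_neg_right, QuadraticMap.polar_comm, hw, neg_zero],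
    by rw [QuadraticMap.map_neg, hx], ?_⟩
  convert hm using 1
  refine orth_ext fun y => ?_
  simp only [eichler_apply, eichlerMap_apply, hQw, QuadraticMap.map_neg, hx, zero_mul, add_zero,
    QuadraticMap.polar_neg_left]
  module

omit [FiniteDimensional F V] in
theorem sgIn_conj {x w : V} {g : orthGroup Q} (hg : g ∈ M) (h : SgIn Q M x w) :
    SgIn Q M ((g : V ≃ₗ[F] V) x) ((g : V ≃ₗ[F] V) w) := by
  obtain ⟨hx, hw, hQw, hm⟩ := h
  refine ⟨by rw [g.2.2]; exact hx, by rw [orth_polar]; exact hw, by rw [g.2.2]; exact hQw, ?_⟩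
  rw [← conj_eichler g hx hw]
  exact mul_mem (mul_mem hg hm) (inv_mem hg)

/-- Two complementary totally singular subspaces of equal dimension at least five. -/
structure Halves (Q : QuadraticForm F V) (U W : Submodule F V) : Prop where
  compl : IsCompl U W
  tsl : ∀ u ∈ U, Q u = 0
  tsr : ∀ w ∈ W, Q w = 0
  dim : finrank F U = finrank F W
  five : 5 ≤ finrank F U
  nondeg : (QuadraticMap.polarBilin Q).Nondegenerate

variable {U W : Submodule F V}

theorem Halves.symm (h : Halves Q U W) : Halves Q W U :=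
  ⟨h.compl.symm, h.tsr, h.tsl, h.dim.symm, h.dim ▸ h.five, h.nondeg⟩

omit [FiniteDimensional F V] in
theorem polar_ts {S : Submodule F V} (hS : ∀ u ∈ S, Q u = 0) {u v : V} (hu : u ∈ S) (hv : v ∈ S) :
    BQ u v = 0 := by
  rw [QuadraticMap.polar, hS _ (add_mem hu hv), hS u hu, hS v hv, sub_zero, sub_zero]

omit [FiniteDimensional F V] in
theorem Halves.split (h : Halves Q U W) (x : V) : ∃ x0 ∈ U, ∃ x1 ∈ W, x = x0 + x1 := by
  have hx : x ∈ U ⊔ W := by rw [h.compl.sup_eq_top]; trivial
  obtain ⟨x0, h0, x1, h1, he⟩ := Submodule.mem_sup.mp hx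
  exact ⟨x0, h0, x1, h1, he.symm⟩

theorem Halves.finrank_V (h : Halves Q U W) : finrank F U + finrank F U = finrank F V := by
  have h2 := h.dim
  have h1 := Submodule.finrank_add_eq_of_isCompl h.compl
  omega

theorem Halves.exists_pairing (h : Halves Q U W) {S : Submodule F V} (hS : S ≤ U) {u : V} (hu : u ∈ U)
    (huS : u ∉ S) : ∃ b ∈ W, (∀ s ∈ S, BQ s b = 0) ∧ BQ u b = 1 := by
  obtain ⟨d, hd, hud⟩ := (isForm_quadratic Q h.nondeg).exists_perp_pairing huS (1 : F)
  simp only [QuadraticMap.polarBilin_apply_apply] at hd hud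
  obtain ⟨d0, hd0, d1, hd1, rfl⟩ := h.split d
  refine ⟨d1, hd1, fun s hs => ?_, ?_⟩
  · have := hd s hs
    rwa [QuadraticMap.polar_add_right, polar_ts h.tsl (hS hs) hd0, zero_add] at this
  · rwa [QuadraticMap.polar_add_right, polar_ts h.tsl hu hd0, zero_add] at hud

omit [FiniteDimensional F V] in
theorem not_mem_span_pair {u a v : V} (h : v ∉ sp {u}) (ha : a ∉ sp {u, v}) : v ∉ sp {u, a} := fun hv => by
  rw [Set.pair_comm] at hv
  exact h (Submodule.mem_span_insert.mp hv |>.elim fun c ⟨z, hz, hc⟩ => by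
    rcases eq_or_ne c 0 with rfl | hc0
    · rw [hc, zero_smul, zero_add]; exact hz
    · refine absurd ?_ ha
      have hav : a = c⁻¹ • (v - z) := by rw [hc, add_sub_cancel_right, smul_smul, inv_mul_cancel₀ hc0, one_smul]
      rw [hav]
      exact Submodule.smul_mem _ _ (sub_mem (Submodule.subset_span (by simp))
        (Submodule.span_mono (by simp) hz)))

omit [FiniteDimensional F V] in
theorem finrank_pair_le (x y : V) : finrank F (sp ({x, y} : Set V)) ≤ 2 := by
  classical
  have h : (({x, y} : Finset V) : Set V) = {x, y} := by simp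
  exact h ▸ (finrank_span_finset_le_card ({x, y} : Finset V)).trans (Finset.card_insert_le _ _)

theorem Halves.exists_out (h : Halves Q U W) (x y : V) : ∃ c ∈ U, c ∉ sp {x, y} :=
  SetLike.not_le_iff_exists.mp fun hle => by
    have h1 := Submodule.finrank_mono hle
    have h2 := finrank_pair_le (F := F) x y
    have h3 := h.five
    omega

/-- From a transformation with independent components to one inside a half. -/
theorem exists_pure (h : Halves Q U W) (hE : ∀ a ∈ U, ∀ b ∈ W, BQ a b = 0 → SgIn Q M a b)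
    {x0 x1 w0 w1 : V} (hx0 : x0 ∈ U) (hx1 : x1 ∈ W) (hw0 : w0 ∈ U) (hw1 : w1 ∈ W)
    (hsg : SgIn Q M (x0 + x1) (w0 + w1)) (h0 : x0 ≠ 0) (hli : w0 ∉ sp {x0}) :
    ∃ u ∈ U, ∃ v ∈ U, u ≠ 0 ∧ v ∉ sp {u} ∧ SgIn Q M u v := by
  have hI := isForm_quadratic Q h.nondeg
  have hK : 3 ≤ finrank F ↥(perp (QuadraticMap.polarBilin Q) (sp {x1, w1}) ⊓ U) := by
    have e1 := Submodule.finrank_sup_add_finrank_inf_eq (perp (QuadraticMap.polarBilin Q) (sp {x1, w1})) U
    have e2 := hI.finrank_perp (sp {x1, w1})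
    have e3 := finrank_pair_le (F := F) x1 w1
    have e4 := Submodule.finrank_le (perp (QuadraticMap.polarBilin Q) (sp {x1, w1}) ⊔ U)
    have e5 := h.five
    omega
  obtain ⟨a, ⟨hap, haU⟩, haS⟩ : ∃ a, (a ∈ perp (QuadraticMap.polarBilin Q) (sp {x1, w1}) ∧ a ∈ U) ∧
      a ∉ sp {x0, w0} := by
    obtain ⟨a, ha, ha'⟩ := SetLike.not_le_iff_exists.mp
      fun hle : perp (QuadraticMap.polarBilin Q) (sp {x1, w1}) ⊓ U ≤ sp {x0, w0} => by
      have h1 := Submodule.finrank_mono hle
      have h2 := finrank_pair_le (F := F) x0 w0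
      exact absurd hK (by omega)
    exact ⟨a, ha, ha'⟩
  have hax1 : BQ a x1 = 0 := by
    rw [QuadraticMap.polar_comm]; exact hap x1 (Submodule.subset_span (by simp))
  have haw1 : BQ a w1 = 0 := by
    rw [QuadraticMap.polar_comm]; exact hap w1 (Submodule.subset_span (by simp))
  obtain ⟨b, hb, hbS, hwb⟩ := h.exists_pairing (S := sp {x0, a})
    (Submodule.span_le.mpr (by simp [Set.insert_subset_iff, hx0, haU])) hw0 (not_mem_span_pair hli haS)
  have hab : BQ a b = 0 := hbS a (Submodule.subset_span (by simp))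
  have hxb : BQ x0 b = 0 := hbS x0 (Submodule.subset_span (by simp))
  obtain ⟨ha0, hab', hQb, hT⟩ := hE a haU b hb hab
  set T := eichler Q a b ha0 hab'
  obtain ⟨hx, hxw, hQw, -⟩ := id hsg
  have hTx : (T : V ≃ₗ[F] V) (x0 + x1) = x0 + x1 := by
    rw [eichler_apply, eichlerMap_apply, QuadraticMap.polar_comm _ b]
    simp [QuadraticMap.polar_add_left, QuadraticMap.polar_add_right, polar_ts h.tsl haU hx0, hax1, hQb, hxb,
      polar_ts h.tsr hx1 hb]
  have hTw : (T : V ≃ₗ[F] V) (w0 + w1) = (w0 + w1) - a := by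
    rw [eichler_apply, eichlerMap_apply, QuadraticMap.polar_comm _ b]
    simp [QuadraticMap.polar_add_left, QuadraticMap.polar_add_right, polar_ts h.tsl haU hw0, haw1, hQb, hwb,
      polar_ts h.tsr hw1 hb]
  have h1 := sgIn_conj hT hsg
  rw [hTx, hTw] at h1
  have h2 : SgIn Q M (x0 + x1) a := by
    have := sgIn_neg (sgIn_add h1 (sgIn_neg hsg) (by
      rw [QuadraticMap.polar_neg_right, QuadraticMap.polar_sub_left, polar_self_two_mul, hQw,
        QuadraticMap.polar_add_right, polar_ts h.tsl haU hw0, haw1]; ring))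
    convert this using 1; abel
  have hx01 : BQ x0 x1 = 0 := by
    rw [QuadraticMap.map_add Q, h.tsl _ hx0, h.tsr _ hx1, zero_add, zero_add] at hx; exact hx
  have h3 := sgIn_add (sgIn_swap h2) (hE a haU x1 hx1 hax1) (by
    rw [QuadraticMap.polar_neg_left, QuadraticMap.polar_add_left, hx01, polar_ts h.tsr hx1 hx1, add_zero, neg_zero])
  rw [show -(x0 + x1) + x1 = -x0 by abel] at h3
  refine ⟨a, haU, -x0, neg_mem hx0, fun h0' => haS (h0' ▸ zero_mem _), fun hm => haS ?_, h3⟩
  obtain ⟨c, hc⟩ := Submodule.mem_span_singleton.mp hm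
  have hc0 : c ≠ 0 := fun hc0 => h0 (neg_eq_zero.mp (by rw [← hc, hc0, zero_smul]))
  have he : a = (-c⁻¹) • x0 := by rw [neg_smul, ← smul_neg, ← hc, smul_smul, inv_mul_cancel₀ hc0, one_smul]
  rw [he]; exact Submodule.smul_mem _ _ (Submodule.subset_span (by simp))

/-- All transformations of pairs inside a half, from one. -/
theorem pure_all (h : Halves Q U W) (hE : ∀ a ∈ U, ∀ b ∈ W, BQ a b = 0 → SgIn Q M a b) {u v : V}
    (hu : u ∈ U) (hv : v ∈ U) (hu0 : u ≠ 0) (hvu : v ∉ sp {u}) (hsg : SgIn Q M u v) :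
    ∀ a ∈ U, ∀ a' ∈ U, SgIn Q M a a' := by
  have key : ∀ {u v : V}, u ∈ U → v ∈ U → v ∉ sp {u} → SgIn Q M u v → ∀ a ∈ U, SgIn Q M u a := by
    intro u v hu hv hvu hsg
    have out : ∀ a ∈ U, v ∉ sp {u, a} → SgIn Q M u a := by
      intro a ha hva
      obtain ⟨b, hb, hbS, hvb⟩ := h.exists_pairing (S := sp {u, a})
        (Submodule.span_le.mpr (by simp [Set.insert_subset_iff, hu, ha])) hv hva
      obtain ⟨ha0, hab', hQb, hT⟩ := hE a ha b hb (hbS a (Submodule.subset_span (by simp)))
      have h1 := sgIn_conj hT hsg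
      have e1 : ((eichler Q a b ha0 hab' : orthGroup Q) : V ≃ₗ[F] V) u = u := by
        rw [eichler_apply, eichlerMap_apply, QuadraticMap.polar_comm _ b]
        simp [polar_ts h.tsl ha hu, hbS u (Submodule.subset_span (by simp)), hQb]
      have e2 : ((eichler Q a b ha0 hab' : orthGroup Q) : V ≃ₗ[F] V) v = v - a := by
        rw [eichler_apply, eichlerMap_apply, QuadraticMap.polar_comm _ b]
        simp [polar_ts h.tsl ha hv, hvb, hQb]
      rw [e1, e2] at h1
      have := sgIn_neg (sgIn_add h1 (sgIn_neg hsg) (polar_ts h.tsl (sub_mem hv ha) (neg_mem hv)))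
      convert this using 1; abel
    intro a ha
    by_cases hva : v ∈ sp {u, a}
    · obtain ⟨c, hc, hcs⟩ := h.exists_out u v
      have ha' : a ∈ sp {u, v} := by_contra fun hn => not_mem_span_pair hvu hn hva
      have hac : a - c ∉ sp {u, v} := fun hm => hcs (by simpa using sub_mem ha' hm)
      have := sgIn_add (out c hc (not_mem_span_pair hvu hcs))
        (out (a - c) (sub_mem ha hc) (not_mem_span_pair hvu hac)) (polar_ts h.tsl hc (sub_mem ha hc))
      rwa [add_sub_cancel] at this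
    · exact out a ha hva
  have hu_all := key hu hv hvu hsg
  intro a ha a' ha'
  rcases eq_or_ne a 0 with rfl | ha0
  · exact sgIn_zero (h.tsl a' ha')
  obtain ⟨c, hc, hcs⟩ := h.exists_out u a
  have h1 := sgIn_swap (hu_all c hc)
  have hneg : ∀ {x y : V}, x ≠ 0 → y ∉ sp {x} → -x ∉ sp {y} := by
    intro x y hx hy hm
    obtain ⟨d, hd⟩ := Submodule.mem_span_singleton.mp hm
    rcases eq_or_ne d 0 with rfl | hd0
    · rw [zero_smul] at hd; exact hx (neg_eq_zero.mp hd.symm)
    · exact hy (Submodule.mem_span_singleton.mpr ⟨-d⁻¹, by rw [neg_smul, ← smul_neg, ← hd, smul_smul, inv_mul_cancel₀ hd0, one_smul]⟩)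
  have hc1 : c ∉ sp {u} := fun hm => hcs (Submodule.span_mono (by simp) hm)
  have hc2 : c ∉ sp {a} := fun hm => hcs (Submodule.span_mono (by simp) hm)
  have h2 := key hc (neg_mem hu) (hneg hu0 hc1) h1
  exact key ha (neg_mem hc) (fun hm => hc2 (by simpa using neg_mem hm)) (sgIn_swap (h2 a ha)) a' ha'

/-- A map onto one half that is dependent on orthogonal pairs kills a half. -/
theorem kills_half (h : Halves Q U W) (f : V →ₗ[F] V) (hf : U ≤ LinearMap.range f)
    (hd : ∀ a ∈ U, ∀ b ∈ W, BQ a b = 0 → f a = 0 ∨ f b ∈ sp {f a}) :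
    (∀ a ∈ U, f a = 0) ∨ (∀ b ∈ W, f b = 0) := by
  by_contra hc
  push Not at hc
  obtain ⟨⟨a, ha, hfa⟩, b, hb, hfb⟩ := hc
  obtain ⟨p, hp⟩ : ∃ p, ∀ x ∈ U, f x ∈ sp {f b, p} := by
    by_cases hz : ∀ x ∈ U, BQ x b = 0
    · refine ⟨0, fun x hx => ?_⟩
      rcases hd x hx b hb (hz x hx) with h1 | h1
      · rw [h1]; exact zero_mem _
      · obtain ⟨c, hc⟩ := Submodule.mem_span_singleton.mp h1
        have hc0 : c ≠ 0 := fun h0 => hfb (by rw [← hc, h0, zero_smul])
        rw [show f x = c⁻¹ • f b by rw [← hc, smul_smul, inv_mul_cancel₀ hc0, one_smul]]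
        exact Submodule.smul_mem _ _ (Submodule.subset_span (by simp))
    · push Not at hz
      obtain ⟨a₀, ha₀, h₀⟩ := hz
      refine ⟨f a₀, fun x hx => ?_⟩
      set x' := x - (BQ x b * (BQ a₀ b)⁻¹) • a₀
      have hx' : x' ∈ U := sub_mem hx (U.smul_mem _ ha₀)
      have e : f x = f x' + (BQ x b * (BQ a₀ b)⁻¹) • f a₀ := by simp [x']
      rw [e]
      refine add_mem ?_ (Submodule.smul_mem _ _ (Submodule.subset_span (by simp)))
      rcases hd x' hx' b hb (by
        simp only [x', QuadraticMap.polar_sub_left, QuadraticMap.polar_smul_left, smul_eq_mul]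
        field_simp; ring) with h1 | h1
      · rw [h1]; exact zero_mem _
      · obtain ⟨c, hc⟩ := Submodule.mem_span_singleton.mp h1
        have hc0 : c ≠ 0 := fun h0 => hfb (by rw [← hc, h0, zero_smul])
        rw [show f x' = c⁻¹ • f b by rw [← hc, smul_smul, inv_mul_cancel₀ hc0, one_smul]]
        exact Submodule.smul_mem _ _ (Submodule.subset_span (by simp))
  obtain ⟨p', hp'⟩ : ∃ p', ∀ y ∈ W, f y ∈ sp {f a, p'} := by
    by_cases hz : ∀ y ∈ W, BQ a y = 0
    · exact ⟨0, fun y hy => Submodule.span_mono (by simp) ((hd a ha y hy (hz y hy)).resolve_left hfa)⟩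
    · push Not at hz
      obtain ⟨b₀, hb₀, h₀⟩ := hz
      refine ⟨f b₀, fun y hy => ?_⟩
      set y' := y - (BQ a y * (BQ a b₀)⁻¹) • b₀
      have hy' : y' ∈ W := sub_mem hy (W.smul_mem _ hb₀)
      have e : f y = f y' + (BQ a y * (BQ a b₀)⁻¹) • f b₀ := by simp [y']
      rw [e]
      refine add_mem (Submodule.span_mono (by simp) ((hd a ha y' hy' (by
        simp only [y', QuadraticMap.polar_sub_right, QuadraticMap.polar_smul_right, smul_eq_mul]
        field_simp; ring)).resolve_left hfa)) (Submodule.smul_mem _ _ (Submodule.subset_span (by simp)))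
  have hle : U ≤ sp {f b, p} ⊔ sp {f a, p'} := fun z hz => by
    obtain ⟨y, rfl⟩ := hf hz
    obtain ⟨y0, h0, y1, h1, rfl⟩ := h.split y
    rw [map_add]
    exact add_mem (Submodule.mem_sup_left (hp y0 h0)) (Submodule.mem_sup_right (hp' y1 h1))
  have e1 := Submodule.finrank_mono hle
  have e2 := Submodule.finrank_sup_add_finrank_inf_eq (sp {f b, p}) (sp {f a, p'})
  have e3 := finrank_pair_le (F := F) (f b) p
  have e4 := finrank_pair_le (F := F) (f a) p'
  have e5 := h.five
  omega

/-- The permutation of two halves. -/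
def Permutes (g : orthGroup Q) (U W : Submodule F V) : Prop :=
  ((∀ x ∈ U, (g : V ≃ₗ[F] V) x ∈ U) ∧ ∀ y ∈ W, (g : V ≃ₗ[F] V) y ∈ W) ∨
    ((∀ x ∈ U, (g : V ≃ₗ[F] V) x ∈ W) ∧ ∀ y ∈ W, (g : V ≃ₗ[F] V) y ∈ U)

theorem eichler_permutes {a b : V} (ha : Q a = 0) (hab : BQ a b = 0) (hb : Q b = 0) (hU : ∀ u ∈ U, Q u = 0)
    (hW : ∀ w ∈ W, Q w = 0) (haU : a ∈ U) (hbW : b ∈ W) : Permutes (eichler Q a b ha hab) U W := by
  refine Or.inl ⟨fun x hx => ?_, fun y hy => ?_⟩ <;> rw [eichler_apply, eichlerMap_apply, hb, zero_mul, add_zero]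
  · rw [polar_ts hU haU hx, zero_smul, add_zero]
    exact sub_mem hx (U.smul_mem _ haU)
  · rw [polar_ts hW hbW hy, zero_smul, sub_zero]
    exact add_mem hy (W.smul_mem _ hbW)

omit [FiniteDimensional F V] in
theorem reflection_pair_mem [Finite F] [FiniteDimensional F V] (hQ : (QuadraticMap.polarBilin Q).Nondegenerate)
    {v w : V} (hv : Q v ≠ 0) (hvw : Q v = Q w) :
    reflection Q w * reflection Q v ∈ commutator (orthGroup Q) := by
  have hv0 : v ≠ 0 := fun h => hv (by rw [h, map_zero])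
  have hw0 : w ≠ 0 := fun h => hv (by rw [hvw, h, map_zero])
  obtain ⟨g, hg⟩ := (isForm_quadratic Q hQ).exists_isom_of_sameGram (ι := Fin 1) (v := ![v]) (w := ![w])
    (LinearIndependent.of_subsingleton 0 (by simpa using hv0)) (LinearIndependent.of_subsingleton 0 (by simpa using hw0))
    ⟨fun i j => by fin_cases i; fin_cases j; simp [polar_self_two_mul, hvw], fun i => by fin_cases i; simp [hvw]⟩
  have hgv : (g : V ≃ₗ[F] V) v = w := hg 0
  have h := Subgroup.commutator_mem_commutator (Subgroup.mem_top g) (Subgroup.mem_top (reflection Q v))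
  rwa [← commutator_def, commutatorElement_def, Forms.conj_reflection, Forms.reflection_inv, hgv] at h

/-- An element of the derived group interchanging the halves, in even Witt index. -/
theorem exists_swap [Finite F] (h : Halves Q U W) (hk : Even (finrank F U)) :
    ∃ s ∈ commutator (orthGroup Q), (∀ x ∈ U, (s : V ≃ₗ[F] V) x ∈ W) ∧ (∀ y ∈ W, (s : V ≃ₗ[F] V) y ∈ U) ∧
      (∀ y ∈ W, ∃ x ∈ U, (s : V ≃ₗ[F] V) x = y) := by
  classical
  set k := finrank F U with hkdef
  set e : Fin k → V := fun i => (Module.finBasis F U i : V)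
  have he : ∀ i, e i ∈ U := fun i => (Module.finBasis F U i).2
  have heli : LinearIndependent F e := (Module.finBasis F U).linearIndependent.map' U.subtype U.ker_subtype
  have hef : ∀ i, ∃ f ∈ W, (∀ j, j ≠ i → BQ (e j) f = 0) ∧ BQ (e i) f = 1 := by
    intro i
    obtain ⟨f, hf, hf0, hf1⟩ := h.exists_pairing (S := sp (e '' {i}ᶜ))
      (Submodule.span_le.mpr (by rintro _ ⟨j, -, rfl⟩; exact he j)) (he i)
      (heli.notMem_span_image (by simp))
    exact ⟨f, hf, fun j hj => hf0 _ (Submodule.subset_span ⟨j, hj, rfl⟩), hf1⟩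
  choose f hfW hf0 hf1 using hef
  set v : Fin k → V := fun i => e i - f i
  have hQv : ∀ i, Q (v i) = -1 := fun i => by
    simp only [v, sub_eq_add_neg]
    rw [QuadraticMap.map_add Q, QuadraticMap.map_neg, h.tsl _ (he i), h.tsr _ (hfW i),
      QuadraticMap.polar_neg_right, hf1, add_zero, zero_add]
  have hr : ∀ i j, (reflection Q (v i) : V ≃ₗ[F] V) (e j) = (if j = i then f i else e j) ∧
      (reflection Q (v i) : V ≃ₗ[F] V) (f j) = (if j = i then e i else f j) := by
    intro i j
    rw [Forms.reflection_apply, Forms.reflection_apply, hQv]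
    simp only [v, QuadraticMap.polar_sub_left, polar_ts h.tsl (he i) (he j),
      polar_ts h.tsr (hfW i) (hfW j), zero_sub, sub_zero, QuadraticMap.polar_comm _ (f i) (e j)]
    by_cases hji : j = i
    · subst hji; simp [hf1]
    · simp [hji, hf0 i j hji, hf0 j i (Ne.symm hji)]
  have key : ∀ m : ℕ, 2 * m ≤ k → ∃ s ∈ commutator (orthGroup Q), ∀ i : Fin k,
      (s : V ≃ₗ[F] V) (e i) = (if (i : ℕ) < 2 * m then f i else e i) ∧
      (s : V ≃ₗ[F] V) (f i) = (if (i : ℕ) < 2 * m then e i else f i) := by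
    intro m
    induction m with
    | zero => exact fun _ => ⟨1, one_mem _, fun i => by simp⟩
    | succ m ih =>
      intro hm
      obtain ⟨s, hs, hse⟩ := ih (by omega)
      set a : Fin k := ⟨2 * m, by omega⟩
      set b : Fin k := ⟨2 * m + 1, by omega⟩
      refine ⟨reflection Q (v b) * reflection Q (v a) * s, mul_mem
        (reflection_pair_mem h.nondeg (by rw [hQv]; exact neg_ne_zero.mpr one_ne_zero) (by rw [hQv, hQv])) hs,
        fun i => ?_⟩
      simp only [orth_mul_apply, (hse i).1, (hse i).2]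
      by_cases h1 : (i : ℕ) < 2 * m
      · have : i ≠ a ∧ i ≠ b := ⟨fun e => by simp [e, a] at h1, fun e => by simp [e, b] at h1⟩
        simp [h1, show (i : ℕ) < 2 * (m + 1) by omega, (hr _ _).1, (hr _ _).2, this.1, this.2]
      · by_cases ha : i = a
        · subst ha
          have : a ≠ b := by simp [a, b, Fin.ext_iff]
          simp [show ¬ (a : ℕ) < 2 * m by simp [a], show (a : ℕ) < 2 * (m + 1) by simp [a], (hr _ _).1,
            (hr _ _).2, this]
        · by_cases hb : i = b
          · subst hb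
            simp [show ¬ (b : ℕ) < 2 * m by simp [b], show (b : ℕ) < 2 * (m + 1) by simp [b]; omega, (hr _ _).1,
              (hr _ _).2, ha]
          · have : ¬ (i : ℕ) < 2 * (m + 1) := by
              simp [a, b, Fin.ext_iff] at ha hb; omega
            simp [h1, this, (hr _ _).1, (hr _ _).2, ha, hb]
  obtain ⟨m, hm⟩ := hk
  obtain ⟨s, hs, hse⟩ := key m (by omega)
  have hse' : ∀ i : Fin k, (s : V ≃ₗ[F] V) (e i) = f i ∧ (s : V ≃ₗ[F] V) (f i) = e i := fun i => by
    have := i.2
    simpa [show (i : ℕ) < 2 * m by omega] using hse i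
  have hUsp : ∀ x ∈ U, x ∈ sp (Set.range e) := fun x hx => by
    have h1 := congrArg Subtype.val ((Module.finBasis F U).sum_repr ⟨x, hx⟩)
    simp only [Submodule.coe_sum, Submodule.coe_smul] at h1
    exact h1 ▸ Submodule.sum_mem _ fun i _ => Submodule.smul_mem _ _ (Submodule.subset_span ⟨i, rfl⟩)
  have hsU : ∀ x ∈ U, (s : V ≃ₗ[F] V) x ∈ W ∧ (s : V ≃ₗ[F] V) ((s : V ≃ₗ[F] V) x) = x := by
    intro x hx
    induction hUsp x hx using Submodule.span_induction with
    | mem y hy => obtain ⟨i, rfl⟩ := hy; exact ⟨(hse' i).1 ▸ hfW i, by rw [(hse' i).1, (hse' i).2]⟩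
    | zero => simp
    | add y z hy hz ihy ihz =>
      have hyU : y ∈ U := Submodule.span_le.mpr (by rintro _ ⟨i, rfl⟩; exact he i) hy
      have hzU : z ∈ U := Submodule.span_le.mpr (by rintro _ ⟨i, rfl⟩; exact he i) hz
      have h1 := ihy hyU; have h2 := ihz hzU
      simp only [map_add]
      exact ⟨add_mem h1.1 h2.1, by rw [h1.2, h2.2]⟩
    | smul c y hy ihy =>
      have h1 := ihy (Submodule.span_le.mpr (by rintro _ ⟨i, rfl⟩; exact he i) hy)
      simp only [map_smul]
      exact ⟨W.smul_mem _ h1.1, by rw [h1.2]⟩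
  have hmap : U.map ((s : V ≃ₗ[F] V) : V →ₗ[F] V) = W := by
    refine Submodule.eq_of_le_of_finrank_eq (Submodule.map_le_iff_le_comap.mpr fun x hx => (hsU x hx).1) ?_
    rw [LinearEquiv.finrank_map_eq]; exact h.dim
  have hsurj : ∀ y ∈ W, ∃ x ∈ U, (s : V ≃ₗ[F] V) x = y := fun y hy => by
    rw [← hmap] at hy; obtain ⟨x, hx, rfl⟩ := hy; exact ⟨x, hx, rfl⟩
  refine ⟨s, hs, fun x hx => (hsU x hx).1, fun y hy => ?_, hsurj⟩
  obtain ⟨x, hx, rfl⟩ := hsurj y hy
  rw [(hsU x hx).2]; exact hx

/-- A half against everything singular and orthogonal. -/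
theorem half_all (h : Halves Q U W) (hE : ∀ a ∈ U, ∀ b ∈ W, BQ a b = 0 → SgIn Q M a b)
    (hP : ∀ a ∈ U, ∀ a' ∈ U, SgIn Q M a a') {a z : V} (ha : a ∈ U) (hz : Q z = 0) (haz : BQ a z = 0) :
    SgIn Q M a z := by
  obtain ⟨z0, h0, z1, h1, rfl⟩ := h.split z
  rw [QuadraticMap.map_add Q, h.tsl _ h0, h.tsr _ h1, zero_add, zero_add] at hz
  rw [QuadraticMap.polar_add_right, polar_ts h.tsl ha h0, zero_add] at haz
  exact sgIn_add (hP a ha z0 h0) (hE a ha z1 h1 haz) hz

/-- **The stabiliser of two totally singular halves is maximal in the derived group.** -/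
theorem halves_maximal [Finite F] (h : Halves Q U W) (hk : Even (finrank F U))
    {M : Subgroup (orthGroup Q)} (hHM : ∀ g ∈ commutator (orthGroup Q), Permutes g U W → g ∈ M)
    {g : orthGroup Q} (hg : g ∈ M) (hgp : ¬ Permutes g U W) : commutator (orthGroup Q) ≤ M := by
  have hn : 7 ≤ finrank F V := by
    have e1 := h.finrank_V; have e2 := h.five; omega
  have hE : ∀ a ∈ U, ∀ b ∈ W, BQ a b = 0 → SgIn Q M a b := fun a ha b hb hab =>
    ⟨h.tsl a ha, hab, h.tsr b hb, hHM _ (eichler_mem_commutator' h.nondeg hn _ _ (h.tsr b hb))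
      (eichler_permutes _ hab (h.tsr b hb) h.tsl h.tsr ha hb)⟩
  have hE' : ∀ b ∈ W, ∀ a ∈ U, BQ b a = 0 → SgIn Q M b a := fun b hb a ha hba => by
    simpa using sgIn_swap (hE (-a) (neg_mem ha) b hb (by
      rw [QuadraticMap.polar_neg_left, QuadraticMap.polar_comm, hba, neg_zero]))
  obtain ⟨s, hs, hsU, hsW, hsurj⟩ := exists_swap h hk
  have hsM : s ∈ M := hHM s hs (Or.inr ⟨hsU, hsW⟩)
  obtain ⟨t, ht, htW, htU, hturj⟩ := exists_swap h.symm (h.dim ▸ hk)
  have htM : t ∈ M := hHM t ht (Or.inr ⟨htU, htW⟩)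
  have toW : (∀ a ∈ U, ∀ a' ∈ U, SgIn Q M a a') → ∀ b ∈ W, ∀ b' ∈ W, SgIn Q M b b' := fun hP b hb b' hb' => by
    obtain ⟨x, hx, rfl⟩ := hsurj b hb
    obtain ⟨x', hx', rfl⟩ := hsurj b' hb'
    exact sgIn_conj hsM (hP x hx x' hx')
  have toU : (∀ b ∈ W, ∀ b' ∈ W, SgIn Q M b b') → ∀ a ∈ U, ∀ a' ∈ U, SgIn Q M a a' := fun hP b hb b' hb' => by
    obtain ⟨x, hx, rfl⟩ := hturj b hb
    obtain ⟨x', hx', rfl⟩ := hturj b' hb'
    exact sgIn_conj htM (hP x hx x' hx')
  have hPU : ∀ a ∈ U, ∀ a' ∈ U, SgIn Q M a a' := by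
    set p := U.projection W h.compl
    set p' := W.projection U h.compl.symm
    set gl : V →ₗ[F] V := ((g : V ≃ₗ[F] V) : V →ₗ[F] V)
    have hpp : ∀ x, p x + p' x = x := fun x => Submodule.projection_add_projection_eq_self h.compl x
    have hrange : ∀ {A B : Submodule F V} (hc : IsCompl A B), A ≤ LinearMap.range (A.projection B hc ∘ₗ gl) :=
      fun {A B} hc z hz => ⟨(g : V ≃ₗ[F] V).symm z, by
        simp [gl, Submodule.projection_apply_of_mem_left hc hz]⟩
    by_contra hno
    have dep : ∀ a ∈ U, ∀ b ∈ W, BQ a b = 0 → (p (gl a) = 0 ∨ p (gl b) ∈ sp {p (gl a)}) ∧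
        (p' (gl a) = 0 ∨ p' (gl b) ∈ sp {p' (gl a)}) := by
      intro a ha b hb hab
      have hsg : SgIn Q M (p (gl a) + p' (gl a)) (p (gl b) + p' (gl b)) := by
        rw [hpp, hpp]; exact sgIn_conj hg (hE a ha b hb hab)
      constructor <;> by_contra hcon <;> push Not at hcon
      · obtain ⟨u, hu, v, hv, hu0, hvu, huv⟩ := exists_pure h hE (Submodule.projection_apply_mem _ _)
          (Submodule.projection_apply_mem _ _) (Submodule.projection_apply_mem _ _)
          (Submodule.projection_apply_mem _ _) hsg hcon.1 hcon.2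
        exact hno (pure_all h hE hu hv hu0 hvu huv)
      · rw [add_comm (p (gl a)), add_comm (p (gl b))] at hsg
        obtain ⟨u, hu, v, hv, hu0, hvu, huv⟩ := exists_pure h.symm hE' (Submodule.projection_apply_mem _ _)
          (Submodule.projection_apply_mem _ _) (Submodule.projection_apply_mem _ _)
          (Submodule.projection_apply_mem _ _) hsg hcon.1 hcon.2
        exact hno (toU (pure_all h.symm hE' hu hv hu0 hvu huv))
    have k1 := kills_half h (p ∘ₗ gl) (hrange h.compl) fun a ha b hb hab => (dep a ha b hb hab).1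
    have k2 := kills_half h.symm (p' ∘ₗ gl) (hrange h.compl.symm) fun b hb a ha hba => by
      have h2 := (dep a ha b hb (by rw [QuadraticMap.polar_comm]; exact hba)).2
      simp only [LinearMap.comp_apply]
      by_contra hcon
      push Not at hcon
      rcases h2 with h2 | h2
      · exact hcon.2 (h2 ▸ zero_mem _)
      · obtain ⟨c, hc⟩ := Submodule.mem_span_singleton.mp h2
        have hc0 : c ≠ 0 := fun h0 => hcon.1 (by rw [← hc, h0, zero_smul])
        exact hcon.2 (Submodule.mem_span_singleton.mpr ⟨c⁻¹, by rw [← hc, smul_smul, inv_mul_cancel₀ hc0, one_smul]⟩)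
    have memp : ∀ x, p (gl x) = 0 → gl x ∈ W := fun x hx => by
      rw [← hpp (gl x), hx, zero_add]; exact Submodule.projection_apply_mem _ _
    have memp' : ∀ x, p' (gl x) = 0 → gl x ∈ U := fun x hx => by
      rw [← hpp (gl x), hx, add_zero]; exact Submodule.projection_apply_mem _ _
    have absurd' : ∀ S : Submodule F V, 5 ≤ finrank F S → (∀ x ∈ S, p (gl x) = 0) → (∀ x ∈ S, p' (gl x) = 0) → False :=
      fun S hS h1 h2 => by
        have : S = ⊥ := (Submodule.eq_bot_iff S).mpr fun x hx => by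
          have := Submodule.disjoint_def.mp h.compl.disjoint _ (memp' x (h2 x hx)) (memp x (h1 x hx))
          simpa [gl] using this
        rw [this, finrank_bot] at hS; omega
    rcases k1 with k1 | k1 <;> rcases k2 with k2 | k2
    · exact hgp (Or.inr ⟨fun x hx => memp x (k1 x hx), fun y hy => memp' y (k2 y hy)⟩)
    · exact absurd' U h.five k1 k2
    · exact absurd' W h.symm.five k1 k2
    · exact hgp (Or.inl ⟨fun x hx => memp' x (k2 x hx), fun y hy => memp y (k1 y hy)⟩)
  have hPW := toW hPU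
  have hall : ∀ x w, Q x = 0 → Q w = 0 → BQ x w = 0 → SgIn Q M x w := by
    intro x w hx hw hxw
    obtain ⟨x0, h0, x1, h1, rfl⟩ := h.split x
    rcases eq_or_ne x0 0 with rfl | hne
    · rw [zero_add] at hxw ⊢
      exact half_all h.symm hE' hPW h1 hw hxw
    obtain ⟨d, hd, -, hd1⟩ := h.exists_pairing (S := ⊥) bot_le h0 (by simpa using hne)
    have hxx : BQ x1 x0 = 0 := by
      rw [QuadraticMap.map_add Q, h.tsl _ h0, h.tsr _ h1, zero_add, zero_add] at hx
      rw [QuadraticMap.polar_comm]; exact hx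
    obtain ⟨_, _, hQd, hm⟩ := hPW x1 h1 (-d) (neg_mem hd)
    set t := eichler Q x1 (-d) _ _
    have ht0 : (t : V ≃ₗ[F] V) x0 = x0 + x1 := by
      rw [eichler_apply, eichlerMap_apply, hxx, hQd, QuadraticMap.polar_comm _ (-d), QuadraticMap.polar_neg_right, hd1]
      simp
    have hback : (t : V ≃ₗ[F] V) ((t : V ≃ₗ[F] V).symm w) = w := LinearEquiv.apply_symm_apply _ _
    have hw' : Q ((t : V ≃ₗ[F] V).symm w) = 0 := by rw [← t.2.2, hback]; exact hw
    have hxw' : BQ x0 ((t : V ≃ₗ[F] V).symm w) = 0 := by rw [← orth_polar Q t, ht0, hback]; exact hxw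
    have := sgIn_conj hm (half_all h hE hPU h0 hw' hxw')
    rwa [ht0, hback] at this
  refine (commutator_le_siegelGroup h.nondeg (by omega)).trans ((Subgroup.closure_le _).mpr ?_)
  rintro _ ⟨u, v, hu, huv, hv, rfl⟩
  obtain ⟨_, _, -, hm⟩ := hall u v hu hv huv
  exact hm

/-- Some element of the derived group does not permute the halves. -/
theorem exists_not_permutes [Finite F] (h : Halves Q U W) :
    ∃ g ∈ commutator (orthGroup Q), ¬ Permutes g U W := by
  obtain ⟨a, ha, ha0⟩ := h.exists_out 0 0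
  obtain ⟨a', ha', haa⟩ := h.exists_out a a
  obtain ⟨y, hy, hy0, hy1⟩ := h.exists_pairing (S := sp {a'}) ((Submodule.span_singleton_le_iff_mem _ _).mpr ha') ha (by
    intro hm
    obtain ⟨c, hc⟩ := Submodule.mem_span_singleton.mp hm
    rcases eq_or_ne c 0 with rfl | hc0
    · exact ha0 (by rw [← hc, zero_smul]; exact zero_mem _)
    · exact haa (Submodule.subset_span (by simp) |> fun (hsp : a ∈ sp {a, a}) =>
        (show a' = c⁻¹ • a by rw [← hc, smul_smul, inv_mul_cancel₀ hc0, one_smul]) ▸ Submodule.smul_mem _ _ hsp))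
  have haa' := polar_ts h.tsl ha ha'
  refine ⟨eichler Q a a' (h.tsl a ha) haa', eichler_mem_commutator' h.nondeg (by
    have e1 := h.finrank_V; have e2 := h.five; omega) _ _ (h.tsl a' ha'), fun hp => ?_⟩
  have he : ((eichler Q a a' (h.tsl a ha) haa' : orthGroup Q) : V ≃ₗ[F] V) y = y + a' := by
    rw [eichler_apply, eichlerMap_apply, hy1, hy0 a' (Submodule.mem_span_singleton_self a'), h.tsl a' ha']
    simp
  have hy' : y ≠ 0 := fun h0 => by simp [h0, QuadraticMap.polar] at hy1
  rcases hp with hp | hp <;> have h2 := hp.2 y hy <;> rw [he] at h2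
  · exact haa (Submodule.disjoint_def.mp h.compl.disjoint a' ha' ((Submodule.add_mem_iff_right _ hy).mp h2) ▸ zero_mem _)
  · exact hy' (Submodule.disjoint_def.mp h.compl.disjoint y ((Submodule.add_mem_iff_left _ ha').mp h2) hy)

end Cfsg.Agent.GeomClasses
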