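import Mathlib

set_option autoImplicit false

namespace Cfsg.Agent.GeomClasses

variable {F K : Type*} [Field F] [Field K] [Algebra F K]

/-- The Singer homomorphism: multiplication maps. -/
abbrev singerHom : Kˣ →* (Module.End F K)ˣ :=
  Units.map ((Algebra.lmul F K : K →ₐ[F] Module.End F K) : K →* Module.End F K)

theorem singerHom_apply (a : Kˣ) (y : K) :
    ((singerHom (F := F) a : (Module.End F K)ˣ) : Module.End F K) y = (a : K) * y := rfl

theorem singerHom_injective : Function.Injective (singerHom (F := F) (K := K)) := by
  intro a b h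
  apply Units.ext
  have := congrArg (fun u : (Module.End F K)ˣ => (u : Module.End F K) 1) h
  simpa [singerHom_apply] using this

theorem unit_end_one_ne_zero {V : Type*} [AddCommGroup V] [Module F V] (f : (Module.End F V)ˣ)
    {v : V} (hv : v ≠ 0) : (f : Module.End F V) v ≠ 0 := by
  intro h
  apply hv
  have := congrArg (fun g : Module.End F V => g v) f.inv_mul
  simp only [Module.End.mul_apply, h, map_zero, Module.End.one_apply] at this
  exact this.symm

/-- An element commuting with every multiplication is a multiplication. -/
theorem centralizer_singer :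
    Subgroup.centralizer ((singerHom (F := F) (K := K)).range : Set (Module.End F K)ˣ) =
      (singerHom (F := F) (K := K)).range := by
  refine le_antisymm ?_ ?_
  · intro f hf
    have hcomm : ∀ x : K, x ≠ 0 → ∀ y : K, (f : Module.End F K) (x * y) = x * (f : Module.End F K) y := by
      intro x hx y
      have := congrArg (fun u : (Module.End F K)ˣ => (u : Module.End F K) y)
        (Subgroup.mem_centralizer_iff.mp hf _ ⟨Units.mk0 x hx, rfl⟩)
      simpa [Module.End.mul_apply, singerHom_apply] using this.symm
    refine ⟨Units.mk0 _ (unit_end_one_ne_zero f one_ne_zero), Units.ext ?_⟩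
    ext y
    by_cases hy : y = 0
    · simp [hy]
    · have := hcomm y hy 1
      rw [mul_one] at this
      rw [singerHom_apply, this, mul_comm]; rfl
  · rintro _ ⟨a, rfl⟩
    rw [Subgroup.mem_centralizer_iff]
    rintro _ ⟨b, rfl⟩
    rw [← map_mul, ← map_mul, mul_comm]

/-- Semilinear maps `y ↦ c * σ y`. -/
def semiSinger (p : (K ≃ₐ[F] K) × Kˣ) : (Module.End F K)ˣ :=
  singerHom p.2 * LinearMap.GeneralLinearGroup.ofLinearEquiv p.1.toLinearEquiv

theorem semiSinger_apply (p : (K ≃ₐ[F] K) × Kˣ) (y : K) :
    ((semiSinger p : (Module.End F K)ˣ) : Module.End F K) y = (p.2 : K) * p.1 y := rfl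

theorem semiSinger_injective : Function.Injective (semiSinger (F := F) (K := K)) := by
  rintro ⟨σ, a⟩ ⟨τ, b⟩ h
  have h1 : ∀ y, (a : K) * σ y = (b : K) * τ y := fun y => by
    have := congrArg (fun u : (Module.End F K)ˣ => (u : Module.End F K) y) h
    simpa [semiSinger_apply] using this
  have hab : a = b := Units.ext (by simpa using h1 1)
  subst hab
  have : σ = τ := AlgEquiv.ext fun y => mul_left_cancel₀ a.ne_zero (h1 y)
  subst this; rfl

theorem normalizer_singer [Finite K] :
    (Subgroup.normalizer ((singerHom (F := F) (K := K)).range : Set (Module.End F K)ˣ) : Set (Module.End F K)ˣ) =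
      Set.range (semiSinger (F := F) (K := K)) := by
  classical
  haveI : FiniteDimensional F K := Module.Finite.of_finite
  ext g
  constructor
  · intro hg
    have hg1 := unit_end_one_ne_zero g (one_ne_zero (α := K))
    set c : K := (g : Module.End F K) 1
    -- g twists multiplications
    have hx : ∀ x : K, x ≠ 0 → ∃ x' : K, ∀ y, (g : Module.End F K) (x * y) = x' * (g : Module.End F K) y := by
      intro x hx
      obtain ⟨b, hb⟩ := (Subgroup.mem_normalizer_iff.mp hg _).mp ⟨Units.mk0 x hx, rfl⟩
      refine ⟨b, fun y => ?_⟩
      have := congrArg (fun u : (Module.End F K)ˣ => (u : Module.End F K) ((g : Module.End F K) y)) hb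
      simp only [singerHom_apply, Units.val_mul, Module.End.mul_apply] at this
      rw [this]
      congr 1
      have hi := congrArg (fun h : Module.End F K => h y) g.inv_mul
      simp only [Module.End.mul_apply, Module.End.one_apply] at hi
      rw [hi]; rfl
    have hmul : ∀ x y : K, c * (g : Module.End F K) (x * y) = (g : Module.End F K) x * (g : Module.End F K) y := by
      intro x y
      by_cases hx0 : x = 0
      · simp [hx0]
      obtain ⟨x', hx'⟩ := hx x hx0
      have := hx' 1
      rw [mul_one] at this
      rw [hx' y, this]; ring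
    let φ : K →ₐ[F] K := AlgHom.ofLinearMap (c⁻¹ • (g : Module.End F K)) (by simp [c, hg1]) (fun x y => by
      simp only [LinearMap.smul_apply, smul_eq_mul]
      field_simp
      linear_combination hmul x y)
    refine ⟨(AlgEquiv.ofBijective φ ⟨φ.toRingHom.injective, Finite.surjective_of_injective φ.toRingHom.injective⟩,
      Units.mk0 c hg1), Units.ext ?_⟩
    ext y
    rw [semiSinger_apply]
    show c * (c⁻¹ * (g : Module.End F K) y) = _
    field_simp
  · rintro ⟨⟨σ, a⟩, rfl⟩
    haveI : Finite (Module.End F K) := Finite.of_injective (fun f => ⇑f) DFunLike.coe_injective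
    haveI : Finite ↥(singerHom (F := F) (K := K)).range := inferInstance
    refine Subgroup.mul_mem _ (Subgroup.le_normalizer ⟨a, rfl⟩) (Subgroup.mem_normalizer_fintype ?_)
    rintro _ ⟨b, rfl⟩
    refine ⟨Units.map (σ : K →* K) b, Units.ext ?_⟩
    ext y
    simp only [singerHom_apply, Units.val_mul, Module.End.mul_apply]
    show σ b * y = σ ((b : K) * σ.symm y)
    simp

theorem card_normalizer_singer [Finite F] [Finite K] :
    Nat.card (Subgroup.normalizer ((singerHom (F := F) (K := K)).range : Set (Module.End F K)ˣ)) =
      Module.finrank F K * (Nat.card K - 1) := by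
  haveI : FiniteDimensional F K := Module.Finite.of_finite
  rw [← SetLike.coe_sort_coe, normalizer_singer, Nat.card_range_of_injective semiSinger_injective,
    Nat.card_prod, IsGalois.card_aut_eq_finrank, Nat.card_units]

end Cfsg.Agent.GeomClasses
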