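import Cfsg.Agent.GeomClasses.UnitaryInSL
import Cfsg.Agent.GeomClasses.OrthSubfieldMain
import Cfsg.Agent.GeomClasses.SubfieldScaled

/-! # Subfield groups of odd degree are maximal in special unitary groups -/

set_option autoImplicit false
set_option linter.unusedSectionVars false

namespace Cfsg.Agent.GeomClasses.SubfieldSU

open Cfsg.Agent.Forms (matrix_ext_mulVec frobQ)
open Matrix Cfsg.Agent.GeomClasses Cfsg.Agent.GeomClasses.SubfieldSL Cfsg.Agent.GeomClasses.Unitary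

variable {F : Type*} [Field F] {q n r : ℕ}

/-- The field of the fixed elements. -/
def fixedField [Fintype F] (hF : Fintype.card F = q ^ 2) : Subfield F :=
  RingHom.eqLocusField (frobQ hF) (RingHom.id F)

theorem mem_fixedField [Fintype F] (hF : Fintype.card F = q ^ 2) {x : F} : x ∈ fixedField hF ↔ x ^ q = x := Iff.rfl

theorem card_fixed [Fintype F] (hF : Fintype.card F = q ^ 2) : Nat.card {x : F // x ^ q = x} = q := by
  classical
  obtain ⟨a, ha⟩ := exists_not_fixed hF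
  have ha' : a - a ^ q ≠ 0 := sub_ne_zero.2 (Ne.symm ha)
  let T : {x : F // x ^ q = x} × {x : F // x ^ q = x} → F := fun p => (p.1 : F) + (p.2 : F) * a
  have hT : Function.Bijective T := by
    constructor
    · rintro ⟨⟨c, hc⟩, ⟨d, hd⟩⟩ ⟨⟨c', hc'⟩, ⟨d', hd'⟩⟩ h
      simp only [T] at h
      have h2 := congrArg (· ^ q) h
      simp only [pow_add_q hF, mul_pow, hc, hd, hc', hd'] at h2
      have hdd : d = d' := mul_right_cancel₀ ha' (by linear_combination h - h2)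
      subst hdd
      have : c = c' := by linear_combination h
      subst this
      rfl
    · intro x
      have hd : ((x - x ^ q) / (a - a ^ q)) ^ q = (x - x ^ q) / (a - a ^ q) := by
        rw [div_pow, pow_sub_q hF, pow_sub_q hF, pow_q_q hF, pow_q_q hF, ← neg_sub x, ← neg_sub a, neg_div_neg_eq]
      refine ⟨(⟨x - (x - x ^ q) / (a - a ^ q) * a, ?_⟩, ⟨_, hd⟩), sub_add_cancel _ _⟩
      rw [pow_sub_q hF, mul_pow, hd]
      linear_combination div_mul_cancel₀ (x - x ^ q) ha'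
  have h := Nat.card_eq_of_bijective T hT
  rw [Nat.card_prod, Nat.card_eq_fintype_card (α := F), hF, ← sq] at h
  exact Nat.pow_left_injective two_ne_zero h

variable [Fintype F]

local notation "hh" => Cfsg.hermForm n F q
local notation "Vec" => (Fin n → F)
local notation "Mx" => Matrix (Fin n) (Fin n) F

/-- The parameters of the situation. -/
structure Field' (q n r : ℕ) (F₀ : Subfield F) : Prop where
  hF : Fintype.card F = q ^ 2
  dim : 13 ≤ n
  prime : r.Prime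
  odd : Odd r
  card : Fintype.card F = Nat.card F₀ ^ r

/-- A group containing the rational special unitary elements. -/
structure Setting (q : ℕ) (F₀ : Subfield F) (L : Subgroup (GL (Fin n) F)) : Prop where
  le : L ≤ SUgl n F q
  rat : ∀ g : GL (Fin n) F, g ∈ SUgl n F q → (∀ i j, (g : Matrix (Fin n) (Fin n) F) i j ∈ F₀) → g ∈ L

variable {F₀ : Subfield F} {L : Subgroup (GL (Fin n) F)} (P : Field' q n r F₀)
include P

theorem Field'.exists_q₀ : ∃ q₀ : ℕ, Nat.card F₀ = q₀ ^ 2 ∧ q = q₀ ^ r := by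
  obtain ⟨k, hk⟩ := P.odd
  have h : q ^ 2 = Nat.card F₀ ^ r := P.hF.symm.trans P.card
  have hd : Nat.card F₀ ^ k ∣ q := (Nat.pow_dvd_pow_iff two_ne_zero).mp ⟨Nat.card F₀, by
    rw [h, hk, pow_succ, ← pow_mul, mul_comm k 2]⟩
  obtain ⟨m, hm⟩ := hd
  have hc : 0 < Nat.card F₀ := Nat.card_pos
  have hm2 : m ^ 2 = Nat.card F₀ := Nat.eq_of_mul_eq_mul_left (pow_pos hc (2 * k)) (by
    rw [← pow_succ, ← hk, ← h, hm, mul_pow, ← pow_mul, mul_comm 2 k])
  refine ⟨m, hm2.symm, ?_⟩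
  rw [hm, ← hm2, hk, ← pow_mul, pow_succ]

theorem Field'.frob_iff {x : F} : x ∈ F₀ ↔ x ^ Nat.card F₀ = x := by
  rw [← OrthSub.frob_apply]
  exact ⟨OrthSub.frob_fix, OrthSub.mem_of_frob⟩

/-- On the subfield the involution is the small power map. -/
theorem Field'.pow_sub {q₀ : ℕ} (h₀ : Nat.card F₀ = q₀ ^ 2) (hq : q = q₀ ^ r) (x : F₀) :
    (x : F) ^ q = ((x ^ q₀ : F₀) : F) := by
  obtain ⟨k, hk⟩ := P.odd
  have hfix : (x : F) ^ (q₀ ^ 2) = (x : F) := by rw [← h₀]; exact P.frob_iff.mp x.2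
  have : ∀ j : ℕ, (x : F) ^ ((q₀ ^ 2) ^ j) = (x : F) := fun j => by
    induction j with
    | zero => simp
    | succ j ih => rw [pow_succ, pow_mul, ih, hfix]
  rw [SubmonoidClass.coe_pow, hq, hk, pow_succ, pow_mul (x : F), pow_mul q₀, this]

theorem Field'.q_mem {a : F} (ha : a ∈ F₀) : a ^ q ∈ F₀ := F₀.pow_mem ha _

theorem Field'.card_sub {q₀ : ℕ} (h₀ : Nat.card F₀ = q₀ ^ 2) [Fintype F₀] : Fintype.card F₀ = q₀ ^ 2 := by
  rw [← Nat.card_eq_fintype_card, h₀]

theorem Field'.exists_tau : ∃ τ ∈ F₀, τ ≠ 0 ∧ τ + τ ^ q = 0 := by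
  obtain ⟨q₀, h₀, hq⟩ := P.exists_q₀
  letI : Fintype F₀ := Fintype.ofFinite _
  obtain ⟨τ, hτ, hτ'⟩ := exists_trace_zero (P.card_sub h₀)
  exact ⟨τ, τ.2, by simpa using hτ, by rw [P.pow_sub h₀ hq, ← AddMemClass.coe_add, hτ']; rfl⟩

theorem Field'.exists_one : ∃ t ∈ F₀, t + t ^ q = 1 := by
  obtain ⟨q₀, h₀, hq⟩ := P.exists_q₀
  letI : Fintype F₀ := Fintype.ofFinite _
  obtain ⟨t, ht⟩ := exists_trace_one (P.card_sub h₀)
  exact ⟨t, t.2, by rw [P.pow_sub h₀ hq, ← AddMemClass.coe_add, ht]; rfl⟩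

theorem Field'.exists_moved : ∃ ω ∈ F₀, ω ^ q ≠ ω := by
  obtain ⟨q₀, h₀, hq⟩ := P.exists_q₀
  letI : Fintype F₀ := Fintype.ofFinite _
  obtain ⟨ω, hω⟩ := exists_not_fixed (P.card_sub h₀)
  exact ⟨ω, ω.2, by rw [P.pow_sub h₀ hq]; exact fun h => hω (Subtype.ext h)⟩

theorem Field'.card_fixedField : Nat.card (fixedField P.hF) = q :=
  card_fixed P.hF

theorem Field'.card_fixed_sub : q = Nat.card (F₀.comap (fixedField P.hF).subtype) ^ r := by
  obtain ⟨q₀, h₀, hq⟩ := P.exists_q₀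
  letI : Fintype F₀ := Fintype.ofFinite _
  have e : Nat.card (F₀.comap (fixedField P.hF).subtype) = q₀ := by
    rw [← card_fixed (P.card_sub h₀)]
    exact Nat.card_congr
      { toFun := fun a => ⟨⟨_, a.2⟩, Subtype.ext (by rw [← P.pow_sub h₀ hq]; exact a.1.2)⟩
        invFun := fun a => ⟨⟨(a.1 : F), by rw [mem_fixedField, P.pow_sub h₀ hq, a.2]⟩, a.1.2⟩
        left_inv := fun a => rfl
        right_inv := fun a => rfl }
  rw [e, hq]

theorem Field'.exists_fixed_outside : ∃ e : F, e ^ q = e ∧ e ∉ F₀ := by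
  by_contra hcon
  push Not at hcon
  have h := P.card_fixed_sub
  rw [Nat.card_congr (Equiv.subtypeUnivEquiv (p := fun x => x ∈ F₀.comap (fixedField P.hF).subtype)
    fun x => hcon x x.2), P.card_fixedField] at h
  have h2 : q ^ 1 < q ^ r := Nat.pow_lt_pow_right (Cfsg.Agent.Forms.two_le_q P.hF) P.prime.one_lt
  rw [pow_one, ← h] at h2
  exact lt_irrefl _ h2

theorem Field'.not_quadratic {x : F} (hx : x ∉ F₀) {a b c : F} (ha : a ∈ F₀) (hb : b ∈ F₀) (hc : c ∈ F₀)
    (ha0 : a ≠ 0) : a * x ^ 2 + b * x + c ≠ 0 := by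
  intro h
  set ψ := OrthSub.frob F₀
  have hfix : ∀ {y : F}, ψ y = y → y ∈ F₀ := fun h => OrthSub.mem_of_frob h
  have h1 := congrArg ψ h
  rw [map_add, map_add, map_mul, map_mul, map_pow, map_zero, OrthSub.frob_fix ha, OrthSub.frob_fix hb,
    OrthSub.frob_fix hc] at h1
  have hne : ψ x - x ≠ 0 := sub_ne_zero.mpr fun e => hx (hfix e)
  have h2 : a * (ψ x + x) + b = 0 :=
    (mul_eq_zero.mp (show (ψ x - x) * (a * (ψ x + x) + b) = 0 by linear_combination h1 - h)).resolve_left hne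
  have h3 := congrArg ψ h2
  rw [map_add, map_mul, map_add, map_zero, OrthSub.frob_fix ha, OrthSub.frob_fix hb] at h3
  have h4 : ψ (ψ x) = x := mul_left_cancel₀ ha0 (by linear_combination h3 - h2)
  have hiter : ∀ j : ℕ, x ^ ((Nat.card F₀) ^ (2 * j)) = x := fun j => by
    induction j with
    | zero => simp
    | succ j ih =>
      rw [Nat.mul_succ, pow_add, pow_mul, ih, pow_two, pow_mul, ← OrthSub.frob_apply, ← OrthSub.frob_apply]
      exact h4
  obtain ⟨k, hk⟩ := P.odd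
  have h5 : x ^ (Nat.card F₀ ^ r) = x := by rw [← P.card]; exact FiniteField.pow_card x
  rw [hk, pow_succ, pow_mul, hiter, ← OrthSub.frob_apply] at h5
  exact hne (sub_eq_zero.mpr h5)

/-! ## Rational vectors -/

theorem Field'.rat_hh {x y : Vec} (hx : Rat' F₀ x) (hy : Rat' F₀ y) : hh x y ∈ F₀ :=
  F₀.sum_mem fun i _ => F₀.mul_mem (hx i) (P.q_mem (hy i))

/-- A rational hyperbolic pair orthogonal to a few rational vectors. -/
theorem Field'.pair (s : List Vec) (hs : ∀ x ∈ s, Rat' F₀ x) (hlen : 2 * s.length + 2 < n) :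
    ∃ d d', Rat' F₀ d ∧ Rat' F₀ d' ∧ hh d d = 0 ∧ hh d' d' = 0 ∧ hh d d' = 1 ∧
      ∀ x ∈ s, hh x d = 0 ∧ hh x d' = 0 := by
  classical
  obtain ⟨q₀, h₀, hq⟩ := P.exists_q₀
  letI : Fintype F₀ := Fintype.ofFinite _
  have hF₀ := P.card_sub h₀
  have hemb : ∀ u v : Fin n → F₀, hh (fun i => (u i : F)) (fun i => (v i : F)) = (Cfsg.hermForm n F₀ q₀ u v : F) :=
    fun u v => by
      simp only [Cfsg.hermForm, AddSubmonoidClass.coe_finsetSum, MulMemClass.coe_mul, ← P.pow_sub h₀ hq]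
  set t : Finset (Fin n → F₀) := (s.toFinset).image (fun x i => if hx : x i ∈ F₀ then (⟨x i, hx⟩ : F₀) else 0)
    with ht
  set S : Submodule F₀ (Fin n → F₀) := Submodule.span F₀ (t : Set (Fin n → F₀)) with hS
  have hmem : ∀ x ∈ s, ∃ x' ∈ S, (fun i => (x' i : F)) = x := fun x hx => by
    refine ⟨fun i => if hxi : x i ∈ F₀ then (⟨x i, hxi⟩ : F₀) else 0,
      Submodule.subset_span (Finset.mem_image_of_mem _ (List.mem_toFinset.mpr hx)), funext fun i => ?_⟩
    show ((if hxi : x i ∈ F₀ then (⟨x i, hxi⟩ : F₀) else 0 : F₀) : F) = x i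
    rw [dif_pos (hs x hx i)]
  have hdS : Module.finrank F₀ S ≤ s.length :=
    ((finrank_span_finset_le_card t).trans Finset.card_image_le).trans (List.toFinset_card_le s)
  obtain ⟨u, huu, huS⟩ := exists_unit_perp hF₀ (n := n) (S := S) (by omega)
  have hdS' : Module.finrank F₀ ↥(S ⊔ Submodule.span F₀ {u}) ≤ s.length + 1 :=
    (Submodule.finrank_add_le_finrank_add_finrank _ _).trans
      (Nat.add_le_add hdS ((finrank_span_le_card {u}).trans (by simp)))
  obtain ⟨v, hvv, hvS⟩ := exists_unit_perp hF₀ (n := n) (S := S ⊔ Submodule.span F₀ {u}) (by omega)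
  obtain ⟨a, ha⟩ := Unitary.exists_norm hF₀ (-1 : F₀) (by rw [pow_neg_q hF₀, one_pow])
  obtain ⟨τ, hτ⟩ := exists_trace_one hF₀
  have hvu := hvS u (Submodule.mem_sup_right (Submodule.mem_span_singleton_self u))
  have huv := hh_comm_zero hF₀ hvu
  set d₀ := u + a • v
  set d₀' := u - τ • d₀
  have e1 : Cfsg.hermForm n F₀ q₀ d₀ d₀ = 0 := by
    simp only [d₀, hh_add_left hF₀, hh_add_right hF₀, hh_smul_left hF₀, hh_smul_right hF₀, huu, hvv, huv, hvu]
    linear_combination ha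
  have e2 : Cfsg.hermForm n F₀ q₀ u d₀ = 1 := by
    simp [d₀, hh_add_right hF₀, hh_smul_right hF₀, huu, huv]
  have e3 : Cfsg.hermForm n F₀ q₀ d₀ u = 1 := by rw [← hh_conj hF₀ u d₀, e2, one_pow]
  refine ⟨fun i => (d₀ i : F), fun i => (d₀' i : F), fun i => (d₀ i).2, fun i => (d₀' i).2, ?_, ?_, ?_,
    fun x hx => ?_⟩
  · rw [hemb, e1]; rfl
  · rw [hemb, ← ZeroMemClass.coe_zero F₀]
    congr 1
    simp only [d₀', hh_sub_left hF₀, hh_sub_right hF₀, hh_smul_left hF₀, hh_smul_right hF₀, huu, e1, e2, e3]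
    linear_combination -hτ
  · rw [hemb, ← OneMemClass.coe_one F₀]
    congr 1
    simp [d₀', hh_sub_right hF₀, hh_smul_right hF₀, e1, e3]
  · obtain ⟨x', hx', rfl⟩ := hmem x hx
    have f1 := hh_comm_zero hF₀ (huS x' hx')
    have f2 := hh_comm_zero hF₀ (hvS x' (Submodule.mem_sup_left hx'))
    rw [hemb, hemb, ← ZeroMemClass.coe_zero F₀]
    constructor <;> congr 1 <;> simp [d₀', d₀, hh_sub_right hF₀, hh_add_right hF₀, hh_smul_right hF₀, f1, f2]

theorem Field'.kills (s : List Vec) (hs : ∀ x ∈ s, Rat' F₀ x) (hlen : 2 * s.length + 2 < n) (φ : Vec →ₗ[F] F)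
    (hφ : ∀ c, Rat' F₀ c → hh c c = 0 → (∀ x ∈ s, hh x c = 0) → φ c = 0) {y : Vec} (hy : Rat' F₀ y)
    (hys : ∀ x ∈ s, hh x y = 0) : φ y = 0 := by
  obtain ⟨d, d', hd, hd', hdd, hdd', hp, hperp⟩ := P.pair s hs hlen
  obtain ⟨t, htF, ht⟩ := P.exists_one
  have hp' : hh d' d = 1 := by rw [← hh_conj P.hF d d', hp, one_pow]
  have hd0 := hφ d hd hdd fun x hx => (hperp x hx).1
  have hd0' := hφ d' hd' hdd' fun x hx => (hperp x hx).2
  set z := y - hh y d' • d - hh y d • d' with hz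
  have hzr : Rat' F₀ z := OrthSub.rat_sub (OrthSub.rat_sub hy (OrthSub.rat_smul (P.rat_hh hy hd') hd))
    (OrthSub.rat_smul (P.rat_hh hy hd) hd')
  have z1 : hh z d = 0 := by simp [hz, hh_sub_left P.hF, hh_smul_left P.hF, hdd, hp']
  have z2 : hh z d' = 0 := by simp [hz, hh_sub_left P.hF, hh_smul_left P.hF, hdd', hp]
  set k := -(hh z z) * t with hk
  have hkk : k + k ^ q = -(hh z z) := by
    rw [hk, mul_pow, pow_neg_q P.hF, hh_self_fixed P.hF]; linear_combination (-(hh z z)) * ht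
  have hzs : ∀ x ∈ s, hh x z = 0 := fun x hx => by
    simp [hz, hh_sub_right P.hF, hh_smul_right P.hF, hys x hx, (hperp x hx).1, (hperp x hx).2]
  have := hφ (z + d' + k • d) (OrthSub.rat_add (OrthSub.rat_add hzr hd')
    (OrthSub.rat_smul (F₀.mul_mem (F₀.neg_mem (P.rat_hh hzr hzr)) htF) hd)) (by
      simp only [hh_add_left P.hF, hh_add_right P.hF, hh_smul_left P.hF, hh_smul_right P.hF, hdd, hdd', hp, hp', z1, z2,
        hh_comm_zero P.hF z1, hh_comm_zero P.hF z2]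
      linear_combination hkk) (fun x hx => by
      simp [hh_add_right P.hF, hh_smul_right P.hF, hzs x hx, (hperp x hx).1, (hperp x hx).2])
  rw [map_add, map_add, map_smul, hd0, hd0', smul_zero, add_zero, add_zero, hz, map_sub, map_sub, map_smul, map_smul,
    hd0, hd0', smul_zero, smul_zero, sub_zero, sub_zero] at this
  exact this

theorem Field'.eq_of_unit {x y : Vec} (h : ∀ i, hh (Pi.single i 1) x = hh (Pi.single i 1) y) : x = y := by
  refine sub_eq_zero.mp ((Cfsg.Agent.Forms.isForm_herm (n := n) P.hF).nondeg (x - y) fun v => ?_)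
  have h2 : Cfsg.Agent.Forms.hermB n P.hF (x - y) = 0 := (Pi.basisFun F (Fin n)).ext fun i => by
    rw [Pi.basisFun_apply, LinearMap.zero_apply]
    show hh _ (x - y) = 0
    rw [hh_sub_right P.hF, h i, sub_self]
  exact LinearMap.congr_fun h2 v

theorem Field'.exists_dual {x : Vec} (hx : x ≠ 0) : ∃ w, Rat' F₀ w ∧ hh w w = 0 ∧ hh w x ≠ 0 := by
  by_contra hcon
  push Not at hcon
  refine hx (P.eq_of_unit fun i => ?_)
  rw [hh_zero_right P.hF]
  exact P.kills [] (by simp) (by simp; have := P.dim; omega) (Cfsg.Agent.Forms.hermB n P.hF x)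
    (fun c hc hcc _ => hcon c hc hcc) (rat_one i) (by simp)

theorem Field'.exists_sep {x y : Vec} (hx : Rat' F₀ x) (hx0 : x ≠ 0) (hy : ∀ k : F, y ≠ k • x) :
    ∃ w, Rat' F₀ w ∧ hh w w = 0 ∧ hh x w = 0 ∧ hh y w ≠ 0 := by
  by_contra hcon
  push Not at hcon
  obtain ⟨d, hd, -, hdx⟩ := P.exists_dual hx0
  refine hy ((hh d y / hh d x) ^ q) (P.eq_of_unit fun i => ?_)
  set e : Vec := Pi.single i 1
  have h1 := P.kills [x] (by simp [hx]) (by simp; have := P.dim; omega) (Cfsg.Agent.Forms.hermB n P.hF y)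
    (fun c hc hcc h => hh_comm_zero P.hF (hcon c hc hcc (h x (by simp))))
    (y := e - (hh e x / hh d x) • d)
    (OrthSub.rat_sub (rat_one i) (OrthSub.rat_smul (F₀.div_mem (P.rat_hh (rat_one i) hx) (P.rat_hh hd hx)) hd))
    (fun v hv => by
      rw [List.mem_singleton.mp hv]
      refine hh_comm_zero P.hF ?_
      rw [hh_sub_left P.hF, hh_smul_left P.hF, div_mul_cancel₀ _ hdx, sub_self])
  change hh _ y = 0 at h1
  rw [hh_sub_left P.hF, hh_smul_left P.hF] at h1
  rw [hh_smul_right P.hF, pow_q_q P.hF]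
  linear_combination h1

theorem Field'.exists_both {a b : Vec} (ha : Rat' F₀ a) (hb : Rat' F₀ b) (ha0 : a ≠ 0) (hb0 : b ≠ 0) :
    ∃ w, Rat' F₀ w ∧ hh w w = 0 ∧ hh a w ≠ 0 ∧ hh b w ≠ 0 := by
  obtain ⟨u, hu, huu, hua⟩ := P.exists_dual ha0
  obtain ⟨v, hv, hvv, hvb⟩ := P.exists_dual hb0
  have hau : hh a u ≠ 0 := fun e => hua (hh_comm_zero P.hF e)
  have hbv : hh b v ≠ 0 := fun e => hvb (hh_comm_zero P.hF e)
  by_cases h1 : hh b u = 0
  swap
  · exact ⟨u, hu, huu, hau, h1⟩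
  by_cases h2 : hh a v = 0
  swap
  · exact ⟨v, hv, hvv, h2, hbv⟩
  obtain ⟨e, e', he, he', hee, hee', hp, hperp⟩ := P.pair [a, b, u, v] (by simp [ha, hb, hu, hv])
    (by simp; have := P.dim; omega)
  simp only [List.mem_cons, List.not_mem_nil, or_false, forall_eq_or_imp, forall_eq] at hperp
  obtain ⟨⟨pa, pa'⟩, ⟨pb, pb'⟩, ⟨pu, pu'⟩, ⟨pv, pv'⟩⟩ := hperp
  refine ⟨u + v + e - hh u v • e', OrthSub.rat_sub (OrthSub.rat_add (OrthSub.rat_add hu hv) he)
    (OrthSub.rat_smul (P.rat_hh hu hv) he'), ?_, ?_, ?_⟩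
  · have hp' : hh e' e = 1 := by rw [← hh_conj P.hF e e', hp, one_pow]
    simp only [hh_add_left P.hF, hh_add_right P.hF, hh_sub_left P.hF, hh_sub_right P.hF, hh_smul_left P.hF,
      hh_smul_right P.hF, hh_conj P.hF, huu, hvv, hee, hee', hp, hp',
      hh_comm_zero P.hF pu, hh_comm_zero P.hF pu', hh_comm_zero P.hF pv, hh_comm_zero P.hF pv', pu, pu', pv, pv']
    ring
  · simp only [hh_sub_right P.hF, hh_add_right P.hF, hh_smul_right P.hF, pa, pa', h2]
    simpa using hau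
  · simp only [hh_sub_right P.hF, hh_add_right P.hF, hh_smul_right P.hF, pb, pb', h1]
    simpa using hbv

theorem Field'.exists_dual_one {x : Vec} (hx : Rat' F₀ x) (hx0 : x ≠ 0) :
    ∃ w, Rat' F₀ w ∧ hh w w = 0 ∧ hh w x = 1 := by
  obtain ⟨w, hw, hww, hwx⟩ := P.exists_dual hx0
  exact ⟨(hh w x)⁻¹ • w, OrthSub.rat_smul (F₀.inv_mem (P.rat_hh hw hx)) hw,
    by rw [hh_smul_left P.hF, hh_smul_right P.hF, hww, mul_zero, mul_zero],
    by rw [hh_smul_left P.hF, inv_mul_cancel₀ hwx]⟩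

/-! ## Root elements -/

variable (S : Setting q F₀ L)
include S

theorem Setting.rat_mem {g : GL (Fin n) F} (hg : g ∈ SUgl n F q) (hr : ∀ v, Rat' F₀ v → Rat' F₀ ((g : Mx) *ᵥ v)) :
    g ∈ L := S.rat g hg fun i j => by
  have h := hr _ (rat_one j) i
  rwa [Matrix.mulVec_single, MulOpposite.op_one, one_smul, Matrix.col_apply] at h

theorem Setting.uT_rat {v : Vec} (hv : Rat' F₀ v) {c : F} (hc : c ∈ F₀) (hc' : c + c ^ q = 0) (hvv : hh v v = 0) :
    uT v c hvv ∈ L := S.rat_mem P (uT_mem P.hF _ _ _ hc') fun x hx => by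
  rw [uT_mulVec]; exact OrthSub.rat_add hx (OrthSub.rat_smul (F₀.mul_mem hc (P.rat_hh hx hv)) hv)

theorem Setting.uT_conj {g : GL (Fin n) F} (hg : g ∈ L) {v : Vec} {c : F} {hvv : hh v v = 0} (h : uT v c hvv ∈ L) :
    ∃ hw : hh ((g : Mx) *ᵥ v) ((g : Mx) *ᵥ v) = 0, uT ((g : Mx) *ᵥ v) c hw ∈ L := by
  refine ⟨by rw [mem_GU_iff.mp (S.le hg).1, hvv], ?_⟩
  convert L.mul_mem (L.mul_mem hg h) (L.inv_mem hg) using 1
  rw [eq_mul_inv_iff_mul_eq]
  refine Units.ext (matrix_ext_mulVec fun x => ?_)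
  rw [Units.val_mul, Units.val_mul, ← Matrix.mulVec_mulVec, ← Matrix.mulVec_mulVec, uT_mulVec, uT_mulVec,
    mem_GU_iff.mp (S.le hg).1, Matrix.mulVec_add, Matrix.mulVec_smul]

omit P S in
/-- The root elements with a given axis. -/
def EW (L : Subgroup (GL (Fin n) F)) (q : ℕ) (d w : Fin n → F) : Prop :=
  Cfsg.hermForm n F q w d = 0 ∧ ∃ g ∈ L, ∃ c : F, ∀ y, (g : Matrix (Fin n) (Fin n) F) *ᵥ y =
    y + Cfsg.hermForm n F q y d • w - Cfsg.hermForm n F q y w • d + (c * Cfsg.hermForm n F q y d) • d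

theorem Setting.eW_add {d w w' : Vec} (hdd : hh d d = 0) (h : EW L q d w) (h' : EW L q d w') :
    EW L q d (w + w') := by
  obtain ⟨hw, g, hg, c, hc⟩ := h
  obtain ⟨hw', g', hg', c', hc'⟩ := h'
  refine ⟨by rw [hh_add_left P.hF, hw, hw', add_zero], g * g', L.mul_mem hg hg', c + c' - hh w' w, fun y => ?_⟩
  rw [Units.val_mul, ← Matrix.mulVec_mulVec, hc', hc]
  simp only [hh_add_left P.hF, hh_sub_left P.hF, hh_smul_left P.hF, hh_add_right P.hF, hw', hdd,
    hh_comm_zero P.hF hw]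
  module

theorem Setting.eW_rat {d w : Vec} (hd : Rat' F₀ d) (hw : Rat' F₀ w) (hdd : hh d d = 0) (hww : hh w w = 0)
    (hdw : hh d w = 0) :
    ∃ g ∈ L, ∀ y, (g : Mx) *ᵥ y = y + hh y d • w - hh y w • d := by
  obtain ⟨τ, hτF, hτ0, hτ⟩ := P.exists_tau
  have hq : τ⁻¹ ^ q = -τ⁻¹ := by linear_combination trace_zero_inv P.hF hτ
  have hwd := hh_comm_zero P.hF hdw
  have hz : hh (d + τ⁻¹ • w) (d + τ⁻¹ • w) = 0 := by
    simp [hh_add_left P.hF, hh_add_right P.hF, hh_smul_left P.hF, hh_smul_right P.hF, hdd, hww, hdw, hwd]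
  refine ⟨uT _ τ hz * uT d (-τ) hdd * uT w τ⁻¹ hww,
    L.mul_mem (L.mul_mem (S.uT_rat P (OrthSub.rat_add hd (OrthSub.rat_smul (F₀.inv_mem hτF) hw)) hτF hτ hz)
      (S.uT_rat P hd (F₀.neg_mem hτF) (trace_zero_neg P.hF hτ) hdd))
      (S.uT_rat P hw (F₀.inv_mem hτF) (trace_zero_inv P.hF hτ) hww), fun y => ?_⟩
  simp only [Units.val_mul, ← Matrix.mulVec_mulVec, uT_mulVec, hh_add_left P.hF, hh_add_right P.hF,
    hh_smul_left P.hF, hh_smul_right P.hF, hdd, hww, hdw, hwd, hq]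
  match_scalars <;> field_simp <;> ring

theorem Setting.eW_rat' {d w : Vec} (hd : Rat' F₀ d) (hw : Rat' F₀ w) (hdd : hh d d = 0) (hww : hh w w = 0)
    (hdw : hh d w = 0) : EW L q d w := by
  obtain ⟨g, hg, h⟩ := S.eW_rat P hd hw hdd hww hdw
  exact ⟨hh_comm_zero P.hF hdw, g, hg, 0, fun y => by rw [h, zero_mul, zero_smul, add_zero]⟩

theorem Setting.eW_self {d : Vec} (hdd : hh d d = 0) (a : F) : EW L q d (a • d) := by
  refine ⟨by rw [hh_smul_left P.hF, hdd, mul_zero], 1, L.one_mem, a ^ q - a, fun y => ?_⟩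
  rw [Units.val_one, Matrix.one_mulVec, hh_smul_right P.hF]
  module

theorem Setting.centre_near {a b : Vec} (ha : Rat' F₀ a) (hb : Rat' F₀ b) (haa : hh a a = 0) (hbb : hh b b = 0)
    (hab : hh a b ≠ 0) (hc : IsCentre q L a) : IsCentre q L b := by
  obtain ⟨τ, hτF, hτ0, hτ⟩ := P.exists_tau
  have hτq : τ ^ q = -τ := by linear_combination hτ
  set l := (τ / hh a b) ^ q with hl
  have hlF : l ∈ F₀ := P.q_mem (F₀.div_mem hτF (P.rat_hh ha hb))
  have h1 : hh a (l • b) = τ := by rw [hh_smul_right P.hF, hl, pow_q_q P.hF, div_mul_cancel₀ _ hab]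
  have h2 : hh (l • b) a = -τ := by rw [← hh_conj P.hF a, h1, hτq]
  have hww : hh (l • b - a) (l • b - a) = 0 := by
    rw [hh_sub_left P.hF, hh_sub_right P.hF, hh_sub_right P.hF, h1, h2, haa, hh_smul_left P.hF, hh_smul_right P.hF,
      hbb]
    ring
  have hm := S.uT_rat P (OrthSub.rat_sub (OrthSub.rat_smul hlF hb) ha) (F₀.inv_mem hτF) (trace_zero_inv P.hF hτ) hww
  have h := isCentre_mulVec P.hF S.le hm hc
  rw [uT_mulVec, hh_sub_right P.hF, h1, haa, sub_zero, inv_mul_cancel₀ hτ0, one_smul, add_sub_cancel] at h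
  have hl0 : l ≠ 0 := pow_ne_zero _ (div_ne_zero hτ0 hab)
  have h' := isCentre_smul P.hF h l⁻¹
  rwa [inv_smul_smul₀ hl0] at h'

theorem Setting.all_centres {d x : Vec} (hd : Rat' F₀ d) (hd0 : d ≠ 0) (hdd : hh d d = 0) (hc : IsCentre q L d)
    (hx : Rat' F₀ x) (hxx : hh x x = 0) : IsCentre q L x := by
  rcases eq_or_ne x 0 with rfl | hx0
  · have := isCentre_smul P.hF hc 0
    rwa [zero_smul] at this
  obtain ⟨w, hw, hww, hdw, hxw⟩ := P.exists_both hd hx hd0 hx0
  exact S.centre_near P hw hx hww hxx (fun e => hxw (hh_comm_zero P.hF e)) (S.centre_near P hd hw hdd hww hdw hc)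

theorem Setting.eW_mult {d w : Vec} (hc : ∀ x, Rat' F₀ x → hh x x = 0 → IsCentre q L x) (hd : Rat' F₀ d)
    (hd0 : d ≠ 0) (hw : Rat' F₀ w) (hdd : hh d d = 0) (hww : hh w w = 0) (hdw : hh d w = 0) (a : F) :
    EW L q d (a • w) := by
  by_cases hdep : ∃ k : F, w = k • d
  · obtain ⟨k, rfl⟩ := hdep
    rw [smul_smul]; exact S.eW_self P hdd _
  push Not at hdep
  obtain ⟨z, hz, hzz, hdz, hwz⟩ := P.exists_sep hd hd0 hdep
  obtain ⟨τ, hτF, hτ0, hτ⟩ := P.exists_tau
  obtain ⟨ω, hωF, hω⟩ := P.exists_moved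
  have hwd := hh_comm_zero P.hF hdw
  have hzw : hh z w ≠ 0 := fun e => hwz (hh_comm_zero P.hF e)
  have key : ∀ k ∈ F₀, ∀ c, c + c ^ q = 0 → EW L q d ((c * (k * hh z w)) • w) := by
    intro k hk c hcc
    have hkr := OrthSub.rat_smul hk hz
    have hkk : hh (k • z) (k • z) = 0 := by rw [hh_smul_left P.hF, hh_smul_right P.hF, hzz, mul_zero, mul_zero]
    have hdk : hh d (k • z) = 0 := by rw [hh_smul_right P.hF, hdz, mul_zero]
    obtain ⟨g, hg, hga⟩ := S.eW_rat P hd hkr hdd hkk hdk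
    obtain ⟨hw0, hmem⟩ := hc w hw hww
    have hu := hmem c hcc
    have hU := mem_GU_iff.mp (S.le hu).1
    have hud : ((uT w c hw0 : GL (Fin n) F) : Mx) *ᵥ d = d := by rw [uT_mulVec, hdw, mul_zero, zero_smul, add_zero]
    have huz : ((uT w c hw0 : GL (Fin n) F) : Mx) *ᵥ (k • z) = k • z + (c * (k * hh z w)) • w := by
      rw [uT_mulVec, hh_smul_left P.hF]
    have h1 : EW L q d (((uT w c hw0 : GL (Fin n) F) : Mx) *ᵥ (k • z)) := by
      refine ⟨by conv_lhs => arg 5; rw [← hud]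
                 rw [hU, hh_comm_zero P.hF hdk], uT w c hw0 * g * (uT w c hw0)⁻¹,
        L.mul_mem (L.mul_mem hu hg) (L.inv_mem hu), 0, fun y => ?_⟩
      obtain ⟨x, rfl⟩ : ∃ x : Vec, ((uT w c hw0 : GL (Fin n) F) : Mx) *ᵥ x = y :=
        ⟨(((uT w c hw0)⁻¹ : GL (Fin n) F) : Mx) *ᵥ y,
          by rw [Matrix.mulVec_mulVec, ← Units.val_mul, mul_inv_cancel, Units.val_one, Matrix.one_mulVec]⟩
      have e1 : hh (((uT w c hw0 : GL (Fin n) F) : Mx) *ᵥ x) d = hh x d := by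
        conv_lhs => arg 5; rw [← hud]
        rw [hU]
      rw [e1, hU, zero_mul, zero_smul, add_zero, Matrix.mulVec_mulVec, ← Units.val_mul, inv_mul_cancel_right,
        Units.val_mul, ← Matrix.mulVec_mulVec, hga]
      simp only [Matrix.mulVec_sub, Matrix.mulVec_add, Matrix.mulVec_smul, hud]
    rw [huz] at h1
    have h2 := S.eW_add P hdd (S.eW_rat' P hd (w := -(k • z)) (fun i => F₀.neg_mem (hkr i)) hdd
      (by rw [← neg_one_smul F (k • z), hh_smul_left P.hF, hh_smul_right P.hF, hkk, mul_zero, mul_zero])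
      (by rw [← neg_one_smul F (k • z), hh_smul_right P.hF, hdk, mul_zero])) h1
    rwa [neg_add_cancel_left] at h2
  set x := a / hh z w / τ with hx
  set e := (x - x ^ q) / (ω - ω ^ q) with he
  have hωne : ω - ω ^ q ≠ 0 := sub_ne_zero.mpr (Ne.symm hω)
  have heq : e ^ q = e := by
    rw [he, div_pow, pow_sub_q P.hF, pow_sub_q P.hF, pow_q_q P.hF, pow_q_q P.hF, ← neg_sub x, ← neg_sub ω, neg_div_neg_eq]
  have hτq : τ ^ q = -τ := by linear_combination hτ
  have he' : e * (ω - ω ^ q) = x - x ^ q := div_mul_cancel₀ _ hωne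
  have h := S.eW_add P hdd (key 1 F₀.one_mem (τ * (x - e * ω)) (by
      rw [mul_pow, pow_sub_q P.hF, mul_pow, heq, hτq]
      linear_combination (-τ) * he'))
    (key ω hωF (τ * e) (by rw [mul_pow, heq, hτq]; ring))
  convert h using 1
  rw [← add_smul]
  congr 1
  rw [hx]
  field_simp
  ring

/-- Full root groups at all rational isotropic vectors give everything. -/
theorem Setting.top_of_centres (hc : ∀ x, Rat' F₀ x → hh x x = 0 → IsCentre q L x) : SUgl n F q ≤ L := by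
  have hdim := P.dim
  refine SU_le_of_uT P.hF (by omega) fun v c hv hcc => ?_
  suffices h : IsCentre q L v by obtain ⟨_, h⟩ := h; exact h c hcc
  rcases eq_or_ne v 0 with rfl | hv0
  · obtain ⟨d, d', hd, -, hdd, -, -, -⟩ := P.pair [] (by simp) (by simp; omega)
    have := isCentre_smul P.hF (hc d hd hdd) 0
    rwa [zero_smul] at this
  obtain ⟨d, hd, hdd, hdv⟩ := P.exists_dual hv0
  have hd0 : d ≠ 0 := fun e => hdv (by rw [e, hh_zero_left P.hF])
  obtain ⟨d', hd', hdd', hd'd⟩ := P.exists_dual_one hd hd0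
  have hall : ∀ w, hh w d = 0 → EW L q d w := by
    let W : Submodule F Vec :=
      { carrier := {w | ∀ a : F, EW L q d (a • w)}
        add_mem' := fun {w w'} h h' a => by rw [smul_add]; exact S.eW_add P hdd (h a) (h' a)
        zero_mem' := fun a => by rw [smul_zero, ← zero_smul F d]; exact S.eW_self P hdd 0
        smul_mem' := fun k w h a => by rw [smul_smul]; exact h _ }
    intro w hw
    suffices hW : w ∈ W by have := hW 1; rwa [one_smul] at this
    by_contra hni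
    obtain ⟨φ, hφ, hφW⟩ := Submodule.exists_dual_map_eq_bot_of_notMem hni inferInstance
    refine hφ ?_
    have hk : ∀ y, Rat' F₀ y → hh y d = 0 → φ y = 0 := fun y hy hyd =>
      P.kills [d] (by simp [hd]) (by simp; omega) φ (fun x hx hxx h => by
        have : φ x ∈ Submodule.map φ W :=
          Submodule.mem_map_of_mem (fun a => S.eW_mult P hc hd hd0 hx hdd hxx (h d (by simp)) a : x ∈ W)
        rwa [hφW, Submodule.mem_bot] at this) hy (by simp [hh_comm_zero P.hF hyd])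
    have hlin : φ - φ d' • Cfsg.Agent.Forms.hermB n P.hF d = 0 := (Pi.basisFun F (Fin n)).ext fun i => by
      rw [Pi.basisFun_apply, LinearMap.sub_apply, LinearMap.smul_apply, LinearMap.zero_apply]
      set e : Vec := Pi.single i 1
      have h1 := hk (e - hh e d • d')
        (OrthSub.rat_sub (rat_one i) (OrthSub.rat_smul (P.rat_hh (rat_one i) hd) hd'))
        (by rw [hh_sub_left P.hF, hh_smul_left P.hF, hd'd, mul_one, sub_self])
      rw [map_sub, map_smul] at h1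
      show φ e - φ d' • hh e d = 0
      rw [smul_eq_mul] at h1 ⊢
      linear_combination h1
    have h2 := LinearMap.congr_fun hlin w
    rw [LinearMap.sub_apply, LinearMap.smul_apply, LinearMap.zero_apply] at h2
    change φ w - φ d' • hh w d = 0 at h2
    rwa [hw, smul_zero, sub_zero] at h2
  obtain ⟨v', hv'⟩ : ∃ v', v' = (hh v d)⁻¹ • v := ⟨_, rfl⟩
  have hvd : hh v d ≠ 0 := fun e => hdv (hh_comm_zero P.hF e)
  have h1 : hh v' d = 1 := by rw [hv', hh_smul_left P.hF, inv_mul_cancel₀ hvd]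
  have h1' : hh d v' = 1 := by rw [← hh_conj P.hF, h1, one_pow]
  have hv'' : hh v' v' = 0 := by rw [hv', hh_smul_left P.hF, hh_smul_right P.hF, hv, mul_zero, mul_zero]
  obtain ⟨-, g, hg, b, hgy⟩ := hall (v' - d') (by rw [hh_sub_left P.hF, h1, hd'd, sub_self])
  have hgd : (g : Mx) *ᵥ d' = v' + (b - hh d' (v' - d')) • d := by rw [hgy, hd'd]; module
  set k := b - hh d' (v' - d')
  have hcen := isCentre_mulVec P.hF S.le hg (hc d' hd' hdd')
  rw [hgd] at hcen
  have hk : k + k ^ q = 0 := by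
    have h := hcen.1
    rw [hh_add_left P.hF, hh_add_right P.hF, hh_add_right P.hF, hh_smul_left P.hF, hh_smul_left P.hF,
      hh_smul_right P.hF, hh_smul_right P.hF, hv'', h1, h1', hdd] at h
    linear_combination h
  have h2 := isCentre_shift P.hF S.le (hc d hd hdd) hcen (trace_zero_neg P.hF hk)
  rw [hh_add_left P.hF, hh_smul_left P.hF, h1, hdd, mul_zero, add_zero, mul_one, neg_smul, add_neg_cancel_right] at h2
  have h3 := isCentre_smul P.hF h2 (hh v d)
  rwa [hv', smul_inv_smul₀ hvd] at h3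

/-! ## The action on two coordinates -/

omit P S in
/-- The action on the coordinates `f(·, l)`, `ν f(·, u)` of the elements fixing the common kernel. -/
def planeGroup (L : Subgroup (GL (Fin n) F)) (hL : L ≤ SUgl n F q) (l l' u w₀ : Fin n → F) (ν : F)
    (h0 : Cfsg.hermForm n F q w₀ l = 0) (h1 : Cfsg.hermForm n F q w₀ l' = 0) (h2 : Cfsg.hermForm n F q w₀ u = 0) :
    Subgroup (Dickson.SL2 F) where
  carrier := {s | ∃ g ∈ L, (∀ x, Cfsg.hermForm n F q x l = 0 → Cfsg.hermForm n F q x l' = 0 →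
      Cfsg.hermForm n F q x u = 0 → (g : Matrix (Fin n) (Fin n) F) *ᵥ x = x) ∧
    ∀ x, Cfsg.hermForm n F q x w₀ = 0 →
      Cfsg.hermForm n F q ((g : Matrix (Fin n) (Fin n) F) *ᵥ x) l =
        s 0 0 * Cfsg.hermForm n F q x l + s 0 1 * (ν * Cfsg.hermForm n F q x u) ∧
      ν * Cfsg.hermForm n F q ((g : Matrix (Fin n) (Fin n) F) *ᵥ x) u =
        s 1 0 * Cfsg.hermForm n F q x l + s 1 1 * (ν * Cfsg.hermForm n F q x u)}
  one_mem' := ⟨1, L.one_mem, fun x _ _ _ => by simp, fun x _ => by simp⟩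
  mul_mem' := by
    rintro s t ⟨g, hg, hgf, hgs⟩ ⟨g', hg', hgf', hgs'⟩
    refine ⟨g * g', L.mul_mem hg hg', fun x e1 e2 e3 => ?_, fun x hx => ?_⟩
    · rw [Units.val_mul, ← Matrix.mulVec_mulVec, hgf' x e1 e2 e3, hgf x e1 e2 e3]
    · have hfix := hgf' w₀ h0 h1 h2
      have hx' : Cfsg.hermForm n F q ((g' : Matrix (Fin n) (Fin n) F) *ᵥ x) w₀ = 0 := by
        conv_lhs => rw [← hfix]
        rw [mem_GU_iff.mp (hL hg').1, hx]
      constructor <;>
        (rw [Units.val_mul, ← Matrix.mulVec_mulVec]; simp only [hgs _ hx', hgs' x hx, Dickson.mul_apply2]; ring)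
  inv_mem' := by
    rintro s ⟨g, hg, hgf, hgs⟩
    refine ⟨g⁻¹, L.inv_mem hg, fun x e1 e2 e3 => ?_, fun x hx => ?_⟩
    · conv_lhs => rw [← hgf x e1 e2 e3]
      rw [Matrix.mulVec_mulVec, ← Units.val_mul, inv_mul_cancel, Units.val_one, Matrix.one_mulVec]
    · have hfix := hgf w₀ h0 h1 h2
      have e : (g : Matrix (Fin n) (Fin n) F) *ᵥ (((g⁻¹ : GL (Fin n) F) : Matrix (Fin n) (Fin n) F) *ᵥ x) = x := by
        rw [Matrix.mulVec_mulVec, ← Units.val_mul, mul_inv_cancel, Units.val_one, Matrix.one_mulVec]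
      have h := hgs (((g⁻¹ : GL (Fin n) F) : Matrix (Fin n) (Fin n) F) *ᵥ x) (by
        rw [← mem_GU_iff.mp (hL hg).1, hfix, e, hx])
      rw [e] at h
      have hdet := Dickson.det_eq s
      simp only [Dickson.inv00, Dickson.inv01, Dickson.inv10, Dickson.inv11]
      constructor
      · linear_combination -(s 1 1) * h.1 + (s 0 1) * h.2 -
          (Cfsg.hermForm n F q (((g⁻¹ : GL (Fin n) F) : Matrix (Fin n) (Fin n) F) *ᵥ x) l) * hdet
      · linear_combination (s 1 0) * h.1 - (s 0 0) * h.2 -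
          (ν * Cfsg.hermForm n F q (((g⁻¹ : GL (Fin n) F) : Matrix (Fin n) (Fin n) F) *ᵥ x) u) * hdet

omit S in
/-- A subgroup with a new lower parameter contains all fixed lower parameters and the diagonal ones. -/
theorem Field'.full (H : Subgroup (Dickson.SL2 F)) {b : F} (hb : b ≠ 0) (hbq : b ^ q = b) (hup : Dickson.uel b ∈ H)
    {s₁ : F} (hs0 : s₁ ≠ 0) (hsq : s₁ ^ q = s₁) (hA : ∀ a ∈ F₀, a ^ q = a → Dickson.lel (a * s₁) ∈ H)
    {N : F} (hN : N ^ q = N) (hNF : N ∉ F₀) (hlow : Dickson.lel (N * s₁) ∈ H) :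
    (∀ t : F, t ^ q = t → Dickson.lel t ∈ H) ∧
      ∀ e : F, e ≠ 0 → e ^ q = e → ∃ s ∈ H, s 0 0 = e⁻¹ ∧ s 0 1 = 0 ∧ s 1 0 = 0 ∧ s 1 1 = e := by
  letI : Fintype (fixedField P.hF) := Fintype.ofFinite _
  let φ : Dickson.SL2 (fixedField P.hF) →* Dickson.SL2 F :=
    Matrix.SpecialLinearGroup.map (n := Fin 2) (fixedField P.hF).subtype
  have hu : ∀ t, φ (Dickson.uel t) = Dickson.uel (t : F) := fun t => by apply Dickson.ext2 <;> simp [φ]
  have hl : ∀ t, φ (Dickson.lel t) = Dickson.lel (t : F) := fun t => by apply Dickson.ext2 <;> simp [φ]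
  have hcard : Fintype.card (fixedField P.hF) = Nat.card (F₀.comap (fixedField P.hF).subtype) ^ r := by
    rw [← Nat.card_eq_fintype_card, P.card_fixedField, ← P.card_fixed_sub]
  have hup' : Dickson.uel (⟨b, hbq⟩ : fixedField P.hF) ∈ H.comap φ := by rw [Subgroup.mem_comap, hu]; exact hup
  have hfull := TwoByTwo.lel_full (F := fixedField P.hF) (F₀.comap (fixedField P.hF).subtype) r P.prime hcard
    (H.comap φ) (c := ⟨b, hbq⟩) (fun h => hb (congrArg Subtype.val h)) hup' (s₁ := ⟨s₁, hsq⟩)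
    (fun h => hs0 (congrArg Subtype.val h))
    (fun a ha => by rw [Subgroup.mem_comap, hl]; exact hA a ha a.2)
    (s₂ := ⟨N * s₁, by rw [mem_fixedField, mul_pow, hN, hsq]⟩) (by rw [Subgroup.mem_comap, hl]; exact hlow)
    (fun hm => hNF (by
      have : ((⟨N * s₁, by rw [mem_fixedField, mul_pow, hN, hsq]⟩ / ⟨s₁, hsq⟩ : fixedField P.hF) : F) ∈ F₀ := hm
      simpa [hs0] using this))
  refine ⟨fun t ht => by have := hfull ⟨t, ht⟩; rwa [Subgroup.mem_comap, hl] at this, fun e he0 he => ?_⟩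
  obtain ⟨s, hs, s00, s01, s10, s11⟩ := OrthSub.diag_mem (H.comap φ) (fun h => hb (congrArg Subtype.val h)) hup'
    hfull (e := ⟨e, he⟩) (fun h => he0 (congrArg Subtype.val h))
  exact ⟨φ s, hs, by simpa [φ] using congrArg Subtype.val s00, by simpa [φ] using congrArg Subtype.val s01,
    by simpa [φ] using congrArg Subtype.val s10, by simpa [φ] using congrArg Subtype.val s11⟩

/-- A non-rational parameter at a rational isotropic vector gives everything. -/
theorem Setting.top_of_long {d : Vec} (hd : Rat' F₀ d) (hd0 : d ≠ 0) {hdd : hh d d = 0} {c : F} (hc : c ∉ F₀)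
    (hcq : c + c ^ q = 0) (h : uT d c hdd ∈ L) : SUgl n F q ≤ L := by
  obtain ⟨τ, hτF, hτ0, hτ⟩ := P.exists_tau
  obtain ⟨u, hu, huu, hud⟩ := P.exists_dual_one hd hd0
  have hdu : hh d u = 1 := by rw [← hh_conj P.hF, hud, one_pow]
  have hτq : τ ^ q = -τ := by linear_combination hτ
  set H := planeGroup L S.le d 0 u 0 τ (hh_zero_left P.hF _) (hh_zero_left P.hF _) (hh_zero_left P.hF _)
  have hlow : ∀ a : F, uT d a hdd ∈ L → Dickson.lel (τ * a) ∈ H := fun a ha => by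
    refine ⟨_, ha, fun x h1 _ _ => by rw [uT_mulVec, h1, mul_zero, zero_smul, add_zero], fun x _ => ?_⟩
    simp only [uT_mulVec, hh_add_left P.hF, hh_smul_left P.hF, hdd, hdu, Dickson.lel00, Dickson.lel01, Dickson.lel10,
      Dickson.lel11]
    constructor <;> ring
  have hup : Dickson.uel (1 : F) ∈ H := by
    refine ⟨_, S.uT_rat P hu hτF hτ huu, fun x _ _ h3 => by rw [uT_mulVec, h3, mul_zero, zero_smul, add_zero],
      fun x _ => ?_⟩
    simp only [uT_mulVec, hh_add_left P.hF, hh_smul_left P.hF, huu, hud, Dickson.uel00, Dickson.uel01, Dickson.uel10,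
      Dickson.uel11]
    constructor <;> ring
  obtain ⟨hfull, -⟩ := P.full H one_ne_zero (one_pow q) hup (s₁ := τ * τ) (mul_ne_zero hτ0 hτ0)
    (by rw [mul_pow, hτq]; ring)
    (fun a ha haq => by
      rw [show a * (τ * τ) = τ * (a * τ) by ring]
      exact hlow _ (S.uT_rat P hd (F₀.mul_mem ha hτF) (by rw [mul_pow, haq, hτq]; ring) hdd))
    (N := c / τ) (by rw [div_pow, show c ^ q = -c by linear_combination hcq, hτq, neg_div_neg_eq])
    (fun hm => hc (by have := F₀.mul_mem hm hτF; rwa [div_mul_cancel₀ _ hτ0] at this))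
    (by rw [show c / τ * (τ * τ) = τ * c by field_simp]; exact hlow c h)
  have hcen : IsCentre q L d := by
    refine ⟨hdd, fun a ha => ?_⟩
    obtain ⟨g, hg, hgf, hgs⟩ := hfull (τ * a) (by rw [mul_pow, hτq, show a ^ q = -a by linear_combination ha]; ring)
    simp only [Dickson.lel00, Dickson.lel01, Dickson.lel10, Dickson.lel11, one_mul, zero_mul, add_zero] at hgs
    convert hg using 1
    refine Units.ext (matrix_ext_mulVec fun x => ?_)
    rw [uT_mulVec]
    obtain ⟨e1, e2⟩ := hgs x (hh_zero_right P.hF x)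
    have e2' : hh ((g : Mx) *ᵥ x) u = hh x u + a * hh x d := mul_left_cancel₀ hτ0 (by linear_combination e2)
    refine sub_eq_zero.mp ((Cfsg.Agent.Forms.isForm_herm (n := n) P.hF).nondeg _ fun z => hh_comm_zero P.hF ?_)
    set z' := z - hh z u • d - hh z d • u with hz'
    have f1 : hh z' d = 0 := by simp [hz', hh_sub_left P.hF, hh_smul_left P.hF, hdd, hud]
    have f2 : hh z' u = 0 := by simp [hz', hh_sub_left P.hF, hh_smul_left P.hF, huu, hdu]
    have hfix := hgf z' f1 (hh_zero_right P.hF _) f2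
    have e3 : hh ((g : Mx) *ᵥ x) z' = hh x z' := by
      conv_lhs => rw [← hfix]
      rw [mem_GU_iff.mp (S.le hg).1]
    have hzz : z = z' + hh z u • d + hh z d • u := by rw [hz']; abel
    rw [hzz]
    simp only [hh_sub_left P.hF, hh_add_left P.hF, hh_add_right P.hF, hh_smul_left P.hF, hh_smul_right P.hF, e1, e2',
      e3, hdd, hdu, hh_comm_zero P.hF f1]
    ring
  exact S.top_of_centres P fun x hx hxx => S.all_centres P hd hd0 hdd hcen hx hxx

omit P S in
/-- The root elements supported on a totally isotropic plane. -/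
def PMem (L : Subgroup (GL (Fin n) F)) (q : ℕ) (l l' : Fin n → F) (a b d : F) : Prop :=
  ∃ g ∈ L, ∀ y, (g : Matrix (Fin n) (Fin n) F) *ᵥ y = y +
    (a * Cfsg.hermForm n F q y l + b * Cfsg.hermForm n F q y l') • l +
    (-b ^ q * Cfsg.hermForm n F q y l + d * Cfsg.hermForm n F q y l') • l'

/-- A plane root element with non-rational entries gives everything. -/
theorem Setting.top_or_rat {l l' : Vec} (hl : Rat' F₀ l) (hl' : Rat' F₀ l') (hll : hh l l = 0)
    (hll'' : hh l' l' = 0) (hll' : hh l l' = 0) (hl0 : l ≠ 0) (hind : ∀ k : F, l' ≠ k • l) {α β τ : F}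
    (hτF : τ ∈ F₀) (hτ0 : τ ≠ 0) (hτ : τ + τ ^ q = 0) {hv : hh (α • l + β • l') (α • l + β • l') = 0}
    (h : uT (α • l + β • l') τ hv ∈ L) (htop : ¬ SUgl n F q ≤ L) : α * β ^ q ∈ F₀ ∧ β * β ^ q ∈ F₀ := by
  have hl'l := hh_comm_zero P.hF hll'
  have hτq : τ ^ q = -τ := by linear_combination hτ
  obtain ⟨z₀, hz₀, hzz, hlz, hl'z⟩ := P.exists_sep hl hl0 hind
  obtain ⟨t, htF, ht⟩ := P.exists_one
  obtain ⟨ω, hωF, hω⟩ := P.exists_moved
  have hsub : ∀ {a b d a' b' d' : F}, PMem L q l l' a b d → PMem L q l l' a' b' d' →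
      PMem L q l l' (a - a') (b - b') (d - d') := by
    rintro a b d a' b' d' ⟨g, hg, hga⟩ ⟨g', hg', hga'⟩
    refine ⟨g * g'⁻¹, L.mul_mem hg (L.inv_mem hg'), fun y => ?_⟩
    obtain ⟨x, rfl⟩ : ∃ x, (g' : Mx) *ᵥ x = y := ⟨((g'⁻¹ : GL (Fin n) F) : Mx) *ᵥ y, by
      rw [Matrix.mulVec_mulVec, ← Units.val_mul, mul_inv_cancel, Units.val_one, Matrix.one_mulVec]⟩
    rw [Matrix.mulVec_mulVec, ← Units.val_mul, inv_mul_cancel_right, hga, hga']
    simp only [hh_add_left P.hF, hh_smul_left P.hF, hll, hll'', hll', hl'l, pow_sub_q P.hF]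
    module
  have hlong : ∀ {a : F}, a + a ^ q = 0 → PMem L q l l' a 0 0 → a ∈ F₀ := by
    rintro a ha ⟨g, hg, hga⟩
    by_contra hna
    refine htop (S.top_of_long P hl hl0 (hdd := hll) hna ha ?_)
    convert hg using 1
    refine Units.ext (matrix_ext_mulVec fun y => ?_)
    rw [uT_mulVec, hga]
    simp [zero_pow_q P.hF]
  have hshear : ∀ {a b d : F}, d + d ^ q = 0 → PMem L q l l' a b d → ∀ k ∈ F₀,
      PMem L q l l' (b * k ^ q - k * b ^ q + d * (k * k ^ q)) (d * k) 0 := by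
    intro a b d hd hm k hk
    set z := (-k / hh l' z₀) ^ q • z₀ with hz
    have hzF : Rat' F₀ z := OrthSub.rat_smul (P.q_mem (F₀.div_mem (F₀.neg_mem hk) (P.rat_hh hl' hz₀))) hz₀
    have hzl : hh l z = 0 := by rw [hz, hh_smul_right P.hF, hlz, mul_zero]
    have hzl' : hh l' z = -k := by rw [hz, hh_smul_right P.hF, pow_q_q P.hF, div_mul_cancel₀ _ hl'z]
    have hzz' : hh z z = 0 := by rw [hz, hh_smul_left P.hF, hh_smul_right P.hF, hzz, mul_zero, mul_zero]
    obtain ⟨e, he, hea⟩ := S.eW_rat P hl hzF hll hzz' hzl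
    have i1 : (e : Mx) *ᵥ l = l := by rw [hea, hll, hzl]; simp
    have i2 : (e : Mx) *ᵥ l' = l' + k • l := by rw [hea, hl'l, hzl']; module
    have hU := mem_GU_iff.mp (S.le he).1
    obtain ⟨g, hg, hga⟩ := hm
    have h1 : PMem L q l l' (a + b * k ^ q - k * b ^ q + d * (k * k ^ q)) (b + d * k) d := by
      refine ⟨e * g * e⁻¹, L.mul_mem (L.mul_mem he hg) (L.inv_mem he), fun y => ?_⟩
      obtain ⟨x, rfl⟩ : ∃ x, (e : Mx) *ᵥ x = y := ⟨((e⁻¹ : GL (Fin n) F) : Mx) *ᵥ y, by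
        rw [Matrix.mulVec_mulVec, ← Units.val_mul, mul_inv_cancel, Units.val_one, Matrix.one_mulVec]⟩
      have f1 : hh ((e : Mx) *ᵥ x) l = hh x l := by
        conv_lhs => arg 5; rw [← i1]
        rw [hU]
      have f2 : hh ((e : Mx) *ᵥ x) l' = hh x l' - k ^ q * hh x l := by
        have := hU x l'
        rw [i2, hh_add_right P.hF, hh_smul_right P.hF, f1] at this
        linear_combination this
      rw [Matrix.mulVec_mulVec, ← Units.val_mul, inv_mul_cancel_right, Units.val_mul, ← Matrix.mulVec_mulVec, hga,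
        Matrix.mulVec_add, Matrix.mulVec_add, Matrix.mulVec_smul, Matrix.mulVec_smul, i1, i2, f1, f2,
        pow_add_q P.hF, mul_pow, show d ^ q = -d by linear_combination hd]
      module
    have := hsub h1 ⟨g, hg, hga⟩
    convert this using 1 <;> ring
  have hrat : ∀ k ∈ F₀, ∀ d ∈ F₀, d + d ^ q = 0 → PMem L q l l' (d * (k * k ^ q)) (d * k) 0 := by
    intro k hk d hd hdq
    have hq : d ^ q = -d := by linear_combination hdq
    have hv' : hh (k • l + l') (k • l + l') = 0 := by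
      simp [hh_add_left P.hF, hh_add_right P.hF, hh_smul_left P.hF, hh_smul_right P.hF, hll, hll'', hll', hl'l]
    refine ⟨uT _ d hv' * uT l' (-d) hll'', L.mul_mem (S.uT_rat P (OrthSub.rat_add (OrthSub.rat_smul hk hl) hl') hd hdq hv')
      (S.uT_rat P hl' (F₀.neg_mem hd) (trace_zero_neg P.hF hdq) hll''), fun y => ?_⟩
    simp only [Units.val_mul, ← Matrix.mulVec_mulVec, uT_mulVec, hh_add_left P.hF, hh_add_right P.hF,
      hh_smul_left P.hF, hh_smul_right P.hF, hll'', hl'l, mul_pow, hq]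
    module
  set b := τ * (α * β ^ q) with hb
  set d := τ * (β * β ^ q) with hd
  have hdq : d + d ^ q = 0 := by rw [hd, mul_pow, norm_fixed P.hF, ← add_mul, hτ, zero_mul]
  have hm : PMem L q l l' (τ * (α * α ^ q)) b d := by
    refine ⟨_, h, fun y => ?_⟩
    rw [uT_mulVec, hb, hd, mul_pow, mul_pow, pow_q_q P.hF, hτq]
    simp only [hh_add_right P.hF, hh_smul_right P.hF]
    module
  have hd' : d ∈ F₀ := by
    have h1 := hsub (hsub (hshear hdq hm (t + 1) (F₀.add_mem htF F₀.one_mem)) (hshear hdq hm t htF))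
      (hshear hdq hm 1 F₀.one_mem)
    refine hlong hdq ?_
    convert h1 using 1
    · rw [pow_add_q P.hF, one_pow]; linear_combination (-d) * ht
    all_goals ring
  have hk : ∀ k ∈ F₀, b * k ^ q - k * b ^ q ∈ F₀ := fun k hk => by
    have h1 := hsub (hshear hdq hm k hk) (hrat k hk d hd' hdq)
    rw [add_sub_cancel_right, sub_self, sub_self] at h1
    refine hlong ?_ h1
    rw [pow_sub_q P.hF, mul_pow b (k ^ q), mul_pow k (b ^ q), pow_q_q P.hF k, pow_q_q P.hF b]; ring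
  have hbF : b ∈ F₀ := by
    have h1 := F₀.sub_mem (hk ω hωF) (F₀.mul_mem hωF (hk 1 F₀.one_mem))
    rw [one_pow, mul_one, one_mul, show b * ω ^ q - ω * b ^ q - ω * (b - b ^ q) = b * (ω ^ q - ω) by ring] at h1
    have h2 := F₀.div_mem h1 (F₀.sub_mem (P.q_mem hωF) hωF)
    rwa [mul_div_cancel_right₀ _ (sub_ne_zero.mpr hω)] at h2
  constructor
  · have := F₀.div_mem hbF hτF
    rwa [hb, mul_div_cancel_left₀ _ hτ0] at this
  · have := F₀.div_mem hd' hτF
    rwa [hd, mul_div_cancel_left₀ _ hτ0] at this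

/-- A centre with a non-rational ratio on a rational totally isotropic plane gives everything. -/
theorem Setting.top_of_pair {l l' u : Vec} (hl : Rat' F₀ l) (hl' : Rat' F₀ l') (hll : hh l l = 0)
    (hll'' : hh l' l' = 0) (hll' : hh l l' = 0) (hk : hh l u ≠ 0) (hbad : hh l' u / hh l u ∉ F₀)
    {τ : F} (hτF : τ ∈ F₀) (hτ0 : τ ≠ 0) (hτ : τ + τ ^ q = 0) {huu : hh u u = 0} (hu : uT u τ huu ∈ L) :
    SUgl n F q ≤ L := by
  by_contra htop
  have hτq : τ ^ q = -τ := by linear_combination hτ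
  have hl'l := hh_comm_zero P.hF hll'
  have hl0 : l ≠ 0 := fun e => hk (by rw [e, hh_zero_left P.hF])
  set k := hh l u with hk'
  set lam := hh l' u / k with hlam
  have hl'u : hh l' u = lam * k := (div_mul_cancel₀ _ hk).symm
  have huk : hh u l = k ^ q := (hh_conj P.hF l u).symm
  have hind : ∀ a : F, l' ≠ a • l := fun a e => by
    obtain ⟨z, hz, -, hzl⟩ := P.exists_dual_one hl hl0
    have h1 : hh z l' = a ^ q := by rw [e, hh_smul_right P.hF, hzl, mul_one]
    have haF : a ∈ F₀ := by rw [← pow_q_q P.hF a, ← h1]; exact P.q_mem (P.rat_hh hz hl')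
    exact hbad (by rw [hlam, e, hh_smul_left P.hF, mul_div_assoc, div_self hk, mul_one]; exact haF)
  set w₀ : Vec := lam • l - l' with hw₀
  have hwl : hh w₀ l = 0 := by simp [hw₀, hh_sub_left P.hF, hh_smul_left P.hF, hll, hl'l]
  have hwl' : hh w₀ l' = 0 := by simp [hw₀, hh_sub_left P.hF, hh_smul_left P.hF, hll', hll'']
  have hwu : hh w₀ u = 0 := by simp [hw₀, hh_sub_left P.hF, hh_smul_left P.hF, ← hk', hl'u]
  have hdom : ∀ x : Vec, hh x w₀ = 0 → hh x l' = lam ^ q * hh x l := fun x hx => by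
    rw [hw₀, hh_sub_right P.hF, hh_smul_right P.hF, sub_eq_zero] at hx
    exact hx.symm
  set ν := τ / k with hν
  have hνk : ν * k = τ := div_mul_cancel₀ _ hk
  set H := planeGroup L S.le l l' u w₀ ν hwl hwl' hwu
  have hlow : ∀ c ∈ F₀, ∀ d ∈ F₀, ∀ a ∈ F₀, a + a ^ q = 0 →
      Dickson.lel (a * τ * ((c + d * lam) * (c + d * lam) ^ q)) ∈ H := by
    intro c hc d hd a ha ha'
    have hz : Rat' F₀ (c • l + d • l') := OrthSub.rat_add (OrthSub.rat_smul hc hl) (OrthSub.rat_smul hd hl')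
    have hzz : hh (c • l + d • l') (c • l + d • l') = 0 := by
      simp [hh_add_left P.hF, hh_add_right P.hF, hh_smul_left P.hF, hh_smul_right P.hF, hll, hll'', hll', hl'l]
    refine ⟨_, S.uT_rat P hz ha ha' hzz, fun x h1 h2 _ => ?_, fun x hx => ?_⟩
    · rw [uT_mulVec, hh_add_right P.hF, hh_smul_right P.hF, hh_smul_right P.hF, h1, h2, mul_zero, mul_zero, add_zero,
        mul_zero, zero_smul, add_zero]
    · simp only [uT_mulVec, hh_add_left P.hF, hh_add_right P.hF, hh_smul_left P.hF, hh_smul_right P.hF, hll, hl'l,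
        hl'u, ← hk', hdom x hx, pow_add_q P.hF, mul_pow, Dickson.lel00, Dickson.lel01, Dickson.lel10, Dickson.lel11,
        ← hνk]
      constructor <;> ring
  have hup : Dickson.uel (k * k ^ q) ∈ H := by
    refine ⟨_, hu, fun x _ _ h3 => by rw [uT_mulVec, h3, mul_zero, zero_smul, add_zero], fun x _ => ?_⟩
    simp only [uT_mulVec, hh_add_left P.hF, hh_smul_left P.hF, huu, huk, Dickson.uel00, Dickson.uel01, Dickson.uel10,
      Dickson.uel11, ← hνk]
    constructor <;> ring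
  obtain ⟨ω, hωF, hω⟩ := P.exists_moved
  obtain ⟨c, hc, d, hd, hN⟩ : ∃ c ∈ F₀, ∃ d ∈ F₀, (c + d * lam) * (c + d * lam) ^ q ∉ F₀ := by
    by_contra hcon
    push Not at hcon
    have h1 := hcon 0 F₀.zero_mem 1 F₀.one_mem
    rw [zero_add, one_mul] at h1
    have h2 := hcon 1 F₀.one_mem 1 F₀.one_mem
    rw [one_mul, pow_add_q P.hF, one_pow] at h2
    have h3 := hcon ω hωF 1 F₀.one_mem
    rw [one_mul, pow_add_q P.hF] at h3
    have hsum : lam + lam ^ q ∈ F₀ := by
      have := F₀.sub_mem (F₀.sub_mem h2 h1) F₀.one_mem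
      convert this using 1; ring
    have hsum' : ω ^ q * lam + ω * lam ^ q ∈ F₀ := by
      have := F₀.sub_mem (F₀.sub_mem h3 h1) (F₀.mul_mem hωF (P.q_mem hωF))
      convert this using 1; ring
    have h4 := F₀.div_mem (F₀.sub_mem hsum' (F₀.mul_mem hωF hsum)) (F₀.sub_mem (P.q_mem hωF) hωF)
    rw [show ω ^ q * lam + ω * lam ^ q - ω * (lam + lam ^ q) = lam * (ω ^ q - ω) by ring,
      mul_div_cancel_right₀ _ (sub_ne_zero.mpr hω)] at h4
    exact hbad h4
  obtain ⟨-, hdiag⟩ := P.full H (mul_ne_zero hk (pow_ne_zero _ hk)) (norm_fixed P.hF k) hup (s₁ := τ * τ)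
    (mul_ne_zero hτ0 hτ0) (by rw [mul_pow, hτq]; ring)
    (fun a ha haq => by
      have := hlow 1 F₀.one_mem 0 F₀.zero_mem (a * τ) (F₀.mul_mem ha hτF) (by rw [mul_pow, haq, hτq]; ring)
      simpa [mul_assoc] using this)
    (norm_fixed P.hF (c + d * lam)) hN
    (by rw [mul_comm]; exact hlow c hc d hd τ hτF hτ)
  obtain ⟨e, heq, heF⟩ := P.exists_fixed_outside
  have he0 : e ≠ 0 := fun h => heF (h ▸ F₀.zero_mem)
  have he1 : e - 1 ≠ 0 := sub_ne_zero.mpr fun h => heF (h ▸ F₀.one_mem)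
  obtain ⟨s, ⟨g, hg, hgf, hgs⟩, s00, s01, s10, s11⟩ := hdiag e he0 heq
  simp only [s00, s01, s10, s11, zero_mul, add_zero, zero_add] at hgs
  have hgU := mem_GU_iff.mp (S.le hg).1
  have hgw : (g : Mx) *ᵥ w₀ = w₀ := hgf w₀ hwl hwl' hwu
  have hlw : hh l w₀ = 0 := hh_comm_zero P.hF hwl
  obtain ⟨hs0, hs1⟩ := hgs l hlw
  rw [hll, mul_zero] at hs0
  obtain ⟨α, β, γ, hgl⟩ : ∃ α β γ : F, (g : Mx) *ᵥ l = α • l + β • l' + γ • u := by
    let Lf : Fin 3 → (Vec →ₗ[F] F) := ![Cfsg.Agent.Forms.hermB n P.hF l, Cfsg.Agent.Forms.hermB n P.hF l',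
      Cfsg.Agent.Forms.hermB n P.hF u]
    have hsp : Cfsg.Agent.Forms.hermB n P.hF ((g : Mx) *ᵥ l) ∈ Submodule.span F (Set.range Lf) := by
      refine mem_span_of_iInf_ker_le_ker fun x hx => ?_
      rw [Submodule.mem_iInf] at hx
      have e1 : hh x l = 0 := hx 0
      have e2 : hh x l' = 0 := hx 1
      have e3 : hh x u = 0 := hx 2
      show hh x ((g : Mx) *ᵥ l) = 0
      conv_lhs => rw [← hgf x e1 e2 e3]
      rw [hgU, e1]
    obtain ⟨c, hc⟩ := (Submodule.mem_span_range_iff_exists_fun F).mp hsp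
    refine ⟨c 0 ^ q, c 1 ^ q, c 2 ^ q, P.eq_of_unit fun i => ?_⟩
    have h1 := LinearMap.congr_fun hc (Pi.single i 1)
    simp [Fin.sum_univ_three, Lf] at h1
    rw [hh_add_right P.hF, hh_add_right P.hF, hh_smul_right P.hF, hh_smul_right P.hF, hh_smul_right P.hF,
      pow_q_q P.hF, pow_q_q P.hF, pow_q_q P.hF]
    linear_combination -h1
  have hγ : γ = 0 := by
    rw [hgl, hh_add_left P.hF, hh_add_left P.hF, hh_smul_left P.hF, hh_smul_left P.hF, hh_smul_left P.hF, hll, hl'l,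
      huk, mul_zero, mul_zero, zero_add, zero_add] at hs0
    exact (mul_eq_zero.mp hs0).resolve_right (pow_ne_zero _ hk)
  subst hγ
  rw [zero_smul, add_zero] at hgl
  have hdet : α + β * lam = e := by
    rw [hgl, hh_add_left P.hF, hh_smul_left P.hF, hh_smul_left P.hF, ← hk', hl'u] at hs1
    exact mul_right_cancel₀ (mul_ne_zero (div_ne_zero hτ0 hk) hk) (by linear_combination hs1)
  set a := lam * α - lam
  set b := lam * β + 1
  have hgl' : (g : Mx) *ᵥ l' = a • l + b • l' := by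
    have h1 : l' = lam • l - w₀ := by rw [hw₀, sub_sub_cancel]
    conv_lhs => rw [h1]
    rw [Matrix.mulVec_sub, Matrix.mulVec_smul, hgl, hgw, hw₀]
    module
  have hkey : ∀ c d : F, c ∈ F₀ → d ∈ F₀ →
      (c * α + d * a) * (c * β + d * b) ^ q ∈ F₀ ∧ (c * β + d * b) * (c * β + d * b) ^ q ∈ F₀ := by
    intro c d hc hd
    have hv : hh (c • l + d • l') (c • l + d • l') = 0 := by
      simp [hh_add_left P.hF, hh_add_right P.hF, hh_smul_left P.hF, hh_smul_right P.hF, hll, hll'', hll', hl'l]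
    have himg : (g : Mx) *ᵥ (c • l + d • l') = (c * α + d * a) • l + (c * β + d * b) • l' := by
      rw [Matrix.mulVec_add, Matrix.mulVec_smul, Matrix.mulVec_smul, hgl, hgl']; module
    have h1 := S.uT_conj P hg
      (S.uT_rat P (OrthSub.rat_add (OrthSub.rat_smul hc hl) (OrthSub.rat_smul hd hl')) hτF hτ hv)
    rw [himg] at h1
    obtain ⟨hw, hm⟩ := h1
    exact S.top_or_rat P hl hl' hll hll'' hll' hl0 hind hτF hτ0 hτ hm htop
  have hdiv : ∀ x y : F, x * y ^ q ∈ F₀ ∧ y * y ^ q ∈ F₀ → y ≠ 0 → x / y ∈ F₀ := fun x y h hy => by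
    have := F₀.div_mem h.1 h.2
    rwa [mul_div_mul_right _ _ (pow_ne_zero _ hy)] at this
  have k1 := hkey 1 0 F₀.one_mem F₀.zero_mem
  have k2 := hkey 0 1 F₀.zero_mem F₀.one_mem
  have k3 := hkey 1 1 F₀.one_mem F₀.one_mem
  simp only [one_mul, zero_mul, add_zero, zero_add] at k1 k2 k3
  by_cases hβ : β = 0
  · have hα : α = e := by rw [← hdet, hβ, zero_mul, add_zero]
    have hb1 : b = 1 := by simp [b, hβ]
    have m1 := hdiv _ _ k2 (by rw [hb1]; exact one_ne_zero)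
    rw [hb1, div_one] at m1
    have m2 := hdiv _ _ k3 (by rw [hb1, hβ, zero_add]; exact one_ne_zero)
    rw [hb1, hβ, zero_add, div_one] at m2
    exact heF (hα ▸ by simpa using F₀.sub_mem m2 m1)
  have hρ := hdiv _ _ k1 hβ
  set ρ := α / β with hρ'
  have hαρ : α = ρ * β := (div_mul_cancel₀ _ hβ).symm
  by_cases hb0 : b = 0
  · have m3 := hdiv _ _ k3 (by rw [hb0, add_zero]; exact hβ)
    rw [hb0, add_zero] at m3
    refine P.not_quadratic hbad (a := 1) (b := ρ) (c := ρ - (α + a) / β) F₀.one_mem hρ (F₀.sub_mem hρ m3) one_ne_zero ?_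
    have hlb : lam * β = -1 := by linear_combination hb0
    have h3 : (α + a) / β = ρ + lam * ρ + lam ^ 2 := by
      rw [div_eq_iff hβ]
      simp only [a, hαρ]
      linear_combination (-lam) * hlb
    rw [h3]; ring
  have hσ := hdiv _ _ k2 hb0
  set σ := a / b with hσ'
  have haσ : a = σ * b := (div_mul_cancel₀ _ hb0).symm
  have hls : lam + σ ≠ 0 := fun h0 => hbad (by
    rw [show lam = -σ by linear_combination h0]; exact F₀.neg_mem hσ)
  have hrel : β * (lam * (ρ - σ)) = lam + σ := by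
    simp only [a, b, hαρ] at haσ
    linear_combination haσ
  have hρσ : ρ - σ ≠ 0 := fun h0 => hls (by rw [← hrel, h0, mul_zero, mul_zero])
  obtain ⟨μ, hμF, hμ⟩ : ∃ μ ∈ F₀, b = μ * β := by
    by_cases hbb : β + b = 0
    · exact ⟨-1, F₀.neg_mem F₀.one_mem, by linear_combination hbb⟩
    have ht := hdiv _ _ k3 hbb
    set t := (α + a) / (β + b) with ht'
    have ht2 : t * (β + b) = α + a := div_mul_cancel₀ _ hbb
    rw [hαρ, haσ] at ht2
    have hts : t - σ ≠ 0 := fun h0 => hρσ ((mul_eq_zero.mp (show (ρ - σ) * β = 0 by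
      linear_combination (β + b) * h0 - ht2)).resolve_right hβ)
    refine ⟨(ρ - t) / (t - σ), F₀.div_mem (F₀.sub_mem hρ ht) (F₀.sub_mem ht hσ), ?_⟩
    field_simp
    linear_combination ht2
  refine P.not_quadratic hbad (a := 1) (b := ρ - μ) (c := -(μ * σ)) F₀.one_mem (F₀.sub_mem hρ hμF)
    (F₀.neg_mem (F₀.mul_mem hμF hσ)) one_ne_zero ?_
  have hb' : lam * β + 1 = μ * β := hμ
  refine mul_left_cancel₀ hβ ?_
  linear_combination hrel + (lam + σ) * hb'

/-- An image of a rational isotropic vector off the scaled rational ones gives everything. -/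
theorem Setting.top_of_unscaled {g : GL (Fin n) F} (hg : g ∈ L) {a : Vec} (ha : Rat' F₀ a) (haa : hh a a = 0)
    {i j : Fin n} (hj : ((g : Mx) *ᵥ a) j ≠ 0) (hbad : ((g : Mx) *ᵥ a) i / ((g : Mx) *ᵥ a) j ∉ F₀) :
    SUgl n F q ≤ L := by
  obtain ⟨τ, hτF, hτ0, hτ⟩ := P.exists_tau
  obtain ⟨huu, hu⟩ := S.uT_conj P hg (S.uT_rat P ha hτF hτ haa)
  set u := (g : Mx) *ᵥ a with hu'
  have hdim := P.dim
  by_contra htop
  have hcon : ∀ l l', Rat' F₀ l → Rat' F₀ l' → hh l l = 0 → hh l' l' = 0 → hh l l' = 0 → hh l u ≠ 0 →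
      hh l' u / hh l u ∈ F₀ := fun l l' hl hl' e1 e2 e3 hk => by
    by_contra hb
    exact htop (S.top_of_pair P hl hl' e1 e2 e3 hk hb hτF hτ0 hτ hu)
  have hbase : ∀ z, Rat' F₀ z → hh z z = 0 → hh z u ≠ 0 → ∀ x, Rat' F₀ x → hh z x = 0 → hh x u / hh z u ∈ F₀ := by
    intro z hz hzz hzu x hx hzx
    set ψ := OrthSub.frob F₀
    set c : Fin n → F := fun i => hh (Pi.single i 1) u / hh z u
    let φ : Vec →ₗ[F] F := ∑ i, (ψ (c i) - c i) • (LinearMap.proj i : Vec →ₗ[F] F)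
    have hval : ∀ y, Rat' F₀ y → φ y = ψ (hh y u / hh z u) - hh y u / hh z u := by
      intro y hy
      have hy' : hh y u / hh z u = ∑ i, y i * c i := by
        have h1 : hh y u = ∑ i, y i * hh (Pi.single i 1) u := by
          show Cfsg.Agent.Forms.hermB n P.hF u y = _
          conv_lhs => rw [OrthSub.expand y]
          rw [map_sum]
          exact Finset.sum_congr rfl fun i _ => by rw [map_smul, smul_eq_mul]; rfl
        rw [h1, Finset.sum_div]
        exact Finset.sum_congr rfl fun i _ => mul_div_assoc _ _ _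
      rw [hy', map_sum, ← Finset.sum_sub_distrib]
      simp only [φ, LinearMap.sum_apply, LinearMap.smul_apply, LinearMap.proj_apply, smul_eq_mul]
      exact Finset.sum_congr rfl fun i _ => by rw [map_mul, OrthSub.frob_fix (hy i)]; ring
    have h := P.kills [z] (by simp [hz]) (by simp; omega) φ (fun y hy hyy h => by
      rw [hval y hy, OrthSub.frob_fix (hcon z y hz hy hzz hyy (h z (by simp)) hzu), sub_self]) hx (by simp [hzx])
    rw [hval x hx, sub_eq_zero] at h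
    exact OrthSub.mem_of_frob h
  have hu0 : u ≠ 0 := fun e => hj (congrFun e j)
  obtain ⟨l, hl, hll, hlu⟩ := P.exists_dual hu0
  obtain ⟨e, e', he, he', hee, hee', hep, hperp⟩ := P.pair [l] (by simp [hl]) (by simp; omega)
  obtain ⟨hle, hle'⟩ := hperp l (by simp)
  have hel := hh_comm_zero P.hF hle
  obtain ⟨z, hz, hzz, hlz, hze, hzu⟩ : ∃ z, Rat' F₀ z ∧ hh z z = 0 ∧ hh l z = 0 ∧ hh z e' = 1 ∧ hh z u ≠ 0 := by
    by_cases h0 : hh e u = 0
    · exact ⟨l + e, OrthSub.rat_add hl he, by simp [hh_add_left P.hF, hh_add_right P.hF, hll, hee, hle, hel],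
        by rw [hh_add_right P.hF, hll, hle, add_zero], by rw [hh_add_left P.hF, hle', hep, zero_add],
        by rw [hh_add_left P.hF, h0, add_zero]; exact hlu⟩
    · exact ⟨e, he, hee, hle, hep, h0⟩
  have hall : ∀ x, Rat' F₀ x → hh x u / hh l u ∈ F₀ := by
    intro x hx
    have hzl := hbase l hl hll hlu z hz hlz
    set t := hh x z
    have htF : t ∈ F₀ := P.rat_hh hx hz
    have h1 := hbase z hz hzz hzu (x - t • e') (OrthSub.rat_sub hx (OrthSub.rat_smul htF he')) (hh_comm_zero P.hF (by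
      rw [hh_sub_left P.hF, hh_smul_left P.hF, ← hh_conj P.hF z e', hze, one_pow, mul_one, sub_self]))
    have h2 := hbase l hl hll hlu e' he' hle'
    have h3 := F₀.add_mem (F₀.mul_mem h1 hzl) (F₀.mul_mem htF h2)
    rw [hh_sub_left P.hF, hh_smul_left P.hF] at h3
    convert h3 using 1
    field_simp
    ring
  refine hbad ?_
  have hi : ∀ i, hh (Pi.single i 1) u = u i ^ q := fun i => by
    simp [Cfsg.hermForm, Pi.single_apply, Finset.sum_ite_eq']
  have h1 := F₀.div_mem (hall _ (rat_one i)) (hall _ (rat_one j))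
  rw [hi, hi, div_div_div_cancel_right₀ hlu, ← div_pow] at h1
  rw [← pow_q_q P.hF (u i / u j)]
  exact P.q_mem h1

omit S in
theorem Field'.scaled_of_iso {g : GL (Fin n) F} (hgU : ∀ u v, hh ((g : Mx) *ᵥ u) ((g : Mx) *ᵥ v) = hh u v)
    (hall : ∀ a, Rat' F₀ a → hh a a = 0 → ∀ i j, ((g : Mx) *ᵥ a) j ≠ 0 →
      ((g : Mx) *ᵥ a) i / ((g : Mx) *ᵥ a) j ∈ F₀) :
    ∀ v, Rat' F₀ v → ∀ i j, ((g : Mx) *ᵥ v) j ≠ 0 → ((g : Mx) *ᵥ v) i / ((g : Mx) *ᵥ v) j ∈ F₀ := by
  have hdim := P.dim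
  set ψ := OrthSub.frob F₀ with hψ
  have hψq : ∀ x : F, ψ (x ^ q) = ψ x ^ q := fun x => map_pow ψ x q
  have hconj : ∀ x y : Vec, hh (fun i => ψ (x i)) (fun i => ψ (y i)) = ψ (hh x y) := fun x y => by
    simp only [Cfsg.hermForm, map_sum, map_mul, hψq]
  have hex : ∀ a, Rat' F₀ a → hh a a = 0 → ∃ κ : F, (fun i => ψ (((g : Mx) *ᵥ a) i)) = κ • ((g : Mx) *ᵥ a) := by
    intro a ha haa
    by_cases h0 : (g : Mx) *ᵥ a = 0
    · exact ⟨0, funext fun i => by rw [h0]; simp⟩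
    obtain ⟨j, hj⟩ : ∃ j, ((g : Mx) *ᵥ a) j ≠ 0 := Function.ne_iff.mp h0
    refine ⟨ψ (((g : Mx) *ᵥ a) j) / ((g : Mx) *ᵥ a) j, funext fun i => ?_⟩
    have h1 := OrthSub.frob_fix (hall a ha haa i j hj)
    rw [map_div₀, div_eq_iff (by simpa using hj)] at h1
    rw [Pi.smul_apply, smul_eq_mul, h1]
    field_simp
    rw [hψ]
  have hpair : ∀ (a b : Vec) (κ κ' : F), Rat' F₀ a → Rat' F₀ b → hh a b ≠ 0 →
      (fun i => ψ (((g : Mx) *ᵥ a) i)) = κ • ((g : Mx) *ᵥ a) →
      (fun i => ψ (((g : Mx) *ᵥ b) i)) = κ' • ((g : Mx) *ᵥ b) → κ * κ' ^ q = 1 := by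
    intro a b κ κ' ha hb hab h1 h2
    have h3 := hconj ((g : Mx) *ᵥ a) ((g : Mx) *ᵥ b)
    rw [h1, h2, hh_smul_left P.hF, hh_smul_right P.hF, hgU, OrthSub.frob_fix (P.rat_hh ha hb)] at h3
    exact mul_right_cancel₀ hab (by linear_combination h3)
  obtain ⟨a₀, a₁, ha₀, -, ha₀₀, -, ha₀', -⟩ := P.pair [] (by simp) (by simp; omega)
  have ha₀0 : a₀ ≠ 0 := fun h => zero_ne_one (α := F) (by rw [← ha₀', h, hh_zero_left P.hF])
  obtain ⟨κ, hκ⟩ := hex a₀ ha₀ ha₀₀
  have hiso : ∀ a, Rat' F₀ a → hh a a = 0 → ∀ i, ψ (((g : Mx) *ᵥ a) i) = κ * ((g : Mx) *ᵥ a) i := by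
    intro a ha haa i
    rcases eq_or_ne a 0 with rfl | ha0
    · simp
    obtain ⟨w, hw, hww, hw0, hwa⟩ := P.exists_both ha₀ ha ha₀0 ha0
    obtain ⟨κ₁, hκ₁⟩ := hex w hw hww
    obtain ⟨κ₂, hκ₂⟩ := hex a ha haa
    have h1 := hpair a₀ w κ κ₁ ha₀ hw hw0 hκ hκ₁
    have h2 := hpair a w κ₂ κ₁ ha hw hwa hκ₂ hκ₁
    rw [show ψ (((g : Mx) *ᵥ a) i) = κ₂ * ((g : Mx) *ᵥ a) i from congrFun hκ₂ i,
      mul_right_cancel₀ (right_ne_zero_of_mul_eq_one h1) (h2.trans h1.symm)]
  intro v hv i j hj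
  have hlin : ∀ i, ψ (((g : Mx) *ᵥ v) i) = κ * ((g : Mx) *ᵥ v) i := by
    intro i
    set φ : Vec →ₗ[F] F := ∑ k, (ψ ((g : Mx) i k) - κ * (g : Mx) i k) • (LinearMap.proj k : Vec →ₗ[F] F) with hφ
    have hval : ∀ y, Rat' F₀ y → φ y = ψ (((g : Mx) *ᵥ y) i) - κ * ((g : Mx) *ᵥ y) i := fun y hy => by
      simp only [hφ, LinearMap.sum_apply, LinearMap.smul_apply, LinearMap.proj_apply, smul_eq_mul, Matrix.mulVec,
        dotProduct, map_sum, Finset.mul_sum, ← Finset.sum_sub_distrib]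
      exact Finset.sum_congr rfl fun k _ => by rw [map_mul, OrthSub.frob_fix (hy k)]; ring
    have h := P.kills [] (by simp) (by simp; omega) φ
      (fun c hc hcc _ => by rw [hval c hc, hiso c hc hcc i, sub_self]) hv (by simp)
    rwa [hval v hv, sub_eq_zero] at h
  refine OrthSub.mem_of_frob ?_
  rw [← hψ, map_div₀, hlin i, hlin j, mul_div_mul_left]
  intro e
  have := hlin j
  rw [e, zero_mul, map_eq_zero] at this
  exact hj this

omit S in
/-- The standard subfield group is maximal. -/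
theorem Field'.maximal :
    Cfsg.Geo.IsMaximalIn (SUgl n F q)
      (((Matrix.GeneralLinearGroup.map (n := Fin n) (F₀.subtype : F₀ →+* F)).range ⊔ Cfsg.Geo.scalars (Fin n) F) ⊓
        SUgl n F q) := by
  have hn := P.dim
  haveI : Nonempty (Fin n) := ⟨⟨0, by omega⟩⟩
  refine ⟨lt_of_le_of_ne inf_le_right fun heq => ?_, fun L hH hL => ?_⟩
  · obtain ⟨τ, hτF, hτ0, hτ⟩ := P.exists_tau
    obtain ⟨e, heq', heF⟩ := P.exists_fixed_outside
    obtain ⟨d, d', hd, hd', hdd, -, hp, -⟩ := P.pair [] (by simp) (by simp; omega)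
    have hc : τ * e + (τ * e) ^ q = 0 := by rw [mul_pow, heq', ← add_mul, hτ, zero_mul]
    obtain ⟨c, hc0, hcm⟩ := SubfieldScaled.scaled_of_mem F₀
      (Subgroup.mem_inf.mp (heq.symm ▸ uT_mem P.hF d (τ * e) hdd hc)).1
    have hent : ∀ v : Vec, Rat' F₀ v → ∀ i, c * (v i + τ * e * hh v d * d i) ∈ F₀ := by
      intro v hv i
      have h1 : c * (((uT d (τ * e) hdd : GL (Fin n) F) : Mx) *ᵥ v) i ∈ F₀ := by
        rw [Matrix.mulVec, dotProduct, Finset.mul_sum]
        exact F₀.sum_mem fun k _ => by rw [← mul_assoc]; exact F₀.mul_mem (hcm i k) (hv k)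
      rw [uT_mulVec] at h1
      exact h1
    obtain ⟨i, hi⟩ : ∃ i, d i ≠ 0 := Function.ne_iff.mp fun e => zero_ne_one (α := F) (by
      rw [← hp, show d = 0 from e, hh_zero_left P.hF])
    have hcF : c ∈ F₀ := by
      have h1 := F₀.div_mem (hent d hd i) (hd i)
      rwa [hdd, mul_zero, zero_mul, add_zero, mul_div_assoc, div_self hi, mul_one] at h1
    have h2 := F₀.sub_mem (F₀.mul_mem (F₀.inv_mem hcF) (hent d' hd' i)) (hd' i)
    rw [← mul_assoc, inv_mul_cancel₀ hc0, one_mul, add_sub_cancel_left, ← hh_conj P.hF d d', hp, one_pow, mul_one] at h2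
    have h3 := F₀.div_mem (F₀.div_mem h2 (hd i)) hτF
    rw [mul_div_assoc (τ * e), div_self hi, mul_one, mul_div_cancel_left₀ _ hτ0] at h3
    exact heF h3
  · have S : Setting q F₀ L := ⟨hL, fun g hg hr =>
      hH ⟨Subgroup.mem_sup_left (SubfieldSp.mem_range_of_rat' hr), hg⟩⟩
    by_cases hall : ∀ g ∈ L, ∀ a, Rat' F₀ a → hh a a = 0 → ∀ i j, ((g : Mx) *ᵥ a) j ≠ 0 →
        ((g : Mx) *ᵥ a) i / ((g : Mx) *ᵥ a) j ∈ F₀
    · exact Or.inl (le_antisymm (le_inf (fun g hg => SubfieldScaled.mem_sup_of_images F₀ _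
        (P.scaled_of_iso (mem_GU_iff.mp (hL hg).1) (hall g hg))) hL) hH)
    · push Not at hall
      obtain ⟨g, hg, a, ha, haa, i, j, hj, hbad⟩ := hall
      exact Or.inr (le_antisymm hL (S.top_of_unscaled P hg ha haa hj hbad))

end Cfsg.Agent.GeomClasses.SubfieldSU
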