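import Mathlib
import Cfsg.Prelude.Def_GeometricClasses
import Cfsg.Agent.GeomClasses.Basic

/-! # A transvection over a subfield which does not normalise a larger embedded field -/

set_option autoImplicit false

namespace Cfsg.Agent.GeomClasses

open Matrix
open scoped MatrixGroups

variable {n : ℕ} {F : Type*} [Field F] [Fintype F]

theorem mem_subalgebraNormalizer_of_commute {L : Subalgebra F (Matrix (Fin n) (Fin n) F)} {g : GL (Fin n) F}
    (h : ∀ a ∈ L, (g : Matrix (Fin n) (Fin n) F) * a = a * (g : Matrix (Fin n) (Fin n) F)) :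
    g ∈ Cfsg.Geo.subalgebraNormalizer L := by
  intro k
  constructor
  · intro hk
    rw [h k hk, mul_assoc, ← Units.val_mul, mul_inv_cancel, Units.val_one, mul_one]
    exact hk
  · intro hk
    have h1 := h _ hk
    rw [mul_assoc _ _ (g : Matrix (Fin n) (Fin n) F), ← Units.val_mul, inv_mul_cancel, Units.val_one, mul_one] at h1
    have h2 : (g : Matrix (Fin n) (Fin n) F) * k * ((g⁻¹ : GL (Fin n) F) : Matrix (Fin n) (Fin n) F) = k :=
      g.isUnit.mul_left_cancel h1
    rwa [h2] at hk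

/-- An element of `SL_n` centralising `L` and not normalising the field `K > L`. -/
theorem exists_centralizing_not_normalizing (p : ℕ) [Fact p.Prime] [CharP F p] (hn : 0 < n) {r : ℕ} (hr : r < n)
    {K L : Subalgebra F (Matrix (Fin n) (Fin n) F)} (hK : Cfsg.Geo.IsFieldSubalgebra r K) (hLK : L < K) :
    ∃ g : GL (Fin n) F, g ∈ Cfsg.Geo.specialLinear (Fin n) F ∧ g ∈ Cfsg.Geo.subalgebraNormalizer L ∧
      g ∉ Cfsg.Geo.subalgebraNormalizer K := by
  classical
  haveI : Nonempty (Fin n) := Fin.pos_iff_nonempty.mp hn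
  obtain ⟨k, hkK, hkL⟩ := SetLike.exists_of_lt hLK
  have hk0 : k ≠ 0 := fun h => hkL (h ▸ L.zero_mem)
  have hLinv : ∀ x ∈ L, x ≠ 0 → ∃ y ∈ L, x * y = 1 := by
    intro x hx hx0
    obtain ⟨y, -, hxy⟩ := hK.inv x (hLK.le hx) hx0
    have hinj : Function.Injective (fun z : L => (⟨x * z, L.mul_mem hx z.2⟩ : L)) := by
      intro a b hab
      have hyx : y * x = 1 := mul_eq_one_comm.mp hxy
      have h1 := congrArg (fun z : L => y * (z : Matrix (Fin n) (Fin n) F)) hab
      simpa [← mul_assoc, hyx] using h1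
    obtain ⟨z, hz⟩ := Finite.surjective_of_injective hinj ⟨1, L.one_mem⟩
    exact ⟨z, z.2, congrArg Subtype.val hz⟩
  have hLfield : IsField L := by
    refine ⟨⟨0, 1, fun h => ?_⟩, fun a b => Subtype.ext (hK.comm a (hLK.le a.2) b (hLK.le b.2)), fun {a} ha => ?_⟩
    · exact zero_ne_one (α := Matrix (Fin n) (Fin n) F) (congrArg Subtype.val h)
    · obtain ⟨y, hy, hay⟩ := hLinv a a.2 (fun h => ha (Subtype.ext h))
      exact ⟨⟨y, hy⟩, Subtype.ext hay⟩
  letI : Field L := hLfield.toField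
  letI : Module L (Fin n → F) := Module.compHom (Fin n → F)
    ((Matrix.toLinAlgEquiv' : Matrix (Fin n) (Fin n) F ≃ₐ[F] _).toAlgHom.toRingHom.comp L.subtype)
  have hsmul : ∀ (a : L) (x : Fin n → F), a • x = (a : Matrix (Fin n) (Fin n) F) *ᵥ x := fun a x => rfl
  let e₁ : Fin n → F := Pi.single ⟨0, hn⟩ 1
  have he₁ : e₁ ≠ 0 := Pi.single_ne_zero_iff.mpr one_ne_zero
  have hKz : ∀ a ∈ K, a *ᵥ e₁ = 0 → a = 0 := by
    intro a ha h
    by_contra ha0
    obtain ⟨b, -, hab⟩ := hK.inv a ha ha0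
    apply he₁
    rw [← Matrix.one_mulVec e₁, ← mul_eq_one_comm.mp hab, ← Matrix.mulVec_mulVec, h, Matrix.mulVec_zero]
  obtain ⟨e₂, he₂⟩ : ∃ e₂ : Fin n → F, ∀ a ∈ K, a *ᵥ e₁ ≠ e₂ := by
    by_contra h
    push_neg at h
    haveI : Fintype K := Fintype.ofFinite K
    have h1 : Fintype.card (Fin n → F) ≤ Fintype.card K :=
      Fintype.card_le_of_surjective (fun a : K => (a : Matrix (Fin n) (Fin n) F) *ᵥ e₁)
        (fun v => by obtain ⟨a, ha, hav⟩ := h v; exact ⟨⟨a, ha⟩, hav⟩)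
    rw [Fintype.card_fun, Fintype.card_fin, Module.card_eq_pow_finrank (K := F) (V := K), hK.finrank_eq] at h1
    exact absurd ((Nat.pow_le_pow_iff_right Fintype.one_lt_card).mp h1) (not_le.mpr hr)
  let S : Submodule L (Fin n → F) :=
    { carrier := {x | ∃ a ∈ L, ∃ m ∈ K, x = a *ᵥ (k *ᵥ e₁) + m *ᵥ e₂}
      add_mem' := by
        rintro _ _ ⟨a, ha, m, hm, rfl⟩ ⟨b, hb, m', hm', rfl⟩
        exact ⟨a + b, L.add_mem ha hb, m + m', K.add_mem hm hm', by rw [Matrix.add_mulVec, Matrix.add_mulVec]; abel⟩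
      zero_mem' := ⟨0, L.zero_mem, 0, K.zero_mem, by simp⟩
      smul_mem' := by
        rintro c _ ⟨a, ha, m, hm, rfl⟩
        exact ⟨c * a, L.mul_mem c.2 ha, c * m, K.mul_mem (hLK.le c.2) hm,
          by
            show (c : Matrix (Fin n) (Fin n) F) *ᵥ _ = _
            rw [Matrix.mulVec_add, Matrix.mulVec_mulVec, Matrix.mulVec_mulVec, Matrix.mulVec_mulVec]⟩ }
  have he₁S : e₁ ∉ S := by
    rintro ⟨a, ha, m, hm, heq⟩
    by_cases hm0 : m = 0
    · subst hm0
      rw [Matrix.zero_mulVec, add_zero, Matrix.mulVec_mulVec] at heq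
      have h1 : a * k - 1 = 0 := hKz _ (K.sub_mem (K.mul_mem (hLK.le ha) hkK) K.one_mem)
        (by rw [Matrix.sub_mulVec, Matrix.one_mulVec, ← heq, sub_self])
      have hak : a * k = 1 := sub_eq_zero.mp h1
      have ha0 : a ≠ 0 := fun h => by rw [h, zero_mul] at hak; exact zero_ne_one hak
      obtain ⟨b, hb, hab⟩ := hLinv a ha ha0
      exact hkL ((left_inv_eq_right_inv (mul_eq_one_comm.mp hab) hak) ▸ hb)
    · obtain ⟨b, hb, hmb⟩ := hK.inv m hm hm0
      refine he₂ (b * (1 - a * k)) (K.mul_mem hb (K.sub_mem K.one_mem (K.mul_mem (hLK.le ha) hkK))) ?_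
      rw [← Matrix.mulVec_mulVec, Matrix.sub_mulVec, Matrix.one_mulVec, ← Matrix.mulVec_mulVec]
      nth_rw 1 [heq]
      rw [add_sub_cancel_left, Matrix.mulVec_mulVec, mul_eq_one_comm.mp hmb, Matrix.one_mulVec]
  obtain ⟨φ, hφ1, hφS⟩ := Submodule.exists_dual_map_eq_bot_of_notMem he₁S inferInstance
  let ψ : (Fin n → F) → L := fun x => (φ e₁)⁻¹ * φ x
  have hψS : ∀ x ∈ S, ψ x = 0 := fun x hx => by
    have : φ x ∈ Submodule.map φ S := Submodule.mem_map_of_mem hx
    rw [hφS, Submodule.mem_bot] at this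
    simp [ψ, this]
  have hψ1 : ψ e₁ = 1 := inv_mul_cancel₀ hφ1
  have hψsmul : ∀ (a : L) x, ψ (a • x) = a * ψ x := fun a x => by
    have h : φ (a • x) = a * φ x := φ.map_smul a x
    simp only [ψ, h]; ring
  let N : (Fin n → F) →ₗ[F] (Fin n → F) :=
    { toFun := fun x => ψ x • e₂
      map_add' := fun x y => by
        have : ψ (x + y) = ψ x + ψ y := by simp only [ψ]; rw [φ.map_add]; ring
        rw [this]; exact add_smul _ _ _
      map_smul' := fun c x => by
        have hc : c • x = (algebraMap F L c) • x := by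
          rw [hsmul]
          show c • x = (algebraMap F (Matrix (Fin n) (Fin n) F) c) *ᵥ x
          rw [Algebra.algebraMap_eq_smul_one, Matrix.smul_mulVec, Matrix.one_mulVec]
        rw [hc, hψsmul, mul_smul, RingHom.id_apply]
        show _ = c • ψ x • e₂
        rw [hsmul (algebraMap F L c)]
        show (algebraMap F (Matrix (Fin n) (Fin n) F) c) *ᵥ _ = _
        rw [Algebra.algebraMap_eq_smul_one, Matrix.smul_mulVec, Matrix.one_mulVec] }
  set M := LinearMap.toMatrix' N with hM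
  have hMv : ∀ x, M *ᵥ x = ψ x • e₂ := fun x => by rw [hM, LinearMap.toMatrix'_mulVec]; rfl
  have he₂S : e₂ ∈ S := ⟨0, L.zero_mem, 1, K.one_mem, by simp⟩
  have hM2 : M * M = 0 := by
    refine Matrix.toLin'.injective (LinearMap.ext fun x => ?_)
    rw [Matrix.toLin'_apply, Matrix.toLin'_apply, ← Matrix.mulVec_mulVec, hMv x, hMv, hψsmul, hψS e₂ he₂S, mul_zero,
      zero_smul, Matrix.zero_mulVec]
  let g : GL (Fin n) F := ⟨1 + M, 1 - M, by rw [mul_sub, mul_one, add_mul, one_mul, hM2]; abel,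
    by rw [sub_mul, one_mul, mul_add, mul_one, hM2]; abel⟩
  refine ⟨g, ?_, ?_, ?_⟩
  · rw [mem_specialLinear_iff]
    have hpow : (1 + M) ^ p = 1 := by
      rw [add_pow_char_of_commute p (Commute.one_left M), one_pow]
      obtain ⟨j, hj⟩ := Nat.exists_eq_add_of_le (Fact.out : p.Prime).two_le
      rw [hj, pow_add, pow_two, hM2, zero_mul, add_zero]
    have h1 : ((1 + M).det) ^ p = 1 := by rw [← Matrix.det_pow, hpow, Matrix.det_one]
    have h2 : ((1 + M).det - 1) ^ p = 0 := by rw [sub_pow_char, h1, one_pow, sub_self]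
    exact sub_eq_zero.mp (eq_zero_of_pow_eq_zero h2)
  · refine mem_subalgebraNormalizer_of_commute fun a ha => ?_
    refine Matrix.toLin'.injective (LinearMap.ext fun x => ?_)
    show Matrix.toLin' ((1 + M) * a) x = Matrix.toLin' (a * (1 + M)) x
    simp only [Matrix.toLin'_apply, ← Matrix.mulVec_mulVec, Matrix.add_mulVec, Matrix.one_mulVec, hMv, Matrix.mulVec_add]
    congr 1
    rw [← hsmul ⟨a, ha⟩, ← hsmul ⟨a, ha⟩, hψsmul, mul_smul]
  · intro hg
    have hc : (1 + M) * k * (1 - M) ∈ K := (hg k).mp hkK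
    have h1 : (1 - M) *ᵥ e₁ = e₁ - e₂ := by rw [Matrix.sub_mulVec, Matrix.one_mulVec, hMv, hψ1, one_smul]
    have h2 : k *ᵥ e₁ - k *ᵥ e₂ ∈ S := ⟨1, L.one_mem, -k, K.neg_mem hkK, by rw [Matrix.one_mulVec, Matrix.neg_mulVec, sub_eq_add_neg]⟩
    have h3 : ((1 + M) * k * (1 - M)) *ᵥ e₁ = k *ᵥ e₁ - k *ᵥ e₂ := by
      rw [← Matrix.mulVec_mulVec, h1, ← Matrix.mulVec_mulVec, Matrix.mulVec_sub, Matrix.add_mulVec, Matrix.one_mulVec,
        hMv, hψS _ h2, zero_smul, add_zero]
    set k' := (1 + M) * k * (1 - M)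
    obtain ⟨b, hb, hkb⟩ := hK.inv k hkK hk0
    refine he₂ (b * (k - k')) (K.mul_mem hb (K.sub_mem hkK hc)) ?_
    rw [← Matrix.mulVec_mulVec, Matrix.sub_mulVec, h3, sub_sub_cancel, Matrix.mulVec_mulVec,
      mul_eq_one_comm.mp hkb, Matrix.one_mulVec]

end Cfsg.Agent.GeomClasses
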