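import Cfsg.Agent.GeomClasses.PolarPairDerange

/-!
# Subspaces fixed by elements of prime order `r` of `GL_n(q)`, `r ∤ q`
-/

set_option autoImplicit false
set_option linter.unusedSectionVars false

namespace Cfsg.Agent.GeomClasses.SubspaceDerange

open Module Polynomial

section Lattice

variable {F V : Type*} [Field F] [AddCommGroup V] [Module F V] [FiniteDimensional F V]

theorem exists_between {A B : Submodule F V} (hAB : A ≤ B) {d : ℕ} (h1 : finrank F A ≤ d) (h2 : d ≤ finrank F B) :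
    ∃ C, A ≤ C ∧ C ≤ B ∧ finrank F C = d := by
  induction d, h1 using Nat.le_induction with
  | base => exact ⟨A, le_rfl, hAB, rfl⟩
  | succ d hd ih =>
    obtain ⟨C, hA, hB, hC⟩ := ih (by omega)
    obtain ⟨v, hv, hvC⟩ : ∃ v ∈ B, v ∉ C := by
      by_contra h
      push_neg at h
      have := Submodule.finrank_mono (show B ≤ C from h)
      omega
    refine ⟨C ⊔ Submodule.span F {v}, hA.trans le_sup_left,
      sup_le hB ((Submodule.span_singleton_le_iff_mem v B).2 hv), ?_⟩
    have hv0 : v ≠ 0 := by rintro rfl; exact hvC C.zero_mem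
    have h := Submodule.finrank_sup_add_finrank_inf_eq C (Submodule.span F {v})
    have hd : C ⊓ Submodule.span F {v} = ⊥ := disjoint_iff.1 ((Submodule.disjoint_span_singleton' hv0).2 hvC)
    rw [hd, finrank_bot, finrank_span_singleton hv0, hC] at h
    omega

omit [FiniteDimensional F V] in
theorem aeval_mem {T : Module.End F V} {U : Submodule F V} (hU : ∀ u ∈ U, T u ∈ U) (P : F[X]) {v : V}
    (hv : v ∈ U) : aeval T P v ∈ U := by
  induction P using Polynomial.induction_on generalizing v with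
  | C a => rw [aeval_C, Module.algebraMap_end_apply]; exact U.smul_mem a hv
  | add P Q hP hQ => rw [map_add, LinearMap.add_apply]; exact add_mem (hP hv) (hQ hv)
  | monomial k a ih =>
    rw [pow_succ, ← mul_assoc, map_mul, aeval_X, Module.End.mul_apply]
    exact ih (hU v hv)

theorem finrank_sup_of_disjoint {A B : Submodule F V} (h : A ⊓ B = ⊥) :
    finrank F ↥(A ⊔ B) = finrank F A + finrank F B := by
  have h' := Submodule.finrank_sup_add_finrank_inf_eq A B
  rw [h, finrank_bot] at h'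
  omega

/-- An invariant subspace has an invariant complement when `T ^ r` is an invertible scalar and `r ≠ 0`. -/
theorem exists_compl {r : ℕ} (hr : 0 < r) (hrF : (r : F) ≠ 0) {T : Module.End F V} {z : F} (hz : z ≠ 0)
    (hT : T ^ r = z • 1) {U : Submodule F V} (hU : ∀ u ∈ U, T u ∈ U) :
    ∃ W, IsCompl U W ∧ ∀ w ∈ W, T w ∈ W := by
  obtain ⟨W₀, hW₀⟩ := Submodule.exists_isCompl U
  set P : Module.End F V := U.subtype.comp (U.projectionOnto W₀ hW₀) with hP
  have hPU : ∀ v, P v ∈ U := fun v => (U.projectionOnto W₀ hW₀ v).2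
  have hPid : ∀ u ∈ U, P u = u := fun u hu =>
    congrArg Subtype.val (Submodule.projectionOnto_apply_left hW₀ ⟨u, hu⟩)
  have hTk : ∀ (k : ℕ), ∀ u ∈ U, (T ^ k) u ∈ U := by
    intro k
    induction k with
    | zero => intro u hu; simpa using hu
    | succ k ih => intro u hu; rw [pow_succ', Module.End.mul_apply]; exact hU _ (ih u hu)
  set S : Module.End F V := ∑ k ∈ Finset.range r, T ^ k * P * T ^ (r - k) with hS
  have hcomm : T * S = S * T := by
    have h1 : T * S = ∑ k ∈ Finset.range r, T ^ (k + 1) * P * T ^ (r + 1 - (k + 1)) := by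
      rw [hS, Finset.mul_sum]
      refine Finset.sum_congr rfl fun k _ => ?_
      rw [pow_succ', Nat.add_sub_add_right]
      simp only [mul_assoc]
    have h2 : S * T = ∑ k ∈ Finset.range r, T ^ k * P * T ^ (r + 1 - k) := by
      rw [hS, Finset.sum_mul]
      refine Finset.sum_congr rfl fun k hk => ?_
      rw [mul_assoc, ← pow_succ, show r - k + 1 = r + 1 - k by have := Finset.mem_range.1 hk; omega]
    have h3 := Finset.sum_range_succ (fun k => T ^ k * P * T ^ (r + 1 - k)) r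
    have h4 := Finset.sum_range_succ' (fun k => T ^ k * P * T ^ (r + 1 - k)) r
    rw [h3] at h4
    have h5 : T ^ r * P * T ^ (r + 1 - r) = T ^ 0 * P * T ^ (r + 1 - 0) := by
      rw [Nat.add_sub_cancel_left, pow_one, pow_zero, one_mul, Nat.sub_zero, pow_succ, hT]
      simp [mul_assoc]
    rw [h5] at h4
    rw [h1, h2]
    exact (add_right_cancel h4).symm
  have hSU : ∀ v, S v ∈ U := fun v => by
    rw [hS, LinearMap.sum_apply]
    exact Submodule.sum_mem _ fun k _ => by
      simp only [Module.End.mul_apply]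
      exact hTk k _ (hPU _)
  have hSid : ∀ u ∈ U, S u = ((r : F) * z) • u := fun u hu => by
    rw [hS, LinearMap.sum_apply, Finset.sum_congr rfl fun k hk => show (T ^ k * P * T ^ (r - k)) u = z • u by
      rw [Module.End.mul_apply, Module.End.mul_apply, hPid _ (hTk _ u hu), ← Module.End.mul_apply, ← pow_add,
        Nat.add_sub_cancel' (Finset.mem_range.1 hk).le, hT]
      rfl, Finset.sum_const, Finset.card_range, ← Nat.cast_smul_eq_nsmul F, smul_smul]
  have hrz : (r : F) * z ≠ 0 := mul_ne_zero hrF hz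
  refine ⟨LinearMap.ker S, ⟨?_, ?_⟩, fun w hw => ?_⟩
  · rw [Submodule.disjoint_def]
    intro u hu hk
    rw [LinearMap.mem_ker, hSid u hu, smul_eq_zero] at hk
    exact hk.resolve_left hrz
  · rw [codisjoint_iff, eq_top_iff]
    intro v _
    refine Submodule.mem_sup.2 ⟨((r : F) * z)⁻¹ • S v, U.smul_mem _ (hSU v), v - ((r : F) * z)⁻¹ • S v, ?_, by simp⟩
    rw [LinearMap.mem_ker, map_sub, map_smul, hSid _ (hSU v), smul_smul, inv_mul_cancel₀ hrz, one_smul, sub_self]
  · rw [LinearMap.mem_ker] at hw ⊢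
    rw [← Module.End.mul_apply, ← hcomm, Module.End.mul_apply, hw, map_zero]

end Lattice

section Counting

variable {F : Type*} [Field F] [Fintype F]

/-- `∏_{j<b} (q^(a-j) - 1)`. -/
def qProd (q a b : ℕ) : ℕ := ∏ j ∈ Finset.range b, (q ^ (a - j) - 1)

theorem qProd_add (q a b c : ℕ) : qProd q a (b + c) = qProd q a b * qProd q (a - b) c := by
  simp only [qProd, Finset.prod_range_add, Nat.sub_sub]

theorem qProd_pos {q : ℕ} (hq : 1 < q) {a b : ℕ} (h : b ≤ a) : 0 < qProd q a b :=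
  Finset.prod_pos fun j hj => Nat.sub_pos_of_lt (Nat.one_lt_pow (by have := Finset.mem_range.1 hj; omega) hq)

theorem prod_pow_sub (q n b : ℕ) (h : b ≤ n) :
    ∏ i : Fin b, (q ^ n - q ^ (i : ℕ)) = q ^ (∑ j ∈ Finset.range b, j) * qProd q n b := by
  rw [qProd, Finset.prod_range (fun j => q ^ (n - j) - 1), Finset.sum_range (fun j => j),
    ← Finset.prod_pow_eq_pow_sum, ← Finset.prod_mul_distrib]
  refine Finset.prod_congr rfl fun i _ => ?_
  rw [Nat.mul_sub, mul_one, ← pow_add, Nat.add_sub_cancel' (by omega)]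

/-- The number of `b`-spaces. -/
theorem card_subspaces {q : ℕ} (hq : Fintype.card F = q) {V : Type*} [AddCommGroup V] [Module F V]
    [FiniteDimensional F V] {b : ℕ} (hb : b ≤ finrank F V) :
    Nat.card {W : Submodule F V // finrank F W = b} * qProd q b b = qProd q (finrank F V) b := by
  classical
  have : Finite V := Module.finite_of_finite F
  have h1 : 1 < q := hq ▸ Fintype.one_lt_card
  let sp : {s : Fin b → V // LinearIndependent F s} → {W : Submodule F V // finrank F W = b} := fun s =>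
    ⟨Submodule.span F (Set.range s.1), by rw [finrank_span_eq_card s.2, Fintype.card_fin]⟩
  have key : ∀ W, Nat.card {s // sp s = W} = q ^ (∑ j ∈ Finset.range b, j) * qProd q b b := by
    intro W
    let e : {s // sp s = W} ≃ {t : Fin b → ↥(W : Submodule F V) // LinearIndependent F t} :=
      { toFun := fun s => ⟨fun i => ⟨s.1.1 i,
          (congrArg Subtype.val s.2).le (Submodule.subset_span ⟨i, rfl⟩)⟩,
          LinearIndependent.of_comp (Submodule.subtype _) s.1.2⟩
        invFun := fun t => ⟨⟨fun i => (t.1 i : V), t.2.map' _ (Submodule.ker_subtype _)⟩, Subtype.ext (by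
          apply Submodule.eq_of_le_of_finrank_eq (Submodule.span_le.2 (by rintro _ ⟨i, rfl⟩; exact (t.1 i).2))
          exact (finrank_span_eq_card (t.2.map' (Submodule.subtype _) (Submodule.ker_subtype _))).trans
            ((Fintype.card_fin b).trans W.2.symm))⟩
        left_inv := fun s => rfl
        right_inv := fun t => rfl }
    rw [Nat.card_congr e, card_linearIndependent W.2.ge, W.2, hq, prod_pow_sub q b b le_rfl]
  have : Fintype {W : Submodule F V // finrank F W = b} := Fintype.ofFinite _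
  have h := Nat.card_congr (Equiv.sigmaFiberEquiv sp).symm
  rw [Nat.card_sigma, card_linearIndependent hb, hq, prod_pow_sub q _ b hb] at h
  simp only [key, Finset.sum_const, Finset.card_univ, smul_eq_mul, ← Nat.card_eq_fintype_card] at h
  refine Nat.eq_of_mul_eq_mul_left (pow_pos (by omega : 0 < q) (∑ j ∈ Finset.range b, j)) ?_
  rw [h]; ring

theorem card_symm {q : ℕ} (hq : Fintype.card F = q) {n b : ℕ} (hb : b ≤ n) :
    Nat.card {W : Submodule F (Fin n → F) // finrank F W = n - b} =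
      Nat.card {W : Submodule F (Fin n → F) // finrank F W = b} := by
  have h1 : 1 < q := hq ▸ Fintype.one_lt_card
  have ha := card_subspaces hq (V := Fin n → F) (b := b) (by simpa using hb)
  have hc := card_subspaces hq (V := Fin n → F) (b := n - b) (by simp)
  rw [Module.finrank_fin_fun] at ha hc
  have e1 := qProd_add q n b (n - b)
  have e2 := qProd_add q n (n - b) b
  rw [Nat.add_sub_cancel' hb] at e1
  rw [Nat.sub_add_cancel hb, Nat.sub_sub_self hb, ← hc] at e2
  rw [← ha, e2] at e1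
  refine Nat.eq_of_mul_eq_mul_right (Nat.mul_pos (qProd_pos h1 (le_refl b)) (qProd_pos h1 (le_refl (n - b)))) ?_
  linear_combination e1

theorem not_dvd_card {p : ℕ} [Fact p.Prime] [CharP F p] {q : ℕ} (hq : Fintype.card F = q) {n b : ℕ} (hb : b ≤ n) :
    ¬ p ∣ Nat.card {W : Submodule F (Fin n → F) // finrank F W = b} := by
  intro h
  have hp : p.Prime := Fact.out
  obtain ⟨f, -, hf⟩ := FiniteField.card F p
  have ha := card_subspaces hq (V := Fin n → F) (b := b) (by simpa using hb)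
  rw [Module.finrank_fin_fun] at ha
  obtain ⟨j, hj, hd⟩ := hp.prime.exists_mem_finset_dvd (ha ▸ Dvd.dvd.mul_right h _ : p ∣ qProd q n b)
  have hj := Finset.mem_range.1 hj
  have hpq : p ∣ q ^ (n - j) := dvd_pow (hq ▸ hf ▸ dvd_pow_self p f.ne_zero) (by omega)
  have h1 : 1 ≤ q ^ (n - j) := Nat.one_le_pow _ _ (hq ▸ Fintype.card_pos)
  have := Nat.dvd_sub hpq hd
  rw [Nat.sub_sub_self h1] at this
  exact hp.one_lt.ne' (Nat.dvd_one.1 this)

theorem exists_multiple {q : ℕ} (hq : Fintype.card F = q) {r : ℕ} [Fact r.Prime] {n b : ℕ} (hb : b ≤ n)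
    (h : r ∣ Nat.card {W : Submodule F (Fin n → F) // finrank F W = b}) :
    ∃ a, n < a + b ∧ a ≤ n ∧ orderOf (q : ZMod r) ∣ a := by
  have ha := card_subspaces hq (V := Fin n → F) (b := b) (by simpa using hb)
  rw [Module.finrank_fin_fun] at ha
  obtain ⟨j, hj, hd⟩ := (Fact.out : r.Prime).prime.exists_mem_finset_dvd (ha ▸ Dvd.dvd.mul_right h _ : r ∣ qProd q n b)
  have hj := Finset.mem_range.1 hj
  refine ⟨n - j, by omega, Nat.sub_le _ _, orderOf_dvd_of_pow_eq_one ?_⟩
  have h1 : 1 ≤ q ^ (n - j) := Nat.one_le_pow _ _ (hq ▸ Fintype.card_pos)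
  rw [← ZMod.natCast_eq_zero_iff, Nat.cast_sub h1, Nat.cast_pow, Nat.cast_one, sub_eq_zero] at hd
  exact hd

end Counting

section Order

variable {F V : Type*} [Field F] [Fintype F] [AddCommGroup V] [Module F V] [FiniteDimensional F V]
  {q r i : ℕ} [Fact r.Prime]

theorem pow_modEq (hrq : ¬ r ∣ q) (hi : i = orderOf (q : ZMod r)) {a b : ℕ} (h : q ^ a ≡ q ^ b [MOD r]) :
    a ≡ b [MOD i] := by
  have hq0 : (q : ZMod r) ≠ 0 := fun h0 => hrq ((ZMod.natCast_eq_zero_iff q r).1 h0)
  have h' := (ZMod.natCast_eq_natCast_iff _ _ _).2 h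
  rw [Nat.cast_pow, Nat.cast_pow] at h'
  rw [hi, show orderOf (q : ZMod r) = orderOf (Units.mk0 _ hq0) from (orderOf_units (y := Units.mk0 _ hq0)),
    ← pow_eq_pow_iff_modEq]
  exact Units.ext (by simpa using h')

theorem dvd_pow_sub_one (hrq : ¬ r ∣ q) (hi : i = orderOf (q : ZMod r)) : 0 < i ∧ r ∣ q ^ i - 1 := by
  have hq0 : (q : ZMod r) ≠ 0 := fun h0 => hrq ((ZMod.natCast_eq_zero_iff q r).1 h0)
  refine ⟨hi ▸ orderOf_pos_iff.2 (IsUnit.isOfFinOrder (isUnit_iff_ne_zero.2 hq0)), ?_⟩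
  have h1 : 1 ≤ q ^ i := Nat.one_le_pow _ _ (Nat.pos_of_ne_zero fun h0 => hrq (h0 ▸ dvd_zero r))
  rw [← ZMod.natCast_eq_zero_iff, Nat.cast_sub h1, Nat.cast_pow, hi, pow_orderOf_eq_one, Nat.cast_one, sub_self]

variable (hq : Fintype.card F = q) (hrq : ¬ r ∣ q) (hi : i = orderOf (q : ZMod r)) {T : Module.End F V}
  (hT : T ^ r = 1)

include hq hrq hi hT

/-- Orbit counting on an invariant subspace. -/
theorem dim_mod {W : Submodule F V} (hW : ∀ w ∈ W, T w ∈ W) :
    finrank F W ≡ finrank F ↥(W ⊓ LinearMap.ker (T - 1)) [MOD i] := by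
  classical
  have : Finite V := Module.finite_of_finite F
  have : Fintype W := Fintype.ofFinite _
  let φ : Function.End W := fun w => ⟨T w, hW w w.2⟩
  have hφ : ∀ (k : ℕ) (w : W), ((φ ^ k) w : V) = (T ^ k) (w : V) := by
    intro k
    induction k with
    | zero => intro w; rfl
    | succ k ih => intro w; rw [pow_succ, pow_succ, Module.End.mul_apply]; exact ih (φ w)
  have h := Equiv.Perm.card_fixedPoints_modEq (f := φ) (p := r) (n := 1)
    (by rw [pow_one]; funext w; exact Subtype.ext (by rw [hφ, hT]; rfl))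
  rw [← Nat.card_eq_fintype_card, ← Nat.card_eq_fintype_card,
    Nat.card_congr (show ↥(Function.fixedPoints φ) ≃ ↥(W ⊓ LinearMap.ker (T - 1)) from
      { toFun := fun w => ⟨(w.1 : V), w.1.2, by
          rw [SetLike.mem_coe, LinearMap.mem_ker, LinearMap.sub_apply, Module.End.one_apply, sub_eq_zero]
          exact congrArg Subtype.val w.2⟩
        invFun := fun w => ⟨⟨w.1, w.2.1⟩, Subtype.ext (by
          have := w.2.2
          rwa [SetLike.mem_coe, LinearMap.mem_ker, LinearMap.sub_apply, Module.End.one_apply, sub_eq_zero] at this)⟩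
        left_inv := fun w => rfl
        right_inv := fun w => rfl }),
    Module.natCard_eq_pow_finrank (K := F) (V := W),
    Module.natCard_eq_pow_finrank (K := F) (V := ↥(W ⊓ LinearMap.ker (T - 1))), Nat.card_eq_fintype_card, hq] at h
  exact pow_modEq hrq hi h

/-- One more atom. -/
theorem step {R U : Submodule F V} (hR : ∀ v ∈ R, T v ∈ R) (hfree : R ⊓ LinearMap.ker (T - 1) = ⊥)
    (hU : ∀ v ∈ U, T v ∈ U) (hUR : U ≤ R) (hlt : finrank F U < finrank F R) :
    ∃ U', U ≤ U' ∧ U' ≤ R ∧ (∀ v ∈ U', T v ∈ U') ∧ finrank F U' = finrank F U + i := by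
  classical
  have hdiv : ∀ W : Submodule F V, W ≤ R → (∀ v ∈ W, T v ∈ W) → i ∣ finrank F W := by
    intro W hWR hW
    have h := dim_mod hq hrq hi hT hW
    rw [show W ⊓ LinearMap.ker (T - 1) = ⊥ from le_bot_iff.1 (hfree ▸ inf_le_inf_right _ hWR), finrank_bot] at h
    exact Nat.modEq_zero_iff_dvd.1 h
  obtain ⟨v₀, hv₀, hv₀U⟩ : ∃ v ∈ R, v ∉ U := by
    by_contra h
    push_neg at h
    have := Submodule.finrank_mono (show R ≤ U from h)
    omega
  have haR : ∀ (P : F[X]), ∀ v ∈ R, aeval T P v ∈ R := fun P v hv =>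
    aeval_mem hR P hv
  obtain ⟨g, hg, hgd, w, hwR, hwU, hgw⟩ : ∃ g : F[X], Irreducible g ∧ g ∣ X ^ r - 1 ∧
      ∃ w ∈ R, w ∉ U ∧ aeval T g w ∈ U := by
    suffices ∀ P : F[X], P ∣ X ^ r - 1 → ∀ v ∈ R, v ∉ U → aeval T P v ∈ U →
        ∃ g : F[X], Irreducible g ∧ g ∣ X ^ r - 1 ∧ ∃ w ∈ R, w ∉ U ∧ aeval T g w ∈ U from
      this _ dvd_rfl v₀ hv₀ hv₀U (by simp [hT])
    intro P
    induction P using UniqueFactorizationMonoid.induction_on_prime with
    | h₁ => exact fun h => absurd (zero_dvd_iff.1 h) (by simpa using X_pow_sub_C_ne_zero (Fact.out : r.Prime).pos (1 : F))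
    | h₂ P hP =>
      intro _ v _ hvU hPv
      obtain ⟨u, rfl⟩ := hP
      obtain ⟨c, hc, hcu⟩ := Polynomial.isUnit_iff.1 u.isUnit
      rw [← hcu, aeval_C, Module.algebraMap_end_apply] at hPv
      exact absurd (by simpa [smul_smul, inv_mul_cancel₀ hc.ne_zero] using U.smul_mem c⁻¹ hPv) hvU
    | h₃ P g hP hg ih =>
      intro hd v hv hvU hPv
      by_cases h : aeval T P v ∈ U
      · exact ih ((dvd_mul_left P g).trans hd) v hv hvU h
      · refine ⟨g, hg.irreducible, (dvd_mul_right g P).trans hd, _, haR P v hv, h, ?_⟩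
        rwa [← Module.End.mul_apply, ← map_mul]
  obtain ⟨hi0, hdvd⟩ := dvd_pow_sub_one hrq hi
  have hdeg : g.natDegree ≤ i := by
    refine Nat.le_of_dvd hi0 (hg.natDegree_dvd_of_dvd_X_pow_card_pow_sub_X (hgd.trans ?_))
    obtain ⟨c, hc⟩ := hdvd
    rw [Nat.card_eq_fintype_card, hq, show q ^ i = r * c + 1 by
      have := Nat.one_le_pow i q (hq ▸ Fintype.card_pos); omega, pow_succ, pow_mul, ← one_mul (X : F[X]), one_mul X,
      ← sub_one_mul]
    exact Dvd.dvd.mul_right (by simpa using sub_dvd_pow_sub_pow (X ^ r : F[X]) 1 c) _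
  let φ : F[X] →ₗ[F] V := (LinearMap.applyₗ w).comp (aeval T).toLinearMap
  have hφ : ∀ P, φ P = aeval T P w := fun P => rfl
  let U' := U ⊔ LinearMap.range φ
  have hU'T : ∀ v ∈ U', T v ∈ U' := by
    intro v hv
    obtain ⟨u, hu, _, ⟨P, rfl⟩, rfl⟩ := Submodule.mem_sup.1 hv
    rw [map_add]
    exact add_mem (Submodule.mem_sup_left (hU u hu)) (Submodule.mem_sup_right ⟨X * P, by simp [hφ]⟩)
  have hUT : ∀ (P : F[X]), ∀ v ∈ U, aeval T P v ∈ U := fun P v hv => aeval_mem hU P hv
  have hle : finrank F U' ≤ finrank F U + g.natDegree := by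
    have hU' : U' ≤ U ⊔ (degreeLT F g.natDegree).map φ := by
      refine sup_le le_sup_left ?_
      rintro _ ⟨P, rfl⟩
      rw [← EuclideanDomain.div_add_mod P g, map_add]
      refine add_mem (Submodule.mem_sup_left ?_) (Submodule.mem_sup_right ⟨_, ?_, rfl⟩)
      · rw [hφ, mul_comm, map_mul, Module.End.mul_apply]
        exact hUT _ _ hgw
      · rw [SetLike.mem_coe, mem_degreeLT, ← degree_eq_natDegree hg.ne_zero]
        exact EuclideanDomain.mod_lt P hg.ne_zero
    refine (Submodule.finrank_mono hU').trans ((Submodule.finrank_add_le_finrank_add_finrank _ _).trans ?_)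
    refine Nat.add_le_add_left ((Submodule.finrank_map_le _ _).trans_eq ?_) _
    rw [LinearEquiv.finrank_eq (degreeLTEquiv F g.natDegree), Module.finrank_fin_fun]
  have hU'R : U' ≤ R := sup_le hUR (by rintro _ ⟨P, rfl⟩; exact haR P w hwR)
  have hgt : finrank F U < finrank F U' := Submodule.finrank_lt_finrank_of_lt
    (lt_of_le_of_ne le_sup_left fun h => hwU (h ▸ Submodule.mem_sup_right ⟨1, by simp [hφ]⟩))
  refine ⟨U', le_sup_left, hU'R, hU'T, le_antisymm (hle.trans (by omega)) ?_⟩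
  obtain ⟨a, ha⟩ := hdiv U hUR hU
  obtain ⟨b, hb⟩ := hdiv U' hU'R hU'T
  have : a < b := Nat.lt_of_mul_lt_mul_left (ha ▸ hb ▸ hgt)
  have : i * (a + 1) ≤ i * b := Nat.mul_le_mul_left i this
  rw [Nat.mul_add, mul_one] at this
  omega

/-- Nested invariant subspaces of every admissible pair of dimensions. -/
theorem exists_flag (hrF : (r : F) ≠ 0) {f : ℕ} (hf : finrank F (LinearMap.ker (T - 1)) = f) {j j' e e' : ℕ}
    (hj : j ≤ j') (hj' : j' * i + f ≤ finrank F V) (he : e ≤ e') (he' : e' ≤ f) :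
    ∃ U W : Submodule F V, U ≤ W ∧ finrank F U = j * i + e ∧ finrank F W = j' * i + e' ∧
      (∀ v ∈ U, T v ∈ U) ∧ ∀ v ∈ W, T v ∈ W := by
  set R := LinearMap.range (T - 1) with hRdef
  set K := LinearMap.ker (T - 1) with hKdef
  have hR : ∀ v ∈ R, T v ∈ R := by
    rintro _ ⟨u, rfl⟩
    exact ⟨T u, by simp⟩
  have hfree : R ⊓ K = ⊥ := by
    rw [eq_bot_iff]
    rintro _ ⟨⟨u, rfl⟩, hk⟩
    set d := (T - 1) u
    have hd : T d = d := sub_eq_zero.1 hk
    have hTu : T u = u + d := by simp [d]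
    have hpow : ∀ k : ℕ, (T ^ k) u = u + k • d := by
      intro k
      induction k with
      | zero => simp
      | succ k ih => rw [pow_succ', Module.End.mul_apply, ih, map_add, map_nsmul, hd, hTu, succ_nsmul]; abel
    have h := hpow r
    rw [hT, Module.End.one_apply, left_eq_add, ← Nat.cast_smul_eq_nsmul F, smul_eq_zero] at h
    exact (Submodule.mem_bot F).2 (h.resolve_left hrF)
  have hdimR : j' * i ≤ finrank F R := by
    have := LinearMap.finrank_range_add_finrank_ker (T - 1)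
    rw [← hRdef, ← hKdef] at this
    omega
  have hgrow : ∀ (c : ℕ) (U : Submodule F V), (∀ v ∈ U, T v ∈ U) → U ≤ R → finrank F U + c * i ≤ finrank F R →
      ∃ U', U ≤ U' ∧ U' ≤ R ∧ (∀ v ∈ U', T v ∈ U') ∧ finrank F U' = finrank F U + c * i := by
    intro c
    induction c with
    | zero => exact fun U hU hUR _ => ⟨U, le_rfl, hUR, hU, by simp⟩
    | succ c ih =>
      intro U hU hUR hd
      rw [Nat.succ_mul] at hd
      obtain ⟨U', h1, h2, h3, h4⟩ := ih U hU hUR (by omega)
      have hi0 := (dvd_pow_sub_one hrq hi).1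
      obtain ⟨U'', g1, g2, g3, g4⟩ := step hq hrq hi hT hR hfree h3 h2 (by omega)
      exact ⟨U'', h1.trans g1, g2, g3, by rw [g4, h4, Nat.succ_mul]; omega⟩
  obtain ⟨A, -, hAR, hA, hAd⟩ := hgrow j ⊥ (by simp) bot_le (by
    simp only [finrank_bot, zero_add]; exact (Nat.mul_le_mul_right i hj).trans hdimR)
  obtain ⟨B, hAB, hBR, hB, hBd⟩ := hgrow (j' - j) A hA hAR (by
    rw [hAd, finrank_bot, zero_add, ← Nat.add_mul, Nat.add_sub_cancel' hj]; exact hdimR)
  rw [finrank_bot, zero_add] at hAd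
  rw [hAd, ← Nat.add_mul, Nat.add_sub_cancel' hj] at hBd
  obtain ⟨C, -, hCK, hC⟩ := exists_between (bot_le (a := K)) (d := e) (by simp) (by omega)
  obtain ⟨D, hCD, hDK, hD⟩ := exists_between hCK (d := e') (by omega) (by omega)
  have hKT : ∀ W ≤ K, ∀ v ∈ W, T v ∈ W := fun W hW v hv => by
    have : T v = v := sub_eq_zero.1 (hW hv)
    rwa [this]
  have hsup : ∀ P Q : Submodule F V, (∀ v ∈ P, T v ∈ P) → (∀ v ∈ Q, T v ∈ Q) → ∀ v ∈ P ⊔ Q, T v ∈ P ⊔ Q := by
    intro P Q hP hQ v hv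
    obtain ⟨a, ha, b, hb, rfl⟩ := Submodule.mem_sup.1 hv
    rw [map_add]
    exact add_mem (Submodule.mem_sup_left (hP a ha)) (Submodule.mem_sup_right (hQ b hb))
  refine ⟨A ⊔ C, B ⊔ D, sup_le_sup hAB hCD, ?_, ?_, hsup _ _ hA (hKT C hCK), hsup _ _ hB (hKT D hDK)⟩
  · rw [finrank_sup_of_disjoint (le_bot_iff.1 (hfree ▸ inf_le_inf hAR hCK)), hAd, hC]
  · rw [finrank_sup_of_disjoint (le_bot_iff.1 (hfree ▸ inf_le_inf hBR hDK)), hBd, hD]

end Order

section NonPower

variable {F V : Type*} [Field F] [AddCommGroup V] [Module F V] [FiniteDimensional F V]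

/-- The structure of a root of an irreducible binomial. -/
theorem nonpower {r : ℕ} [Fact r.Prime] {z : F} (hz : ∀ b : F, b ^ r ≠ z) {T : Module.End F V}
    (hT : T ^ r = z • 1) :
    ∃ k, finrank F V = r * k ∧ LinearMap.det T = ((-1) ^ (r + 1) * z) ^ k ∧
      ∀ j j', j ≤ j' → j' ≤ k → ∃ U W : Submodule F V, U ≤ W ∧ finrank F U = r * j ∧ finrank F W = r * j' ∧
        (∀ v ∈ U, T v ∈ U) ∧ ∀ v ∈ W, T v ∈ W := by
  classical
  have hr : r.Prime := Fact.out
  set g : F[X] := X ^ r - C z with hg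
  have hirr : Irreducible g := X_pow_sub_C_irreducible_of_prime hr hz
  have : Fact (Irreducible g) := ⟨hirr⟩
  have hker : ∀ a ∈ Ideal.span {g}, (aeval T).toRingHom a = 0 := by
    intro a ha
    obtain ⟨c, rfl⟩ := Ideal.mem_span_singleton.1 ha
    rw [map_mul]
    have : aeval T g = 0 := by
      simp [hg, hT, Algebra.algebraMap_eq_smul_one]
    rw [show (aeval T).toRingHom g = 0 from this, zero_mul]
  let φ : AdjoinRoot g →+* Module.End F V := Ideal.Quotient.lift _ (aeval T).toRingHom hker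
  have hφmk : ∀ P : F[X], φ (AdjoinRoot.mk g P) = aeval T P := fun P => rfl
  let : Module (AdjoinRoot g) V := Module.compHom V φ
  have : IsScalarTower F (AdjoinRoot g) V := ⟨fun c l v => by
    obtain ⟨P, rfl⟩ := AdjoinRoot.mk_surjective l
    rw [AdjoinRoot.smul_mk]
    show φ _ v = c • φ _ v
    rw [hφmk, hφmk, map_smul, LinearMap.smul_apply]⟩
  set α := AdjoinRoot.root g
  have hα : ∀ v : V, α • v = T v := fun v => by
    show φ (AdjoinRoot.mk g X) v = T v
    rw [hφmk, aeval_X]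
  have hgm : g.Monic := monic_X_pow_sub_C z hr.ne_zero
  have hLr : finrank F (AdjoinRoot g) = r := by
    rw [(AdjoinRoot.powerBasis hirr.ne_zero).finrank, AdjoinRoot.powerBasis_dim, hg, natDegree_X_pow_sub_C]
  have : FiniteDimensional (AdjoinRoot g) V := FiniteDimensional.right F (AdjoinRoot g) V
  refine ⟨finrank (AdjoinRoot g) V, by rw [← Module.finrank_mul_finrank F (AdjoinRoot g) V, hLr], ?_, ?_⟩
  · have hTeq : T = (α • (1 : Module.End (AdjoinRoot g) V)).restrictScalars F :=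
      LinearMap.ext fun v => (hα v).symm
    have : FiniteDimensional F (AdjoinRoot g) := (AdjoinRoot.powerBasis hirr.ne_zero).finite
    rw [hTeq, LinearMap.det_restrictScalars, LinearMap.det_smul, map_one, mul_one, map_pow]
    congr 1
    have h := Algebra.PowerBasis.norm_gen_eq_coeff_zero_minpoly (AdjoinRoot.powerBasis hirr.ne_zero)
    rw [AdjoinRoot.minpoly_powerBasis_gen_of_monic hgm, AdjoinRoot.powerBasis_gen, AdjoinRoot.powerBasis_dim,
      hg, natDegree_X_pow_sub_C] at h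
    rw [h]
    simp [coeff_X_pow, hr.ne_zero.symm, pow_succ]
  · intro j j' hjj hjk
    obtain ⟨W, -, -, hW⟩ := exists_between (F := AdjoinRoot g) (bot_le (a := (⊤ : Submodule (AdjoinRoot g) V)))
      (d := j') (by simp) (by simpa using hjk)
    obtain ⟨U, -, hUW, hU⟩ := exists_between (F := AdjoinRoot g) (bot_le (a := W)) (d := j) (by simp) (by omega)
    refine ⟨U.restrictScalars F, W.restrictScalars F, hUW, ?_, ?_, fun v hv => ?_, fun v hv => ?_⟩
    · show finrank F U = _
      rw [← Module.finrank_mul_finrank F (AdjoinRoot g) U, hLr, hU]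
    · show finrank F W = _
      rw [← Module.finrank_mul_finrank F (AdjoinRoot g) W, hLr, hW]
    · exact hα v ▸ U.smul_mem α hv
    · exact hα v ▸ W.smul_mem α hv

theorem dvd_of_nonpower {r : ℕ} [Fact r.Prime] {z : F} (hz : ∀ b : F, b ^ r ≠ z) {T : Module.End F V}
    (hT : T ^ r = z • 1) {W : Submodule F V} (hW : ∀ v ∈ W, T v ∈ W) : r ∣ finrank F W := by
  obtain ⟨k, hk, -⟩ := nonpower hz (T := T.restrict hW) (LinearMap.ext fun w => Subtype.ext (by
    rw [Module.End.pow_restrict r, LinearMap.restrict_apply]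
    simp [hT]))
  exact ⟨k, hk⟩

theorem exists_nonpower {r : ℕ} [Fact r.Prime] {z : F} (hz : ∀ b : F, b ^ r ≠ z) (k : ℕ) {n : ℕ} (hn : n = r * k) :
    ∃ T : Module.End F (Fin n → F), T ^ r = z • 1 := by
  have hr : r.Prime := Fact.out
  set g : F[X] := X ^ r - C z with hg
  have hne : g ≠ 0 := X_pow_sub_C_ne_zero hr.pos z
  have hfin : FiniteDimensional F (AdjoinRoot g) := (AdjoinRoot.powerBasis hne).finite
  have hd : finrank F (Fin k → AdjoinRoot g) = n := by
    rw [Module.finrank_pi_fintype]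
    simp only [(AdjoinRoot.powerBasis hne).finrank, AdjoinRoot.powerBasis_dim, hg, natDegree_X_pow_sub_C,
      Finset.sum_const, Finset.card_univ, Fintype.card_fin, smul_eq_mul]
    rw [hn, mul_comm]
  let e : (Fin k → AdjoinRoot g) ≃ₗ[F] (Fin n → F) :=
    LinearEquiv.ofFinrankEq _ _ (by rw [hd, Module.finrank_fin_fun])
  refine ⟨e.conjAlgEquiv F (Algebra.lsmul F F (Fin k → AdjoinRoot g) (AdjoinRoot.root g)), ?_⟩
  have hroot : AdjoinRoot.root g ^ r = algebraMap F (AdjoinRoot g) z := by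
    have h := AdjoinRoot.eval₂_root g
    simpa [hg, sub_eq_zero, AdjoinRoot.algebraMap_eq] using h
  rw [← map_pow, ← map_pow, hroot, AlgHom.commutes, AlgEquiv.commutes, Algebra.algebraMap_eq_smul_one]

end NonPower

section Cases

variable {F : Type*} [Field F] [Fintype F] {q r : ℕ} [Fact r.Prime] {n : ℕ}

/-- `r`-th powers in the cyclic group of nonzero elements. -/
theorem exists_root_iff (hq : Fintype.card F = q) (hdvd : r ∣ q - 1) {w : F} (hw : w ≠ 0) :
    (∃ b : F, b ^ r = w) ↔ w ^ ((q - 1) / r) = 1 := by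
  classical
  have hr : r.Prime := Fact.out
  constructor
  · rintro ⟨b, rfl⟩
    rw [← pow_mul, Nat.mul_div_cancel' hdvd, ← hq]
    exact FiniteField.pow_card_sub_one_eq_one b (fun h => hw (by rw [h, zero_pow hr.ne_zero]))
  · intro h
    obtain ⟨g, hg⟩ := IsCyclic.exists_ofOrder_eq_natCard (α := Fˣ)
    rw [Nat.card_eq_fintype_card, Fintype.card_units, hq] at hg
    obtain ⟨a, ha⟩ := (mem_powers_iff_mem_zpowers.2 (by
      rw [Subgroup.eq_top_of_card_eq (Subgroup.zpowers g) (by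
        rw [Nat.card_zpowers, hg, Nat.card_eq_fintype_card, Fintype.card_units, hq])]
      trivial) : Units.mk0 w hw ∈ Submonoid.powers g)
    have ha' : ((g : F)) ^ a = w := by simpa using congrArg Units.val ha
    have h1 : g ^ (a * ((q - 1) / r)) = 1 := Units.ext (by simp [pow_mul, ha', h])
    obtain ⟨c, hc⟩ := hdvd
    have hc0 : 0 < c := by
      rcases Nat.eq_zero_or_pos c with rfl | h0
      · exact absurd (hg ▸ orderOf_pos g) (by simp [hc])
      · exact h0
    have h2 := orderOf_dvd_of_pow_eq_one h1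
    rw [hg, hc, Nat.mul_div_cancel_left _ hr.pos] at h2
    obtain ⟨d, rfl⟩ := Nat.dvd_of_mul_dvd_mul_right hc0 h2
    exact ⟨(g : F) ^ d, by rw [← pow_mul, mul_comm d r, ha']⟩

theorem sign_power (hq : Fintype.card F = q) (h4 : r = 2 → q % 4 = 1) :
    ∃ s : F, s ^ r = (-1) ^ (r + 1) := by
  rcases (Fact.out : r.Prime).eq_two_or_odd' with rfl | hodd
  · obtain ⟨s, hs⟩ := (FiniteField.isSquare_neg_one_iff (F := F)).2 (by rw [hq, h4 rfl]; norm_num)
    exact ⟨s, by rw [sq, ← hs]; norm_num⟩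
  · exact ⟨1, by rw [one_pow, Even.neg_one_pow hodd.add_one]⟩

/-- Under the arithmetical condition an `r`-th power scalar has a root. -/
theorem power_of_cond (hq : Fintype.card F = q) (hdvd : r ∣ q - 1) {z : F} (hz0 : z ≠ 0)
    (hC : padicValNat r n ≤ padicValNat r (q - 1) ∧ (r = 2 → Even n → q % 4 = 1)) {k : ℕ} (hn : n = r * k)
    (hn0 : n ≠ 0) (hz : ((-1) ^ (r + 1) * z) ^ k = 1) : ∃ b : F, b ^ r = z := by
  have hr : r.Prime := Fact.out
  obtain ⟨s, hs⟩ := sign_power (F := F) (r := r) hq (fun h2 => hC.2 h2 ⟨k, by rw [hn, h2]; ring⟩)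
  set w := (-1) ^ (r + 1) * z
  have hk0 : k ≠ 0 := fun h => hn0 (by rw [hn, h, mul_zero])
  have hw0 : w ≠ 0 := mul_ne_zero (pow_ne_zero _ (by norm_num)) hz0
  have hg : Nat.gcd k (q - 1) ∣ (q - 1) / r := by
    obtain ⟨c, hc⟩ := Nat.gcd_dvd_right k (q - 1)
    by_cases hcr : r ∣ c
    · obtain ⟨d, rfl⟩ := hcr
      exact ⟨d, by conv_lhs => rw [hc, show Nat.gcd k (q - 1) * (r * d) = r * (Nat.gcd k (q - 1) * d) by ring,
        Nat.mul_div_cancel_left _ hr.pos]⟩
    · exfalso
      have hq0 : q - 1 ≠ 0 := by have : 1 < q := hq ▸ Fintype.one_lt_card; omega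
      have hg0 : Nat.gcd k (q - 1) ≠ 0 := fun h => hq0 (Nat.eq_zero_of_gcd_eq_zero_right h)
      have hv := congrArg (padicValNat r) hc
      rw [padicValNat.mul hg0 (by rintro rfl; exact hcr (dvd_zero r)), padicValNat.eq_zero_of_not_dvd hcr, add_zero] at hv
      have hle : padicValNat r (Nat.gcd k (q - 1)) ≤ padicValNat r k :=
        (padicValNat_dvd_iff_le hk0).1 (pow_padicValNat_dvd.trans (Nat.gcd_dvd_left _ _))
      have hvn : padicValNat r n = 1 + padicValNat r k := by
        rw [hn, padicValNat.mul hr.ne_zero hk0, padicValNat_self]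
      omega
  obtain ⟨c, hc⟩ := hg
  have hwg : w ^ Nat.gcd k (q - 1) = 1 := pow_gcd_eq_one.2 ⟨hz, hq ▸ FiniteField.pow_card_sub_one_eq_one w hw0⟩
  obtain ⟨b, hb⟩ := (exists_root_iff hq hdvd hw0).2 (by rw [hc, pow_mul, hwg, one_pow])
  refine ⟨s * b, ?_⟩
  rw [mul_pow, hb, hs, ← mul_assoc, ← pow_add, Even.neg_one_pow ⟨r + 1, rfl⟩, one_mul]

/-- Failure of the arithmetical condition gives a non-power scalar. -/
theorem exists_scalar (hq : Fintype.card F = q) (hdvd : r ∣ q - 1) (hn : n ≠ 0)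
    (hC : ¬ (padicValNat r n ≤ padicValNat r (q - 1) ∧ (r = 2 → Even n → q % 4 = 1))) :
    ∃ (z : F) (k : ℕ), n = r * k ∧ (∀ b : F, b ^ r ≠ z) ∧ ((-1) ^ (r + 1) * z) ^ k = 1 := by
  classical
  have hr : r.Prime := Fact.out
  have hq1 : 1 < q := hq ▸ Fintype.one_lt_card
  have hq0 : q - 1 ≠ 0 := by omega
  by_cases hC2 : r = 2 ∧ Even n ∧ q % 4 ≠ 1
  · obtain ⟨rfl, ⟨k, hk⟩, h4⟩ := hC2
    have h3 : q % 4 = 3 := by obtain ⟨c, hc⟩ := hdvd; omega
    refine ⟨-1, k, by omega, fun b hb => ?_, by norm_num⟩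
    exact (FiniteField.isSquare_neg_one_iff (F := F)).1 ⟨b, by rw [← sq, hb]⟩ (hq ▸ h3)
  have h4 : r = 2 → Even n → q % 4 = 1 := fun h2 he => by
    by_contra h
    exact hC2 ⟨h2, he, h⟩
  have hv : padicValNat r (q - 1) < padicValNat r n := not_le.1 fun h => hC ⟨h, h4⟩
  obtain ⟨k, rfl⟩ : r ∣ n := dvd_of_one_le_padicValNat (by omega)
  have hk0 : k ≠ 0 := fun h => hn (by rw [h, mul_zero])
  rw [padicValNat.mul hr.ne_zero hk0, padicValNat_self] at hv
  obtain ⟨s, hs⟩ := sign_power (F := F) (r := r) hq (fun h2 => h4 h2 (by rw [h2]; exact even_two_mul k))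
  obtain ⟨g, hg⟩ := IsCyclic.exists_ofOrder_eq_natCard (α := Fˣ)
  rw [Nat.card_eq_fintype_card, Fintype.card_units, hq] at hg
  obtain ⟨c, hc⟩ : r ^ padicValNat r (q - 1) ∣ q - 1 := pow_padicValNat_dvd
  have hcr : ¬ r ∣ c := fun ⟨d, hd⟩ => pow_succ_padicValNat_not_dvd hq0 ⟨d, by
    conv_lhs => rw [hc, hd]
    ring⟩
  obtain ⟨e, he⟩ : r ^ padicValNat r (q - 1) ∣ k := (padicValNat_dvd_iff_le hk0).2 (by omega)
  refine ⟨(-1) ^ (r + 1) * (g : F) ^ c, k, rfl, fun b hb => ?_, ?_⟩
  · have hroot : ∃ b' : F, b' ^ r = (g : F) ^ c := ⟨s * b, by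
      rw [mul_pow, hb, hs, ← mul_assoc, ← pow_add, Even.neg_one_pow ⟨r + 1, rfl⟩, one_mul]⟩
    have h1 := (exists_root_iff hq hdvd (pow_ne_zero c g.ne_zero)).1 hroot
    rw [← pow_mul, ← Units.val_pow_eq_pow_val, Units.val_eq_one] at h1
    have h2 := orderOf_dvd_of_pow_eq_one h1
    rw [hg] at h2
    obtain ⟨d, hd⟩ := hdvd
    rw [hd, Nat.mul_div_cancel_left _ hr.pos] at h2
    exact hcr (Nat.dvd_of_mul_dvd_mul_right (Nat.pos_of_ne_zero fun h => hq0 (by rw [hd, h, mul_zero])) h2)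
  · rw [← mul_assoc, ← pow_add, Even.neg_one_pow ⟨r + 1, rfl⟩, one_mul, ← pow_mul, ← Units.val_pow_eq_pow_val,
      show c * k = (q - 1) * e by rw [hc, he]; ring, ← hg, pow_mul, pow_orderOf_eq_one, one_pow, Units.val_one]

theorem dvd_sub_one_of_order (hrq : ¬ r ∣ q) (h1 : orderOf (q : ZMod r) = 1) : r ∣ q - 1 := by
  simpa using (dvd_pow_sub_one (q := q) hrq h1.symm).2

theorem not_dvd_sub_one (hq : Fintype.card F = q) (hi : 2 ≤ orderOf (q : ZMod r)) : ¬ r ∣ q - 1 := by
  intro h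
  have h1 : 1 ≤ q := hq ▸ Fintype.card_pos
  rw [← ZMod.natCast_eq_zero_iff, Nat.cast_sub h1, Nat.cast_one, sub_eq_zero] at h
  rw [h, orderOf_one] at hi
  omega

theorem scaled {V : Type*} [AddCommGroup V] [Module F V] {T : Module.End F V} {z b : F} (hb : b ^ r = z) (hz : z ≠ 0)
    (hT : T ^ r = z • 1) : (b⁻¹ • T) ^ r = 1 ∧ ∀ W : Submodule F V, (∀ v ∈ W, (b⁻¹ • T) v ∈ W) → ∀ v ∈ W, T v ∈ W := by
  have hb0 : b ≠ 0 := fun h => hz (by rw [← hb, h, zero_pow (Fact.out : r.Prime).ne_zero])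
  refine ⟨?_, fun W hW v hv => ?_⟩
  · rw [_root_.smul_pow, hT, smul_smul, inv_pow, hb, inv_mul_cancel₀ hz, one_smul]
  · have := W.smul_mem b (hW v hv)
    rwa [LinearMap.smul_apply, smul_smul, mul_inv_cancel₀ hb0, one_smul] at this

theorem scalar_ne_zero {V : Type*} [AddCommGroup V] [Module F V] [Nontrivial V] [FiniteDimensional F V]
    {T : Module.End F V} {z : F} (hT : T ^ r = z • 1) (hdet : LinearMap.det T = 1) : z ≠ 0 := by
  rintro rfl
  have := congrArg LinearMap.det hT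
  rw [map_pow, hdet, one_pow, zero_smul, LinearMap.det_zero, zero_pow (Module.finrank_pos).ne'] at this
  exact one_ne_zero this

/-- Nested invariant subspaces when `q ≡ 1 (mod r)`. -/
theorem exists_of_one (hq : Fintype.card F = q) (hrq : ¬ r ∣ q) (hrF : (r : F) ≠ 0) (h1 : orderOf (q : ZMod r) = 1)
    {T : Module.End F (Fin n → F)} {z : F} (hn : n ≠ 0) (hT : T ^ r = z • 1) (hdet : LinearMap.det T = 1)
    {m m' : ℕ} (hm : m ≤ m') (hm' : m' ≤ n) (hnm : m' = m ∨ m' + m = n)
    (hC : r ∣ m ∨ (padicValNat r n ≤ padicValNat r (q - 1) ∧ (r = 2 → Even n → q % 4 = 1))) :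
    ∃ U W : Submodule F (Fin n → F), U ≤ W ∧ finrank F U = m ∧ finrank F W = m' ∧
      (∀ v ∈ U, T v ∈ U) ∧ ∀ v ∈ W, T v ∈ W := by
  have : NeZero n := ⟨hn⟩
  have hz := scalar_ne_zero hT hdet
  have hdvd := dvd_sub_one_of_order hrq h1
  by_cases hp : ∃ b : F, b ^ r = z
  · obtain ⟨b, hb⟩ := hp
    obtain ⟨hS, hinv⟩ := scaled hb hz hT
    set f := finrank F (LinearMap.ker (b⁻¹ • T - 1)) with hf
    have hfn : f ≤ n := (Submodule.finrank_le _).trans_eq (Module.finrank_fin_fun F)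
    obtain ⟨U, W, hUW, hU, hW, hUi, hWi⟩ := exists_flag hq hrq h1.symm hS hrF hf.symm
      (j := min m (n - f)) (j' := min m' (n - f)) (e := m - min m (n - f)) (e' := m' - min m' (n - f))
      (by omega) (by rw [Module.finrank_fin_fun, mul_one]; omega) (by omega) (by omega)
    exact ⟨U, W, hUW, by rw [hU, mul_one]; omega, by rw [hW, mul_one]; omega, hinv U hUi, hinv W hWi⟩
  · push_neg at hp
    obtain ⟨k, hk, hd, hex⟩ := nonpower hp hT
    rw [Module.finrank_fin_fun] at hk
    rcases hC with hC | hC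
    · obtain ⟨a, rfl⟩ := hC
      obtain ⟨a', rfl⟩ : r ∣ m' := by
        rcases hnm with h | h
        · exact h ▸ dvd_mul_right r a
        · exact (Nat.dvd_add_left (dvd_mul_right r a)).1 (h ▸ hk ▸ dvd_mul_right r k)
      exact hex a a' (Nat.le_of_mul_le_mul_left hm (Fact.out : r.Prime).pos)
        (Nat.le_of_mul_le_mul_left (hk ▸ hm') (Fact.out : r.Prime).pos)
    · obtain ⟨b, hb⟩ := power_of_cond hq hdvd hz hC hk hn (hd.symm.trans hdet)
      exact absurd hb (hp b)

/-- Nested invariant subspaces when `q` has order at least 2 modulo `r`. -/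
theorem exists_of_two (hq : Fintype.card F = q) (hrq : ¬ r ∣ q) (hrF : (r : F) ≠ 0) {i : ℕ}
    (hi : i = orderOf (q : ZMod r)) (hi2 : 2 ≤ i) {T : Module.End F (Fin n → F)} {z : F} (hn : n ≠ 0)
    (hT : T ^ r = z • 1) (hdet : LinearMap.det T = 1) {m m' : ℕ}
    (hdec : ∀ k f, k * i + f = n → ∃ j j' e e', j ≤ j' ∧ j' ≤ k ∧ e ≤ e' ∧ e' ≤ f ∧ m = j * i + e ∧ m' = j' * i + e') :
    ∃ U W : Submodule F (Fin n → F), U ≤ W ∧ finrank F U = m ∧ finrank F W = m' ∧
      (∀ v ∈ U, T v ∈ U) ∧ ∀ v ∈ W, T v ∈ W := by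
  classical
  have : NeZero n := ⟨hn⟩
  have hz := scalar_ne_zero hT hdet
  have hcop : Nat.Coprime r (q - 1) :=
    (Fact.out : r.Prime).coprime_iff_not_dvd.2 (not_dvd_sub_one hq (hi ▸ hi2))
  obtain ⟨b, hb⟩ : ∃ b : F, b ^ r = z := by
    obtain ⟨b, hb⟩ := (powCoprime (G := Fˣ) (n := r) (by
      rw [Nat.card_eq_fintype_card, Fintype.card_units, hq]; exact hcop.symm)).surjective (Units.mk0 z hz)
    exact ⟨b, by simpa using congrArg Units.val hb⟩
  obtain ⟨hS, hinv⟩ := scaled hb hz hT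
  set f := finrank F (LinearMap.ker (b⁻¹ • T - 1)) with hf
  have hfn : f ≤ n := (Submodule.finrank_le _).trans_eq (Module.finrank_fin_fun F)
  have hmod := dim_mod hq hrq hi hS (W := ⊤) (fun v _ => trivial)
  rw [top_inf_eq, finrank_top, Module.finrank_fin_fun, ← hf] at hmod
  obtain ⟨k, hk⟩ := (Nat.modEq_iff_dvd' hfn).1 hmod.symm
  obtain ⟨j, j', e, e', hj, hj', he, he', rfl, rfl⟩ := hdec k f (by rw [mul_comm, ← hk]; omega)
  obtain ⟨U, W, hUW, hU, hW, hUi, hWi⟩ := exists_flag hq hrq hi hS hrF hf.symm hj (by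
    have := Nat.mul_le_mul_right i hj'
    rw [Module.finrank_fin_fun]
    rw [mul_comm k i, ← hk] at this
    omega) he he'
  exact ⟨U, W, hUW, hU, hW, hinv U hUi, hinv W hWi⟩

/-- A derangement for `q ≡ 1 (mod r)`. -/
theorem derange_one (hq : Fintype.card F = q) (hrq : ¬ r ∣ q) (h1 : orderOf (q : ZMod r) = 1) (hn : n ≠ 0) {m : ℕ}
    (hm : ¬ r ∣ m) (hC : ¬ (padicValNat r n ≤ padicValNat r (q - 1) ∧ (r = 2 → Even n → q % 4 = 1))) :
    ∃ (T : Module.End F (Fin n → F)) (z : F), T ^ r = z • 1 ∧ LinearMap.det T = 1 ∧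
      ∀ W : Submodule F (Fin n → F), finrank F W = m → ¬ ∀ v ∈ W, T v ∈ W := by
  obtain ⟨z, k, hk, hz, hzk⟩ := exists_scalar hq (dvd_sub_one_of_order hrq h1) hn hC
  obtain ⟨T, hT⟩ := exists_nonpower hz k hk
  obtain ⟨k', hk', hd, -⟩ := nonpower hz hT
  rw [Module.finrank_fin_fun, hk] at hk'
  obtain rfl : k = k' := Nat.eq_of_mul_eq_mul_left (Fact.out : r.Prime).pos hk'
  exact ⟨T, z, hT, hd.trans hzk, fun W hW hinv => hm (hW ▸ dvd_of_nonpower hz hT hinv)⟩

/-- A derangement for `q` of order at least 2 modulo `r`. -/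
theorem derange_two (hq : Fintype.card F = q) (hrq : ¬ r ∣ q) {i : ℕ} (hi : i = orderOf (q : ZMod r)) (hi2 : 2 ≤ i) :
    ∃ T : Module.End F (Fin n → F), T ^ r = 1 ∧ LinearMap.det T = 1 ∧
      finrank F (LinearMap.ker (T - 1)) = n % i := by
  classical
  obtain ⟨hi0, hdvd⟩ := dvd_pow_sub_one hrq hi
  obtain ⟨T₀, hT₀⟩ := exists_prime_orderOf_dvd_card' (G := GL (Fin i) F) r (by
    rw [Matrix.card_GL_field, hq]
    refine dvd_trans ?_ (Finset.dvd_prod_of_mem _ (Finset.mem_univ (⟨0, hi0⟩ : Fin i)))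
    simpa using hdvd)
  set t : Module.End F (Fin i → F) := Matrix.toLinAlgEquiv' (T₀ : Matrix (Fin i) (Fin i) F) with ht
  have htr : t ^ r = 1 := by
    rw [ht, ← map_pow, ← Units.val_pow_eq_pow_val, ← hT₀, pow_orderOf_eq_one, Units.val_one, map_one]
  have ht1 : t ≠ 1 := fun h => (Fact.out : r.Prime).one_lt.ne' (by
    rw [← hT₀, Units.ext (Matrix.toLinAlgEquiv'.injective (h.trans (map_one _).symm) :
      (T₀ : Matrix (Fin i) (Fin i) F) = ((1 : GL (Fin i) F) : Matrix (Fin i) (Fin i) F)), orderOf_one])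
  have hfree : ∀ v, t v = v → v = 0 := by
    have hmod := dim_mod hq hrq hi htr (W := ⊤) (fun v _ => trivial)
    rw [top_inf_eq, finrank_top, Module.finrank_fin_fun] at hmod
    have hle : finrank F (LinearMap.ker (t - 1)) ≤ i :=
      (Submodule.finrank_le _).trans_eq (Module.finrank_fin_fun F)
    rcases hle.lt_or_eq with hlt | heq
    · have h0 : finrank F (LinearMap.ker (t - 1)) = 0 := by
        have := hmod.symm
        rw [Nat.ModEq, Nat.mod_eq_of_lt hlt, Nat.mod_self] at this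
        exact this
      intro v hv
      have : v ∈ LinearMap.ker (t - 1) := by simp [hv]
      rwa [Submodule.finrank_eq_zero.1 h0, Submodule.mem_bot] at this
    · exact absurd (sub_eq_zero.1 (LinearMap.ker_eq_top.1 (Submodule.eq_top_of_finrank_eq (by simpa using heq)))) ht1
  let Yl : Module.End F ((Fin (n / i) → Fin i → F) × (Fin (n % i) → F)) :=
    LinearMap.prodMap (t.compLeft (Fin (n / i))) 1
  have hX : ∀ (k : ℕ) x, (Yl ^ k) x = (fun a => (t ^ k) (x.1 a), x.2) := by
    intro k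
    induction k with
    | zero => intro x; rfl
    | succ k ih =>
      intro x
      rw [pow_succ', Module.End.mul_apply, ih]
      ext a b
      · simp [Yl, pow_succ', Module.End.mul_apply]
      · simp [Yl]
  let e : ((Fin (n / i) → Fin i → F) × (Fin (n % i) → F)) ≃ₗ[F] (Fin n → F) :=
    LinearEquiv.ofFinrankEq _ _ (by
      rw [Module.finrank_prod, Module.finrank_pi_fintype, Module.finrank_fin_fun, Module.finrank_fin_fun,
        Finset.sum_const, Finset.card_univ, Fintype.card_fin, smul_eq_mul, Module.finrank_fin_fun]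
      exact (Nat.div_add_mod' n i))
  set T := e.conjAlgEquiv F Yl with hTdef
  have hTr : T ^ r = 1 := by
    rw [hTdef, ← map_pow, show Yl ^ r = 1 from LinearMap.ext fun x => by rw [hX, htr]; rfl, map_one]
  refine ⟨T, hTr, ?_, ?_⟩
  · by_contra hne
    have h := congrArg LinearMap.det hTr
    rw [map_pow, map_one] at h
    have hord := orderOf_eq_prime (p := r) h hne
    have h0 : LinearMap.det T ≠ 0 := fun h0 => by rw [h0, zero_pow (Fact.out : r.Prime).ne_zero] at h; exact zero_ne_one h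
    exact not_dvd_sub_one hq (hi ▸ hi2) (hord ▸ orderOf_dvd_of_pow_eq_one
      (hq ▸ FiniteField.pow_card_sub_one_eq_one _ h0))
  · rw [show LinearMap.ker (T - 1) = Submodule.map (e : _ →ₗ[F] _) (LinearMap.ker (Yl - 1)) from
      Submodule.ext fun v => by
        rw [Submodule.mem_map_equiv, LinearMap.mem_ker, LinearMap.mem_ker, hTdef]
        simp [LinearEquiv.conjAlgEquiv_apply, sub_eq_zero, ← LinearEquiv.eq_symm_apply],
      LinearEquiv.finrank_map_eq,
      show LinearMap.ker (Yl - 1) = LinearMap.range (LinearMap.inr F (Fin (n / i) → Fin i → F) (Fin (n % i) → F)) from ?_,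
      LinearMap.finrank_range_of_inj LinearMap.inr_injective, Module.finrank_fin_fun]
    ext ⟨a, b⟩
    simp only [LinearMap.mem_ker, LinearMap.sub_apply, Module.End.one_apply, sub_eq_zero, LinearMap.mem_range,
      LinearMap.inr_apply, Prod.mk.injEq, exists_eq_right]
    constructor
    · intro h
      exact (funext fun c => (hfree _ (congrFun (congrArg Prod.fst h) c)).symm)
    · intro h
      rw [← h]
      exact Prod.ext (funext fun c => map_zero t) rfl

theorem end_of_sl (x : Matrix.SpecialLinearGroup (Fin n) F) {z : F}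
    (h : ((x ^ r : Matrix.SpecialLinearGroup (Fin n) F) : Matrix (Fin n) (Fin n) F) = z • 1) :
    (Matrix.toLin' (x : Matrix (Fin n) (Fin n) F)) ^ r = z • (1 : Module.End F (Fin n → F)) ∧
      LinearMap.det (Matrix.toLin' (x : Matrix (Fin n) (Fin n) F)) = 1 := by
  constructor
  · rw [← Matrix.toLin'_pow, ← Matrix.SpecialLinearGroup.coe_pow, h, map_smul, Matrix.toLin'_one]; rfl
  · rw [LinearMap.det_toLin', x.2]

theorem sl_of_end {T : Module.End F (Fin n → F)} {z : F} (hT : T ^ r = z • 1) (hdet : LinearMap.det T = 1) :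
    ∃ x : Matrix.SpecialLinearGroup (Fin n) F, Matrix.toLin' (x : Matrix (Fin n) (Fin n) F) = T ∧
      ((x ^ r : Matrix.SpecialLinearGroup (Fin n) F) : Matrix (Fin n) (Fin n) F) = z • 1 := by
  obtain ⟨x, hx⟩ : ∃ x : Matrix.SpecialLinearGroup (Fin n) F,
      (x : Matrix (Fin n) (Fin n) F) = LinearMap.toMatrix' T :=
    ⟨⟨LinearMap.toMatrix' T, by rw [LinearMap.det_toMatrix', hdet]⟩, rfl⟩
  refine ⟨x, by rw [hx, Matrix.toLin'_toMatrix'], ?_⟩
  apply Matrix.toLin'.injective
  rw [Matrix.SpecialLinearGroup.coe_pow, Matrix.toLin'_pow, map_smul, Matrix.toLin'_one, hx, Matrix.toLin'_toMatrix']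
  exact hT

omit [Fintype F] in
theorem map_le_of_scalar {c : F} {M : Matrix (Fin n) (Fin n) F} (h : M = c • 1) (W : Submodule F (Fin n → F)) :
    W.map (Matrix.toLin' M) ≤ W := by
  rintro _ ⟨v, hv, rfl⟩
  rw [h, map_smul, Matrix.toLin'_one, LinearMap.smul_apply]
  exact W.smul_mem c hv

end Cases

end Cfsg.Agent.GeomClasses.SubspaceDerange
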