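import Mathlib

/-! # Subgroups of small index of symmetric groups -/

set_option autoImplicit false

namespace Cfsg.Agent.GeomClasses

open Equiv Equiv.Perm MulAction

variable {α : Type*} [Fintype α] [DecidableEq α]

/-- A normal subgroup of `Perm α`, five letters at least, is trivial or contains the alternating group. -/
theorem perm_normal_cases (h5 : 5 ≤ Fintype.card α) (N : Subgroup (Perm α)) [N.Normal] :
    N = ⊥ ∨ alternatingGroup α ≤ N := by
  haveI := alternatingGroup.isSimpleGroup (α := α) (by rwa [Nat.card_eq_fintype_card])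
  rcases IsSimpleGroup.eq_bot_or_eq_top_of_normal (N.subgroupOf (alternatingGroup α)) inferInstance with h | h
  · left
    rw [Subgroup.subgroupOf_eq_bot] at h
    rw [eq_bot_iff]
    intro x hx
    rw [Subgroup.mem_bot]
    have hcomm : ∀ y ∈ alternatingGroup α, x * y = y * x := by
      intro y hy
      have hc : x * y * x⁻¹ * y⁻¹ ∈ N ⊓ alternatingGroup α := by
        refine ⟨?_, ?_⟩
        · rw [mul_assoc x, mul_assoc x]
          exact N.mul_mem hx ((‹N.Normal›).conj_mem _ (N.inv_mem hx) y)
        · exact (alternatingGroup α).mul_mem ((inferInstance : (alternatingGroup α).Normal).conj_mem _ hy x)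
            ((alternatingGroup α).inv_mem hy)
      rw [disjoint_iff.mp h, Subgroup.mem_bot, mul_inv_eq_one, mul_inv_eq_iff_eq_mul] at hc
      exact hc
    refine Equiv.ext fun a => ?_
    simp only [Perm.coe_one, id_eq]
    by_contra hxa
    obtain ⟨c, hc⟩ : ∃ c, c ∉ ({a, x a} : Finset α) := by
      by_contra hc; push_neg at hc
      have := Finset.card_le_card (fun y (_ : y ∈ Finset.univ) => hc y)
      rw [Finset.card_univ] at this
      have := this.trans Finset.card_le_two
      omega
    obtain ⟨d, hd⟩ : ∃ d, d ∉ ({a, x a, c} : Finset α) := by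
      by_contra hd; push_neg at hd
      have := Finset.card_le_card (fun y (_ : y ∈ Finset.univ) => hd y)
      rw [Finset.card_univ] at this
      have := this.trans Finset.card_le_three
      omega
    simp only [Finset.mem_insert, Finset.mem_singleton, not_or] at hc hd
    have h3 : swap a c * swap a d ∈ alternatingGroup α := by
      rw [Equiv.Perm.mem_alternatingGroup, map_mul, sign_swap (Ne.symm hc.1), sign_swap (Ne.symm hd.1)]
      decide
    have hfix : (swap a c * swap a d) (x a) = x a := by
      rw [Perm.mul_apply, swap_apply_of_ne_of_ne hxa (Ne.symm hd.2.1),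
        swap_apply_of_ne_of_ne hxa (Ne.symm hc.2)]
    have h4 := congrArg (fun p : Perm α => p a) (hcomm _ h3)
    simp only [Perm.mul_apply, swap_apply_left] at h4
    rw [swap_apply_of_ne_of_ne hxa (Ne.symm hd.2.1), swap_apply_of_ne_of_ne hxa (Ne.symm hc.2),
      swap_apply_of_ne_of_ne hd.1 hd.2.2] at h4
    exact hd.1 (x.injective h4)
  · right
    rwa [Subgroup.subgroupOf_eq_top] at h

/-- The action on cosets of a subgroup of small index is trivial on the alternating group, or faithful. -/
theorem toPermHom_cases (h5 : 5 ≤ Fintype.card α) (H : Subgroup (Perm α)) :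
    alternatingGroup α ≤ H ∨ Function.Injective (toPermHom (Perm α) (Perm α ⧸ H)) := by
  rcases perm_normal_cases h5 (toPermHom (Perm α) (Perm α ⧸ H)).ker with h | h
  · exact Or.inr ((MonoidHom.ker_eq_bot_iff _).mp h)
  · left
    rw [← Subgroup.normalCore_eq_ker] at h
    exact h.trans (Subgroup.normalCore_le H)

theorem card_le_index (h5 : 5 ≤ Fintype.card α) (H : Subgroup (Perm α)) (hA : ¬ alternatingGroup α ≤ H) :
    Fintype.card α ≤ H.index := by
  have h := Nat.card_le_card_of_injective _ ((toPermHom_cases h5 H).resolve_left hA)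
  rw [Nat.card_perm, Nat.card_perm, Nat.card_eq_fintype_card (α := α)] at h
  change _ ≤ H.index.factorial at h
  by_contra hlt
  exact absurd h (not_le.mpr ((Nat.factorial_lt (Nat.pos_of_ne_zero Subgroup.index_ne_zero_of_finite)).mpr (not_le.mp hlt)))

/-- An involution any two conjugates of which have product of order at most three. -/
def IsSwapLike (x : Perm α) : Prop :=
  x ≠ 1 ∧ x * x = 1 ∧ ∀ g : Perm α, (x * (g * x * g⁻¹)) ^ 2 = 1 ∨ (x * (g * x * g⁻¹)) ^ 3 = 1

theorem isSwapLike_swap {a b : α} (hab : a ≠ b) : IsSwapLike (swap a b) := by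
  refine ⟨fun h => hab (swap_eq_one_iff.mp h), swap_mul_self a b, fun g => ?_⟩
  rw [← swap_apply_apply g a b]
  have hcd : g a ≠ g b := fun h => hab (g.injective h)
  generalize g a = c at hcd
  generalize g b = d at hcd ⊢
  by_cases h : ({a, b} : Finset α) = {c, d}
  · left
    have h1 : swap a b = swap c d := by
      have hc : c = a ∨ c = b := by
        have : c ∈ ({a, b} : Finset α) := h ▸ (by simp)
        simpa using this
      have hd : d = a ∨ d = b := by
        have : d ∈ ({a, b} : Finset α) := h ▸ (by simp)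
        simpa using this
      rcases hc with rfl | rfl <;> rcases hd with rfl | rfl
      · exact absurd rfl hcd
      · rfl
      · exact swap_comm _ _
      · exact absurd rfl hcd
    rw [← h1, swap_mul_self, one_pow]
  · by_cases hdis : a ≠ c ∧ a ≠ d ∧ b ≠ c ∧ b ≠ d
    · left
      have hc : Commute (swap a b) (swap c d) := by
        refine Perm.Disjoint.commute ?_
        intro x
        rcases eq_or_ne x a with rfl | h1
        · exact Or.inr (swap_apply_of_ne_of_ne hdis.1 hdis.2.1)
        rcases eq_or_ne x b with rfl | h2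
        · exact Or.inr (swap_apply_of_ne_of_ne hdis.2.2.1 hdis.2.2.2)
        exact Or.inl (swap_apply_of_ne_of_ne h1 h2)
      rw [hc.mul_pow, sq, sq, swap_mul_self, swap_mul_self, one_mul]
    · right
      suffices h3 : (swap a b * swap c d).IsThreeCycle by
        rw [← h3.orderOf]; exact pow_orderOf_eq_one _
      simp only [not_and_or, not_not] at hdis
      rcases hdis with rfl | rfl | rfl | rfl
      · exact isThreeCycle_swap_mul_swap_same hab hcd fun hh => h (by rw [hh])
      · rw [swap_comm c a]
        exact isThreeCycle_swap_mul_swap_same hab hcd.symm fun hh => h (by rw [hh, Finset.pair_comm])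
      · rw [swap_comm a b]
        exact isThreeCycle_swap_mul_swap_same hab.symm hcd fun hh => h (by rw [hh, Finset.pair_comm])
      · rw [swap_comm a b, swap_comm c b]
        exact isThreeCycle_swap_mul_swap_same hab.symm hcd.symm fun hh => h (by rw [hh, Finset.pair_comm])

theorem IsSwapLike.map {β : Type*} [Fintype β] [DecidableEq β] {x : Perm α} (hx : IsSwapLike x)
    (ψ : Perm α →* Perm β) (hψ : Function.Bijective ψ) : IsSwapLike (ψ x) := by
  refine ⟨fun h => hx.1 (hψ.1 (h.trans (map_one ψ).symm)), by rw [← map_mul, hx.2.1, map_one], fun g => ?_⟩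
  obtain ⟨g, rfl⟩ := hψ.2 g
  rcases hx.2.2 g with h | h
  · exact Or.inl (by rw [← map_inv, ← map_mul, ← map_mul, ← map_mul, ← map_pow, h, map_one])
  · exact Or.inr (by rw [← map_inv, ← map_mul, ← map_mul, ← map_mul, ← map_pow, h, map_one])

/-- Fixed-point-free involution. -/
def IsFPFInvolution (x : Perm α) : Prop := x * x = 1 ∧ ∀ a, x a ≠ a

theorem formPerm_get {l : List α} (hl : l.Nodup) (i : ℕ) (hi : i < l.length) :
    l.formPerm l[i] = l[(i + 1) % l.length]'(Nat.mod_lt _ (by omega)) := List.formPerm_apply_getElem l hl i hi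

/-- Such involutions are transpositions, except for six letters where the fixed-point-free ones also qualify. -/
theorem IsSwapLike.cases {x : Perm α} (hx : IsSwapLike x) :
    (∃ a b, a ≠ b ∧ x = swap a b) ∨ (Fintype.card α = 6 ∧ IsFPFInvolution x) ∨ (Fintype.card α ≤ 4) := by
  obtain ⟨hx1, hx2, hx3⟩ := hx
  have hxx : ∀ a, x (x a) = a := fun a => by rw [← Perm.mul_apply, hx2, Perm.coe_one, id_eq]
  obtain ⟨a, ha⟩ : ∃ a, x a ≠ a := not_forall.mp fun h => hx1 (Equiv.ext h)
  by_cases hone : ∀ c, c ≠ a → c ≠ x a → x c = c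
  · left
    refine ⟨a, x a, Ne.symm ha, Equiv.ext fun c => ?_⟩
    rcases eq_or_ne c a with rfl | h1
    · rw [swap_apply_left]
    rcases eq_or_ne c (x a) with rfl | h2
    · rw [hxx, swap_apply_right]
    rw [hone c h1 h2, swap_apply_of_ne_of_ne h1 h2]
  push_neg at hone
  obtain ⟨c, hca, hcb, hc⟩ := hone
  have hdb : x c ≠ x a := fun h => hca (x.injective h)
  have hda : x c ≠ a := fun h => hcb (by rw [← h, hxx])
  right
  have contra : ∀ (g : Perm α) (p : α),
      ((x * (g * x * g⁻¹)) ^ 2) p ≠ p → ((x * (g * x * g⁻¹)) ^ 3) p ≠ p → False := by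
    intro g p h2 h3
    rcases hx3 g with h | h
    · exact h2 (by rw [h]; rfl)
    · exact h3 (by rw [h]; rfl)
  by_cases hfix : ∃ e, x e = e
  · exfalso
    obtain ⟨e, he⟩ := hfix
    have hea : e ≠ a := fun h => ha (h ▸ he)
    have heb : e ≠ x a := fun h => ha (by rw [h, hxx] at he; exact he.symm)
    have hec : e ≠ c := fun h => hc (h ▸ he)
    have hed : e ≠ x c := fun h => hc (by rw [h, hxx] at he; exact he.symm)
    let l : List α := [a, x a, c, x c, e]
    have hl : l.Nodup := by simp [l, Ne.symm ha, Ne.symm hca, Ne.symm hcb, Ne.symm hc, Ne.symm hda, Ne.symm hdb, Ne.symm hea, Ne.symm heb, Ne.symm hec, Ne.symm hed]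
    set g := l.formPerm with hg
    have g0 : g a = x a := formPerm_get hl 0 (by simp [l])
    have g1 : g (x a) = c := formPerm_get hl 1 (by simp [l])
    have g2 : g c = x c := formPerm_get hl 2 (by simp [l])
    have g3 : g (x c) = e := formPerm_get hl 3 (by simp [l])
    have g4 : g e = a := by simpa [l, g] using formPerm_get hl 4 (by simp [l])
    have y : ∀ u v, g u = v → (g * x * g⁻¹) v = g (x u) := by
      intro u v h
      rw [← h, Perm.mul_apply, Perm.mul_apply, Perm.inv_def, Equiv.symm_apply_apply]
    have z1 : (x * (g * x * g⁻¹)) a = x a := by rw [Perm.mul_apply, y e a g4, he, g4]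
    have z2 : (x * (g * x * g⁻¹)) (x a) = x c := by rw [Perm.mul_apply, y a (x a) g0, g1]
    have z3 : (x * (g * x * g⁻¹)) (x c) = e := by rw [Perm.mul_apply, y c (x c) g2, g3, he]
    refine contra g a ?_ ?_ <;> generalize x * (g * x * g⁻¹) = z at z1 z2 z3 ⊢
    · rw [pow_two, Perm.mul_apply, z1, z2]; exact hda
    · rw [pow_succ', pow_two, Perm.mul_apply, Perm.mul_apply, z1, z2, z3]; exact hea
  push_neg at hfix
  by_cases h7 : 7 ≤ Fintype.card α
  swap
  · have hev : 2 ∣ Fintype.card α := by
      have h := Perm.two_dvd_card_support (σ := x) (by rw [sq]; exact hx2)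
      rwa [show x.support = Finset.univ from Finset.eq_univ_iff_forall.mpr fun a => Perm.mem_support.mpr (hfix a),
        Finset.card_univ] at h
    rcases Nat.lt_or_ge (Fintype.card α) 5 with h | h
    · exact Or.inr (by omega)
    · exact Or.inl ⟨by omega, hx2, hfix⟩
  exfalso
  obtain ⟨p, hp⟩ : ∃ p, p ∉ ({a, x a, c, x c} : Finset α) := by
    by_contra h; push_neg at h
    have := (Finset.card_le_card (fun y (_ : y ∈ Finset.univ) => h y)).trans Finset.card_le_four
    rw [Finset.card_univ] at this; omega
  simp only [Finset.mem_insert, Finset.mem_singleton, not_or] at hp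
  obtain ⟨hpa, hpb, hpc, hpd⟩ := hp
  obtain ⟨u, hu⟩ : ∃ u, u ∉ ({a, x a, c, x c, p, x p} : Finset α) := by
    by_contra h; push_neg at h
    have := (Finset.card_le_card (fun y (_ : y ∈ Finset.univ) => h y)).trans Finset.card_le_six
    rw [Finset.card_univ] at this; omega
  simp only [Finset.mem_insert, Finset.mem_singleton, not_or] at hu
  obtain ⟨hua, hub, huc, hud, hup, huq⟩ := hu
  have hqa : x p ≠ a := fun h => hpb (by rw [← h, hxx])
  have hqb : x p ≠ x a := fun h => hpa (x.injective h)
  have hqc : x p ≠ c := fun h => hpd (by rw [← h, hxx])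
  have hqd : x p ≠ x c := fun h => hpc (x.injective h)
  let l : List α := [a, x a, c, x c, p, x p, u]
  have hl : l.Nodup := by simp [l, Ne.symm ha, Ne.symm hca, Ne.symm hcb, Ne.symm hc, Ne.symm hda, Ne.symm hdb, Ne.symm hpa, Ne.symm hpb, Ne.symm hpc, Ne.symm hpd, Ne.symm hqa, Ne.symm hqb, Ne.symm hqc, Ne.symm hqd, Ne.symm (hfix p), Ne.symm hua, Ne.symm hub, Ne.symm huc, Ne.symm hud, Ne.symm hup, Ne.symm huq]
  set g := l.formPerm with hg
  have g0 : g a = x a := formPerm_get hl 0 (by simp [l])
  have g2 : g c = x c := formPerm_get hl 2 (by simp [l])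
  have g3 : g (x c) = p := formPerm_get hl 3 (by simp [l])
  have g5 : g (x p) = u := formPerm_get hl 5 (by simp [l])
  have g6 : g u = a := by simpa [l, g] using formPerm_get hl 6 (by simp [l])
  have g4 : g p = x p := formPerm_get hl 4 (by simp [l])
  have y : ∀ u v, g u = v → (g * x * g⁻¹) v = g (x u) := by
    intro u v h
    rw [← h, Perm.mul_apply, Perm.mul_apply, Perm.inv_def, Equiv.symm_apply_apply]
  have hgx : g (x u) = x u := by
    apply List.formPerm_apply_of_notMem
    have h1 : x u ≠ a := fun h => hub (by rw [← h, hxx])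
    have h2 : x u ≠ c := fun h => hud (by rw [← h, hxx])
    have h3 : x u ≠ p := fun h => huq (by rw [← h, hxx])
    simp [l, h1, h2, h3, hua, huc, hup, hfix u]
  have z1 : (x * (g * x * g⁻¹)) a = u := by rw [Perm.mul_apply, y u a g6, hgx, hxx]
  have z2 : (x * (g * x * g⁻¹)) u = p := by rw [Perm.mul_apply, y (x p) u g5, hxx, g4, hxx]
  have z3 : (x * (g * x * g⁻¹)) p = c := by rw [Perm.mul_apply, y (x c) p g3, hxx, g2, hxx]
  refine contra g a ?_ ?_ <;> generalize x * (g * x * g⁻¹) = z at z1 z2 z3 ⊢
  · rw [pow_two, Perm.mul_apply, z1, z2]; exact hpa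
  · rw [pow_succ', pow_two, Perm.mul_apply, Perm.mul_apply, z1, z2, z3]; exact hca

theorem closure_swaps_avoiding (a : α) :
    stabilizer (Perm α) a ≤ Subgroup.closure {t : Perm α | ∃ u v, u ≠ a ∧ v ≠ a ∧ t = swap u v} := by
  intro g hg
  rw [MulAction.mem_stabilizer_iff, Perm.smul_def] at hg
  let g' : Perm {x // x ≠ a} := g.subtypePerm (fun x => by
    constructor
    · intro h hxa; exact h (by rw [hxa, hg])
    · intro h hxa; exact h (g.injective (by rw [hxa, hg])))
  have : Perm.ofSubtype g' = g := Perm.ofSubtype_subtypePerm _ fun x hx hxa => hx (by rw [hxa]; exact hg)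
  rw [← this]
  induction g' using Perm.swap_induction_on with
  | one => rw [map_one]; exact one_mem _
  | swap_mul f u v huv ih =>
    rw [map_mul, Perm.ofSubtype_swap_eq]
    exact mul_mem (Subgroup.subset_closure ⟨u, v, u.2, v.2, rfl⟩) ih

theorem card_swaps (γ : Type*) [Fintype γ] [DecidableEq γ] [DecidablePred (Perm.IsSwap (α := γ))] : (Finset.univ.filter (Perm.IsSwap (α := γ))).card =
    Fintype.card {x : Sym2 γ // ¬ x.IsDiag} := by
  rw [← Fintype.card_subtype]
  let F : Sym2 γ → Perm γ := Sym2.lift ⟨fun u v => swap u v, fun u v => swap_comm u v⟩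
  refine (Fintype.card_congr (Equiv.ofBijective
    (fun z : {x : Sym2 γ // ¬ x.IsDiag} => (⟨F z.1, ?_⟩ : {p : Perm γ // p.IsSwap})) ⟨?_, ?_⟩)).symm
  · obtain ⟨z, hz⟩ := z
    induction z using Sym2.ind with
    | _ u v => exact ⟨u, v, by simpa using hz, rfl⟩
  · rintro ⟨z, hz⟩ ⟨w, hw⟩ h
    apply Subtype.ext
    induction z using Sym2.ind with
    | _ u v => induction w using Sym2.ind with
      | _ s t =>
        have h' : swap u v = swap s t := congrArg Subtype.val h
        have huv : u ≠ v := by simpa using hz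
        have h1 := congrArg (fun p : Perm γ => p u) h'
        simp only [swap_apply_left] at h1
        rcases eq_or_ne u s with rfl | hus
        · rw [swap_apply_left] at h1; subst h1; rfl
        rcases eq_or_ne u t with rfl | hut
        · rw [swap_apply_right] at h1; subst h1; exact Sym2.eq_swap
        rw [swap_apply_of_ne_of_ne hus hut] at h1
        exact absurd h1.symm huv
  · rintro ⟨p, u, v, huv, rfl⟩
    exact ⟨⟨s(u, v), by simpa using huv⟩, rfl⟩

theorem card_stabilizer_perm (γ : Type*) [Fintype γ] [DecidableEq γ] (x : γ) :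
    Fintype.card γ * Nat.card (stabilizer (Perm γ) x) = (Fintype.card γ).factorial := by
  rw [← Nat.card_eq_fintype_card, ← MulAction.index_stabilizer_of_transitive (Perm γ) x,
    Subgroup.index_mul_card, Nat.card_perm, MulAction.index_stabilizer_of_transitive (Perm γ) x]

/-- A swap-preserving automorphism pulls point stabilisers back to point stabilisers. -/
theorem comap_stabilizer_of_swap {β : Type*} [Fintype β] [DecidableEq β] (h5 : 5 ≤ Fintype.card α)
    (hcard : Fintype.card β = Fintype.card α) (ψ : Perm α →* Perm β) (hψ : Function.Bijective ψ)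
    (hswap : ∀ u v, u ≠ v → ∃ u' v', u' ≠ v' ∧ ψ (swap u v) = swap u' v') (b : β) :
    ∃ a : α, (stabilizer (Perm β) b).comap ψ = stabilizer (Perm α) a := by
  classical
  let e : Perm α ≃* Perm β := MulEquiv.ofBijective ψ hψ
  let S : Finset (Perm α) := Finset.univ.filter Perm.IsSwap
  let S' : Finset (Perm β) := Finset.univ.filter Perm.IsSwap
  have hSS : S.card = S'.card := by
    simp only [S, S']
    rw [card_swaps α, card_swaps β, Sym2.card_subtype_not_diag, Sym2.card_subtype_not_diag, hcard]
  have hsurj : ∀ u v : β, u ≠ v → ∃ u' v', u' ≠ v' ∧ ψ (swap u' v') = swap u v := by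
    intro u v huv
    have hsub : S.image ψ ⊆ S' := by
      intro p hp
      simp only [S, S', Finset.mem_image, Finset.mem_filter_univ] at hp ⊢
      obtain ⟨q, ⟨s, t, hst, rfl⟩, rfl⟩ := hp
      obtain ⟨s', t', h1, h2⟩ := hswap s t hst
      exact ⟨s', t', h1, h2⟩
    have heq := Finset.eq_of_subset_of_card_le hsub (by rw [Finset.card_image_of_injective _ hψ.1, hSS])
    have hm : swap u v ∈ S.image ψ := by
      rw [heq]; simp only [S', Finset.mem_filter_univ]; exact ⟨u, v, huv, rfl⟩
    simp only [S, Finset.mem_image, Finset.mem_filter_univ] at hm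
    obtain ⟨q, ⟨s, t, hst, rfl⟩, hq⟩ := hm
    exact ⟨s, t, hst, hq⟩
  choose U V hUV hψUV using fun z : {z : β // z ≠ b} => hsurj b z z.2.symm
  have hcz : Fintype.card {z : β // z ≠ b} = Fintype.card α - 1 := by
    rw [Fintype.card_subtype_compl, Fintype.card_subtype_eq, hcard]
  -- two of these transpositions meet
  have hmeet : ∀ z w, z ≠ w → U z = U w ∨ U z = V w ∨ V z = U w ∨ V z = V w := by
    intro z w hzw
    by_contra h
    push_neg at h
    have hc : swap (U z) (V z) * swap (U w) (V w) = swap (U w) (V w) * swap (U z) (V z) := by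
      refine (Perm.Disjoint.commute fun x => ?_).eq
      rcases eq_or_ne x (U z) with rfl | h1
      · exact Or.inr (swap_apply_of_ne_of_ne h.1 h.2.1)
      rcases eq_or_ne x (V z) with rfl | h2
      · exact Or.inr (swap_apply_of_ne_of_ne h.2.2.1 h.2.2.2)
      exact Or.inl (swap_apply_of_ne_of_ne h1 h2)
    have h2 := congrArg ψ hc
    rw [map_mul, map_mul, hψUV, hψUV] at h2
    have h3 := congrArg (fun p : Perm β => p (z : β)) h2
    simp only [Perm.mul_apply, swap_apply_right] at h3
    rw [swap_apply_of_ne_of_ne z.2 (fun hh => hzw (Subtype.ext hh)), swap_apply_right, swap_apply_left] at h3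
    exact w.2 h3.symm
  have hinj : ∀ z w, swap (U z) (V z) = swap (U w) (V w) → z = w := by
    intro z w h
    have h2 := congrArg (fun p => ψ p b) h
    simp only [hψUV, swap_apply_left] at h2
    exact Subtype.ext h2
  -- the common point
  obtain ⟨a, ha⟩ : ∃ a, ∀ z, U z = a ∨ V z = a := by
    by_contra hno
    push_neg at hno
    obtain ⟨z₀⟩ : Nonempty {z : β // z ≠ b} := Fintype.card_pos_iff.mp (by omega)
    obtain ⟨z₁, h1u, h1v⟩ := hno (U z₀)
    obtain ⟨z₂, h2u, h2v⟩ := hno (V z₀)
    have h01 : z₀ ≠ z₁ := fun h => h1u (by rw [← h])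
    have h02 : z₀ ≠ z₂ := fun h => h2v (by rw [← h])
    -- z₁ contains V z₀ and z₂ contains U z₀
    have m1 : U z₁ = V z₀ ∨ V z₁ = V z₀ := by
      rcases hmeet z₀ z₁ h01 with h | h | h | h
      · exact absurd h.symm h1u
      · exact absurd h.symm h1v
      · exact Or.inl h.symm
      · exact Or.inr h.symm
    have m2 : U z₂ = U z₀ ∨ V z₂ = U z₀ := by
      rcases hmeet z₀ z₂ h02 with h | h | h | h
      · exact Or.inl h.symm
      · exact Or.inr h.symm
      · exact absurd h.symm h2u
      · exact absurd h.symm h2v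
    obtain ⟨c, hc⟩ : ∃ c, swap (U z₁) (V z₁) = swap (V z₀) c ∧ ({U z₁, V z₁} : Finset α) = {V z₀, c} := by
      rcases m1 with h | h
      · exact ⟨V z₁, by rw [h], by rw [h]⟩
      · exact ⟨U z₁, by rw [h, swap_comm], by rw [h, Finset.pair_comm]⟩
    have h12 : z₁ ≠ z₂ := by
      rintro rfl
      rcases m2 with h | h
      · exact h1u h
      · exact h1v h
    -- every other transposition is inside the triangle
    have hin : ∀ z, U z ∈ ({U z₀, V z₀, c} : Finset α) ∧ V z ∈ ({U z₀, V z₀, c} : Finset α) := by
      have base1 : U z₁ ∈ ({U z₀, V z₀, c} : Finset α) ∧ V z₁ ∈ ({U z₀, V z₀, c} : Finset α) := by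
        have h1 : U z₁ ∈ ({V z₀, c} : Finset α) := hc.2 ▸ (by simp)
        have h2 : V z₁ ∈ ({V z₀, c} : Finset α) := hc.2 ▸ (by simp)
        exact ⟨Finset.mem_insert_of_mem h1, Finset.mem_insert_of_mem h2⟩
      intro z
      rcases eq_or_ne z z₁ with rfl | hz1
      · exact base1
      rcases eq_or_ne z z₀ with rfl | hz0
      · simp
      have e0 := hmeet z z₀ hz0
      have e1 := hmeet z z₁ hz1
      have hc' : c = U z₁ ∨ c = V z₁ := by
        have : c ∈ ({U z₁, V z₁} : Finset α) := hc.2.symm ▸ (by simp)
        simpa using this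
      have e12 := hmeet z₁ z₂ h12
      have hzne := hUV z
      simp only [Finset.mem_insert, Finset.mem_singleton] at base1 ⊢
      by_cases hz2 : z = z₂
      · subst hz2; grind
      · have e2 := hmeet z z₂ hz2
        grind
    have hle := Finset.card_le_card_of_injOn (s := (Finset.univ : Finset {z : β // z ≠ b}))
      (t := ({swap (U z₀) (V z₀), swap (U z₀) c, swap (V z₀) c} : Finset (Perm α)))
      (fun z => swap (U z) (V z)) (fun z _ => by
        have := hUV z
        obtain ⟨h1, h2⟩ := hin z
        simp only [Finset.mem_insert, Finset.mem_singleton] at h1 h2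
        simp only [Finset.coe_insert, Finset.coe_singleton, Set.mem_insert_iff, Set.mem_singleton_iff]
        rcases h1 with h1 | h1 | h1 <;> rcases h2 with h2 | h2 | h2 <;> simp_all [swap_comm])
      (fun z _ w _ h => hinj z w h)
    have := hle.trans Finset.card_le_three
    rw [Finset.card_univ] at this
    omega
  refine ⟨a, (Subgroup.eq_of_le_of_card_ge ?_ (le_of_eq ?_)).symm⟩
  · refine (closure_swaps_avoiding a).trans ((Subgroup.closure_le _).mpr ?_)
    rintro _ ⟨u, v, hu, hv, rfl⟩
    rcases eq_or_ne u v with rfl | huv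
    · rw [show swap u u = 1 from swap_self u]; exact one_mem _
    obtain ⟨u', v', huv', h'⟩ := hswap u v huv
    show ψ (swap u v) ∈ stabilizer (Perm β) b
    rw [MulAction.mem_stabilizer_iff, h', Perm.smul_def]
    by_contra hb
    obtain ⟨z, hz⟩ : ∃ z : {z : β // z ≠ b}, swap u' v' = swap b (z : β) := by
      rcases eq_or_ne b u' with rfl | h1
      · exact ⟨⟨v', huv'.symm⟩, rfl⟩
      rcases eq_or_ne b v' with rfl | h2
      · exact ⟨⟨u', huv'⟩, swap_comm _ _⟩
      exact absurd (swap_apply_of_ne_of_ne h1 h2) hb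
    have heq : swap u v = swap (U z) (V z) := hψ.1 (by rw [h', hz, hψUV])
    have := congrArg (fun p : Perm α => p a) heq
    rw [swap_apply_of_ne_of_ne (Ne.symm hu) (Ne.symm hv)] at this
    rcases ha z with h | h <;> rw [← h] at this
    · rw [swap_apply_left] at this; exact hUV z this
    · rw [swap_apply_right] at this; exact hUV z this.symm
  · have h1 : Nat.card ((stabilizer (Perm β) b).comap ψ) = Nat.card (stabilizer (Perm β) b) :=
      Nat.card_congr (e.toEquiv.subtypeEquiv fun g => Iff.rfl)
    have h2 := card_stabilizer_perm β b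
    rw [hcard, ← card_stabilizer_perm α a] at h2
    rw [h1]
    exact Nat.eq_of_mul_eq_mul_left (by omega) h2

end Cfsg.Agent.GeomClasses
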