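import Cfsg.Agent.GeomClasses.SymSubgroups

/-! # Subgroups of `Perm α` of index `|α|` -/

set_option autoImplicit false

namespace Cfsg.Agent.GeomClasses

open Equiv Equiv.Perm MulAction

variable {α : Type*} [Fintype α] [DecidableEq α]

theorem isConj_swaps {u v s t : α} (huv : u ≠ v) (hst : s ≠ t) : IsConj (swap u v) (swap s t) :=
  Perm.isConj_swap huv hst

theorem IsFPFInvolution.conj {β : Type*} [Fintype β] [DecidableEq β] {y : Perm β} (hy : IsFPFInvolution y)
    (g : Perm β) : IsFPFInvolution (g * y * g⁻¹) := by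
  constructor
  · rw [show g * y * g⁻¹ * (g * y * g⁻¹) = g * (y * y) * g⁻¹ by group, hy.1]; group
  · intro a h
    refine hy.2 (g⁻¹ a) (g.injective ?_)
    simpa [Perm.mul_apply] using h

theorem not_isFPF_swap (h5 : 5 ≤ Fintype.card α) (u v : α) : ¬ IsFPFInvolution (swap u v) := by
  intro h
  obtain ⟨c, hc⟩ : ∃ c, c ∉ ({u, v} : Finset α) := by
    by_contra h'; push_neg at h'
    have := (Finset.card_le_card (fun y (_ : y ∈ Finset.univ) => h' y)).trans Finset.card_le_two
    rw [Finset.card_univ] at this; omega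
  simp only [Finset.mem_insert, Finset.mem_singleton, not_or] at hc
  exact h.2 c (swap_apply_of_ne_of_ne hc.1 hc.2)

/-- An isomorphism keeps transpositions, or sends all of them to fixed-point-free involutions (six letters). -/
theorem auto_cases {β : Type*} [Fintype β] [DecidableEq β] (h5 : 5 ≤ Fintype.card α)
    (hcard : Fintype.card β = Fintype.card α) (ψ : Perm α →* Perm β) (hψ : Function.Bijective ψ) :
    (∀ u v, u ≠ v → ∃ u' v', u' ≠ v' ∧ ψ (swap u v) = swap u' v') ∨
    (Fintype.card α = 6 ∧ ∀ u v, u ≠ v → IsFPFInvolution (ψ (swap u v))) := by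
  obtain ⟨u, v, huv⟩ := Fintype.exists_pair_of_one_lt_card (show 1 < Fintype.card α by omega)
  have conj : ∀ s t, s ≠ t → ∃ g : Perm β, g * ψ (swap u v) * g⁻¹ = ψ (swap s t) := fun s t hst => by
    obtain ⟨g, hg⟩ := isConj_iff.mp (isConj_swaps huv hst)
    exact ⟨ψ g, by rw [← hg, map_mul, map_mul, map_inv]⟩
  rcases ((isSwapLike_swap huv).map ψ hψ).cases with ⟨a, b, hab, h⟩ | ⟨h6, h⟩ | h
  · left
    intro s t hst
    obtain ⟨g, hg⟩ := conj s t hst
    exact ⟨g a, g b, fun hh => hab (g.injective hh), by rw [← hg, h, ← swap_apply_apply]⟩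
  · right
    refine ⟨hcard ▸ h6, fun s t hst => ?_⟩
    obtain ⟨g, hg⟩ := conj s t hst
    exact hg ▸ h.conj g
  · omega

theorem alternating_index_le : (alternatingGroup α).index ≤ 2 := by
  rcases subsingleton_or_nontrivial α with h | h
  · rw [alternatingGroup.index_eq_one]; omega
  · rw [alternatingGroup.index_eq_two]

theorem exists_iso_of_index (h5 : 5 ≤ Fintype.card α) (H : Subgroup (Perm α)) (hH : H.index = Fintype.card α) :
    ∃ (ψ : Perm α →* Perm α) (b : α), Function.Bijective ψ ∧ H = (stabilizer (Perm α) b).comap ψ := by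
  classical
  have hA : ¬ alternatingGroup α ≤ H := fun h => by
    have := Subgroup.index_antitone h
    have := alternating_index_le (α := α)
    omega
  haveI : Fintype (Perm α ⧸ H) := Fintype.ofFinite _
  have hcard : Fintype.card (Perm α ⧸ H) = Fintype.card α := by rw [← Nat.card_eq_fintype_card, ← hH]; rfl
  obtain ⟨e⟩ := Fintype.card_eq.mp hcard
  let π : Perm α →* Perm α := (Equiv.permCongrHom e).toMonoidHom.comp (toPermHom (Perm α) (Perm α ⧸ H))
  have hinj : Function.Injective π :=
    (Equiv.permCongrHom e).injective.comp ((toPermHom_cases h5 H).resolve_left hA)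
  refine ⟨π, e ((1 : Perm α) : Perm α ⧸ H), Finite.injective_iff_bijective.mp hinj, ?_⟩
  ext g
  rw [Subgroup.mem_comap, MulAction.mem_stabilizer_iff, Perm.smul_def]
  conv_lhs => rw [← MulAction.stabilizer_quotient (H := H), MulAction.mem_stabilizer_iff]
  simp [π, Equiv.permCongrHom]

/-- Away from six letters the subgroups of index `n` are point stabilisers. -/
theorem eq_stabilizer_of_index (h5 : 5 ≤ Fintype.card α) (h6 : Fintype.card α ≠ 6) (H : Subgroup (Perm α))
    (hH : H.index = Fintype.card α) : ∃ a : α, H = stabilizer (Perm α) a := by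
  obtain ⟨ψ, b, hψ, rfl⟩ := exists_iso_of_index h5 H hH
  rcases auto_cases h5 rfl ψ hψ with h | ⟨h, -⟩
  · exact comap_stabilizer_of_swap h5 rfl ψ hψ h b
  · exact absurd h h6

theorem stabilizer_injective (h3 : 3 ≤ Fintype.card α) {a b : α}
    (h : stabilizer (Perm α) a = stabilizer (Perm α) b) : a = b := by
  by_contra hab
  obtain ⟨c, hc⟩ : ∃ c, c ∉ ({a, b} : Finset α) := by
    by_contra h'; push_neg at h'
    have := (Finset.card_le_card (fun y (_ : y ∈ Finset.univ) => h' y)).trans Finset.card_le_two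
    rw [Finset.card_univ] at this; omega
  simp only [Finset.mem_insert, Finset.mem_singleton, not_or] at hc
  have : swap b c ∈ stabilizer (Perm α) a := by
    rw [MulAction.mem_stabilizer_iff, Perm.smul_def, swap_apply_of_ne_of_ne hab (Ne.symm hc.1)]
  rw [h, MulAction.mem_stabilizer_iff, Perm.smul_def, swap_apply_left] at this
  exact hc.2 this

theorem card_sylow_five : Nat.card (Sylow 5 (Perm (Fin 5))) = 6 := by
  haveI : Fact (Nat.Prime 5) := ⟨by norm_num⟩
  have hG : Nat.card (Perm (Fin 5)) = 5 ^ 1 * 24 := by rw [Nat.card_perm, Nat.card_fin]; rfl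
  obtain ⟨P⟩ := (inferInstance : Nonempty (Sylow 5 (Perm (Fin 5))))
  have hP : Nat.card P = 5 := by
    rw [P.card_eq_multiplicity, hG]
    have : (5 ^ 1 * 24 : ℕ).factorization 5 = 1 := by
      rw [Nat.factorization_mul (by norm_num) (by norm_num), Finsupp.add_apply, Nat.Prime.factorization_pow (by norm_num),
        Finsupp.single_eq_same, Nat.factorization_eq_zero_of_not_dvd (by norm_num)]
    rw [this]; rfl
  have hmod : Nat.card (Sylow 5 (Perm (Fin 5))) ≡ 1 [MOD 5] := card_sylow_modEq_one 5 _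
  have hdvd : Nat.card (Sylow 5 (Perm (Fin 5))) ∣ 24 := by
    have h := P.card_dvd_index
    have h2 := Subgroup.card_mul_index (P : Subgroup (Perm (Fin 5)))
    rw [hG] at h2
    change Nat.card P * _ = _ at h2
    rw [hP] at h2
    rwa [show (P : Subgroup (Perm (Fin 5))).index = 24 by omega] at h
  have hne : Nat.card (Sylow 5 (Perm (Fin 5))) ≠ 1 := by
    intro h1
    haveI : Subsingleton (Sylow 5 (Perm (Fin 5))) := (Nat.card_eq_one_iff_unique.mp h1).1
    haveI := Sylow.normal_of_subsingleton P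
    rcases perm_normal_cases (α := Fin 5) (by simp) (P : Subgroup (Perm (Fin 5))) with h | h
    · rw [← SetLike.coe_sort_coe] at hP
      have : Nat.card (P : Subgroup (Perm (Fin 5))) = 5 := hP
      rw [h, Subgroup.card_bot] at this; omega
    · have h60 : 2 * Nat.card (alternatingGroup (Fin 5)) = Nat.card (Perm (Fin 5)) :=
        two_mul_nat_card_alternatingGroup
      have h5' := Nat.le_of_dvd (by rw [hP]; norm_num) (Subgroup.card_dvd_of_le h)
      change _ ≤ Nat.card P at h5'
      rw [hG] at h60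
      omega
  have hle : Nat.card (Sylow 5 (Perm (Fin 5))) ≤ 24 := Nat.le_of_dvd (by norm_num) hdvd
  obtain ⟨k, hk⟩ : ∃ k, Nat.card (Sylow 5 (Perm (Fin 5))) = k := ⟨_, rfl⟩
  rw [hk] at hle hne hdvd hmod ⊢
  interval_cases k <;> simp_all [Nat.ModEq] <;> omega

/-- An outer automorphism of the symmetric group on six letters. -/
theorem exists_exotic (h6 : Fintype.card α = 6) :
    ∃ τ : Perm α →* Perm α, Function.Bijective τ ∧ ∀ u v, u ≠ v → IsFPFInvolution (τ (swap u v)) := by
  classical
  haveI : Fact (Nat.Prime 5) := ⟨by norm_num⟩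
  haveI : Fintype (Sylow 5 (Perm (Fin 5))) := Fintype.ofFinite _
  obtain ⟨e⟩ : Nonempty (Sylow 5 (Perm (Fin 5)) ≃ α) := Fintype.card_eq.mp (by
    rw [← Nat.card_eq_fintype_card, card_sylow_five, h6])
  have hidx : ∀ P : Sylow 5 (Perm (Fin 5)), (stabilizer (Perm (Fin 5)) P).index = 6 := fun P => by
    rw [MulAction.index_stabilizer_of_transitive, card_sylow_five]
  let f : Perm (Fin 5) →* Perm α := (Equiv.permCongrHom e).toMonoidHom.comp (toPermHom _ (Sylow 5 (Perm (Fin 5))))
  have hfinj : Function.Injective f := by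
    refine (Equiv.permCongrHom e).injective.comp ((MonoidHom.ker_eq_bot_iff _).mp ?_)
    rcases perm_normal_cases (α := Fin 5) (by simp) (toPermHom (Perm (Fin 5)) (Sylow 5 (Perm (Fin 5)))).ker with h | h
    · exact h
    · exfalso
      obtain ⟨P⟩ := (inferInstance : Nonempty (Sylow 5 (Perm (Fin 5))))
      have hle : alternatingGroup (Fin 5) ≤ stabilizer (Perm (Fin 5)) P := fun g hg => by
        have := congrArg (fun p : Perm (Sylow 5 (Perm (Fin 5))) => p P) (h hg)
        simpa using this
      have := Subgroup.index_antitone hle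
      have := alternating_index_le (α := Fin 5)
      have := hidx P
      omega
  have hrange : f.range.index = Fintype.card α := by
    have h1 := Subgroup.card_mul_index f.range
    rw [Nat.card_congr (MonoidHom.ofInjective hfinj).toEquiv.symm, Nat.card_perm, Nat.card_fin, Nat.card_perm,
      Nat.card_eq_fintype_card (α := α), h6] at h1
    rw [h6]
    simp [Nat.factorial] at h1
    omega
  have hns : ∀ a : α, f.range ≠ stabilizer (Perm α) a := by
    intro a h
    obtain ⟨b, hb⟩ := Fintype.exists_ne_of_one_lt_card (show 1 < Fintype.card α by omega) a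
    obtain ⟨g, hg⟩ := MulAction.exists_smul_eq (Perm (Fin 5)) (e.symm a) (e.symm b)
    have hm : f g ∈ stabilizer (Perm α) a := h ▸ ⟨g, rfl⟩
    rw [MulAction.mem_stabilizer_iff, Perm.smul_def] at hm
    apply hb
    rw [← hm]
    simp [f, Equiv.permCongrHom, hg]
  obtain ⟨ψ, b, hψ, hH⟩ := exists_iso_of_index (by omega) f.range hrange
  rcases auto_cases (by omega) rfl ψ hψ with h | ⟨-, h⟩
  · obtain ⟨a, ha⟩ := comap_stabilizer_of_swap (by omega) rfl ψ hψ h b
    exact absurd (hH.trans ha) (hns a)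
  · exact ⟨ψ, hψ, h⟩

theorem isConj_fpf {β : Type*} [Fintype β] [DecidableEq β] {y z : Perm β} (hy : IsFPFInvolution y)
    (hz : IsFPFInvolution z) (hy1 : y ≠ 1) (hz1 : z ≠ 1) : IsConj y z := by
  rw [Perm.isConj_iff_cycleType_eq]
  have key : ∀ w : Perm β, IsFPFInvolution w → w ≠ 1 →
      ∃ k, w.cycleType = Multiset.replicate k 2 ∧ 2 * k = Fintype.card β := by
    intro w hw hw1
    haveI : Fact (Nat.Prime 2) := ⟨Nat.prime_two⟩
    obtain ⟨k, hk⟩ := Perm.cycleType_prime_order (orderOf_eq_prime (by rw [sq]; exact hw.1) hw1 ▸ Nat.prime_two : (orderOf w).Prime)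
    rw [orderOf_eq_prime (by rw [sq]; exact hw.1) hw1] at hk
    refine ⟨k + 1, hk, ?_⟩
    have hs := Perm.sum_cycleType w
    rw [hk, Multiset.sum_replicate, smul_eq_mul,
      show w.support = Finset.univ from Finset.eq_univ_iff_forall.mpr fun a => Perm.mem_support.mpr (hw.2 a),
      Finset.card_univ] at hs
    omega
  obtain ⟨k, h1, h2⟩ := key y hy hy1
  obtain ⟨l, h3, h4⟩ := key z hz hz1
  rw [h1, h3, show k = l by omega]

/-- On six letters: point stabilisers and their images under the outer automorphism. -/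
theorem index_six_cases (h6 : Fintype.card α = 6) (τ : Perm α →* Perm α) (hτ : Function.Bijective τ)
    (hfpf : ∀ u v, u ≠ v → IsFPFInvolution (τ (swap u v))) (H : Subgroup (Perm α)) (hH : H.index = 6) :
    ∃ a : α, H = stabilizer (Perm α) a ∨ H = (stabilizer (Perm α) a).map τ := by
  obtain ⟨ψ, b, hψ, rfl⟩ := exists_iso_of_index (by omega) H (hH.trans h6.symm)
  rcases auto_cases (by omega) rfl ψ hψ with h | ⟨-, h⟩
  · obtain ⟨a, ha⟩ := comap_stabilizer_of_swap (by omega) rfl ψ hψ h b
    exact ⟨a, Or.inl ha⟩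
  · have hswap : ∀ u v, u ≠ v → ∃ u' v', u' ≠ v' ∧ (ψ.comp τ) (swap u v) = swap u' v' := by
      intro u v huv
      rcases (((isSwapLike_swap huv).map τ hτ).map ψ hψ).cases with h1 | ⟨-, h1⟩ | h1
      · exact h1
      · exfalso
        have hne : ∀ (φ : Perm α →* Perm α), Function.Bijective φ → ∀ x : Perm α, x ≠ 1 → φ x ≠ 1 :=
          fun φ hφ x hx h2 => hx (hφ.1 (h2.trans (map_one φ).symm))
        have hs : swap u v ≠ 1 := fun h2 => huv (swap_eq_one_iff.mp h2)
        obtain ⟨g, hg⟩ := isConj_iff.mp (isConj_fpf (h u v huv) h1 (hne ψ hψ _ hs) (hne ψ hψ _ (hne τ hτ _ hs)))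
        obtain ⟨g', rfl⟩ := hψ.2 g
        rw [← map_inv, ← map_mul, ← map_mul] at hg
        have h3 := hψ.1 hg
        rw [← swap_apply_apply] at h3
        exact not_isFPF_swap (by omega) _ _ (h3.symm ▸ hfpf u v huv)
      · omega
    obtain ⟨a, ha⟩ := comap_stabilizer_of_swap (by omega) rfl (ψ.comp τ) (hψ.comp hτ) hswap b
    refine ⟨a, Or.inr ?_⟩
    rw [← ha, ← Subgroup.comap_comap, Subgroup.map_comap_eq_self_of_surjective hτ.2]

theorem map_ne_stabilizer (h6 : Fintype.card α = 6) (τ : Perm α →* Perm α)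
    (hfpf : ∀ u v, u ≠ v → IsFPFInvolution (τ (swap u v))) (a c : α) :
    (stabilizer (Perm α) a).map τ ≠ stabilizer (Perm α) c := by
  intro h
  obtain ⟨u, hu⟩ := Fintype.exists_ne_of_one_lt_card (show 1 < Fintype.card α by omega) a
  obtain ⟨v, hv⟩ : ∃ v, v ∉ ({a, u} : Finset α) := by
    by_contra h'; push_neg at h'
    have := (Finset.card_le_card (fun y (_ : y ∈ Finset.univ) => h' y)).trans Finset.card_le_two
    rw [Finset.card_univ] at this; omega
  simp only [Finset.mem_insert, Finset.mem_singleton, not_or] at hv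
  have hm : τ (swap u v) ∈ stabilizer (Perm α) c := h ▸ ⟨swap u v, by
    rw [SetLike.mem_coe, MulAction.mem_stabilizer_iff, Perm.smul_def, swap_apply_of_ne_of_ne hu.symm (Ne.symm hv.1)], rfl⟩
  exact (hfpf u v (Ne.symm hv.2)).2 c hm

end Cfsg.Agent.GeomClasses
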